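import Mathlib
import Cfsg.Agent.Helper5.PslOrd2

namespace Cfsg.Agent.Helper5

universe uA

/-- affine-type group `K ⋊ H` for a subgroup `H` of the units of a field -/
structure AffG (K : Type uA) [Field K] (H : Subgroup Kˣ) where
  m : H
  v : K

namespace AffG

variable {K : Type uA} [Field K] {H : Subgroup Kˣ}

theorem ext' {x y : AffG K H} (h1 : x.m = y.m) (h2 : x.v = y.v) : x = y := by
  cases x
  cases y
  cases h1
  cases h2
  rfl

instance instGroupAffG : Group (AffG K H) where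
  mul x y := ⟨x.m * y.m, x.v + ((x.m : Kˣ) : K) * y.v⟩
  one := ⟨1, 0⟩
  inv x := ⟨x.m⁻¹, -(((x.m⁻¹ : H) : Kˣ) : K) * x.v⟩
  mul_assoc x y z := by
    apply ext'
    · exact mul_assoc _ _ _
    · show x.v + ((x.m : Kˣ) : K) * y.v + (((x.m * y.m : H) : Kˣ) : K) * z.v
        = x.v + ((x.m : Kˣ) : K) * (y.v + ((y.m : Kˣ) : K) * z.v)
      rw [Subgroup.coe_mul, Units.val_mul]
      ring
  one_mul x := by
    apply ext'
    · exact one_mul _
    · show (0 : K) + (((1 : H) : Kˣ) : K) * x.v = x.v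
      rw [Subgroup.coe_one, Units.val_one]
      ring
  mul_one x := by
    apply ext'
    · exact mul_one _
    · show x.v + ((x.m : Kˣ) : K) * 0 = x.v
      ring
  inv_mul_cancel x := by
    apply ext'
    · exact inv_mul_cancel _
    · show -(((x.m⁻¹ : H) : Kˣ) : K) * x.v + (((x.m⁻¹ : H) : Kˣ) : K) * x.v = 0
      ring

def projH : AffG K H →* H where
  toFun x := x.m
  map_one' := rfl
  map_mul' _ _ := rfl

def inclH : H →* AffG K H where
  toFun a := ⟨a, 0⟩
  map_one' := rfl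
  map_mul' a b := by
    apply ext'
    · rfl
    · show (0 : K) = 0 + ((a : Kˣ) : K) * 0
      ring

theorem inclH_injective : Function.Injective (inclH : H →* AffG K H) :=
  fun _ _ h => congrArg AffG.m h

def inclK : Multiplicative K →* AffG K H where
  toFun w := ⟨1, Multiplicative.toAdd w⟩
  map_one' := rfl
  map_mul' a b := by
    apply ext'
    · exact (mul_one (1 : H)).symm
    · show Multiplicative.toAdd (a * b)
        = Multiplicative.toAdd a + (((1 : H) : Kˣ) : K) * Multiplicative.toAdd b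
      rw [Subgroup.coe_one, Units.val_one, one_mul]
      rfl

instance instFiniteAffG [Finite K] : Finite (AffG K H) :=
  Finite.of_injective (fun x : AffG K H => (x.m, x.v))
    (fun _ _ h => ext' (congrArg Prod.fst h) (congrArg Prod.snd h))

instance instSolvAffG : Group.IsSolvable (AffG K H) := by
  apply Group.isSolvable_of_ker_le_range (inclK : Multiplicative K →* AffG K H)
    (projH : AffG K H →* H)
  intro x hx
  rw [MonoidHom.mem_ker] at hx
  exact ⟨Multiplicative.ofAdd x.v, ext' hx.symm rfl⟩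

theorem conj_formula (a : H) (w : K) :
    (⟨1, w⟩ : AffG K H) * inclH a * (⟨1, w⟩ : AffG K H)⁻¹
      = ⟨a, (1 - ((a : Kˣ) : K)) * w⟩ := by
  apply ext'
  · show 1 * a * (1 : H)⁻¹ = a
    rw [one_mul, inv_one, mul_one]
  · show (w + (((1 : H) : Kˣ) : K) * 0) + ((((1 : H) * a : H) : Kˣ) : K)
        * (-((((1 : H)⁻¹ : H) : Kˣ) : K) * w) = (1 - ((a : Kˣ) : K)) * w
    rw [inv_one, one_mul, Subgroup.coe_one, Units.val_one]
    ring

theorem inclK_pow_char (p : ℕ) [CharP K p] (w : K) :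
    (inclK (Multiplicative.ofAdd w) : AffG K H) ^ p = 1 := by
  rw [← map_pow, ← ofAdd_nsmul]
  have h1 : p • w = 0 := by rw [nsmul_eq_mul, CharP.cast_eq_zero, zero_mul]
  rw [h1]
  rfl

theorem spec [Finite K] (p : ℕ) [Fact p.Prime] [CharP K p] (ζ : Kˣ) :
    Set.range (orderOf : AffG K (Subgroup.zpowers ζ) → ℕ) = {n | n ∣ p ∨ n ∣ orderOf ζ} := by
  have hp : p.Prime := Fact.out
  ext n
  simp only [Set.mem_range, Set.mem_setOf_eq]
  constructor
  · rintro ⟨x, rfl⟩
    by_cases ha : x.m = 1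
    · left
      have hx : x = inclK (Multiplicative.ofAdd x.v) := ext' ha rfl
      apply orderOf_dvd_of_pow_eq_one
      rw [hx]
      exact inclK_pow_char p x.v
    · right
      have hne : 1 - ((x.m : Kˣ) : K) ≠ 0 := by
        intro h
        apply ha
        apply Subtype.ext
        apply Units.ext
        rw [Subgroup.coe_one, Units.val_one]
        exact (sub_eq_zero.mp h).symm
      have hconj : x = (⟨1, x.v / (1 - ((x.m : Kˣ) : K))⟩ : AffG K (Subgroup.zpowers ζ))
          * inclH x.m * (⟨1, x.v / (1 - ((x.m : Kˣ) : K))⟩ : AffG K (Subgroup.zpowers ζ))⁻¹ := by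
        rw [conj_formula, mul_div_cancel₀ _ hne]
      have hord : orderOf x = orderOf x.m := by
        rw [← orderOf_injective (inclH : Subgroup.zpowers ζ →* AffG K (Subgroup.zpowers ζ))
          inclH_injective x.m]
        conv_lhs => rw [hconj]
        exact (MulAut.conj (⟨1, x.v / (1 - ((x.m : Kˣ) : K))⟩ :
          AffG K (Subgroup.zpowers ζ))).orderOf_eq _
      rw [hord, ← Subgroup.orderOf_coe]
      obtain ⟨k, hk⟩ := Subgroup.mem_zpowers_iff.mp x.m.2
      rw [← hk]
      apply orderOf_dvd_of_pow_eq_one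
      rw [← zpow_natCast, ← zpow_mul, mul_comm, zpow_mul, zpow_natCast, pow_orderOf_eq_one,
        one_zpow]
  · rintro (h | h)
    · rcases (Nat.dvd_prime hp).mp h with h1 | h1
      · rw [h1]
        exact ⟨1, orderOf_one⟩
      · rw [h1]
        refine ⟨inclK (Multiplicative.ofAdd (1 : K)), ?_⟩
        apply orderOf_eq_prime
        · exact inclK_pow_char p 1
        · intro h2
          have h3 : (1 : K) = 0 := congrArg AffG.v h2
          exact one_ne_zero h3
    · have hm : 0 < orderOf ζ := orderOf_pos ζ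
      obtain ⟨e, he⟩ := h
      have he0 : e ≠ 0 := by
        rintro rfl
        omega
      have hζe : orderOf (ζ ^ e) = n := by
        rw [orderOf_pow_of_dvd he0 (by rw [he]; exact dvd_mul_left e n), he,
          Nat.mul_div_cancel _ (Nat.pos_of_ne_zero he0)]
      refine ⟨inclH ⟨ζ ^ e, Subgroup.pow_mem _ (Subgroup.mem_zpowers ζ) e⟩, ?_⟩
      rw [orderOf_injective inclH inclH_injective, ← Subgroup.orderOf_coe]
      exact hζe

end AffG

theorem exists_unit_order (K : Type uA) [Field K] [Finite K] (m : ℕ)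
    (hm : m ∣ Nat.card K - 1) : ∃ ζ : Kˣ, orderOf ζ = m := by
  obtain ⟨g, hg⟩ := IsCyclic.exists_generator (α := Kˣ)
  have hord : orderOf g = Nat.card K - 1 := by
    rw [orderOf_eq_card_of_forall_mem_zpowers hg, Nat.card_units]
  have hpos : 0 < Nat.card K - 1 := by
    rw [← hord]; exact orderOf_pos g
  obtain ⟨e, he⟩ := hm
  have he0 : e ≠ 0 := by
    rintro rfl
    omega
  refine ⟨g ^ e, ?_⟩
  rw [orderOf_pow_of_dvd he0 (by rw [hord, he]; exact dvd_mul_left e m), hord, he,
    Nat.mul_div_cancel _ (Nat.pos_of_ne_zero he0)]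

theorem prod_spec (A B : Type*) [Group A] [Group B] :
    Set.range (orderOf : A × B → ℕ) = {n | ∃ a ∈ Set.range (orderOf : A → ℕ),
      ∃ b ∈ Set.range (orderOf : B → ℕ), n = Nat.lcm a b} := by
  ext n
  constructor
  · rintro ⟨⟨x, y⟩, rfl⟩
    exact ⟨_, ⟨x, rfl⟩, _, ⟨y, rfl⟩, Prod.orderOf_mk⟩
  · rintro ⟨_, ⟨x, rfl⟩, _, ⟨y, rfl⟩, rfl⟩
    exact ⟨(x, y), Prod.orderOf_mk⟩

theorem psl2_sq_spec {F : Type uA} [Field F] [Fintype F] (hF : 4 ≤ Fintype.card F) :
    ∃ (H : Type) (_ : Group H) (_ : Finite H), Group.IsSolvable H ∧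
      Set.range (orderOf : H → ℕ) = Set.range (orderOf :
        Matrix.ProjectiveSpecialLinearGroup (Fin 2) F ×
          Matrix.ProjectiveSpecialLinearGroup (Fin 2) F → ℕ) := by
  classical
  obtain ⟨p, hp⟩ := CharP.exists F
  haveI : CharP F p := hp
  haveI hpf : Fact p.Prime := ⟨CharP.char_is_prime F p⟩
  obtain ⟨f, -, hf⟩ := FiniteField.card F p
  obtain ⟨d, hd⟩ : ∃ d, d = Nat.gcd 2 (Fintype.card F - 1) := ⟨_, rfl⟩
  have hd1 : d ∣ Fintype.card F - 1 := by
    rw [hd]; exact Nat.gcd_dvd_right _ _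
  have hd2 : d ∣ Fintype.card F + 1 := by
    have h2 : d ∣ 2 := by
      rw [hd]; exact Nat.gcd_dvd_left _ _
    have h3 : Fintype.card F + 1 = (Fintype.card F - 1) + 2 := by omega
    rw [h3]
    exact dvd_add hd1 h2
  have hf0 : (f : ℕ) ≠ 0 := f.ne_zero
  have hK1 : Nat.card (GaloisField p f) = Fintype.card F := by
    rw [GaloisField.card p f hf0, hf]
  have hK2 : Nat.card (GaloisField p (2 * f)) = Fintype.card F ^ 2 := by
    rw [GaloisField.card p (2 * f) (by omega), hf, ← pow_mul, mul_comm]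
  have hfac : Fintype.card F ^ 2 - 1 = (Fintype.card F + 1) * (Fintype.card F - 1) := by
    obtain ⟨k, hk⟩ : ∃ k, Fintype.card F = k + 1 := ⟨Fintype.card F - 1, by omega⟩
    rw [hk]
    simp only [Nat.add_sub_cancel]
    have h5 : (k + 1) ^ 2 = (k + 1 + 1) * k + 1 := by ring
    omega
  obtain ⟨ζ1, hζ1⟩ := exists_unit_order (GaloisField p f) ((Fintype.card F - 1) / d)
    (by rw [hK1]; exact Nat.div_dvd_of_dvd hd1)
  obtain ⟨ζ2, hζ2⟩ := exists_unit_order (GaloisField p (2 * f)) ((Fintype.card F + 1) / d)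
    (by
      rw [hK2, hfac]
      exact dvd_trans (Nat.div_dvd_of_dvd hd2) (dvd_mul_right _ _))
  refine ⟨AffG (GaloisField p f) (Subgroup.zpowers ζ1) ×
    AffG (GaloisField p (2 * f)) (Subgroup.zpowers ζ2), inferInstance, inferInstance,
    inferInstance, ?_⟩
  rw [prod_spec, prod_spec, AffG.spec p ζ1, AffG.spec p ζ2, psl2_orders p hF, hζ1, hζ2, ← hd]
  ext n
  simp only [Set.mem_setOf_eq]
  constructor
  · rintro ⟨a, ha, b, hb, rfl⟩
    refine ⟨a, ?_, b, ?_, rfl⟩
    · rcases ha with h | h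
      · exact Or.inl h
      · exact Or.inr (Or.inl h)
    · rcases hb with h | h
      · exact Or.inl h
      · exact Or.inr (Or.inr h)
  · rintro ⟨a, ha, b, hb, rfl⟩
    rcases ha with ha | ha | ha <;> rcases hb with hb | hb | hb
    · exact ⟨Nat.lcm a b, Or.inl (Nat.lcm_dvd ha hb), 1, Or.inl (one_dvd _),
        (Nat.lcm_one_right _).symm⟩
    · exact ⟨b, Or.inr hb, a, Or.inl ha, Nat.lcm_comm a b⟩
    · exact ⟨a, Or.inl ha, b, Or.inr hb, rfl⟩
    · exact ⟨a, Or.inr ha, b, Or.inl hb, rfl⟩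
    · exact ⟨Nat.lcm a b, Or.inr (Nat.lcm_dvd ha hb), 1, Or.inl (one_dvd _),
        (Nat.lcm_one_right _).symm⟩
    · exact ⟨a, Or.inr ha, b, Or.inr hb, rfl⟩
    · exact ⟨b, Or.inl hb, a, Or.inr ha, Nat.lcm_comm a b⟩
    · exact ⟨b, Or.inr hb, a, Or.inr ha, Nat.lcm_comm a b⟩
    · exact ⟨1, Or.inl (one_dvd _), Nat.lcm a b, Or.inr (Nat.lcm_dvd ha hb),
        (Nat.lcm_one_left _).symm⟩

end Cfsg.Agent.Helper5
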