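import Mathlib

namespace Cfsg.Agent.Helper5

universe uF

section
variable (F : Type uF) [Field F]

/-- the coordinate-sum functional -/
def altSumFun (m : ℕ) : (Fin m → F) →ₗ[F] F where
  toFun v := ∑ i, v i
  map_add' v w := by simp [Finset.sum_add_distrib]
  map_smul' c v := by simp [Finset.mul_sum]

/-- action of a permutation on the sum-zero hyperplane -/
def altPermLin (m : ℕ) (σ : Equiv.Perm (Fin m)) :
    LinearMap.ker (altSumFun F m) →ₗ[F] LinearMap.ker (altSumFun F m) where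
  toFun v := ⟨fun i => v.1 (σ⁻¹ i), by
    rw [LinearMap.mem_ker]
    show ∑ i, v.1 (σ⁻¹ i) = 0
    rw [Equiv.sum_comp σ⁻¹ v.1]
    exact LinearMap.mem_ker.mp v.2⟩
  map_add' v w := rfl
  map_smul' c v := rfl

def altPermHom (m : ℕ) :
    Equiv.Perm (Fin m) →* Module.End F (LinearMap.ker (altSumFun F m)) where
  toFun σ := altPermLin F m σ
  map_one' := by
    apply LinearMap.ext
    intro v
    apply Subtype.ext
    funext i
    rfl
  map_mul' σ τ := by
    apply LinearMap.ext
    intro v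
    apply Subtype.ext
    funext i
    show v.1 ((σ * τ)⁻¹ i) = v.1 (τ⁻¹ (σ⁻¹ i))
    rw [mul_inv_rev, Equiv.Perm.mul_apply]

theorem altSum_finrank (n : ℕ) :
    Module.finrank F (LinearMap.ker (altSumFun F (n + 1))) = n := by
  have h1 := LinearMap.finrank_range_add_finrank_ker (altSumFun F (n + 1))
  have h2 : LinearMap.range (altSumFun F (n + 1)) = ⊤ := by
    rw [LinearMap.range_eq_top]
    intro c
    refine ⟨Pi.single 0 c, ?_⟩
    show ∑ i, (Pi.single 0 c : Fin (n + 1) → F) i = c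
    rw [Finset.sum_pi_single']
    simp
  rw [h2, finrank_top, Module.finrank_self, Module.finrank_fin_fun] at h1
  omega

theorem alt_embeds_psl (n : ℕ) (hn : 5 ≤ n) :
    ∃ f : alternatingGroup (Fin (n + 1)) →* Matrix.ProjectiveSpecialLinearGroup (Fin n) F,
      Function.Injective f := by
  classical
  obtain ⟨b⟩ : Nonempty (Module.Basis (Fin n) F (LinearMap.ker (altSumFun F (n + 1)))) :=
    ⟨Module.finBasisOfFinrankEq F _ (altSum_finrank F n)⟩
  obtain ⟨ρ, hρ⟩ : ∃ ρ : Equiv.Perm (Fin (n + 1)) →* GL (Fin n) F, ∀ σ,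
      (ρ σ : Matrix (Fin n) (Fin n) F)
        = LinearMap.toMatrixAlgEquiv b (altPermHom F (n + 1) σ) :=
    ⟨(Units.map (LinearMap.toMatrixAlgEquiv b :
        Module.End F (LinearMap.ker (altSumFun F (n + 1))) →* Matrix (Fin n) (Fin n) F)).comp
      (altPermHom F (n + 1)).toHomUnits, fun σ => rfl⟩
  have h5 : 5 ≤ Nat.card (Fin (n + 1)) := by
    rw [Nat.card_eq_fintype_card, Fintype.card_fin]; omega
  haveI : IsSimpleGroup (alternatingGroup (Fin (n + 1))) := alternatingGroup.isSimpleGroup h5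
  obtain ⟨i0, hi0⟩ : ∃ i : Fin (n + 1), i.val = 0 := ⟨⟨0, by omega⟩, rfl⟩
  obtain ⟨i1, hi1⟩ : ∃ i : Fin (n + 1), i.val = 1 := ⟨⟨1, by omega⟩, rfl⟩
  obtain ⟨i2, hi2⟩ : ∃ i : Fin (n + 1), i.val = 2 := ⟨⟨2, by omega⟩, rfl⟩
  obtain ⟨i3, hi3⟩ : ∃ i : Fin (n + 1), i.val = 3 := ⟨⟨3, by omega⟩, rfl⟩
  have h01 : i0 ≠ i1 := by intro h; rw [h] at hi0; omega
  have h02 : i0 ≠ i2 := by intro h; rw [h] at hi0; omega
  have h12 : i1 ≠ i2 := by intro h; rw [h] at hi1; omega
  have h03 : i0 ≠ i3 := by intro h; rw [h] at hi0; omega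
  have h13 : i1 ≠ i3 := by intro h; rw [h] at hi1; omega
  obtain ⟨c, hc⟩ : ∃ c : Equiv.Perm (Fin (n + 1)),
      c = Equiv.swap i0 i1 * Equiv.swap i0 i2 := ⟨_, rfl⟩
  have hc3 : c.IsThreeCycle := by
    rw [hc]; exact Equiv.Perm.isThreeCycle_swap_mul_swap_same h01 h02 h12
  have hci1 : c i1 = i0 := by
    rw [hc, Equiv.Perm.mul_apply, Equiv.swap_apply_of_ne_of_ne h01.symm h12,
      Equiv.swap_apply_right]
  obtain ⟨c', hc'⟩ : ∃ c' : alternatingGroup (Fin (n + 1)), c'.1 = c :=
    ⟨⟨c, hc3.mem_alternatingGroup⟩, rfl⟩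
  have hc'ne : c' ≠ 1 := by
    intro h
    have h1 : c i1 = i1 := by rw [← hc', h]; rfl
    rw [hci1] at h1
    exact h01 h1
  have hdet : ∀ σ : alternatingGroup (Fin (n + 1)),
      Matrix.GeneralLinearGroup.det (ρ σ.1) = 1 := by
    obtain ⟨φ, hφ⟩ : ∃ φ : alternatingGroup (Fin (n + 1)) →* Fˣ,
        ∀ σ, φ σ = Matrix.GeneralLinearGroup.det (ρ σ.1) :=
      ⟨(Matrix.GeneralLinearGroup.det.comp ρ).comp (alternatingGroup (Fin (n + 1))).subtype,
        fun σ => rfl⟩
    have hmem : c' ∈ φ.ker := by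
      rw [MonoidHom.mem_ker]
      have hconj : IsConj c' c'⁻¹ := by
        apply alternatingGroup.isThreeCycle_isConj h5
        · rw [hc']; exact hc3
        · show (c'.1⁻¹).IsThreeCycle
          rw [hc']
          exact hc3.inv
      have h1 : φ c' = φ c'⁻¹ := by
        obtain ⟨g, hg⟩ := isConj_iff.mp hconj
        rw [← hg, map_mul, map_mul, map_inv, mul_comm (φ g), mul_inv_cancel_right]
      have h2 : c' ^ 3 = 1 := by
        apply Subtype.ext
        show c'.1 ^ 3 = 1
        rw [hc', ← hc3.orderOf]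
        exact pow_orderOf_eq_one c
      have h3 : φ c' ^ 3 = 1 := by rw [← map_pow, h2, map_one]
      rw [map_inv] at h1
      have h4 : φ c' * φ c' = 1 := by
        nth_rewrite 2 [h1]
        exact mul_inv_cancel _
      have h6 : φ c' ^ 3 = φ c' * φ c' * φ c' := by rw [pow_succ, pow_two]
      rw [h6, h4, one_mul] at h3
      exact h3
    have htop : φ.ker = ⊤ := by
      rcases (MonoidHom.normal_ker φ).eq_bot_or_eq_top with h | h
      · exfalso
        rw [h, Subgroup.mem_bot] at hmem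
        exact hc'ne hmem
      · exact h
    intro σ
    rw [← hφ]
    have h7 : σ ∈ φ.ker := by rw [htop]; exact Subgroup.mem_top σ
    exact MonoidHom.mem_ker.mp h7
  have hdet' : ∀ σ : alternatingGroup (Fin (n + 1)),
      (ρ σ.1 : Matrix (Fin n) (Fin n) F).det = 1 := by
    intro σ
    have h1 := congrArg Units.val (hdet σ)
    exact h1
  obtain ⟨ρA, hρA⟩ : ∃ ρA : alternatingGroup (Fin (n + 1)) →*
      Matrix.SpecialLinearGroup (Fin n) F,
      ∀ σ, (ρA σ : Matrix (Fin n) (Fin n) F) = (ρ σ.1 : Matrix (Fin n) (Fin n) F) :=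
    ⟨{ toFun := fun σ => ⟨(ρ σ.1 : Matrix (Fin n) (Fin n) F), hdet' σ⟩
       map_one' := by
         apply Subtype.ext
         show ((ρ (1 : Equiv.Perm (Fin (n + 1))) : GL (Fin n) F) : Matrix (Fin n) (Fin n) F) = 1
         rw [map_one]
         rfl
       map_mul' := fun x y => by
         apply Subtype.ext
         show ((ρ (x.1 * y.1) : GL (Fin n) F) : Matrix (Fin n) (Fin n) F)
           = (ρ x.1 : Matrix (Fin n) (Fin n) F) * (ρ y.1 : Matrix (Fin n) (Fin n) F)
         rw [map_mul]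
         rfl }, fun σ => rfl⟩
  refine ⟨(QuotientGroup.mk' (Subgroup.center (Matrix.SpecialLinearGroup (Fin n) F))).comp ρA,
    ?_⟩
  rw [← MonoidHom.ker_eq_bot_iff]
  rcases (MonoidHom.normal_ker ((QuotientGroup.mk'
    (Subgroup.center (Matrix.SpecialLinearGroup (Fin n) F))).comp ρA)).eq_bot_or_eq_top
    with h | h
  · exact h
  · exfalso
    have hmem : c' ∈ MonoidHom.ker ((QuotientGroup.mk'
        (Subgroup.center (Matrix.SpecialLinearGroup (Fin n) F))).comp ρA) := by
      rw [h]; exact Subgroup.mem_top _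
    rw [MonoidHom.mem_ker, MonoidHom.comp_apply, QuotientGroup.mk'_apply,
      QuotientGroup.eq_one_iff, Matrix.SpecialLinearGroup.mem_center_iff] at hmem
    obtain ⟨r, hr1, hr2⟩ := hmem
    have hmat : LinearMap.toMatrixAlgEquiv b (altPermHom F (n + 1) c)
        = Matrix.scalar (Fin n) r := by
      rw [hr2, hρA, hρ, hc']
    have hlin : altPermHom F (n + 1) c
        = r • (1 : Module.End F (LinearMap.ker (altSumFun F (n + 1)))) := by
      apply (LinearMap.toMatrixAlgEquiv b).injective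
      rw [hmat, map_smul, map_one, Matrix.smul_one_eq_diagonal]
      rfl
    have hv0 : (Pi.single i0 1 - Pi.single i3 1 : Fin (n + 1) → F)
        ∈ LinearMap.ker (altSumFun F (n + 1)) := by
      rw [LinearMap.mem_ker, map_sub]
      show ∑ i, (Pi.single i0 (1 : F) : Fin (n + 1) → F) i
        - ∑ i, (Pi.single i3 (1 : F) : Fin (n + 1) → F) i = 0
      rw [Finset.sum_pi_single', Finset.sum_pi_single']
      simp
    have h6 : ((altPermHom F (n + 1) c) ⟨_, hv0⟩).1 i0
        = ((r • (1 : Module.End F (LinearMap.ker (altSumFun F (n + 1))))) ⟨_, hv0⟩).1 i0 := by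
      rw [hlin]
    have h7 : c⁻¹ i0 = i1 := by rw [← hci1]; exact c.symm_apply_apply i1
    have hL : ((altPermHom F (n + 1) c) ⟨_, hv0⟩).1 i0 = 0 := by
      show (Pi.single i0 1 - Pi.single i3 1 : Fin (n + 1) → F) (c⁻¹ i0) = 0
      rw [h7, Pi.sub_apply, Pi.single_eq_of_ne h01.symm, Pi.single_eq_of_ne h13, sub_zero]
    have hR : ((r • (1 : Module.End F (LinearMap.ker (altSumFun F (n + 1)))))
        ⟨_, hv0⟩).1 i0 = r := by
      show r • ((Pi.single i0 1 - Pi.single i3 1 : Fin (n + 1) → F) i0) = r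
      rw [Pi.sub_apply, Pi.single_eq_same, Pi.single_eq_of_ne h03, sub_zero, smul_eq_mul,
        mul_one]
    rw [hL, hR] at h6
    rw [← h6, Fintype.card_fin, zero_pow (by omega)] at hr1
    exact zero_ne_one hr1

end

end Cfsg.Agent.Helper5
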