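import Mathlib
import Cfsg.Agent.Helper5.Basic
import Cfsg.Agent.Helper5.Stability
import Cfsg.Agent.Helper5.CharP

set_option autoImplicit false

namespace Cfsg.Agent.Helper5

variable {G : Type*} [Group G]

open scoped commutatorElement

/-- for `p`-groups `R`, `B` with `B` normalizing `R`: `R ≤ [R, B]` forces `R = 1`. -/
theorem eq_bot_of_le_commutator [Finite G] {p : ℕ} [Fact p.Prime] (R B : Subgroup G)
    (hR : IsPGroup p R) (hB : IsPGroup p B) (hBR : B ≤ Subgroup.normalizer (R : Set G))
    (h : R ≤ ⁅R, B⁆) : R = ⊥ := by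
  have hN : IsPGroup p (R ⊔ B : Subgroup G) := IsPGroup.to_sup_of_normal_left' hR hB hBR
  have hnil : Group.IsNilpotent (R ⊔ B : Subgroup G) := hN.isNilpotent
  obtain ⟨n, hn⟩ := (Subgroup.isNilpotent_iff_lowerCentralSeries (R ⊔ B)).1 hnil
  have key : ∀ k, R ≤ (R ⊔ B).lowerCentralSeries k := by
    intro k
    induction k with
    | zero => exact le_sup_left
    | succ k ih =>
      rw [Subgroup.lowerCentralSeries_succ]
      exact h.trans (Subgroup.commutator_mono ih le_sup_right)
  rw [eq_bot_iff, ← hn]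
  exact key n

/-- Thompson's `A × B` lemma, for a single `p'`-element `y` commuting with the `p`-group `B`,
both acting on the `p`-group `P`: if `y` centralizes `C_P(B)` then `y` centralizes `P`. -/
theorem thompson_AxB [Finite G] {p : ℕ} [Fact p.Prime] (y : G) (hy : (orderOf y).Coprime p)
    (B : Subgroup G) (hB : IsPGroup p B) (hyB : ∀ b ∈ B, y * b = b * y) :
    ∀ (n : ℕ) (R : Subgroup G), Nat.card R = n → IsPGroup p R →
      y ∈ Subgroup.normalizer (R : Set G) → B ≤ Subgroup.normalizer (R : Set G) →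
      (∀ a ∈ R, (∀ b ∈ B, a * b = b * a) → y * a = a * y) → ∀ a ∈ R, y * a = a * y := by
  intro n
  induction n using Nat.strong_induction_on with
  | _ n ih =>
    intro R hcard hRp hyR hBR hcent
    by_cases hR : R = ⊥
    · intro a ha
      rw [hR, Subgroup.mem_bot] at ha
      rw [ha]; simp
    have hyBn : y ∈ Subgroup.normalizer (B : Set G) := by
      rw [Subgroup.mem_normalizer_iff]
      intro b
      constructor
      · intro hb
        have e : y * b * y⁻¹ = b := by rw [hyB b hb]; group
        rw [e]; exact hb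
      · intro hb
        have h1 := hyB _ hb
        have e : b = y * b * y⁻¹ := by
          have h2 : y * (y * b * y⁻¹) = y * b := by rw [h1]; group
          exact (mul_left_cancel h2).symm
        rw [e]; exact hb
    have hR1le : ⁅R, B⁆ ≤ R := by
      rw [Subgroup.commutator_le]
      intro a ha b hb
      rw [commutatorElement_def]
      have h1 : b * a⁻¹ * b⁻¹ ∈ R := (Subgroup.mem_normalizer_iff.1 (hBR hb) _).1 (R.inv_mem ha)
      have e : a * b * a⁻¹ * b⁻¹ = a * (b * a⁻¹ * b⁻¹) := by group
      rw [e]; exact R.mul_mem ha h1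
    have hR1ne : ⁅R, B⁆ ≠ R := by
      intro heq
      exact hR (eq_bot_of_le_commutator R B hRp hB hBR heq.ge)
    have hlt : Nat.card (⁅R, B⁆ : Subgroup G) < Nat.card R := by
      by_contra hcon
      push Not at hcon
      exact hR1ne (Subgroup.eq_of_le_of_card_ge hR1le hcon)
    have hnorm : ∀ g : G, g ∈ Subgroup.normalizer (R : Set G) →
        g ∈ Subgroup.normalizer (B : Set G) →
        g ∈ Subgroup.normalizer ((⁅R, B⁆ : Subgroup G) : Set G) := by
      intro g hgR hgB
      rw [mem_normalizer_iff_conj_eq, Subgroup.map_commutator,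
        (mem_normalizer_iff_conj_eq R g).1 hgR, (mem_normalizer_iff_conj_eq B g).1 hgB]
    have hy1 : ∀ a ∈ (⁅R, B⁆ : Subgroup G), y * a = a * y := by
      apply ih _ (hcard ▸ hlt) ⁅R, B⁆ rfl (hRp.to_le hR1le) (hnorm y hyR hyBn)
      · intro b hb
        exact hnorm b (hBR hb) (Subgroup.le_normalizer hb)
      · intro a ha hab
        exact hcent a (hR1le ha) hab
    -- every `[y, a]` lies in `C_R(B)`
    have hc : ∀ a ∈ R, y * (y * a * y⁻¹ * a⁻¹) = (y * a * y⁻¹ * a⁻¹) * y := by
      intro a ha
      apply hcent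
      · have h1 : y * a * y⁻¹ ∈ R := (Subgroup.mem_normalizer_iff.1 hyR a).1 ha
        exact R.mul_mem h1 (R.inv_mem ha)
      · intro b hb
        have hcomm : ⁅a⁻¹, b⁆ ∈ (⁅R, B⁆ : Subgroup G) :=
          Subgroup.commutator_mem_commutator (R.inv_mem ha) hb
        have h1 : Commute y ⁅a⁻¹, b⁆ := hy1 _ hcomm
        have h2 : Commute y b := hyB b hb
        have h3 : Commute y (a⁻¹ * b * a) := by
          have e : a⁻¹ * b * a = ⁅a⁻¹, b⁆ * b := by rw [commutatorElement_def]; group
          rw [e]; exact h1.mul_right h2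
        calc (y * a * y⁻¹ * a⁻¹) * b = y * a * (y⁻¹ * (a⁻¹ * b * a)) * a⁻¹ := by group
          _ = y * a * ((a⁻¹ * b * a) * y⁻¹) * a⁻¹ := by rw [(h3.inv_left).eq]
          _ = (y * b) * a * y⁻¹ * a⁻¹ := by group
          _ = (b * y) * a * y⁻¹ * a⁻¹ := by rw [h2.eq]
          _ = b * (y * a * y⁻¹ * a⁻¹) := by group
    apply stab_two y (orderOf y) (pow_orderOf_eq_one y) (R ⊓ Subgroup.centralizer {y}) R
    · intro a ha
      exact ((mem_centralizer_singleton_iff y a).1 ha.2).symm
    · intro a ha
      refine ⟨?_, ?_⟩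
      · have h1 : y * a * y⁻¹ ∈ R := (Subgroup.mem_normalizer_iff.1 hyR a).1 ha
        exact R.mul_mem h1 (R.inv_mem ha)
      · exact (mem_centralizer_singleton_iff y _).2 (hc a ha).symm
    · intro a ha ham
      exact eq_one_of_pow_coprime R hRp (orderOf y) hy a ha.1 ham

end Cfsg.Agent.Helper5
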