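import Mathlib
import Cfsg.Prelude
import Cfsg.Agent.Helper5.CD4

set_option autoImplicit false

namespace Cfsg.Agent.Helper5

open scoped Pointwise commutatorElement

theorem commutatorElement_mul_left_of_commute {G : Type*} [Group G] (a z y : G)
    (h : z * y = y * z) : ⁅a * z, y⁆ = ⁅a, y⁆ := by
  rw [commutatorElement_def, commutatorElement_def]
  have h1 : z * y * z⁻¹ = y := by rw [h, mul_inv_cancel_right]
  calc a * z * y * (a * z)⁻¹ * y⁻¹ = a * (z * y * z⁻¹) * a⁻¹ * y⁻¹ := by group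
    _ = a * y * a⁻¹ * y⁻¹ := by rw [h1]

theorem commutatorElement_mul_right_of_commute {G : Type*} [Group G] (a b z : G)
    (h : z * a = a * z) : ⁅a, b * z⁆ = ⁅a, b⁆ := by
  rw [commutatorElement_def, commutatorElement_def]
  have h1 : z * a⁻¹ * z⁻¹ = a⁻¹ := by
    have h2 : z * a⁻¹ = a⁻¹ * z := by
      calc z * a⁻¹ = a⁻¹ * (a * z) * a⁻¹ := by group
        _ = a⁻¹ * (z * a) * a⁻¹ := by rw [h]
        _ = a⁻¹ * z := by group
    rw [h2, mul_inv_cancel_right]
  calc a * (b * z) * a⁻¹ * (b * z)⁻¹ = a * b * (z * a⁻¹ * z⁻¹) * b⁻¹ := by group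
    _ = a * b * a⁻¹ * b⁻¹ := by rw [h1]

theorem minimalCL_eq_inf_sup_center {P : Type*} [Group P] [Finite P] (Q R : Subgroup P)
    (hQ : Cfsg.IsMinimalCentrallyLarge Q) (hR : Cfsg.IsCentrallyLarge R) :
    (Q ⊓ R) ⊔ (Q ⊓ Subgroup.centralizer (Q : Set P)) = Q := by
  obtain ⟨hQ1, hQ2⟩ := centrallyLarge_imp Q hQ.1
  obtain ⟨hR1, hR2⟩ := centrallyLarge_imp R hR
  obtain ⟨-, -, k3, k4, k5, k6, k7⟩ := cd_lattice Q R hQ1 hR1
  obtain ⟨-, j2, -⟩ := cd_lattice (Q ⊓ R) (Subgroup.centralizer (Q : Set P)) k3 k4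
  have hCQ : Subgroup.centralizer (Q : Set P) ≤ Q := hQ2.le.trans inf_le_left
  have hCR : Subgroup.centralizer (R : Set P) ≤ R := hR2.le.trans inf_le_left
  have hT : Cfsg.IsCentrallyLarge ((Q ⊓ R) ⊔ Subgroup.centralizer (Q : Set P)) := by
    rw [centrallyLarge_iff_of_centralizerLarge _ j2, centralizer_sup_eq, k7, ← k5]
    intro x hx
    obtain ⟨hx1, hx2⟩ := Subgroup.mem_inf.1 hx
    rw [← SetLike.mem_coe, k6] at hx1
    obtain ⟨u, hu, v, hv, rfl⟩ := Set.mem_mul.1 hx1
    have hvQ : v ∈ Q := by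
      have h0 : v = u⁻¹ * (u * v) := by group
      rw [h0]
      exact Q.mul_mem (Q.inv_mem (hCQ hu)) hx2
    exact Subgroup.mul_mem _ (Subgroup.mem_sup_right hu)
      (Subgroup.mem_sup_left (Subgroup.mem_inf.2 ⟨hvQ, hCR hv⟩))
  have hle : (Q ⊓ R) ⊔ Subgroup.centralizer (Q : Set P) ≤ Q := sup_le inf_le_left hCQ
  have h1 := hQ.2 _ hle hT
  rw [← hQ2]
  exact h1

theorem commutator_eq_of_sup_center {P : Type*} [Group P] (D X : Subgroup P)
    (hX : D ⊔ (X ⊓ Subgroup.centralizer (X : Set P)) = X) : ⁅X, X⁆ = ⁅D, D⁆ := by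
  have hDX : D ≤ X := (le_sup_left : D ≤ D ⊔ (X ⊓ Subgroup.centralizer (X : Set P))).trans hX.le
  apply le_antisymm
  · rw [Subgroup.commutator_le]
    intro x hx y hy
    have hZn : X ⊓ Subgroup.centralizer (X : Set P) ≤ Subgroup.normalizer (D : Set P) :=
      (inf_le_right.trans (Subgroup.centralizer_le (SetLike.coe_subset_coe.2 hDX))).trans
        (Subgroup.centralizer_le_normalizer _)
    have hset := Subgroup.coe_mul_of_right_le_normalizer_left D
      (X ⊓ Subgroup.centralizer (X : Set P)) hZn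
    rw [hX] at hset
    have hx' : x ∈ (D : Set P) *
        ((X ⊓ Subgroup.centralizer (X : Set P) : Subgroup P) : Set P) := by
      rw [← hset]; exact hx
    have hy' : y ∈ (D : Set P) *
        ((X ⊓ Subgroup.centralizer (X : Set P) : Subgroup P) : Set P) := by
      rw [← hset]; exact hy
    obtain ⟨d₁, hd₁, z₁, hz₁, rfl⟩ := Set.mem_mul.1 hx'
    obtain ⟨d₂, hd₂, z₂, hz₂, rfl⟩ := Set.mem_mul.1 hy'
    have c1 : z₁ * (d₂ * z₂) = (d₂ * z₂) * z₁ :=
      (Subgroup.mem_centralizer_iff.1 (Subgroup.mem_inf.1 hz₁).2 _ hy).symm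
    have c2 : z₂ * d₁ = d₁ * z₂ :=
      (Subgroup.mem_centralizer_iff.1 (Subgroup.mem_inf.1 hz₂).2 _ (hDX hd₁)).symm
    rw [commutatorElement_mul_left_of_commute _ _ _ c1,
      commutatorElement_mul_right_of_commute _ _ _ c2]
    exact Subgroup.commutator_mem_commutator hd₁ hd₂
  · exact Subgroup.commutator_mono hDX hDX

theorem card_eq_of_sup_center {P : Type*} [Group P] (D X : Subgroup P)
    (hX : D ⊔ (X ⊓ Subgroup.centralizer (X : Set P)) = X) :
    Nat.card D * Nat.card (X ⊓ Subgroup.centralizer (X : Set P) : Subgroup P) =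
      Nat.card X * Nat.card (D ⊓ (X ⊓ Subgroup.centralizer (X : Set P)) : Subgroup P) := by
  have hDX : D ≤ X := (le_sup_left : D ≤ D ⊔ (X ⊓ Subgroup.centralizer (X : Set P))).trans hX.le
  have hZn : X ⊓ Subgroup.centralizer (X : Set P) ≤ Subgroup.normalizer (D : Set P) :=
    (inf_le_right.trans (Subgroup.centralizer_le (SetLike.coe_subset_coe.2 hDX))).trans
      (Subgroup.centralizer_le_normalizer _)
  have hset := Subgroup.coe_mul_of_right_le_normalizer_left D
    (X ⊓ Subgroup.centralizer (X : Set P)) hZn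
  rw [hX] at hset
  have e1 := card_mul_card_eq_card_setMul_mul_card_inf D (X ⊓ Subgroup.centralizer (X : Set P))
  rw [← hset] at e1
  exact e1

theorem mcl_arith (q r zq zr dd g f : ℕ) (hg : 0 < g) (hq : 0 < q) (h1 : dd * zq = q * g)
    (h2 : dd * zr = r * g) (h3 : q * zq = f) (h4 : r * zr = f) : q = r ∧ zq = zr := by
  have h5 : (q * q) * g = (r * r) * g := by
    calc (q * q) * g = q * (q * g) := by ring
      _ = q * (dd * zq) := by rw [h1]
      _ = dd * (q * zq) := by ring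
      _ = dd * (r * zr) := by rw [h3, h4]
      _ = r * (dd * zr) := by ring
      _ = r * (r * g) := by rw [h2]
      _ = (r * r) * g := by ring
  have h6 : q * q = r * r := Nat.eq_of_mul_eq_mul_right hg h5
  have h7 : q = r := Nat.mul_self_inj.1 h6
  refine ⟨h7, ?_⟩
  subst h7
  exact Nat.eq_of_mul_eq_mul_left hq (h3.trans h4.symm)

theorem minimalCL_pair {P : Type*} [Group P] [Finite P] (Q R : Subgroup P)
    (hQ : Cfsg.IsMinimalCentrallyLarge Q) (hR : Cfsg.IsMinimalCentrallyLarge R) :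
    ⁅Q, Q⁆ = ⁅R, R⁆ ∧ Nat.card Q = Nat.card R ∧
      Nat.card ↥(Q ⊓ Subgroup.centralizer (Q : Set P)) =
        Nat.card ↥(R ⊓ Subgroup.centralizer (R : Set P)) := by
  have hq := minimalCL_eq_inf_sup_center Q R hQ hR.1
  have hr' := minimalCL_eq_inf_sup_center R Q hR hQ.1
  have hr : (Q ⊓ R) ⊔ (R ⊓ Subgroup.centralizer (R : Set P)) = R := by
    rw [inf_comm Q R]; exact hr'
  have key : ∀ X Y : Subgroup P, (X ⊓ Y) ⊔ (Y ⊓ Subgroup.centralizer (Y : Set P)) = Y →
      (X ⊓ Y) ⊓ (X ⊓ Subgroup.centralizer (X : Set P)) ≤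
        Y ⊓ Subgroup.centralizer (Y : Set P) := by
    intro X Y hY x hx
    obtain ⟨hx1, hx2⟩ := Subgroup.mem_inf.1 hx
    have hxY : x ∈ Y := (Subgroup.mem_inf.1 hx1).2
    refine Subgroup.mem_inf.2 ⟨hxY, ?_⟩
    have h1 : Subgroup.centralizer (Y : Set P) = Subgroup.centralizer
        (((X ⊓ Y) ⊔ (Y ⊓ Subgroup.centralizer (Y : Set P)) : Subgroup P) : Set P) := by rw [hY]
    rw [h1, centralizer_sup_eq]
    refine Subgroup.mem_inf.2 ⟨?_, ?_⟩
    · exact Subgroup.centralizer_le (SetLike.coe_subset_coe.2 inf_le_left)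
        (Subgroup.mem_inf.1 hx2).2
    · exact Subgroup.centralizer_le (SetLike.coe_subset_coe.2 inf_le_right)
        ((Subgroup.le_centralizer_iff.1 le_rfl :
          Y ≤ Subgroup.centralizer ((Subgroup.centralizer (Y : Set P) : Subgroup P) : Set P)) hxY)
  have hq2 : (R ⊓ Q) ⊔ (Q ⊓ Subgroup.centralizer (Q : Set P)) = Q := by
    rw [inf_comm R Q]; exact hq
  have hZeq : (Q ⊓ R) ⊓ (Q ⊓ Subgroup.centralizer (Q : Set P)) =
      (Q ⊓ R) ⊓ (R ⊓ Subgroup.centralizer (R : Set P)) := by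
    apply le_antisymm
    · exact le_inf inf_le_left (key Q R hr)
    · have h2 := key R Q hq2
      rw [inf_comm R Q] at h2
      exact le_inf inf_le_left h2
  have c1 := card_eq_of_sup_center (Q ⊓ R) Q hq
  have c2 := card_eq_of_sup_center (Q ⊓ R) R hr
  rw [hZeq] at c1
  have f1 := (isCentrallyLarge_iff Q).1 hQ.1
  have f2 := (isCentrallyLarge_iff R).1 hR.1
  obtain ⟨a1, a2⟩ := mcl_arith _ _ _ _ _ _ _ Nat.card_pos Nat.card_pos c1 c2 f1 f2
  exact ⟨(commutator_eq_of_sup_center _ Q hq).trans (commutator_eq_of_sup_center _ R hr).symm,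
    a1, a2⟩

theorem minimalCL_iff_maxAbelian {P : Type*} [Group P] [Finite P] (Q : Subgroup P)
    (hQ : Cfsg.IsMinimalCentrallyLarge Q) (hQab : IsMulCommutative ↥Q) (X : Subgroup P) :
    Cfsg.IsMinimalCentrallyLarge X ↔ X ∈ Cfsg.maxAbelianSubgroups P := by
  have hQc : Q ≤ Subgroup.centralizer (Q : Set P) :=
    Subgroup.le_centralizer_iff_isMulCommutative.2 hQab
  have hQf : Nat.card Q * Nat.card Q = Cfsg.maxCentralProduct P := by
    have h0 := (isCentrallyLarge_iff Q).1 hQ.1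
    rwa [inf_eq_left.2 hQc] at h0
  have hab : ∀ B : Subgroup P, IsMulCommutative ↥B →
      Nat.card B * Nat.card B ≤ Cfsg.maxCentralProduct P := by
    intro B hB
    have h0 := central_le_maxCentralProduct B
    rwa [inf_eq_left.2 (Subgroup.le_centralizer_iff_isMulCommutative.2 hB)] at h0
  constructor
  · intro hX
    obtain ⟨-, h3, h4⟩ := minimalCL_pair Q X hQ hX
    rw [inf_eq_left.2 hQc] at h4
    have hXc : X ≤ Subgroup.centralizer (X : Set P) := by
      have h5 : X ⊓ Subgroup.centralizer (X : Set P) = X :=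
        Subgroup.eq_of_le_of_card_ge inf_le_left (by rw [← h4, h3])
      exact inf_eq_left.1 h5
    refine ⟨Subgroup.le_centralizer_iff_isMulCommutative.1 hXc, fun B hB => ?_⟩
    have h6 := hab B hB
    rw [← hQf, h3] at h6
    exact Nat.mul_self_le_mul_self_iff.1 h6
  · intro hX
    have h1 : Nat.card Q ≤ Nat.card X := hX.2 Q hQab
    have h2 := hab X hX.1
    rw [← hQf] at h2
    have h3 : Nat.card X ≤ Nat.card Q := Nat.mul_self_le_mul_self_iff.1 h2
    have h4 : Nat.card X = Nat.card Q := le_antisymm h3 h1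
    have hXc : X ≤ Subgroup.centralizer (X : Set P) :=
      Subgroup.le_centralizer_iff_isMulCommutative.2 hX.1
    refine ⟨?_, ?_⟩
    · rw [isCentrallyLarge_iff, inf_eq_left.2 hXc, h4]
      exact hQf
    · intro R' hle hR'
      have hR'c : R' ≤ Subgroup.centralizer (R' : Set P) :=
        (hle.trans hXc).trans (Subgroup.centralizer_le (SetLike.coe_subset_coe.2 hle))
      have h5 := (isCentrallyLarge_iff R').1 hR'
      rw [inf_eq_left.2 hR'c, ← hQf] at h5
      have h6 : Nat.card R' = Nat.card Q := Nat.mul_self_inj.1 h5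
      exact Subgroup.eq_of_le_of_card_ge hle (by rw [h6, h4])

end Cfsg.Agent.Helper5
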