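import Mathlib
import Cfsg.Prelude.Def_SylowChains
import Cfsg.Prelude.Def_Local
import Cfsg.Prelude.Def_Solvable
import Cfsg.Agent.Helper5.Basic
import Cfsg.Agent.Helper5.Cores
import Cfsg.Agent.Helper5.StrEmb
import Cfsg.Agent.Helper5.UniqueP
import Cfsg.Agent.Helper3.PComp
import Cfsg.Agent.Helper4.HH123
import Cfsg.Agent.Helper6.PSolvHall
import Cfsg.Agent.Lead.GenCent
import Cfsg.Agent.S0016

set_option autoImplicit false

namespace Cfsg.Agent.Helper5

variable {G : Type*} [Group G]

/-- edge relation on Sylow subgroups: distinct with nontrivial intersection. -/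
def sylEdge {p : ℕ} (S T : Sylow p G) : Prop :=
  S ≠ T ∧ (S : Subgroup G) ⊓ (T : Subgroup G) ≠ ⊥

theorem sylEdge_symm {p : ℕ} {S T : Sylow p G} (h : sylEdge S T) : sylEdge T S := by
  obtain ⟨h1, h2⟩ := h
  exact ⟨h1.symm, by rwa [inf_comm]⟩

theorem sylow_smul_coe {p : ℕ} (g : G) (P : Sylow p G) :
    ((g • P : Sylow p G) : Subgroup G) = (P : Subgroup G).map (MulAut.conj g).toMonoidHom := by
  rw [Sylow.coe_subgroup_smul]
  rfl

theorem sylEdge_smul {p : ℕ} (g : G) (S T : Sylow p G) (h : sylEdge S T) :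
    sylEdge (g • S) (g • T) := by
  obtain ⟨h1, h2⟩ := h
  refine ⟨fun h => h1 (MulAction.injective g h), ?_⟩
  intro hbot
  apply h2
  rw [eq_bot_iff]
  intro x hx
  have hx1 : g * x * g⁻¹ ∈ ((g • S : Sylow p G) : Subgroup G) := by
    rw [sylow_smul_coe]; exact conj_mem_conj _ g x hx.1
  have hx2 : g * x * g⁻¹ ∈ ((g • T : Sylow p G) : Subgroup G) := by
    rw [sylow_smul_coe]; exact conj_mem_conj _ g x hx.2
  have h3 : g * x * g⁻¹ ∈ (⊥ : Subgroup G) := by
    rw [← hbot]; exact ⟨hx1, hx2⟩
  rw [Subgroup.mem_bot] at h3 ⊢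
  have e : x = g⁻¹ * (g * x * g⁻¹) * g := by group
  rw [e, h3]; group

theorem chain_of_reflTransGen {p : ℕ} (S T : Sylow p G)
    (h : Relation.ReflTransGen sylEdge S T) :
    ∃ (n : ℕ) (c : Fin (n + 1) → Sylow p G), c 0 = S ∧ c (Fin.last n) = T ∧
      ∀ i : Fin n, c i.castSucc ≠ c i.succ ∧
        (c i.castSucc : Subgroup G) ⊓ (c i.succ : Subgroup G) ≠ ⊥ := by
  induction h with
  | refl => exact ⟨0, fun _ => S, rfl, rfl, fun i => i.elim0⟩
  | @tail T' T _ hE ih =>
    obtain ⟨n, c, h0, hl, hc⟩ := ih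
    refine ⟨n + 1, Fin.snoc (α := fun _ => Sylow p G) c T, ?_, ?_, ?_⟩
    · have e : (0 : Fin (n + 2)) = Fin.castSucc (0 : Fin (n + 1)) := rfl
      rw [e, Fin.snoc_castSucc]; exact h0
    · exact Fin.snoc_last (α := fun _ => Sylow p G) T c
    · intro i
      induction i using Fin.lastCases with
      | last =>
        rw [Fin.snoc_castSucc (α := fun _ => Sylow p G), Fin.succ_last,
          Fin.snoc_last (α := fun _ => Sylow p G), hl]
        exact hE
      | cast j =>
        have e : (j.castSucc).succ = (j.succ).castSucc := rfl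
        rw [e, Fin.snoc_castSucc (α := fun _ => Sylow p G),
          Fin.snoc_castSucc (α := fun _ => Sylow p G)]
        exact hc j

theorem chainConnected_of_reflTransGen {p : ℕ}
    (h : ∀ S T : Sylow p G, Relation.ReflTransGen sylEdge S T) :
    Cfsg.IsSylowChainConnected p G := by
  intro S T
  by_cases hST : (S : Subgroup G) ⊓ (T : Subgroup G) = ⊥
  · obtain ⟨n, c, h0, hl, hc⟩ := chain_of_reflTransGen S T (h S T)
    exact ⟨n, c, h0, hl, fun i => by rw [hST]; exact bot_le, hc⟩
  · by_cases hne : S = T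
    · subst hne
      exact ⟨0, fun _ => S, rfl, rfl, fun i => inf_le_left, fun i => i.elim0⟩
    · refine ⟨1, ![S, T], rfl, rfl, ?_, ?_⟩
      · intro i
        fin_cases i
        · exact inf_le_left
        · exact inf_le_right
      · intro i
        fin_cases i
        exact ⟨hne, hST⟩

theorem rtg_smul {p : ℕ} (g : G) {S T : Sylow p G} (h : Relation.ReflTransGen sylEdge S T) :
    Relation.ReflTransGen sylEdge (g • S) (g • T) := by
  induction h with
  | refl => exact Relation.ReflTransGen.refl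
  | tail _ hE ih => exact ih.tail (sylEdge_smul g _ _ hE)

theorem rtg_symm {p : ℕ} {S T : Sylow p G} (h : Relation.ReflTransGen sylEdge S T) :
    Relation.ReflTransGen sylEdge T S := by
  induction h with
  | refl => exact Relation.ReflTransGen.refl
  | tail _ hE ih => exact Relation.ReflTransGen.head (sylEdge_symm hE) ih

/-- the stabilizer of the connected component of `P`. -/
def compStab {p : ℕ} (P : Sylow p G) : Subgroup G where
  carrier := {g | Relation.ReflTransGen sylEdge P (g • P)}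
  one_mem' := by
    show Relation.ReflTransGen sylEdge P ((1 : G) • P)
    rw [one_smul]
  mul_mem' := by
    intro g h hg hh
    show Relation.ReflTransGen sylEdge P ((g * h) • P)
    rw [mul_smul]
    have hg' : Relation.ReflTransGen sylEdge P (g • P) := hg
    have hh' : Relation.ReflTransGen sylEdge P (h • P) := hh
    exact hg'.trans (rtg_smul g hh')
  inv_mem' := by
    intro g hg
    show Relation.ReflTransGen sylEdge P (g⁻¹ • P)
    have hg' : Relation.ReflTransGen sylEdge P (g • P) := hg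
    have h1 := rtg_smul g⁻¹ hg'
    rw [inv_smul_smul] at h1
    exact rtg_symm h1

theorem mem_compStab {p : ℕ} (P : Sylow p G) (g : G) :
    g ∈ compStab P ↔ Relation.ReflTransGen sylEdge P (g • P) := Iff.rfl

theorem normalizer_le_compStab {p : ℕ} (P : Sylow p G) (Q : Subgroup G) (hQP : Q ≤ P)
    (hQ : Q ≠ ⊥) : Subgroup.normalizer (Q : Set G) ≤ compStab P := by
  intro g hg
  rw [mem_compStab]
  by_cases h : P = g • P
  · rw [← h]
  · apply Relation.ReflTransGen.single
    refine ⟨h, ?_⟩
    intro hbot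
    apply hQ
    rw [eq_bot_iff, ← hbot]
    intro x hx
    have h2 : x ∈ ((g • P : Sylow p G) : Subgroup G) := by
      rw [sylow_smul_coe, mem_conj_iff]
      apply hQP
      have h1 := (Subgroup.mem_normalizer_iff.1 (inv_mem hg) x).1 hx
      simpa using h1
    exact ⟨hQP hx, h2⟩

theorem connected_of_compStab_eq_top {p : ℕ} [Fact p.Prime] [Finite G] (P : Sylow p G)
    (h : compStab P = ⊤) : ∀ S T : Sylow p G, Relation.ReflTransGen sylEdge S T := by
  have key : ∀ T : Sylow p G, Relation.ReflTransGen sylEdge P T := by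
    intro T
    obtain ⟨g, hg⟩ := MulAction.exists_smul_eq G P T
    rw [← hg, ← mem_compStab, h]
    exact Subgroup.mem_top g
  intro S T
  exact (rtg_symm (key S)).trans (key T)

theorem exists_order_p_of_ne_bot [Finite G] {p : ℕ} [Fact p.Prime] (Q : Subgroup G)
    (hQ : IsPGroup p Q) (hne : Q ≠ ⊥) : ∃ w ∈ Q, w ≠ 1 ∧ w ^ p = 1 := by
  have hp : p.Prime := Fact.out
  haveI : Nontrivial ↥Q := (Subgroup.nontrivial_iff_ne_bot Q).2 hne
  obtain ⟨k, hk⟩ := IsPGroup.iff_card.1 hQ
  have hk0 : k ≠ 0 := by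
    rintro rfl
    rw [pow_zero] at hk
    have := Finite.one_lt_card (α := ↥Q)
    omega
  have hdvd : p ∣ Nat.card ↥Q := by rw [hk]; exact dvd_pow_self p hk0
  obtain ⟨w, hw⟩ := exists_prime_orderOf_dvd_card' p hdvd
  refine ⟨w, w.2, ?_, ?_⟩
  · intro h
    have h1 : w = 1 := Subtype.ext h
    rw [h1, orderOf_one] at hw
    exact hp.one_lt.ne hw
  · have h1 : w ^ p = 1 := by rw [← hw]; exact pow_orderOf_eq_one w
    have := congrArg Subtype.val h1
    simpa using this

/-- a `p`-solvable group whose Sylow `p`-subgroups contain a noncyclic abelian subgroup has a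
connected Sylow graph. -/
theorem connected_of_rank_two [Finite G] {p : ℕ} [Fact p.Prime] (hdiv : p ∣ Nat.card G)
    (hsol : Cfsg.IsPSolvable p G) (P : Sylow p G) (A : Subgroup G) (hAP : A ≤ P)
    [hAc : IsMulCommutative A] (hA : ¬ IsCyclic A) :
    ∀ S T : Sylow p G, Relation.ReflTransGen sylEdge S T := by
  have hp : p.Prime := Fact.out
  apply connected_of_compStab_eq_top P
  obtain ⟨K, hK⟩ : ∃ K : Subgroup G, K = Cfsg.pPrimeCore p G := ⟨_, rfl⟩
  haveI hKn : K.Normal := by rw [hK]; exact pPrimeCore_normal' p G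
  have hKc : (Nat.card K).Coprime p := by rw [hK]; exact pPrimeCore_coprime p G
  have hAp : IsPGroup p A := P.2.to_le hAP
  -- K ≤ H
  have hKH : K ≤ compStab P := by
    obtain ⟨k, hk⟩ := IsPGroup.iff_card.1 hAp
    have h1 : K ≤ Lead.genCent A K := by
      apply Lead.genCent_eq A hA (Nat.card K) K rfl
      · intro a _
        rw [Subgroup.normalizer_eq_top_iff.2 hKn]; exact Subgroup.mem_top a
      · rw [hk]; exact Nat.Coprime.pow_left k hKc.symm
    refine h1.trans ?_
    unfold Lead.genCent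
    apply iSup₂_le
    rintro a ⟨haA, ha1⟩
    refine inf_le_right.trans ?_
    have hz : Subgroup.zpowers a ≤ (P : Subgroup G) := by
      rw [Subgroup.zpowers_le]; exact hAP haA
    have hz1 : Subgroup.zpowers a ≠ ⊥ := by
      intro h
      apply ha1
      have : a ∈ (⊥ : Subgroup G) := by rw [← h]; exact Subgroup.mem_zpowers a
      exact Subgroup.mem_bot.1 this
    refine le_trans ?_ (normalizer_le_compStab P _ hz hz1)
    intro c hc
    have hca : a * c = c * a := Subgroup.mem_centralizer_iff.1 hc a (Set.mem_singleton a)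
    apply Subgroup.centralizer_le_normalizer
    rw [Subgroup.mem_centralizer_iff]
    rintro _ ⟨j, rfl⟩
    exact ((Commute.zpow_left (show Commute a c from hca) j)).eq
  -- the quotient
  have hKtop : K ≠ ⊤ := by
    intro h
    rw [h, Subgroup.card_top] at hKc
    exact (Nat.Prime.coprime_iff_not_dvd hp).1 hKc.symm hdiv
  haveI : Nontrivial (G ⧸ K) := by
    rw [QuotientGroup.nontrivial_iff]; exact hKtop
  obtain ⟨Nb, hNbn, hNb1, hNbc⟩ :=
    Helper6.exists_normal_of_isPSolvable (Helper4.isPSolvable_quotient hsol K)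
  have hNbp : ∃ m : ℕ, Nat.card Nb = p ^ m := by
    rcases hNbc with h | h
    · exact h
    · exfalso
      apply hNb1
      have h1 := le_pPrimeCore Nb hNbn h
      have h2 : Cfsg.pPrimeCore p (G ⧸ K) = ⊥ := by
        subst hK
        exact Helper3.pPrimeCore_quotient_eq_bot p G
      rw [h2] at h1
      exact le_bot_iff.1 h1
  obtain ⟨m, hm⟩ := hNbp
  obtain ⟨N, hN⟩ : ∃ N : Subgroup G, N = Nb.comap (QuotientGroup.mk' K) := ⟨_, rfl⟩
  haveI hNn : N.Normal := by rw [hN]; exact hNbn.comap _
  have hNmap : N.map (QuotientGroup.mk' K) = Nb := by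
    rw [hN]; exact Subgroup.map_comap_eq_self_of_surjective (QuotientGroup.mk'_surjective K) Nb
  have hKN : K ≤ N := by
    rw [hN]
    intro x hx
    rw [Subgroup.mem_comap]
    have : QuotientGroup.mk' K x = 1 := (QuotientGroup.eq_one_iff x).2 hx
    rw [this]; exact Subgroup.one_mem _
  have hrel : K.relIndex N = p ^ m := by
    have h1 : (⊥ : Subgroup (G ⧸ K)).comap (QuotientGroup.mk' K) = K := by
      have := QuotientGroup.ker_mk' K
      rwa [MonoidHom.ker] at this
    have h2 := Subgroup.relIndex_comap (⊥ : Subgroup (G ⧸ K)) (QuotientGroup.mk' K) N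
    rw [h1] at h2
    rw [h2, hNmap, Subgroup.relIndex_bot_left, hm]
  obtain ⟨T, hT⟩ := exists_sylow_map_eq_inf P N
  obtain ⟨Q, hQ⟩ : ∃ Q : Subgroup G, Q = (P : Subgroup G) ⊓ N := ⟨_, rfl⟩
  have hQP : Q ≤ P := by rw [hQ]; exact inf_le_left
  have hQN : Q ≤ N := by rw [hQ]; exact inf_le_right
  have hTQ : (T : Subgroup ↥N) = Q.subgroupOf N := by
    rw [hQ, ← hT, Subgroup.subgroupOf,
      Subgroup.comap_map_eq_self_of_injective (Subgroup.subtype_injective N)]
  have hNKQ : N ≤ K ⊔ Q := by
    rw [← Subgroup.relIndex_eq_one]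
    have h1 : (K ⊔ Q).relIndex N ∣ p ^ m := by
      rw [← hrel]; exact Subgroup.relIndex_dvd_of_le_left N le_sup_left
    have h2 : (K ⊔ Q).relIndex N ∣ (T : Subgroup ↥N).index := by
      have h3 : (T : Subgroup ↥N).index = Q.relIndex N := by rw [hTQ]; rfl
      rw [h3]; exact Subgroup.relIndex_dvd_of_le_left N le_sup_right
    obtain ⟨j, -, hj⟩ := (Nat.dvd_prime_pow hp).1 h1
    rcases Nat.eq_zero_or_pos j with h0 | hpos
    · rw [hj, h0, pow_zero]
    · exfalso
      apply T.not_dvd_index
      refine dvd_trans ?_ h2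
      rw [hj]; exact dvd_pow_self p hpos.ne'
  have hQ1 : Q ≠ ⊥ := by
    intro h
    apply hNb1
    rw [h, sup_bot_eq] at hNKQ
    rw [← hNmap, eq_bot_iff]
    refine (Subgroup.map_mono hNKQ).trans ?_
    rw [le_bot_iff, Subgroup.map_eq_bot_iff, QuotientGroup.ker_mk']
  have hfr := Sylow.normalizer_sup_eq_top T
  rw [hT, ← hQ] at hfr
  rw [eq_top_iff, ← hfr]
  apply sup_le (normalizer_le_compStab P Q hQP hQ1)
  refine hNKQ.trans (sup_le hKH ?_)
  exact Subgroup.le_normalizer.trans (normalizer_le_compStab P Q hQP hQ1)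

theorem closure_isMulCommutative' (s : Set G) (hs : ∀ a ∈ s, ∀ b ∈ s, a * b = b * a) :
    IsMulCommutative (Subgroup.closure s) := by
  have h1 : Subgroup.closure s ≤ Subgroup.centralizer s := by
    rw [Subgroup.closure_le]
    intro a ha
    rw [SetLike.mem_coe, Subgroup.mem_centralizer_iff]
    intro b hb
    exact hs b hb a ha
  have h2 : Subgroup.closure s ≤ Subgroup.centralizer (Subgroup.closure s : Set G) := by
    rw [Subgroup.closure_le]
    intro a ha
    rw [SetLike.mem_coe, Subgroup.mem_centralizer_iff]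
    intro b hb
    exact (Subgroup.mem_centralizer_iff.1 (h1 hb) a ha).symm
  refine ⟨⟨fun a b => Subtype.ext ?_⟩⟩
  exact (Subgroup.mem_centralizer_iff.1 (h2 a.2) b b.2).symm

theorem exists_noncyclic_abelian [Finite G] {p : ℕ} [Fact p.Prime] (P : Subgroup G)
    (hP : IsPGroup p P)
    (hne : ¬ ∀ H K : Subgroup ↥P, Nat.card H = p → Nat.card K = p → H = K) :
    ∃ A : Subgroup G, A ≤ P ∧ IsMulCommutative A ∧ ¬ IsCyclic A := by
  have hp : p.Prime := Fact.out
  have hpow : ∀ H : Subgroup ↥P, Nat.card H = p → ∀ x ∈ H, x ^ p = 1 := by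
    intro H hH x hx
    have h1 := pow_card_eq_one' (G := ↥H) (x := ⟨x, hx⟩)
    rw [hH] at h1
    have := congrArg Subtype.val h1
    simpa using this
  obtain ⟨x, y, hx, hy, hx1, hxy⟩ : ∃ x y : ↥P, x ^ p = 1 ∧ y ^ p = 1 ∧ x ≠ 1 ∧
      y ∉ Subgroup.zpowers x := by
    by_contra hcon
    apply hne
    have key : ∀ H K : Subgroup ↥P, Nat.card H = p → Nat.card K = p → H ≤ K := by
      intro H K hH hK
      haveI : Nontrivial ↥K := by
        rw [← Finite.one_lt_card_iff_nontrivial, hK]; exact hp.one_lt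
      obtain ⟨⟨x, hxK⟩, hx1⟩ := exists_ne (1 : ↥K)
      intro y hyH
      by_contra hyK
      apply hcon
      refine ⟨x, y, hpow K hK x hxK, hpow H hH y hyH, ?_, ?_⟩
      · intro h; apply hx1; exact Subtype.ext h
      · intro h; apply hyK; exact (Subgroup.zpowers_le.2 hxK) h
    intro H K hH hK
    exact le_antisymm (key H K hH hK) (key K H hK hH)
  haveI hPnt : Nontrivial ↥P := ⟨⟨x, 1, hx1⟩⟩
  have hZnt : Nontrivial (Subgroup.center ↥P) := hP.center_nontrivial
  obtain ⟨z, hzZ, hz1, hzp⟩ := exists_order_p_of_ne_bot (Subgroup.center ↥P)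
    (hP.to_subgroup _) ((Subgroup.nontrivial_iff_ne_bot _).1 hZnt)
  obtain ⟨h, hhp, hhz⟩ : ∃ h : ↥P, h ^ p = 1 ∧ h ∉ Subgroup.zpowers z := by
    by_cases hxz : x ∈ Subgroup.zpowers z
    · refine ⟨y, hy, fun hyz => hxy ?_⟩
      have h1 : Subgroup.zpowers x ≤ Subgroup.zpowers z := Subgroup.zpowers_le.2 hxz
      have h2 : Subgroup.zpowers x = Subgroup.zpowers z := by
        apply Subgroup.eq_of_le_of_card_ge h1
        rw [Nat.card_zpowers, Nat.card_zpowers, orderOf_eq_prime hx hx1, orderOf_eq_prime hzp hz1]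
      rw [h2]; exact hyz
    · exact ⟨x, hx, hxz⟩
  have hzh : (z : G) * (h : G) = (h : G) * (z : G) := by
    have := Subgroup.mem_center_iff.1 hzZ h
    exact (congrArg Subtype.val this).symm
  refine ⟨Subgroup.closure {(z : G), (h : G)}, ?_, ?_, ?_⟩
  · rw [Subgroup.closure_le]
    rintro a (rfl | rfl)
    · exact z.2
    · exact h.2
  · apply closure_isMulCommutative'
    rintro a (rfl | rfl) b (rfl | rfl)
    · rfl
    · exact hzh
    · exact hzh.symm
    · rfl
  · intro hcyc
    apply hhz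
    have hzA : (z : G) ∈ Subgroup.closure {(z : G), (h : G)} :=
      Subgroup.subset_closure (Set.mem_insert _ _)
    have hhA : (h : G) ∈ Subgroup.closure {(z : G), (h : G)} :=
      Subgroup.subset_closure (Set.mem_insert_of_mem _ rfl)
    have h1 := unique_of_cyclic (p := p) (↥(Subgroup.closure {(z : G), (h : G)}))
      ⟨(z : G), hzA⟩ ⟨(h : G), hhA⟩
      (by apply Subtype.ext; simpa using congrArg Subtype.val hzp)
      (by apply Subtype.ext; simpa using congrArg Subtype.val hhp)
      (by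
        intro hh
        apply hz1
        have e : (z : G) = 1 := congrArg Subtype.val hh
        exact Subtype.ext e)
    obtain ⟨k, hk⟩ := h1
    refine ⟨k, ?_⟩
    apply Subtype.ext
    have := congrArg Subtype.val hk
    simpa using this

/-- transfer of the uniqueness property to every Sylow subgroup. -/
theorem unique_transfer [Finite G] {p : ℕ} [Fact p.Prime] (P S : Sylow p G)
    (hU : ∀ x y : G, x ∈ (P : Subgroup G) → y ∈ (P : Subgroup G) → x ^ p = 1 → y ^ p = 1 →
      x ≠ 1 → y ∈ Subgroup.zpowers x) :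
    ∀ x y : G, x ∈ (S : Subgroup G) → y ∈ (S : Subgroup G) → x ^ p = 1 → y ^ p = 1 →
      x ≠ 1 → y ∈ Subgroup.zpowers x := by
  obtain ⟨g, hg⟩ := sylow_conj P S
  intro x y hx hy hxp hyp hx1
  rw [hg, mem_conj_iff] at hx hy
  have hcp : ∀ (w : G), (g⁻¹ * w * g) ^ p = g⁻¹ * w ^ p * g := by
    intro w
    have := conj_pow (a := g⁻¹) (b := w) (i := p)
    rwa [inv_inv] at this
  have h1 := hU (g⁻¹ * x * g) (g⁻¹ * y * g) hx hy
    (by rw [hcp, hxp]; group) (by rw [hcp, hyp]; group)
    (by
      intro h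
      apply hx1
      have e : x = g * (g⁻¹ * x * g) * g⁻¹ := by group
      rw [e, h]; group)
  obtain ⟨k, hk⟩ := h1
  refine ⟨k, ?_⟩
  have hk' : (g⁻¹ * x * g) ^ k = g⁻¹ * y * g := hk
  have e : x ^ k = g * (g⁻¹ * x * g) ^ k * g⁻¹ := by
    have e0 : g * (g⁻¹ * x * g) * g⁻¹ = x := by group
    rw [← conj_zpow, e0]
  show x ^ k = y
  rw [e, hk']; group

theorem chain_main [Finite G] (p : ℕ) [Fact p.Prime] (hdiv : p ∣ Nat.card G)
    (hsol : Cfsg.IsPSolvable p G) (P : Sylow p G) :
    ¬ Cfsg.IsSylowChainConnected p G ↔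
      Cfsg.pCore p G = ⊥ ∧ (IsCyclic ↥P ∨ (p = 2 ∧ ∃ n : ℕ,
        Nonempty (↥P ≃* QuaternionGroup (2 ^ n)))) := by
  have hp : p.Prime := Fact.out
  constructor
  · intro hnc
    constructor
    · by_contra hO
      apply hnc
      apply chainConnected_of_reflTransGen
      intro S T
      by_cases h : S = T
      · rw [h]
      · apply Relation.ReflTransGen.single
        refine ⟨h, ?_⟩
        intro hbot
        apply hO
        rw [eq_bot_iff, ← hbot]
        exact le_inf (pCore_le_sylow S) (pCore_le_sylow T)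
    · apply S0016.result p P.2
      by_contra hne
      obtain ⟨A, hAP, hAc, hA⟩ := exists_noncyclic_abelian (P : Subgroup G) P.2 hne
      apply hnc
      exact chainConnected_of_reflTransGen (connected_of_rank_two hdiv hsol P A hAP hA)
  · rintro ⟨hO, hcyc⟩ hconn
    have hU : ∀ x y : G, x ∈ (P : Subgroup G) → y ∈ (P : Subgroup G) → x ^ p = 1 → y ^ p = 1 →
        x ≠ 1 → y ∈ Subgroup.zpowers x := by
      intro x y hx hy hxp hyp hx1
      have h1 : (⟨y, hy⟩ : ↥(P : Subgroup G)) ∈ Subgroup.zpowers (⟨x, hx⟩ : ↥(P : Subgroup G)) := by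
        rcases hcyc with hc | ⟨-, n, ⟨e⟩⟩
        · haveI := hc
          exact unique_of_cyclic (p := p) (↥(P : Subgroup G)) ⟨x, hx⟩ ⟨y, hy⟩
            (Subtype.ext (by simpa using hxp)) (Subtype.ext (by simpa using hyp))
            (fun h => hx1 (congrArg Subtype.val h))
        · exact unique_of_quaternion (p := p) (↥(P : Subgroup G)) P.2 (2 ^ n) e ⟨x, hx⟩ ⟨y, hy⟩
            (Subtype.ext (by simpa using hxp)) (Subtype.ext (by simpa using hyp))
            (fun h => hx1 (congrArg Subtype.val h))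
      obtain ⟨k, hk⟩ := h1
      refine ⟨k, ?_⟩
      have := congrArg Subtype.val hk
      simpa using this
    have hP1 : (P : Subgroup G) ≠ ⊥ := P.ne_bot_of_dvd_card hdiv
    obtain ⟨z, hzP, hz1, hzp⟩ := exists_order_p_of_ne_bot (P : Subgroup G) P.2 hP1
    have hall : ∀ T : Sylow p G, z ∈ (T : Subgroup G) := by
      intro T
      obtain ⟨n, c, h0, hl, -, hstep⟩ := hconn P T
      have hi : ∀ i : Fin (n + 1), z ∈ (c i : Subgroup G) := by
        intro i
        induction i using Fin.induction with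
        | zero => rw [h0]; exact hzP
        | succ j ih =>
          obtain ⟨w, hw, hw1, hwp⟩ := exists_order_p_of_ne_bot _
            ((c j.castSucc).2.to_le inf_le_left) (hstep j).2
          have h2 := unique_transfer P (c j.castSucc) hU w z hw.1 ih hwp hzp hw1
          exact (Subgroup.zpowers_le.2 hw.2) h2
      rw [← hl]; exact hi (Fin.last n)
    have hconj : ∀ g : G, g * z * g⁻¹ ∈ Subgroup.zpowers z := by
      intro g
      have h1 := hall (g⁻¹ • P)
      rw [sylow_smul_coe, mem_conj_iff, inv_inv] at h1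
      exact hU z (g * z * g⁻¹) hzP h1 hzp (by rw [conj_pow, hzp]; group) hz1
    have hnorm : (Subgroup.zpowers z).Normal := by
      constructor
      rintro _ ⟨k, rfl⟩ g
      show g * z ^ k * g⁻¹ ∈ Subgroup.zpowers z
      rw [← conj_zpow]
      exact Subgroup.zpow_mem _ (hconj g) k
    have hzp' : IsPGroup p (Subgroup.zpowers z) := by
      apply IsPGroup.of_card (n := 1)
      rw [Nat.card_zpowers, orderOf_eq_prime hzp hz1, pow_one]
    have h3 := le_pCore _ hnorm hzp'
    rw [hO] at h3
    exact hz1 (Subgroup.mem_bot.1 (h3 (Subgroup.mem_zpowers z)))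

end Cfsg.Agent.Helper5
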