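import Mathlib
import Cfsg.Agent.Helper3.Component
import Cfsg.Agent.Helper5.Kieler
import Cfsg.Agent.Helper5.Basic

set_option autoImplicit false

universe u

namespace Cfsg.Agent.Helper5

open scoped commutatorElement

/-- Statement S2925. -/
theorem component_abelian_sylow {X : Type u} [Group X] [Finite X] (K : Subgroup X)
    (hK : Cfsg.IsComponent K) (T : Sylow 2 X) (Y : Subgroup X) (hYT : Y ≤ (T : Subgroup X))
    (hYn : (Y.subgroupOf (T : Subgroup X)).Normal) (hYab : IsMulCommutative ↥Y)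
    (hnot : ¬ Y ≤ Subgroup.normalizer (K : Set X)) (P : Sylow 2 (↥K ⧸ Subgroup.center ↥K)) :
    IsMulCommutative ↥(P : Subgroup (↥K ⧸ Subgroup.center ↥K)) := by
  haveI : Fact (Nat.Prime 2) := ⟨Nat.prime_two⟩
  obtain ⟨y, hyY, hyK⟩ : ∃ y ∈ Y, y ∉ Subgroup.normalizer (K : Set X) := by
    by_contra hcon
    push Not at hcon
    exact hnot (fun y hy => hcon y hy)
  have hK' : Cfsg.IsComponent (K.map (MulAut.conj y).toMonoidHom) :=
    Cfsg.Agent.Helper3.component_map_equiv (MulAut.conj y) K hK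
  have hne : K.map (MulAut.conj y).toMonoidHom ≠ K := by
    intro h
    exact hyK ((mem_normalizer_iff_conj_eq K y).2 h)
  have hcomm := Cfsg.Agent.Helper3.components_commute _ K hK' hK hne
  have hcomm' : ∀ a ∈ K.map (MulAut.conj y).toMonoidHom, ∀ k ∈ K, a * k = k * a := by
    intro a ha k hk
    have h0 := Subgroup.commutator_eq_bot_iff_le_centralizer.1 hcomm
    exact (Subgroup.mem_centralizer_iff.1 (h0 ha) k hk).symm
  -- commutators of elements of `T ∩ K` are central in `K`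
  have hkey : ∀ t ∈ (T : Subgroup X) ⊓ K, ∀ t' ∈ (T : Subgroup X) ⊓ K,
      ∀ k ∈ K, (t * t' * t⁻¹ * t'⁻¹) * k = k * (t * t' * t⁻¹ * t'⁻¹) := by
    intro t ht t' ht' k hk
    have hw : ∀ u ∈ (T : Subgroup X) ⊓ K, u⁻¹ * y * u * y⁻¹ ∈ Y := by
      intro u hu
      have h1 := hYn.conj_mem (⟨y, hYT hyY⟩ : (T : Subgroup X))
        (Subgroup.mem_subgroupOf.2 hyY) (⟨u, hu.1⟩ : (T : Subgroup X))⁻¹
      rw [Subgroup.mem_subgroupOf] at h1
      have h2 : u⁻¹ * y * u ∈ Y := by simpa using h1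
      exact Y.mul_mem h2 (Y.inv_mem hyY)
    have hs : ∀ u ∈ K, y * u * y⁻¹ ∈ K.map (MulAut.conj y).toMonoidHom :=
      fun u hu => conj_mem_conj K y u hu
    have hab := hYab.is_comm.comm (⟨_, hw t ht⟩ : Y) ⟨_, hw t' ht'⟩
    have hab' : (t⁻¹ * y * t * y⁻¹) * (t'⁻¹ * y * t' * y⁻¹) =
        (t'⁻¹ * y * t' * y⁻¹) * (t⁻¹ * y * t * y⁻¹) := congrArg Subtype.val hab
    have c1 : (y * t * y⁻¹) * t'⁻¹ = t'⁻¹ * (y * t * y⁻¹) :=
      hcomm' _ (hs t ht.2) _ (K.inv_mem ht'.2)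
    have c2 : (y * t' * y⁻¹) * t⁻¹ = t⁻¹ * (y * t' * y⁻¹) :=
      hcomm' _ (hs t' ht'.2) _ (K.inv_mem ht.2)
    have e : t * t' * t⁻¹ * t'⁻¹ =
        (y * t' * y⁻¹) * (y * t * y⁻¹) * (y * t' * y⁻¹)⁻¹ * (y * t * y⁻¹)⁻¹ := by
      have h1 : t⁻¹ * t'⁻¹ * ((y * t * y⁻¹) * (y * t' * y⁻¹)) =
          t'⁻¹ * t⁻¹ * ((y * t' * y⁻¹) * (y * t * y⁻¹)) := by
        calc t⁻¹ * t'⁻¹ * ((y * t * y⁻¹) * (y * t' * y⁻¹))
            = t⁻¹ * (t'⁻¹ * (y * t * y⁻¹)) * (y * t' * y⁻¹) := by group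
          _ = t⁻¹ * ((y * t * y⁻¹) * t'⁻¹) * (y * t' * y⁻¹) := by rw [c1]
          _ = (t⁻¹ * y * t * y⁻¹) * (t'⁻¹ * y * t' * y⁻¹) := by group
          _ = (t'⁻¹ * y * t' * y⁻¹) * (t⁻¹ * y * t * y⁻¹) := hab'
          _ = t'⁻¹ * ((y * t' * y⁻¹) * t⁻¹) * (y * t * y⁻¹) := by group
          _ = t'⁻¹ * (t⁻¹ * (y * t' * y⁻¹)) * (y * t * y⁻¹) := by rw [c2]
          _ = t'⁻¹ * t⁻¹ * ((y * t' * y⁻¹) * (y * t * y⁻¹)) := by group
      calc t * t' * t⁻¹ * t'⁻¹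
          = t * t' * (t⁻¹ * t'⁻¹ * ((y * t * y⁻¹) * (y * t' * y⁻¹))) *
              ((y * t * y⁻¹) * (y * t' * y⁻¹))⁻¹ := by group
        _ = t * t' * (t'⁻¹ * t⁻¹ * ((y * t' * y⁻¹) * (y * t * y⁻¹))) *
              ((y * t * y⁻¹) * (y * t' * y⁻¹))⁻¹ := by rw [h1]
        _ = (y * t' * y⁻¹) * (y * t * y⁻¹) * (y * t' * y⁻¹)⁻¹ * (y * t * y⁻¹)⁻¹ := by group
    have hmem : t * t' * t⁻¹ * t'⁻¹ ∈ K.map (MulAut.conj y).toMonoidHom := by
      rw [e]
      exact Subgroup.mul_mem _ (Subgroup.mul_mem _ (Subgroup.mul_mem _ (hs t' ht'.2)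
        (hs t ht.2)) (Subgroup.inv_mem _ (hs t' ht'.2))) (Subgroup.inv_mem _ (hs t ht.2))
    exact hcomm' _ hmem k hk
  -- the Sylow subgroup of `K` and its image
  have hPK : IsPGroup 2 (((T : Subgroup X) ⊓ K).subgroupOf K) :=
    (T.2.to_le inf_le_left).comap_subtype
  have hnd := sylow_inf_subnormal_not_dvd T K hK.1
  have hsurj := QuotientGroup.mk'_surjective (Subgroup.center ↥K)
  obtain ⟨g, hg⟩ := sylow_conj ((hPK.toSylow hnd).mapSurjective hsurj) P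
  rw [Sylow.coe_mapSurjective] at hg
  have hSc : ∀ a ∈ ((hPK.toSylow hnd : Sylow 2 ↥K) : Subgroup ↥K).map
      (QuotientGroup.mk' (Subgroup.center ↥K)), ∀ b ∈ ((hPK.toSylow hnd : Sylow 2 ↥K) :
      Subgroup ↥K).map (QuotientGroup.mk' (Subgroup.center ↥K)), a * b = b * a := by
    rintro _ ⟨t, ht, rfl⟩ _ ⟨t', ht', rfl⟩
    have ht0 : t ∈ ((T : Subgroup X) ⊓ K).subgroupOf K := ht
    have ht0' : t' ∈ ((T : Subgroup X) ⊓ K).subgroupOf K := ht'
    have hz : t * t' * t⁻¹ * t'⁻¹ ∈ Subgroup.center ↥K := by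
      rw [Subgroup.mem_center_iff]
      intro k
      apply Subtype.ext
      have h0 := hkey (t : X) (Subgroup.mem_subgroupOf.1 ht0) (t' : X)
        (Subgroup.mem_subgroupOf.1 ht0') (k : X) k.2
      simp only [Subgroup.coe_mul, Subgroup.coe_inv]
      exact h0.symm
    have h1 : (QuotientGroup.mk' (Subgroup.center ↥K)) (t * t' * t⁻¹ * t'⁻¹) = 1 :=
      (QuotientGroup.eq_one_iff _).2 hz
    rw [map_mul, map_mul, map_mul, map_inv, map_inv] at h1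
    calc (QuotientGroup.mk' (Subgroup.center ↥K)) t * (QuotientGroup.mk' (Subgroup.center ↥K)) t'
        = ((QuotientGroup.mk' (Subgroup.center ↥K)) t *
            (QuotientGroup.mk' (Subgroup.center ↥K)) t' *
            ((QuotientGroup.mk' (Subgroup.center ↥K)) t)⁻¹ *
            ((QuotientGroup.mk' (Subgroup.center ↥K)) t')⁻¹) *
            ((QuotientGroup.mk' (Subgroup.center ↥K)) t' *
            (QuotientGroup.mk' (Subgroup.center ↥K)) t) := by group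
      _ = (QuotientGroup.mk' (Subgroup.center ↥K)) t' *
            (QuotientGroup.mk' (Subgroup.center ↥K)) t := by rw [h1, one_mul]
  have hall : ∀ a ∈ (P : Subgroup (↥K ⧸ Subgroup.center ↥K)),
      ∀ b ∈ (P : Subgroup (↥K ⧸ Subgroup.center ↥K)), a * b = b * a := by
    rw [hg]
    rintro _ ⟨a', ha', rfl⟩ _ ⟨b', hb', rfl⟩
    rw [← map_mul, ← map_mul, hSc a' ha' b' hb']
  exact ⟨⟨fun a b => Subtype.ext (hall a a.2 b b.2)⟩⟩

end Cfsg.Agent.Helper5
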