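import Mathlib
import Cfsg.Prelude
import Cfsg.Agent.Helper5.Coprime2
import Cfsg.Agent.Helper3.CoprimeGen

set_option autoImplicit false

namespace Cfsg.Agent.Helper5

open scoped commutatorElement Pointwise

/-- if `U` acts trivially on `E / F` and `R₀` normalizes `F`, then `[R₀, U]` acts trivially on
`E / F` as well. -/
theorem commutator_commutator_le_of_commutator_le {G : Type*} [Group G] (E F U R₀ : Subgroup G)
    [hE : E.Normal] (hUF : U ≤ Subgroup.normalizer (F : Set G))
    (hRF : R₀ ≤ Subgroup.normalizer (F : Set G)) (hEU : ⁅E, U⁆ ≤ F) : ⁅E, ⁅R₀, U⁆⁆ ≤ F := by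
  let T : Subgroup G :=
    { carrier := {g | g ∈ Subgroup.normalizer (F : Set G) ∧ ∀ e ∈ E, ⁅e, g⁆ ∈ F}
      mul_mem' := by
        rintro g h ⟨hg, hg'⟩ ⟨hh, hh'⟩
        refine ⟨Subgroup.mul_mem _ hg hh, fun e he => ?_⟩
        have h0 : ⁅e, g * h⁆ = ⁅e, g⁆ * (g * ⁅e, h⁆ * g⁻¹) := by
          simp only [commutatorElement_def]; group
        rw [h0]
        exact F.mul_mem (hg' e he) ((Subgroup.mem_normalizer_iff.1 hg _).1 (hh' e he))
      one_mem' := ⟨Subgroup.one_mem _, fun e _ => by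
        rw [commutatorElement_one_right]; exact F.one_mem⟩
      inv_mem' := by
        rintro g ⟨hg, hg'⟩
        refine ⟨Subgroup.inv_mem _ hg, fun e he => ?_⟩
        have h0 : ⁅e, g⁻¹⁆ = g⁻¹ * (⁅e, g⁆)⁻¹ * g⁻¹⁻¹ := by
          simp only [commutatorElement_def]; group
        rw [h0]
        exact (Subgroup.mem_normalizer_iff.1 (Subgroup.inv_mem _ hg) _).1
          (F.inv_mem (hg' e he)) }
  have hUT : U ≤ T :=
    fun w hw => ⟨hUF hw, fun e he => hEU (Subgroup.commutator_mem_commutator he hw)⟩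
  have hconj : ∀ r ∈ R₀, ∀ g ∈ T, r * g * r⁻¹ ∈ T := by
    intro r hr g hg
    refine ⟨Subgroup.mul_mem _ (Subgroup.mul_mem _ (hRF hr) hg.1)
      (Subgroup.inv_mem _ (hRF hr)), fun e he => ?_⟩
    have h0 : ⁅e, r * g * r⁻¹⁆ = r * ⁅r⁻¹ * e * r⁻¹⁻¹, g⁆ * r⁻¹ := by
      simp only [commutatorElement_def]; group
    rw [h0]
    exact (Subgroup.mem_normalizer_iff.1 (hRF hr) _).1 (hg.2 _ (hE.conj_mem e he r⁻¹))
  have hW : ⁅R₀, U⁆ ≤ T := by
    rw [Subgroup.commutator_le]
    intro r hr w hw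
    have h0 : ⁅r, w⁆ = (r * w * r⁻¹) * w⁻¹ := by rw [commutatorElement_def]
    rw [h0]
    exact T.mul_mem (hconj r hr w (hUT hw)) (T.inv_mem (hUT hw))
  rw [Subgroup.commutator_le]
  intro e he g hg
  exact (hW hg).2 e he

/-- if `U` centralizes `D` and `R₀` normalizes `D`, then `[R₀, U]` centralizes `D`. -/
theorem commutator_le_centralizer_of_le_centralizer {G : Type*} [Group G] (D U R₀ : Subgroup G)
    (hU : U ≤ Subgroup.centralizer (D : Set G)) (hR : R₀ ≤ Subgroup.normalizer (D : Set G)) :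
    ⁅R₀, U⁆ ≤ Subgroup.centralizer (D : Set G) := by
  rw [Subgroup.commutator_le]
  intro r hr w hw
  have h0 : ⁅r, w⁆ = (r * w * r⁻¹) * w⁻¹ := by rw [commutatorElement_def]
  rw [h0]
  refine Subgroup.mul_mem _ ?_ (Subgroup.inv_mem _ (hU hw))
  rw [Subgroup.mem_centralizer_iff]
  intro d hd
  have hd' : r⁻¹ * d * r ∈ D := by
    have h1 := (Subgroup.mem_normalizer_iff.1 (Subgroup.inv_mem _ (hR hr)) d).1 hd
    simpa using h1
  have hw' := Subgroup.mem_centralizer_iff.1 (hU hw) _ hd'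
  calc d * (r * w * r⁻¹) = r * ((r⁻¹ * d * r) * w) * r⁻¹ := by group
    _ = r * (w * (r⁻¹ * d * r)) * r⁻¹ := by rw [hw']
    _ = r * w * r⁻¹ * d := by group

/-- the hyperplane step for the statement on `[R, U]` centralizing `E`. -/
theorem hyperplane_commutator_le {G : Type*} [Group G] [Finite G] {p : ℕ} [Fact p.Prime]
    (E : Subgroup G) [E.Normal] (hE : IsPGroup p ↥E) (U : Subgroup G)
    (hU : Cfsg.IsElementaryAbelian p U) (hnc : ¬ IsCyclic ↥U)
    (hcond : (∀ u ∈ U, u ≠ 1 → E ⊓ Subgroup.centralizer (U : Set G) =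
        E ⊓ Subgroup.centralizer ({u} : Set G)) ∨
      (∀ u ∈ U, u ≠ 1 → ⁅E, U⁆ = ⁅E, Subgroup.zpowers u⁆))
    (R : Subgroup G) (hR : ¬ p ∣ Nat.card ↥R) (hRU : U ≤ Subgroup.normalizer (R : Set G))
    (B : Subgroup G) (hBU : B ≤ U) (hB : B.relIndex U ≤ p) :
    ⁅R ⊓ Subgroup.centralizer (B : Set G), U⁆ ≤ Subgroup.centralizer (E : Set G) := by
  have hp : p.Prime := Fact.out
  have hUp : IsPGroup p U := Cfsg.Agent.Helper3.isPGroup_of_isElementaryAbelian p U hU
  have hBne : B ≠ ⊥ := by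
    rintro rfl
    rw [Subgroup.relIndex_bot_left] at hB
    apply hnc
    obtain ⟨k, hk⟩ := IsPGroup.iff_card.1 hUp
    rcases k with _ | _ | k
    · haveI : Subsingleton U := (Nat.card_eq_one_iff_unique.1 (by simpa using hk)).1
      exact isCyclic_of_subsingleton
    · exact isCyclic_of_prime_card (p := p) (by simpa using hk)
    · exfalso
      rw [hk] at hB
      have h1 : p ^ 1 < p ^ (k + 1 + 1) := Nat.pow_lt_pow_right hp.one_lt (by omega)
      rw [pow_one] at h1
      omega
  obtain ⟨u, huB, hu1⟩ : ∃ u ∈ B, u ≠ 1 := by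
    by_contra h
    push Not at h
    exact hBne ((Subgroup.eq_bot_iff_forall B).2 h)
  have hUR₀ : U ≤ Subgroup.normalizer
      ((R ⊓ Subgroup.centralizer (B : Set G) : Subgroup G) : Set G) :=
    Cfsg.Agent.Helper3.le_normalizer_inf_of_le U R _ hRU
      (Cfsg.Agent.Helper3.le_normalizer_centralizer_of_abelian U B hU.1 hBU)
  have hWR₀ : ⁅R ⊓ Subgroup.centralizer (B : Set G), U⁆ ≤ R ⊓ Subgroup.centralizer (B : Set G) :=
    commutator_le_left_of_le_normalizer _ U hUR₀
  have hWp : ¬ p ∣ Nat.card (⁅R ⊓ Subgroup.centralizer (B : Set G), U⁆ : Subgroup G) :=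
    fun h => hR (h.trans (Subgroup.card_dvd_of_le (hWR₀.trans inf_le_left)))
  have hzB : Subgroup.zpowers u ≤ B := (Subgroup.zpowers_le).2 huB
  have hzp : IsPGroup p (Subgroup.zpowers u) := hUp.to_le (hzB.trans hBU)
  have hR₀z : R ⊓ Subgroup.centralizer (B : Set G) ≤
      Subgroup.centralizer ((Subgroup.zpowers u : Subgroup G) : Set G) :=
    inf_le_right.trans (Subgroup.centralizer_le hzB)
  have hR₀u : R ⊓ Subgroup.centralizer (B : Set G) ≤ Subgroup.centralizer ({u} : Set G) :=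
    inf_le_right.trans (Subgroup.centralizer_le (Set.singleton_subset_iff.2 huB))
  have hWz : ⁅R ⊓ Subgroup.centralizer (B : Set G), U⁆ ≤
      Subgroup.centralizer ((Subgroup.zpowers u : Subgroup G) : Set G) := hWR₀.trans hR₀z
  have hEn : ∀ X : Subgroup G, X ≤ Subgroup.normalizer (E : Set G) := by
    intro X
    rw [Subgroup.normalizer_eq_top_iff.2 inferInstance]
    exact le_top
  rcases hcond with h1 | h2
  · have hD := h1 u (hBU huB) hu1
    rw [Subgroup.le_centralizer_iff]
    apply Cfsg.Agent.Helper3.thompson_AxB p E _ (Subgroup.zpowers u) hE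
      (Nat.coprime_comm.1 (hp.coprime_iff_not_dvd.2 hWp)) hzp ?_ (hEn _) (hEn _) ?_
    · exact Subgroup.commutator_eq_bot_iff_le_centralizer.2 hWz
    · have hDle : E ⊓ Subgroup.centralizer ((Subgroup.zpowers u : Subgroup G) : Set G) ≤
          E ⊓ Subgroup.centralizer (U : Set G) := by
        rw [hD]
        exact inf_le_inf_left _
          (Subgroup.centralizer_le (Set.singleton_subset_iff.2 (Subgroup.mem_zpowers u)))
      refine hDle.trans ?_
      rw [Subgroup.le_centralizer_iff]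
      apply commutator_le_centralizer_of_le_centralizer
      · rw [Subgroup.le_centralizer_iff]
        exact inf_le_right
      · rw [hD]
        exact Cfsg.Agent.Helper3.le_normalizer_inf_of_le _ E _ (hEn _)
          (hR₀u.trans Subgroup.le_normalizer)
  · have hF := h2 u (hBU huB) hu1
    rw [Subgroup.le_centralizer_iff, ← Subgroup.commutator_eq_bot_iff_le_centralizer]
    apply commutator_eq_bot_of_le_commutator E (Subgroup.zpowers u) _ hE hzp hWp (hEn _) (hEn _)
    · rw [Subgroup.commutator_comm]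
      exact Subgroup.commutator_eq_bot_iff_le_centralizer.2 hWz
    · rw [← hF]
      apply commutator_commutator_le_of_commutator_le E ⁅E, U⁆ U _ ?_ ?_ le_rfl
      · exact Cfsg.Agent.Helper3.le_normalizer_commutator U E U (hEn _) Subgroup.le_normalizer
      · rw [hF]
        exact Cfsg.Agent.Helper3.le_normalizer_commutator _ E (Subgroup.zpowers u) (hEn _)
          (hR₀z.trans (Subgroup.centralizer_le_normalizer _))

/-- `[R, U]` centralizes `E`. -/
theorem commutator_le_centralizer_of_noncyclic {G : Type*} [Group G] [Finite G] {p : ℕ}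
    [Fact p.Prime] (E : Subgroup G) [E.Normal] (hE : IsPGroup p ↥E) (U : Subgroup G)
    (hU : Cfsg.IsElementaryAbelian p U) (hnc : ¬ IsCyclic ↥U)
    (hcond : (∀ u ∈ U, u ≠ 1 → E ⊓ Subgroup.centralizer (U : Set G) =
        E ⊓ Subgroup.centralizer ({u} : Set G)) ∨
      (∀ u ∈ U, u ≠ 1 → ⁅E, U⁆ = ⁅E, Subgroup.zpowers u⁆))
    (R : Subgroup G) (hR : ¬ p ∣ Nat.card ↥R) (hRU : U ≤ Subgroup.normalizer (R : Set G)) :
    ⁅R, U⁆ ≤ Subgroup.centralizer (E : Set G) := by
  have hgen := Cfsg.Agent.Helper3.generated_by_centralizers p U R hU hR hRU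
  have key : ∀ X : Subgroup G, ⁅X, U⁆ ≤ Subgroup.centralizer (E : Set G) ↔
      X ≤ (Subgroup.centralizer
        ((U.map (QuotientGroup.mk' (Subgroup.centralizer (E : Set G))) : Subgroup _) : Set _)).comap
          (QuotientGroup.mk' (Subgroup.centralizer (E : Set G))) := by
    intro X
    have h1 : X.map (QuotientGroup.mk' (Subgroup.centralizer (E : Set G))) ≤
        Subgroup.centralizer
          ((U.map (QuotientGroup.mk' (Subgroup.centralizer (E : Set G))) : Subgroup _) : Set _) ↔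
        ⁅X.map (QuotientGroup.mk' (Subgroup.centralizer (E : Set G))),
          U.map (QuotientGroup.mk' (Subgroup.centralizer (E : Set G)))⁆ = ⊥ :=
      Subgroup.commutator_eq_bot_iff_le_centralizer.symm
    rw [← Subgroup.map_le_iff_le_comap, h1,
      ← Subgroup.map_commutator, Subgroup.map_eq_bot_iff, QuotientGroup.ker_mk']
  rw [key]
  refine hgen.le.trans (iSup_le ?_)
  rintro ⟨B, hBU, hB⟩
  rw [← key]
  exact hyperplane_commutator_le E hE U hU hnc hcond R hR hRU B hBU hB

end Cfsg.Agent.Helper5
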