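import Mathlib
import Cfsg.Prelude.Def_DStar
import Cfsg.Agent.Helper5.Basic

namespace Cfsg.Agent.Helper5

variable {S : Type*} [Group S]

theorem exists_commMod (T Z' : Subgroup S) (hZ : ∀ z ∈ Z', ∀ t ∈ T, z * t = t * z) (Y : Set S) :
    ∃ D : Subgroup S, ∀ h, h ∈ D ↔ h ∈ T ∧ ∀ y ∈ Y, h * y * h⁻¹ * y⁻¹ ∈ Z' := by
  refine ⟨{ carrier := {h | h ∈ T ∧ ∀ y ∈ Y, h * y * h⁻¹ * y⁻¹ ∈ Z'}
            one_mem' := ⟨T.one_mem, fun y _ => by simp⟩
            mul_mem' := ?_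
            inv_mem' := ?_ }, fun h => Iff.rfl⟩
  · rintro a b ⟨haT, ha⟩ ⟨hbT, hb⟩
    refine ⟨T.mul_mem haT hbT, fun y hy => ?_⟩
    have h1 := hb y hy
    have h2 := ha y hy
    have hc := hZ _ h1 a haT
    have : a * b * y * (a * b)⁻¹ * y⁻¹ = (b * y * b⁻¹ * y⁻¹) * (a * y * a⁻¹ * y⁻¹) := by
      calc a * b * y * (a * b)⁻¹ * y⁻¹ = a * (b * y * b⁻¹ * y⁻¹) * y * a⁻¹ * y⁻¹ := by group
        _ = (b * y * b⁻¹ * y⁻¹) * a * y * a⁻¹ * y⁻¹ := by rw [← hc]
        _ = _ := by group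
    rw [this]; exact Z'.mul_mem h1 h2
  · rintro a ⟨haT, ha⟩
    refine ⟨T.inv_mem haT, fun y hy => ?_⟩
    have h1 := ha y hy
    have hc := hZ _ (Z'.inv_mem h1) a haT
    have : a⁻¹ * y * a⁻¹⁻¹ * y⁻¹ = (a * y * a⁻¹ * y⁻¹)⁻¹ := by
      calc a⁻¹ * y * a⁻¹⁻¹ * y⁻¹ = a⁻¹ * ((a * y * a⁻¹ * y⁻¹)⁻¹ * a) := by group
        _ = a⁻¹ * (a * (a * y * a⁻¹ * y⁻¹)⁻¹) := by rw [hc]
        _ = _ := by group
    rw [this]; exact Z'.inv_mem h1

/-- two members of the family behind `D*` commute elementwise. -/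
theorem dStar_commute [Finite S] {p : ℕ} [Fact p.Prime] (hS : IsPGroup p S) (A B : Subgroup S)
    (hA : A ∈ Cfsg.dStarFamily S) (hB : B ∈ Cfsg.dStarFamily S) :
    ∀ a ∈ A, ∀ b ∈ B, a * b = b * a := by
  by_contra hcon
  push Not at hcon
  obtain ⟨a₀, ha₀, b₀, hb₀, hab⟩ := hcon
  have hTp : IsPGroup p (A ⊔ B : Subgroup S) := hS.to_subgroup _
  have hQp : IsPGroup p ((A ⊔ B : Subgroup S) ⧸ Subgroup.center (A ⊔ B : Subgroup S)) :=
    hTp.to_quotient _
  have hnt : Nontrivial ((A ⊔ B : Subgroup S) ⧸ Subgroup.center (A ⊔ B : Subgroup S)) := by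
    by_contra hnt
    rw [not_nontrivial_iff_subsingleton] at hnt
    have h1 : Subgroup.center (A ⊔ B : Subgroup S) = ⊤ := by
      rw [eq_top_iff]; intro t _
      have : (QuotientGroup.mk t : (A ⊔ B : Subgroup S) ⧸ Subgroup.center (A ⊔ B : Subgroup S)) = 1 :=
        Subsingleton.elim _ _
      exact (QuotientGroup.eq_one_iff t).1 this
    have h2 : (⟨a₀, le_sup_left (b := B) ha₀⟩ : (A ⊔ B : Subgroup S)) ∈
        Subgroup.center (A ⊔ B : Subgroup S) := by rw [h1]; trivial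
    have h3 := Subgroup.mem_center_iff.1 h2 ⟨b₀, le_sup_right (a := A) hb₀⟩
    exact hab (congrArg Subtype.val h3).symm
  have hc := hQp.center_nontrivial
  obtain ⟨q, hq⟩ := exists_ne (1 : Subgroup.center
    ((A ⊔ B : Subgroup S) ⧸ Subgroup.center (A ⊔ B : Subgroup S)))
  obtain ⟨x, hx⟩ := QuotientGroup.mk_surjective
    (q : (A ⊔ B : Subgroup S) ⧸ Subgroup.center (A ⊔ B : Subgroup S))
  have hxZ : x ∉ Subgroup.center (A ⊔ B : Subgroup S) := by
    intro h
    apply hq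
    apply Subtype.ext
    rw [← hx]; exact (QuotientGroup.eq_one_iff x).2 h
  have hxc : ∀ t : (A ⊔ B : Subgroup S), x * t * x⁻¹ * t⁻¹ ∈ Subgroup.center (A ⊔ B : Subgroup S) := by
    intro t
    rw [← QuotientGroup.eq_one_iff]
    have h1 := Subgroup.mem_center_iff.1 q.2 (QuotientGroup.mk t)
    rw [← hx] at h1
    simp only [QuotientGroup.mk_mul, QuotientGroup.mk_inv]
    rw [← h1]; group
  have hZc : ∀ z ∈ (Subgroup.center (A ⊔ B : Subgroup S)).map (A ⊔ B : Subgroup S).subtype,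
      ∀ t ∈ (A ⊔ B : Subgroup S), z * t = t * z := by
    rintro _ ⟨z, hz, rfl⟩ t ht
    have := Subgroup.mem_center_iff.1 hz ⟨t, ht⟩
    exact (congrArg Subtype.val this).symm
  have hxT : (x : S) ∈ (A ⊔ B : Subgroup S) := x.2
  have hxc' : ∀ t ∈ (A ⊔ B : Subgroup S), (x : S) * t * (x : S)⁻¹ * t⁻¹ ∈
      (Subgroup.center (A ⊔ B : Subgroup S)).map (A ⊔ B : Subgroup S).subtype :=
    fun t ht => ⟨_, hxc ⟨t, ht⟩, rfl⟩
  have key : ∀ C : Subgroup S, C ∈ Cfsg.dStarFamily S → C ≤ (A ⊔ B : Subgroup S) →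
      ∀ c ∈ C, c * (x : S) = (x : S) * c := by
    intro C hC hCT
    apply hC.2
    obtain ⟨D₁, hD₁⟩ := exists_commMod (A ⊔ B : Subgroup S) _ hZc ((C : Set S) ∪ {(x : S)})
    have hH1 : C ⊔ Subgroup.zpowers (x : S) ≤ D₁ := by
      apply sup_le
      · intro c hc
        rw [hD₁]
        refine ⟨hCT hc, ?_⟩
        rintro y (hy | hy)
        · have h1 : c * y = y * c := comm_of_isMulCommutative hC.1 c hc y hy
          have : c * y * c⁻¹ * y⁻¹ = 1 := by rw [h1]; group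
          rw [this]; exact Subgroup.one_mem _
        · rw [Set.mem_singleton_iff] at hy
          subst hy
          have : c * (x : S) * c⁻¹ * (x : S)⁻¹ = ((x : S) * c * (x : S)⁻¹ * c⁻¹)⁻¹ := by group
          rw [this]; exact Subgroup.inv_mem _ (hxc' c (hCT hc))
      · rw [Subgroup.zpowers_le, hD₁]
        refine ⟨hxT, ?_⟩
        rintro y (hy | hy)
        · exact hxc' y (hCT hy)
        · rw [Set.mem_singleton_iff] at hy
          subst hy
          have : (x : S) * (x : S) * (x : S)⁻¹ * (x : S)⁻¹ = 1 := by group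
          rw [this]; exact Subgroup.one_mem _
    obtain ⟨D₂, hD₂⟩ := exists_commMod (A ⊔ B : Subgroup S) _ hZc
      ((C ⊔ Subgroup.zpowers (x : S) : Subgroup S) : Set S)
    have hH2 : C ⊔ Subgroup.zpowers (x : S) ≤ D₂ := by
      apply sup_le
      · intro c hc
        rw [hD₂]
        refine ⟨hCT hc, ?_⟩
        intro y hy
        have h1 := ((hD₁ y).1 (hH1 hy)).2 c (Or.inl hc)
        have : c * y * c⁻¹ * y⁻¹ = (y * c * y⁻¹ * c⁻¹)⁻¹ := by group
        rw [this]; exact Subgroup.inv_mem _ h1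
      · rw [Subgroup.zpowers_le, hD₂]
        exact ⟨hxT, fun y hy => hxc' y (((hD₁ y).1 (hH1 hy)).1)⟩
    have hHT : C ⊔ Subgroup.zpowers (x : S) ≤ (A ⊔ B : Subgroup S) :=
      sup_le hCT (Subgroup.zpowers_le.2 hxT)
    have hcomm : ⁅C ⊔ Subgroup.zpowers (x : S), C ⊔ Subgroup.zpowers (x : S)⁆ ≤
        (Subgroup.center (A ⊔ B : Subgroup S)).map (A ⊔ B : Subgroup S).subtype := by
      rw [Subgroup.commutator_le]
      intro g₁ hg₁ g₂ hg₂
      exact ((hD₂ g₁).1 (hH2 hg₁)).2 g₂ hg₂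
    rw [Subgroup.commutator_eq_bot_iff_le_centralizer]
    intro z hz
    rw [Subgroup.mem_centralizer_iff]
    intro h hh
    exact (hZc z (hcomm hz) h (hHT hh)).symm
  apply hxZ
  rw [Subgroup.mem_center_iff]
  intro t
  apply Subtype.ext
  have hgen : ∀ y : S, (∀ a ∈ A, a * y = y * a) → (∀ b ∈ B, b * y = y * b) →
      y ∈ Subgroup.centralizer ((A ⊔ B : Subgroup S) : Set S) := by
    intro y hyA hyB
    rw [Subgroup.sup_eq_closure, Subgroup.centralizer_closure, Subgroup.mem_centralizer_iff]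
    rintro z (hz | hz)
    · exact hyA z hz
    · exact hyB z hz
  have hcen := hgen (x : S) (key A hA le_sup_left) (key B hB le_sup_right)
  exact Subgroup.mem_centralizer_iff.1 hcen t t.2

/-- `D*(S)` is a member of its own family. -/
theorem dStar_mem_family [Finite S] {p : ℕ} [Fact p.Prime] (hS : IsPGroup p S) :
    Cfsg.dStar S ∈ Cfsg.dStarFamily S := by
  have hcl : Cfsg.dStar S = Subgroup.closure (⋃ A ∈ Cfsg.dStarFamily S, (A : Set S)) := by
    unfold Cfsg.dStar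
    apply le_antisymm
    · apply sSup_le
      intro A hA a ha
      exact Subgroup.subset_closure (Set.mem_iUnion₂.2 ⟨A, hA, ha⟩)
    · rw [Subgroup.closure_le]
      intro a ha
      rw [Set.mem_iUnion₂] at ha
      obtain ⟨A, hA, haA⟩ := ha
      exact (le_sSup hA : A ≤ sSup (Cfsg.dStarFamily S)) haA
  have hsub : (⋃ A ∈ Cfsg.dStarFamily S, (A : Set S)) ⊆
      Subgroup.centralizer (⋃ A ∈ Cfsg.dStarFamily S, (A : Set S)) := by
    intro a ha
    rw [Set.mem_iUnion₂] at ha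
    obtain ⟨A, hA, haA⟩ := ha
    rw [SetLike.mem_coe, Subgroup.mem_centralizer_iff]
    intro b hb
    rw [Set.mem_iUnion₂] at hb
    obtain ⟨B, hB, hbB⟩ := hb
    exact (dStar_commute hS A B hA hB a haA b hbB).symm
  refine ⟨?_, ?_⟩
  · rw [isMulCommutative_iff]
    rintro ⟨a, ha⟩ ⟨b, hb⟩
    apply Subtype.ext
    show a * b = b * a
    rw [hcl] at ha hb
    have h1 : Subgroup.closure (⋃ A ∈ Cfsg.dStarFamily S, (A : Set S)) ≤
        Subgroup.centralizer (⋃ A ∈ Cfsg.dStarFamily S, (A : Set S)) :=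
      (Subgroup.closure_le _).2 hsub
    have h2 := h1 ha
    rw [← Subgroup.centralizer_closure] at h2
    exact (Subgroup.mem_centralizer_iff.1 h2 b hb).symm
  · intro x hx d hd
    rw [hcl] at hd
    have h1 : x ∈ Subgroup.centralizer (⋃ A ∈ Cfsg.dStarFamily S, (A : Set S)) := by
      rw [Subgroup.mem_centralizer_iff]
      intro a ha
      rw [Set.mem_iUnion₂] at ha
      obtain ⟨A, hA, haA⟩ := ha
      apply hA.2 x ?_ a haA
      have hle : A ⊔ Subgroup.zpowers x ≤ Cfsg.dStar S ⊔ Subgroup.zpowers x :=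
        sup_le_sup_right (le_sSup hA) _
      rw [eq_bot_iff, ← hx]
      exact Subgroup.commutator_mono (Subgroup.commutator_mono hle hle) hle
    rw [← Subgroup.centralizer_closure] at h1
    exact Subgroup.mem_centralizer_iff.1 h1 d hd

end Cfsg.Agent.Helper5
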