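import Mathlib
import Cfsg.Prelude.Def_Transfer
import Cfsg.Agent.Lead.PGroupFrattini
import Cfsg.Agent.S0130

set_option autoImplicit false

namespace Cfsg.Agent.Helper5

open scoped commutatorElement

/-- the facts about an extraspecial group of order `p ^ 3` and exponent `p ^ 2` that are used. -/
structure ESData (p : ℕ) (X : Type*) [Group X] : Prop where
  comm_central : ∀ x y : X, ⁅x, y⁆ ∈ Subgroup.center X
  pow_central : ∀ x : X, x ^ p ∈ Subgroup.center X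
  card_center : Nat.card (Subgroup.center X) = p
  card : Nat.card X = p ^ 3
  exp : ∃ a : X, a ^ p ≠ 1

theorem esData_of_extraspecial {X : Type*} [Group X] [Finite X] {p : ℕ} [Fact p.Prime]
    (hE : Cfsg.IsExtraspecial p X) (hcard : Nat.card X = p ^ 3)
    (hexp : Monoid.exponent X = p ^ 2) : ESData p X := by
  have hp : p.Prime := Fact.out
  obtain ⟨⟨hP, hfr, hco⟩, hZ⟩ := hE
  refine ⟨?_, ?_, hZ, hcard, ?_⟩
  · intro x y
    rw [← hco, commutator_def]
    exact Subgroup.commutator_mem_commutator (Subgroup.mem_top x) (Subgroup.mem_top y)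
  · intro x
    rw [← hfr]
    exact Lead.pow_mem_frattini_of_isPGroup p hP x
  · by_contra h
    have h' : ∀ a : X, a ^ p = 1 := by
      intro a
      by_contra ha
      exact h ⟨a, ha⟩
    have h1 : Monoid.exponent X ∣ p := Monoid.exponent_dvd_iff_forall_pow_eq_one.2 h'
    rw [hexp] at h1
    have h2 : p ^ 2 ≤ p := Nat.le_of_dvd hp.pos h1
    have h3 : p < p ^ 2 := by
      have := hp.one_lt
      nlinarith
    omega

section

variable {X : Type*} [Group X] [Finite X] {p : ℕ} [Fact p.Prime]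

theorem ESData.central_pow (D : ESData p X) (z : X) (hz : z ∈ Subgroup.center X) : z ^ p = 1 := by
  have h := pow_card_eq_one' (x := (⟨z, hz⟩ : ↥(Subgroup.center X)))
  rw [D.card_center] at h
  have := congrArg Subtype.val h
  simpa using this

theorem ESData.pow_hom (hp2 : p ≠ 2) (D : ESData p X) (x y : X) :
    (x * y) ^ p = x ^ p * y ^ p := by
  have hp : p.Prime := Fact.out
  have hw : ⁅y⁻¹, x⁻¹⁆ ∈ Subgroup.center X := D.comm_central _ _
  have hwx : Commute ⁅y⁻¹, x⁻¹⁆ x := (Subgroup.mem_center_iff.1 hw x).symm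
  have hwy : Commute ⁅y⁻¹, x⁻¹⁆ y := (Subgroup.mem_center_iff.1 hw y).symm
  have hyx : y * x = x * y * ⁅y⁻¹, x⁻¹⁆ := by rw [commutatorElement_def]; group
  rw [Cfsg.Agent.S0130.pow_mul_class_two hwx hwy hyx p]
  have h2 : 2 < p := lt_of_le_of_ne hp.two_le (Ne.symm hp2)
  obtain ⟨m, hm⟩ := hp.dvd_choose_self (by norm_num : (2 : ℕ) ≠ 0) h2
  rw [hm, pow_mul, D.central_pow _ hw, one_pow, mul_one]

theorem ESData.card_mid (D : ESData p X) (K : Subgroup X) (h1 : Subgroup.center X < K)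
    (h2 : K ≠ ⊤) : Nat.card K = p ^ 2 := by
  have hp : p.Prime := Fact.out
  have hdvd : Nat.card K ∣ p ^ 3 := D.card ▸ Subgroup.card_subgroup_dvd_card K
  obtain ⟨i, hi, hK⟩ := (Nat.dvd_prime_pow hp).1 hdvd
  have hi3 : i ≠ 3 := by
    rintro rfl
    apply h2
    rw [← Subgroup.card_eq_iff_eq_top, hK, D.card]
  have hi2 : 2 ≤ i := by
    by_contra hlt
    have hle : Nat.card K ≤ Nat.card (Subgroup.center X) := by
      rw [hK, D.card_center]
      have hi1 : i ≤ 1 := by omega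
      calc p ^ i ≤ p ^ 1 := Nat.pow_le_pow_right hp.pos hi1
        _ = p := pow_one p
    exact h1.ne (Subgroup.eq_of_le_of_card_ge h1.le hle)
  have : i = 2 := by omega
  rw [hK, this]

theorem ESData.omega (hp2 : p ≠ 2) (D : ESData p X) (w : X) (hw : w ∉ Subgroup.center X)
    (hwp : w ^ p = 1) :
    (∀ m : X, m * w = w * m → m ^ p = 1) ∧ (∀ e : X, e ^ p = 1 → e * w = w * e) := by
  obtain ⟨π, hπ⟩ : ∃ π : X →* X, ∀ x, π x = x ^ p :=
    ⟨⟨⟨fun x => x ^ p, one_pow p⟩, D.pow_hom hp2⟩, fun _ => rfl⟩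
  obtain ⟨M, hM⟩ : ∃ M : Subgroup X, M = Subgroup.centralizer ({w} : Set X) := ⟨_, rfl⟩
  have hmemM : ∀ m : X, m ∈ M ↔ m * w = w * m := by
    intro m
    rw [hM, Subgroup.mem_centralizer_iff]
    constructor
    · intro h; exact (h w rfl).symm
    · rintro h _ rfl; exact h.symm
  have hmemΩ : ∀ m : X, m ∈ π.ker ↔ m ^ p = 1 := by
    intro m
    rw [MonoidHom.mem_ker, hπ]
  have hZM : Subgroup.center X ≤ M := by
    intro z hz
    rw [hmemM]
    exact (Subgroup.mem_center_iff.1 hz w).symm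
  have hZΩ : Subgroup.center X ≤ π.ker := by
    intro z hz
    rw [hmemΩ]
    exact D.central_pow z hz
  have hwM : w ∈ M := (hmemM w).2 rfl
  have hwΩ : w ∈ π.ker := (hmemΩ w).2 hwp
  have hMtop : M ≠ ⊤ := by
    intro h
    apply hw
    rw [Subgroup.mem_center_iff]
    intro g
    have : g ∈ M := h ▸ Subgroup.mem_top g
    exact (hmemM g).1 this
  obtain ⟨a, ha⟩ := D.exp
  have hΩtop : π.ker ≠ ⊤ := by
    intro h
    have : a ∈ π.ker := h ▸ Subgroup.mem_top a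
    exact ha ((hmemΩ a).1 this)
  have hlt : ∀ K : Subgroup X, Subgroup.center X ≤ K → w ∈ K → Subgroup.center X < K := by
    intro K hK hwK
    refine lt_of_le_of_ne hK ?_
    intro h
    exact hw (h ▸ hwK)
  have c1 := D.card_mid M (hlt M hZM hwM) hMtop
  have c2 := D.card_mid π.ker (hlt _ hZΩ hwΩ) hΩtop
  have c3 := D.card_mid (M ⊓ π.ker) (hlt _ (le_inf hZM hZΩ) ⟨hwM, hwΩ⟩)
    (fun h => hMtop (top_le_iff.1 (h ▸ inf_le_left)))
  have e1 : M ⊓ π.ker = M := Subgroup.eq_of_le_of_card_ge inf_le_left (by rw [c1, c3])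
  have e2 : M ⊓ π.ker = π.ker := Subgroup.eq_of_le_of_card_ge inf_le_right (by rw [c2, c3])
  have e3 : M = π.ker := e1.symm.trans e2
  constructor
  · intro m hm
    rw [← hmemΩ, ← e3, hmemM]
    exact hm
  · intro e he
    rw [← hmemM, e3, hmemΩ]
    exact he

theorem ESData.exists_conj (D : ESData p X) (v : X) (hv : v ∉ Subgroup.center X) (c : X)
    (hc : c ∈ Subgroup.center X) : ∃ x : X, x * v * x⁻¹ = v * c := by
  obtain ⟨f, hf⟩ : ∃ f : X →* ↥(Subgroup.center X), ∀ x, (f x : X) = ⁅x, v⁆ := by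
    refine ⟨MonoidHom.mk' (fun x => ⟨⁅x, v⁆, D.comm_central x v⟩) ?_, fun _ => rfl⟩
    intro x y
    apply Subtype.ext
    show ⁅x * y, v⁆ = ⁅x, v⁆ * ⁅y, v⁆
    have h1 : ⁅y, v⁆ * x = x * ⁅y, v⁆ := (Subgroup.mem_center_iff.1 (D.comm_central y v) x).symm
    have h2 : ⁅y, v⁆ * ⁅x, v⁆ = ⁅x, v⁆ * ⁅y, v⁆ :=
      (Subgroup.mem_center_iff.1 (D.comm_central y v) _).symm
    calc ⁅x * y, v⁆ = x * ⁅y, v⁆ * v * x⁻¹ * v⁻¹ := by
          simp only [commutatorElement_def]; group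
      _ = (⁅y, v⁆ * x) * v * x⁻¹ * v⁻¹ := by rw [h1]
      _ = ⁅y, v⁆ * ⁅x, v⁆ := by simp only [commutatorElement_def]; group
      _ = ⁅x, v⁆ * ⁅y, v⁆ := h2
  haveI : Fact (Nat.card ↥(Subgroup.center X)).Prime := ⟨D.card_center ▸ Fact.out⟩
  rcases Subgroup.eq_bot_or_eq_top_of_prime_card f.range with h | h
  · exfalso
    apply hv
    rw [Subgroup.mem_center_iff]
    intro x
    have h1 : f x ∈ f.range := ⟨x, rfl⟩
    rw [h, Subgroup.mem_bot] at h1
    have h2 : ⁅x, v⁆ = 1 := by rw [← hf x, h1]; rfl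
    rw [commutatorElement_eq_one_iff_mul_comm] at h2
    exact h2
  · have h1 : (⟨c, hc⟩ : ↥(Subgroup.center X)) ∈ f.range := h ▸ Subgroup.mem_top _
    obtain ⟨x, hx⟩ := h1
    refine ⟨x, ?_⟩
    have h2 : ⁅x, v⁆ = c := by rw [← hf x, hx]
    have h3 : c * v = v * c := (Subgroup.mem_center_iff.1 hc v).symm
    rw [← h3, ← h2, commutatorElement_def]; group

/-- no automorphism inverts the centre and `w` modulo the centre. -/
theorem ESData.no_inverting_aut (hp2 : p ≠ 2) (D : ESData p X) (τ : X ≃* X)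
    (hτ : ∀ ζ ∈ Subgroup.center X, τ ζ = ζ⁻¹) (w : X) (hw : w ∉ Subgroup.center X)
    (hwp : w ^ p = 1) (ζ : X) (hζ : ζ ∈ Subgroup.center X) (hτw : τ w = w⁻¹ * ζ) : False := by
  have hp : p.Prime := Fact.out
  obtain ⟨hΩ1, hΩ2⟩ := D.omega hp2 w hw hwp
  obtain ⟨a, ha⟩ := D.exp
  obtain ⟨e, he⟩ : ∃ e : X, e = τ a * a := ⟨_, rfl⟩
  have hep : e ^ p = 1 := by
    rw [he, D.pow_hom hp2, ← map_pow, hτ _ (D.pow_central a), inv_mul_cancel]
  have hew : e * w = w * e := hΩ2 e hep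
  obtain ⟨u, hu⟩ : ∃ u : X, u = ⁅a, w⁆ := ⟨_, rfl⟩
  have huZ : u ∈ Subgroup.center X := hu ▸ D.comm_central a w
  have huc : ∀ y : X, y * u = u * y := fun y => Subgroup.mem_center_iff.1 huZ y
  have hζc : ∀ y : X, y * ζ = ζ * y := fun y => Subgroup.mem_center_iff.1 hζ y
  have h1 : a⁻¹ * w⁻¹ * a = u * w⁻¹ := by
    have e1 : a⁻¹ * w⁻¹ * a = w⁻¹ * (a⁻¹ * (u * a)) := by
      rw [hu, commutatorElement_def]; group
    rw [e1, ← huc a, inv_mul_cancel_left, huc w⁻¹]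
  have hτa : τ a = e * a⁻¹ := by rw [he, mul_inv_cancel_right]
  have hτu : τ u = u := by
    have e1 : τ u = τ a * τ w * (τ a)⁻¹ * (τ w)⁻¹ := by
      rw [hu, commutatorElement_def, map_mul, map_mul, map_mul, map_inv, map_inv]
    have hew' : e * w⁻¹ = w⁻¹ * e := by
      have : w⁻¹ * (e * w) * w⁻¹ = w⁻¹ * (w * e) * w⁻¹ := by rw [hew]
      have e2 : w⁻¹ * (e * w) * w⁻¹ = w⁻¹ * e := by group
      have e3 : w⁻¹ * (w * e) * w⁻¹ = e * w⁻¹ := by group
      rw [e2, e3] at this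
      exact this.symm
    rw [e1, hτw, hτa]
    calc e * a⁻¹ * (w⁻¹ * ζ) * (e * a⁻¹)⁻¹ * (w⁻¹ * ζ)⁻¹
        = e * a⁻¹ * w⁻¹ * (ζ * a) * e⁻¹ * ζ⁻¹ * w := by group
      _ = e * a⁻¹ * w⁻¹ * (a * ζ) * e⁻¹ * ζ⁻¹ * w := by rw [hζc a]
      _ = e * (a⁻¹ * w⁻¹ * a) * (ζ * e⁻¹) * ζ⁻¹ * w := by group
      _ = e * (u * w⁻¹) * (e⁻¹ * ζ) * ζ⁻¹ * w := by rw [h1, ← hζc e⁻¹]
      _ = (e * u) * w⁻¹ * e⁻¹ * w := by group
      _ = (u * e) * w⁻¹ * e⁻¹ * w := by rw [huc e]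
      _ = u * (e * w⁻¹) * e⁻¹ * w := by group
      _ = u * (w⁻¹ * e) * e⁻¹ * w := by rw [hew']
      _ = u := by group
  have hu2 : u * u = 1 := by
    have := hτ u huZ
    rw [hτu] at this
    nth_rewrite 1 [this]
    exact inv_mul_cancel u
  have hup : u ^ p = 1 := D.central_pow u huZ
  have hu1 : u = 1 := by
    have h2 : orderOf u ∣ 2 := orderOf_dvd_of_pow_eq_one (by rw [pow_two]; exact hu2)
    have h3 : orderOf u ∣ p := orderOf_dvd_of_pow_eq_one hup
    have h4 : orderOf u ∣ Nat.gcd 2 p := Nat.dvd_gcd h2 h3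
    have h5 : Nat.gcd 2 p = 1 := by
      rw [Nat.coprime_primes Nat.prime_two hp |>.2 (Ne.symm hp2)]
    rw [h5, Nat.dvd_one, orderOf_eq_one_iff] at h4
    exact h4
  have haw : a * w = w * a := by
    rw [hu, commutatorElement_eq_one_iff_mul_comm] at hu1
    exact hu1
  exact ha (hΩ1 a haw)

end

end Cfsg.Agent.Helper5
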