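import Mathlib
import Cfsg.Prelude.Def_Transfer
import Cfsg.Prelude.Def_TwoFusion
import Cfsg.Agent.Helper5.Basic
import Cfsg.Agent.Helper5.ES3
import Cfsg.Agent.Helper4.RelSylow

set_option autoImplicit false

namespace Cfsg.Agent.Helper5

open scoped commutatorElement

theorem conj_zpowers_inv' {G : Type*} [Group G] (t z : G) (h : t * z * t⁻¹ = z⁻¹) :
    ∀ ζ ∈ Subgroup.zpowers z, t * ζ * t⁻¹ = ζ⁻¹ := by
  rintro _ ⟨k, rfl⟩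
  show t * z ^ k * t⁻¹ = (z ^ k)⁻¹
  rw [← conj_zpow, h, inv_zpow]

theorem conj_zpowers_fix {G : Type*} [Group G] (t z : G) (h : t * z * t⁻¹ = z) :
    ∀ ζ ∈ Subgroup.zpowers z, t * ζ * t⁻¹ = ζ := by
  rintro _ ⟨k, rfl⟩
  show t * z ^ k * t⁻¹ = z ^ k
  rw [← conj_zpow, h]

theorem mem_centralizer_singleton' {G : Type*} [Group G] (a b : G) :
    a ∈ Subgroup.centralizer ({b} : Set G) ↔ b * a = a * b := by
  rw [Subgroup.mem_centralizer_iff]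
  constructor
  · intro h; exact h b rfl
  · intro h c hc
    rw [Set.mem_singleton_iff] at hc
    rw [hc]; exact h

/-- the subgroup fixing `z` and fixing `w` modulo `⟨z⟩` under conjugation. -/
def flagStab {G : Type*} [Group G] (z w : G) : Subgroup G where
  carrier := {m | m * z * m⁻¹ = z ∧ w⁻¹ * (m * w * m⁻¹) ∈ Subgroup.zpowers z}
  one_mem' := by
    refine ⟨by group, ?_⟩
    have e : w⁻¹ * (1 * w * 1⁻¹) = 1 := by group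
    rw [e]; exact Subgroup.one_mem _
  mul_mem' := by
    rintro a b ⟨ha1, ha2⟩ ⟨hb1, hb2⟩
    refine ⟨?_, ?_⟩
    · have e : a * b * z * (a * b)⁻¹ = a * (b * z * b⁻¹) * a⁻¹ := by group
      rw [e, hb1, ha1]
    · have h1 := conj_zpowers_fix a z ha1 _ hb2
      have e : w⁻¹ * (a * b * w * (a * b)⁻¹) =
          w⁻¹ * (a * w * a⁻¹) * (a * (w⁻¹ * (b * w * b⁻¹)) * a⁻¹) := by group
      rw [e, h1]
      exact Subgroup.mul_mem _ ha2 hb2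
  inv_mem' := by
    rintro a ⟨ha1, ha2⟩
    have h0 : a⁻¹ * z * a⁻¹⁻¹ = z := by
      have e : a⁻¹ * z * a⁻¹⁻¹ = a⁻¹ * (a * z * a⁻¹) * a := by rw [ha1]; group
      rw [e]; group
    refine ⟨h0, ?_⟩
    have h1 := conj_zpowers_fix a⁻¹ z h0 _ ha2
    have e : w⁻¹ * (a⁻¹ * w * a⁻¹⁻¹) = (a⁻¹ * (w⁻¹ * (a * w * a⁻¹)) * a⁻¹⁻¹)⁻¹ := by group
    rw [e, h1]
    exact Subgroup.inv_mem _ ha2

theorem mem_flagStab {G : Type*} [Group G] (z w m : G) :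
    m ∈ flagStab z w ↔ m * z * m⁻¹ = z ∧ w⁻¹ * (m * w * m⁻¹) ∈ Subgroup.zpowers z := Iff.rfl

theorem es3_center_strongly_closed {G : Type*} [Group G] [Finite G] {p : ℕ} [Fact p.Prime]
    (hp : p ≠ 2) (P : Sylow p G) (hE : Cfsg.IsExtraspecial p ↥P) (hcard : Nat.card P = p ^ 3)
    (hexp : Monoid.exponent ↥P = p ^ 2) :
    Cfsg.IsStronglyClosed ((Subgroup.center ↥P).map (P : Subgroup G).subtype) (P : Subgroup G) := by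
  have hpp : p.Prime := Fact.out
  have D : ESData p ↥P := esData_of_extraspecial hE hcard hexp
  refine ⟨?_, ?_⟩
  · rintro _ ⟨y, _, rfl⟩; exact y.2
  rintro _ ⟨ζ₀, hζ₀, rfl⟩ g hwP
  by_contra hwZ
  obtain ⟨z, hz⟩ : ∃ z : G, z = (ζ₀ : G) := ⟨_, rfl⟩
  have hz' : (P : Subgroup G).subtype ζ₀ = z := hz.symm
  rw [hz'] at hwP hwZ
  obtain ⟨w, hw⟩ : ∃ w : G, w = g * z * g⁻¹ := ⟨_, rfl⟩
  rw [← hw] at hwP hwZ
  have hzP : z ∈ (P : Subgroup G) := hz ▸ ζ₀.2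
  have hzc : ∀ x ∈ (P : Subgroup G), x * z = z * x := by
    intro x hx
    have h1 := Subgroup.mem_center_iff.1 hζ₀ ⟨x, hx⟩
    have h2 := congrArg Subtype.val h1
    rw [hz]; exact h2
  have hzp : z ^ p = 1 := by
    have h1 := D.central_pow ζ₀ hζ₀
    have h2 := congrArg Subtype.val h1
    rw [hz]
    simpa using h2
  have hwp : w ^ p = 1 := by
    rw [hw, conj_pow, hzp]; group
  -- central elements are the powers of z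
  have hcoe : ∀ k : ℤ, ((ζ₀ ^ k : ↥P) : G) = z ^ k := by
    intro k; rw [hz]; simp
  have hmemZ : ∀ ζ ∈ Subgroup.zpowers z, ∀ hζ : ζ ∈ (P : Subgroup G),
      (⟨ζ, hζ⟩ : ↥P) ∈ Subgroup.center ↥P := by
    rintro _ ⟨k, rfl⟩ hζ
    have h1 : (⟨z ^ k, hζ⟩ : ↥P) = ζ₀ ^ k := Subtype.ext (hcoe k).symm
    rw [h1]
    exact Subgroup.zpow_mem _ hζ₀ k
  have hzpP : Subgroup.zpowers z ≤ (P : Subgroup G) := by
    rw [Subgroup.zpowers_le]; exact hzP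
  have hw1 : w ≠ 1 := by
    intro h
    apply hwZ
    rw [h]; exact Subgroup.one_mem _
  have hz1 : z ≠ 1 := by
    intro h
    apply hw1
    rw [hw, h]; group
  have hζ₀1 : (⟨ζ₀, hζ₀⟩ : ↥(Subgroup.center ↥P)) ≠ 1 := by
    intro h
    apply hz1
    have h2 := congrArg (fun a : ↥(Subgroup.center ↥P) => ((a : ↥P) : G)) h
    simpa [hz] using h2
  have hcenter_z : ∀ ζ ∈ Subgroup.center ↥P, (ζ : G) ∈ Subgroup.zpowers z := by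
    intro ζ hζ
    have h1 := zpowers_eq_top_of_prime_card D.card_center hζ₀1
    have h2 : (⟨ζ, hζ⟩ : ↥(Subgroup.center ↥P)) ∈
        Subgroup.zpowers (⟨ζ₀, hζ₀⟩ : ↥(Subgroup.center ↥P)) := h1 ▸ Subgroup.mem_top _
    obtain ⟨k, hk⟩ := h2
    refine ⟨k, ?_⟩
    have h3 := congrArg (fun a : ↥(Subgroup.center ↥P) => ((a : ↥P) : G)) hk
    simp only [Subgroup.coe_zpow] at h3
    rw [hz]; exact h3
  have hw'Z : (⟨w, hwP⟩ : ↥P) ∉ Subgroup.center ↥P := by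
    intro h
    exact hwZ ⟨⟨w, hwP⟩, h, rfl⟩
  have hwz : w * z = z * w := hzc w hwP
  -- conjugation by P moves elements of P by central elements
  have hconjP : ∀ x ∈ (P : Subgroup G), ∀ v ∈ (P : Subgroup G),
      v⁻¹ * (x * v * x⁻¹) ∈ Subgroup.zpowers z := by
    intro x hx v hv
    have h1 := hcenter_z _ (D.comm_central (⟨v, hv⟩ : ↥P)⁻¹ ⟨x, hx⟩)
    have e : ((⁅(⟨v, hv⟩ : ↥P)⁻¹, ⟨x, hx⟩⁆ : ↥P) : G) = v⁻¹ * (x * v * x⁻¹) := by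
      rw [commutatorElement_def]
      show v⁻¹ * x * v⁻¹⁻¹ * x⁻¹ = v⁻¹ * (x * v * x⁻¹)
      group
    rw [e] at h1
    exact h1
  -- find h
  have hPC : (P : Subgroup G) ≤ Subgroup.centralizer ({z} : Set G) := by
    intro x hx
    rw [mem_centralizer_singleton']
    exact (hzc x hx).symm
  have hidx : ¬ p ∣ (P : Subgroup G).relIndex (Subgroup.centralizer ({z} : Set G)) := fun hd =>
    P.not_dvd_index (hd.trans (Subgroup.relIndex_dvd_index_of_le hPC))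
  obtain ⟨Q, hQ⟩ : ∃ Q : Subgroup G, Q = ((P : Subgroup G) ⊓
      Subgroup.centralizer ({w} : Set G)).map (MulAut.conj g⁻¹).toMonoidHom := ⟨_, rfl⟩
  have hQp : IsPGroup p ↥Q := by
    rw [hQ]; exact (P.2.to_le inf_le_left).map _
  have hQH : Q ≤ Subgroup.centralizer ({z} : Set G) := by
    rw [hQ]
    rintro _ ⟨q, hq, rfl⟩
    have hq2 : w * q = q * w := (mem_centralizer_singleton' q w).1 hq.2
    show g⁻¹ * q * g⁻¹⁻¹ ∈ Subgroup.centralizer ({z} : Set G)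
    rw [mem_centralizer_singleton']
    calc z * (g⁻¹ * q * g⁻¹⁻¹) = g⁻¹ * ((g * z * g⁻¹) * q) * g := by group
      _ = g⁻¹ * (q * (g * z * g⁻¹)) * g := by rw [← hw, hq2]
      _ = g⁻¹ * q * g⁻¹⁻¹ * z := by group
  obtain ⟨c, hcC, hc⟩ := Helper4.exists_conj_le_of_relIndex (Subgroup.centralizer ({z} : Set G))
    (P : Subgroup G) Q P.2 hidx hQp hQH
  have hcz : z * c = c * z := (mem_centralizer_singleton' c z).1 hcC
  have hzQ : g⁻¹ * z * g⁻¹⁻¹ ∈ Q := by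
    rw [hQ]
    exact ⟨z, ⟨hzP, (mem_centralizer_singleton' z w).2 hwz⟩, rfl⟩
  obtain ⟨h, hh⟩ : ∃ h : G, h = g * c⁻¹ := ⟨_, rfl⟩
  have hz'P : h⁻¹ * z * h ∈ (P : Subgroup G) := by
    have h1 := hc _ hzQ
    have e : h⁻¹ * z * h = c * (g⁻¹ * z * g⁻¹⁻¹) * c⁻¹ := by rw [hh]; group
    rw [e]; exact h1
  have hhz : h * z * h⁻¹ = w := by
    have e : h * z * h⁻¹ = g * (c⁻¹ * (z * c)) * g⁻¹ := by rw [hh]; group
    rw [e, hcz, inv_mul_cancel_left, hw]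
  have hhw : h⁻¹ * w * h = z := by
    rw [← hhz]; group
  -- z' is not central
  have hoz : orderOf z = p := orderOf_eq_prime hzp hz1
  have how : orderOf w = p := orderOf_eq_prime hwp hw1
  have hz'Z : (⟨h⁻¹ * z * h, hz'P⟩ : ↥P) ∉ Subgroup.center ↥P := by
    intro hcen
    obtain ⟨k, hk⟩ := hcenter_z _ hcen
    have hk' : z ^ k = h⁻¹ * z * h := hk
    have h1 : z = w ^ k := by
      have e : z = h * (h⁻¹ * z * h) * h⁻¹ := by group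
      rw [e, ← hk', ← conj_zpow, hhz]
    have h2 : Subgroup.zpowers z ≤ Subgroup.zpowers w := by
      rw [Subgroup.zpowers_le]; exact ⟨k, h1.symm⟩
    have h3 : Subgroup.zpowers z = Subgroup.zpowers w :=
      Subgroup.eq_of_le_of_card_ge h2 (by rw [Nat.card_zpowers, Nat.card_zpowers, hoz, how])
    have h4 : w ∈ Subgroup.zpowers z := h3 ▸ Subgroup.mem_zpowers w
    exact hw'Z (hmemZ w h4 hwP)
  -- the unipotent elements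
  obtain ⟨x, hx⟩ := D.exists_conj (⟨w, hwP⟩ : ↥P) hw'Z ζ₀ hζ₀
  obtain ⟨y₀, hy₀⟩ := D.exists_conj (⟨h⁻¹ * z * h, hz'P⟩ : ↥P) hz'Z ζ₀⁻¹
    (Subgroup.inv_mem _ hζ₀)
  have cx_w : (x : G) * w * (x : G)⁻¹ = w * z := by
    have := congrArg Subtype.val hx
    rw [hz]; exact this
  have cx_z : (x : G) * z * (x : G)⁻¹ = z := by
    rw [hzc x x.2, mul_inv_cancel_right]
  have cy₀ : (y₀ : G) * (h⁻¹ * z * h) * (y₀ : G)⁻¹ = h⁻¹ * z * h * z⁻¹ := by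
    have := congrArg Subtype.val hy₀
    have e1 : ((ζ₀⁻¹ : ↥P) : G) = z⁻¹ := by rw [hz]; rfl
    calc (y₀ : G) * (h⁻¹ * z * h) * (y₀ : G)⁻¹
        = ((y₀ * ⟨h⁻¹ * z * h, hz'P⟩ * y₀⁻¹ : ↥P) : G) := rfl
      _ = ((⟨h⁻¹ * z * h, hz'P⟩ * ζ₀⁻¹ : ↥P) : G) := this
      _ = h⁻¹ * z * h * ((ζ₀⁻¹ : ↥P) : G) := rfl
      _ = h⁻¹ * z * h * z⁻¹ := by rw [e1]
  have cy₀z : (y₀ : G) * z * (y₀ : G)⁻¹ = z := by
    rw [hzc y₀ y₀.2, mul_inv_cancel_right]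
  obtain ⟨y, hy⟩ : ∃ y : G, y = h * (y₀ : G) * h⁻¹ := ⟨_, rfl⟩
  have cy_z : y * z * y⁻¹ = z * w⁻¹ := by
    calc y * z * y⁻¹ = h * ((y₀ : G) * (h⁻¹ * z * h) * (y₀ : G)⁻¹) * h⁻¹ := by rw [hy]; group
      _ = h * (h⁻¹ * z * h * z⁻¹) * h⁻¹ := by rw [cy₀]
      _ = z * (h * z * h⁻¹)⁻¹ := by group
      _ = z * w⁻¹ := by rw [hhz]
  have cy_w : y * w * y⁻¹ = w := by
    calc y * w * y⁻¹ = h * ((y₀ : G) * (h⁻¹ * w * h) * (y₀ : G)⁻¹) * h⁻¹ := by rw [hy]; group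
      _ = h * z * h⁻¹ := by rw [hhw, cy₀z]
      _ = w := hhz
  have cwz : w * z * w⁻¹ = z := by rw [hwz, mul_inv_cancel_right]
  obtain ⟨n, hn⟩ : ∃ n : G, n = (x : G) * y * (x : G) := ⟨_, rfl⟩
  have hnz : n * z * n⁻¹ = w⁻¹ := by
    calc n * z * n⁻¹ = (x : G) * y * ((x : G) * z * (x : G)⁻¹) * y⁻¹ * (x : G)⁻¹ := by
          rw [hn]; group
      _ = (x : G) * (y * z * y⁻¹) * (x : G)⁻¹ := by rw [cx_z]; group
      _ = (x : G) * (z * w⁻¹) * (x : G)⁻¹ := by rw [cy_z]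
      _ = ((x : G) * z * (x : G)⁻¹) * ((x : G) * w * (x : G)⁻¹)⁻¹ := by group
      _ = z * (w * z)⁻¹ := by rw [cx_z, cx_w]
      _ = w⁻¹ := by group
  have hnw : n * w * n⁻¹ = z := by
    calc n * w * n⁻¹ = (x : G) * y * ((x : G) * w * (x : G)⁻¹) * y⁻¹ * (x : G)⁻¹ := by
          rw [hn]; group
      _ = (x : G) * ((y * w * y⁻¹) * (y * z * y⁻¹)) * (x : G)⁻¹ := by rw [cx_w]; group
      _ = (x : G) * (w * (z * w⁻¹)) * (x : G)⁻¹ := by rw [cy_w, cy_z]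
      _ = (x : G) * (w * z * w⁻¹) * (x : G)⁻¹ := by group
      _ = z := by rw [cwz, cx_z]
  obtain ⟨t₀, ht₀⟩ : ∃ t₀ : G, t₀ = n * n := ⟨_, rfl⟩
  have ht₀z : t₀ * z * t₀⁻¹ = z⁻¹ := by
    calc t₀ * z * t₀⁻¹ = n * (n * z * n⁻¹) * n⁻¹ := by rw [ht₀]; group
      _ = (n * w * n⁻¹)⁻¹ := by rw [hnz]; group
      _ = z⁻¹ := by rw [hnw]
  have ht₀w : t₀ * w * t₀⁻¹ = w⁻¹ := by
    calc t₀ * w * t₀⁻¹ = n * (n * w * n⁻¹) * n⁻¹ := by rw [ht₀]; group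
      _ = w⁻¹ := by rw [hnw, hnz]
  have ht₀z' : t₀⁻¹ * z * t₀ = z⁻¹ := by
    have e : t₀⁻¹ * z * t₀ = (t₀⁻¹ * (t₀ * z * t₀⁻¹) * t₀)⁻¹ := by rw [ht₀z]; group
    rw [e]; group
  have ht₀w' : t₀⁻¹ * w * t₀ = w⁻¹ := by
    have e : t₀⁻¹ * w * t₀ = (t₀⁻¹ * (t₀ * w * t₀⁻¹) * t₀)⁻¹ := by rw [ht₀w]; group
    rw [e]; group
  -- the flag stabilizer
  have hPM : (P : Subgroup G) ≤ flagStab z w := by
    intro a ha
    rw [mem_flagStab]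
    exact ⟨by rw [hzc a ha, mul_inv_cancel_right], hconjP a ha w hwP⟩
  obtain ⟨P₁, hP₁⟩ : ∃ P₁ : Subgroup G, P₁ = (P : Subgroup G).map (MulAut.conj t₀).toMonoidHom :=
    ⟨_, rfl⟩
  have hP₁p : IsPGroup p ↥P₁ := by rw [hP₁]; exact P.2.map _
  have hP₁M : P₁ ≤ flagStab z w := by
    rw [hP₁]
    rintro _ ⟨a, ha, rfl⟩
    show t₀ * a * t₀⁻¹ ∈ flagStab z w
    rw [mem_flagStab]
    have haz : a * z⁻¹ * a⁻¹ = z⁻¹ := by
      have e : a * z⁻¹ * a⁻¹ = (a * z * a⁻¹)⁻¹ := by group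
      rw [e, hzc a ha, mul_inv_cancel_right]
    refine ⟨?_, ?_⟩
    · calc t₀ * a * t₀⁻¹ * z * (t₀ * a * t₀⁻¹)⁻¹
          = t₀ * (a * (t₀⁻¹ * z * t₀) * a⁻¹) * t₀⁻¹ := by group
        _ = t₀ * z⁻¹ * t₀⁻¹ := by rw [ht₀z', haz]
        _ = (t₀ * z * t₀⁻¹)⁻¹ := by group
        _ = z := by rw [ht₀z, inv_inv]
    · obtain ⟨ζ, hζ⟩ : ∃ ζ : G, ζ = w⁻¹ * (a * w * a⁻¹) := ⟨_, rfl⟩
      have hζz : ζ ∈ Subgroup.zpowers z := hζ ▸ hconjP a ha w hwP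
      have hζw : w⁻¹ * ζ * w = ζ := by
        obtain ⟨k, rfl⟩ := hζz
        have h1 : Commute w⁻¹ (z ^ k) := by
          have h2 : Commute w z := hwz
          exact (h2.inv_left).zpow_right k
        rw [h1.eq, mul_assoc, inv_mul_cancel, mul_one]
      have h3 := conj_zpowers_inv' t₀ z ht₀z ζ hζz
      have e : w⁻¹ * (t₀ * a * t₀⁻¹ * w * (t₀ * a * t₀⁻¹)⁻¹) =
          w⁻¹ * (t₀ * (a * (t₀⁻¹ * w * t₀) * a⁻¹) * t₀⁻¹) := by group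
      rw [e, ht₀w']
      have e2 : a * w⁻¹ * a⁻¹ = (w * ζ)⁻¹ := by rw [hζ]; group
      rw [e2]
      have e3 : w⁻¹ * (t₀ * (w * ζ)⁻¹ * t₀⁻¹) = w⁻¹ * ((t₀ * ζ * t₀⁻¹)⁻¹ * (t₀ * w * t₀⁻¹)⁻¹) := by
        group
      rw [e3, h3, ht₀w, inv_inv, inv_inv, ← mul_assoc, hζw]
      exact hζz
  have hidx2 : ¬ p ∣ (P : Subgroup G).relIndex (flagStab z w) := fun hd =>
    P.not_dvd_index (hd.trans (Subgroup.relIndex_dvd_index_of_le hPM))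
  obtain ⟨m, hmM, hm⟩ := Helper4.exists_conj_le_of_relIndex (flagStab z w) (P : Subgroup G) P₁
    P.2 hidx2 hP₁p hP₁M
  rw [mem_flagStab] at hmM
  obtain ⟨hmz, hmw⟩ := hmM
  obtain ⟨t₁, ht₁⟩ : ∃ t₁ : G, t₁ = m * t₀ := ⟨_, rfl⟩
  have ht₁N : t₁ ∈ Subgroup.normalizer ((P : Subgroup G) : Set G) := by
    apply mem_normalizer_of_conj_le
    rintro _ ⟨a, ha, rfl⟩
    have h1 := hm (t₀ * a * t₀⁻¹) (by rw [hP₁]; exact ⟨a, ha, rfl⟩)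
    have e : (MulAut.conj t₁).toMonoidHom a = m * (t₀ * a * t₀⁻¹) * m⁻¹ := by
      show t₁ * a * t₁⁻¹ = m * (t₀ * a * t₀⁻¹) * m⁻¹
      rw [ht₁]; group
    rw [e]; exact h1
  have ht₁z : t₁ * z * t₁⁻¹ = z⁻¹ := by
    calc t₁ * z * t₁⁻¹ = m * (t₀ * z * t₀⁻¹) * m⁻¹ := by rw [ht₁]; group
      _ = (m * z * m⁻¹)⁻¹ := by rw [ht₀z]; group
      _ = z⁻¹ := by rw [hmz]
  obtain ⟨ζ₁, hζ₁⟩ : ∃ ζ₁ : G, ζ₁ = w⁻¹ * (m * w * m⁻¹) := ⟨_, rfl⟩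
  have hζ₁z : ζ₁ ∈ Subgroup.zpowers z := hζ₁ ▸ hmw
  have hζ₁w : ζ₁⁻¹ * w⁻¹ = w⁻¹ * ζ₁⁻¹ := by
    obtain ⟨k, rfl⟩ := hζ₁z
    have h2 : Commute w z := hwz
    exact ((h2.inv_left).zpow_right k).inv_right.eq.symm
  have ht₁w : t₁ * w * t₁⁻¹ = w⁻¹ * ζ₁⁻¹ := by
    calc t₁ * w * t₁⁻¹ = m * (t₀ * w * t₀⁻¹) * m⁻¹ := by rw [ht₁]; group
      _ = (w * (w⁻¹ * (m * w * m⁻¹)))⁻¹ := by rw [ht₀w]; group
      _ = ζ₁⁻¹ * w⁻¹ := by rw [← hζ₁]; group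
      _ = w⁻¹ * ζ₁⁻¹ := hζ₁w
  -- the automorphism
  obtain ⟨τ, hτ⟩ : ∃ τ : ↥P ≃* ↥P, ∀ a : ↥P, ((τ a : ↥P) : G) = t₁ * a * t₁⁻¹ :=
    ⟨Subgroup.normalizerMonoidHom (P : Subgroup G) ⟨t₁, ht₁N⟩, fun _ => rfl⟩
  have hζ₁P : ζ₁⁻¹ ∈ (P : Subgroup G) := hzpP (Subgroup.inv_mem _ hζ₁z)
  refine D.no_inverting_aut hp τ ?_ ⟨w, hwP⟩ hw'Z ?_ ⟨ζ₁⁻¹, hζ₁P⟩
    (hmemZ _ (Subgroup.inv_mem _ hζ₁z) hζ₁P) ?_
  · intro ζ hζ
    apply Subtype.ext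
    rw [hτ]
    exact conj_zpowers_inv' t₁ z ht₁z _ (hcenter_z ζ hζ)
  · apply Subtype.ext
    rw [SubmonoidClass.coe_pow]
    exact hwp
  · apply Subtype.ext
    rw [hτ]
    exact ht₁w

end Cfsg.Agent.Helper5
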