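import Mathlib

set_option autoImplicit false

namespace Cfsg.Agent.Helper5

/-- A ternary quadratic form over a finite field has a nontrivial zero (Chevalley-Warning). -/
theorem qf_cw3 {F : Type*} [Field F] [Finite F] (a₀ a₁ a₂ b₀₁ b₀₂ b₁₂ : F) :
    ∃ x y z : F, ¬ (x = 0 ∧ y = 0 ∧ z = 0) ∧
      a₀ * x ^ 2 + a₁ * y ^ 2 + a₂ * z ^ 2 + b₀₁ * x * y + b₀₂ * x * z + b₁₂ * y * z = 0 := by
  classical
  haveI : Fintype F := Fintype.ofFinite F
  obtain ⟨p, hp⟩ := CharP.exists F
  haveI := hp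
  have hpp : p.Prime := CharP.char_is_prime F p
  obtain ⟨f, hf⟩ : ∃ f : MvPolynomial (Fin 3) F, f =
      MvPolynomial.C a₀ * MvPolynomial.X 0 ^ 2 + MvPolynomial.C a₁ * MvPolynomial.X 1 ^ 2
        + MvPolynomial.C a₂ * MvPolynomial.X 2 ^ 2
        + MvPolynomial.C b₀₁ * MvPolynomial.X 0 * MvPolynomial.X 1
        + MvPolynomial.C b₀₂ * MvPolynomial.X 0 * MvPolynomial.X 2
        + MvPolynomial.C b₁₂ * MvPolynomial.X 1 * MvPolynomial.X 2 := ⟨_, rfl⟩
  have h1 : ∀ (c : F) (i : Fin 3),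
      (MvPolynomial.C c * MvPolynomial.X i ^ 2 : MvPolynomial (Fin 3) F).totalDegree ≤ 2 := by
    intro c i
    refine (MvPolynomial.totalDegree_mul _ _).trans ?_
    rw [MvPolynomial.totalDegree_C, MvPolynomial.totalDegree_X_pow, zero_add]
  have h2 : ∀ (c : F) (i j : Fin 3),
      (MvPolynomial.C c * MvPolynomial.X i * MvPolynomial.X j :
        MvPolynomial (Fin 3) F).totalDegree ≤ 2 := by
    intro c i j
    refine (MvPolynomial.totalDegree_mul _ _).trans ?_
    have h3 : (MvPolynomial.C c * MvPolynomial.X i : MvPolynomial (Fin 3) F).totalDegree ≤ 1 := by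
      refine (MvPolynomial.totalDegree_mul _ _).trans ?_
      rw [MvPolynomial.totalDegree_C, MvPolynomial.totalDegree_X, zero_add]
    have h4 : (MvPolynomial.X j : MvPolynomial (Fin 3) F).totalDegree = 1 :=
      MvPolynomial.totalDegree_X j
    omega
  have hdeg2 : f.totalDegree ≤ 2 := by
    rw [hf]
    refine (MvPolynomial.totalDegree_add _ _).trans (max_le ?_ (h2 _ _ _))
    refine (MvPolynomial.totalDegree_add _ _).trans (max_le ?_ (h2 _ _ _))
    refine (MvPolynomial.totalDegree_add _ _).trans (max_le ?_ (h2 _ _ _))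
    refine (MvPolynomial.totalDegree_add _ _).trans (max_le ?_ (h1 _ _))
    exact (MvPolynomial.totalDegree_add _ _).trans (max_le (h1 _ _) (h1 _ _))
  have hdeg : f.totalDegree < Fintype.card (Fin 3) := by
    rw [Fintype.card_fin]; omega
  have hdvd := char_dvd_card_solutions p hdeg
  have h0 : MvPolynomial.eval (0 : Fin 3 → F) f = 0 := by
    rw [hf]; simp
  rw [← Nat.card_eq_fintype_card] at hdvd
  haveI : Nonempty {x : Fin 3 → F // MvPolynomial.eval x f = 0} := ⟨⟨0, h0⟩⟩
  have hpos : 0 < Nat.card {x : Fin 3 → F // MvPolynomial.eval x f = 0} := Nat.card_pos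
  have hcard : 1 < Nat.card {x : Fin 3 → F // MvPolynomial.eval x f = 0} :=
    lt_of_lt_of_le hpp.one_lt (Nat.le_of_dvd hpos hdvd)
  haveI : Nontrivial {x : Fin 3 → F // MvPolynomial.eval x f = 0} :=
    Finite.one_lt_card_iff_nontrivial.mp hcard
  obtain ⟨⟨v, hv⟩, hne⟩ := exists_ne (⟨0, h0⟩ : {x : Fin 3 → F // MvPolynomial.eval x f = 0})
  refine ⟨v 0, v 1, v 2, ?_, ?_⟩
  · rintro ⟨h0', h1', h2'⟩
    apply hne
    apply Subtype.ext
    funext i
    fin_cases i
    · exact h0'
    · exact h1'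
    · exact h2'
  · rw [hf] at hv
    simpa using hv

/-- A nonzero vector orthogonal (for the polar form) to a short list of vectors. -/
theorem qf_exists_ker {F V : Type*} [Field F] [AddCommGroup V] [Module F V]
    [FiniteDimensional F V] (Q : QuadraticForm F V) (l : List V)
    (hl : l.length < Module.finrank F V) :
    ∃ u : V, u ≠ 0 ∧ ∀ c ∈ l, QuadraticMap.polar ⇑Q c u = 0 := by
  obtain ⟨u, hu, hu0⟩ : ∃ u ∈ LinearMap.ker
      (LinearMap.pi (fun i : Fin l.length => QuadraticMap.polarBilin Q (l.get i))), u ≠ 0 := by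
    rw [← Submodule.ne_bot_iff]
    apply LinearMap.ker_ne_bot_of_finrank_lt
    rw [Module.finrank_fin_fun]
    exact hl
  refine ⟨u, hu0, ?_⟩
  intro c hc
  obtain ⟨i, rfl⟩ := List.get_of_mem hc
  have := congrFun (LinearMap.mem_ker.mp hu) i
  simpa [LinearMap.pi_apply] using this

section
variable {F V : Type*} [Field F] [AddCommGroup V] [Module F V]

/-- `k` hyperbolic pairs `e i, f i` (`i < k`). -/
def qfHyp (Q : QuadraticForm F V) (k : ℕ) (e f : ℕ → V) : Prop :=
  ∀ i < k, Q (e i) = 0 ∧ Q (f i) = 0 ∧ ∀ j < k,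
    QuadraticMap.polar ⇑Q (e i) (f j) = (if i = j then 1 else 0) ∧
    QuadraticMap.polar ⇑Q (e i) (e j) = 0 ∧ QuadraticMap.polar ⇑Q (f i) (f j) = 0

/-- `u` is orthogonal to all `e i, f i` (`i < k`). -/
def qfPerp (Q : QuadraticForm F V) (k : ℕ) (e f : ℕ → V) (u : V) : Prop :=
  ∀ i < k, QuadraticMap.polar ⇑Q (e i) u = 0 ∧ QuadraticMap.polar ⇑Q (f i) u = 0

theorem qf_add (Q : QuadraticForm F V) (x y : V) :
    Q (x + y) = Q x + Q y + QuadraticMap.polar ⇑Q x y := by
  rw [QuadraticMap.polar]; ring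

theorem qf_smul (Q : QuadraticForm F V) (a : F) (x : V) : Q (a • x) = a * a * Q x := by
  rw [QuadraticMap.map_smul, smul_eq_mul]

theorem qf_polar_self (Q : QuadraticForm F V) (x : V) :
    QuadraticMap.polar ⇑Q x x = 2 * Q x := by
  rw [QuadraticMap.polar_self]; simp

theorem qf_exists_perp [FiniteDimensional F V] (Q : QuadraticForm F V) (k : ℕ) (e f : ℕ → V)
    (extra : List V) (h : extra.length + 2 * k < Module.finrank F V) :
    ∃ u : V, u ≠ 0 ∧ qfPerp Q k e f u ∧ ∀ c ∈ extra, QuadraticMap.polar ⇑Q c u = 0 := by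
  obtain ⟨u, hu0, hu⟩ := qf_exists_ker Q
    (extra ++ ((List.range k).map e ++ (List.range k).map f))
    (by simp only [List.length_append, List.length_map, List.length_range]; omega)
  refine ⟨u, hu0, ?_, ?_⟩
  · intro i hi
    constructor
    · apply hu
      simp only [List.mem_append, List.mem_map, List.mem_range]
      exact Or.inr (Or.inl ⟨i, hi, rfl⟩)
    · apply hu
      simp only [List.mem_append, List.mem_map, List.mem_range]
      exact Or.inr (Or.inr ⟨i, hi, rfl⟩)
  · intro c hc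
    exact hu c (List.mem_append_left _ hc)

theorem qf_exists_pair (Q : QuadraticForm F V) (hQ : (QuadraticMap.polarBilin Q).Nondegenerate)
    (u : V) (hu : u ≠ 0) : ∃ w : V, QuadraticMap.polar ⇑Q w u ≠ 0 := by
  by_contra hcon
  push Not at hcon
  apply hu
  apply hQ.1 u
  intro y
  rw [QuadraticMap.polarBilin_apply_apply, QuadraticMap.polar_comm]
  exact hcon y

theorem qf_sing [Finite F] [FiniteDimensional F V] (Q : QuadraticForm F V)
    (hQ : (QuadraticMap.polarBilin Q).Nondegenerate) (k : ℕ) (e f : ℕ → V)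
    (h : 2 * k + 3 ≤ Module.finrank F V) :
    ∃ e₀ : V, e₀ ≠ 0 ∧ Q e₀ = 0 ∧ qfPerp Q k e f e₀ := by
  obtain ⟨u1, hu1, hp1, -⟩ := qf_exists_perp Q k e f []
    (by simp only [List.length_nil]; omega)
  obtain ⟨w1, hw1⟩ := qf_exists_pair Q hQ u1 hu1
  obtain ⟨u2, hu2, hp2, hx2⟩ := qf_exists_perp Q k e f [w1]
    (by simp only [List.length_cons, List.length_nil]; omega)
  obtain ⟨w2, hw2⟩ := qf_exists_pair Q hQ u2 hu2
  obtain ⟨u3, hu3, hp3, hx3⟩ := qf_exists_perp Q k e f [w2, w1]
    (by simp only [List.length_cons, List.length_nil]; omega)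
  have h12 : QuadraticMap.polar ⇑Q w1 u2 = 0 := hx2 w1 (by simp)
  have h13 : QuadraticMap.polar ⇑Q w1 u3 = 0 := hx3 w1 (by simp)
  have h23 : QuadraticMap.polar ⇑Q w2 u3 = 0 := hx3 w2 (by simp)
  obtain ⟨x, y, z, hne, heq⟩ := qf_cw3 (Q u1) (Q u2) (Q u3) (QuadraticMap.polar ⇑Q u1 u2)
    (QuadraticMap.polar ⇑Q u1 u3) (QuadraticMap.polar ⇑Q u2 u3)
  refine ⟨x • u1 + y • u2 + z • u3, ?_, ?_, ?_⟩
  · intro h0
    have e1 : QuadraticMap.polar ⇑Q w1 (x • u1 + y • u2 + z • u3)
        = x * QuadraticMap.polar ⇑Q w1 u1 := by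
      simp only [QuadraticMap.polar_add_right, QuadraticMap.polar_smul_right, h12, h13,
        smul_eq_mul, mul_zero, add_zero]
    rw [h0, QuadraticMap.polar_zero_right] at e1
    have hx : x = 0 := by
      rcases mul_eq_zero.mp e1.symm with h | h
      · exact h
      · exact absurd h hw1
    have e2 : QuadraticMap.polar ⇑Q w2 (x • u1 + y • u2 + z • u3)
        = x * QuadraticMap.polar ⇑Q w2 u1 + y * QuadraticMap.polar ⇑Q w2 u2 := by
      simp only [QuadraticMap.polar_add_right, QuadraticMap.polar_smul_right, h23,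
        smul_eq_mul, mul_zero, add_zero]
    rw [h0, QuadraticMap.polar_zero_right, hx, zero_mul, zero_add] at e2
    have hy : y = 0 := by
      rcases mul_eq_zero.mp e2.symm with h | h
      · exact h
      · exact absurd h hw2
    rw [hx, hy, zero_smul, zero_smul, zero_add, zero_add] at h0
    have hz : z = 0 := by
      rcases smul_eq_zero.mp h0 with h | h
      · exact h
      · exact absurd h hu3
    exact hne ⟨hx, hy, hz⟩
  · rw [qf_add, qf_add, qf_smul, qf_smul, qf_smul]
    simp only [QuadraticMap.polar_add_left, QuadraticMap.polar_smul_left,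
      QuadraticMap.polar_smul_right, smul_eq_mul]
    linear_combination heq
  · intro i hi
    obtain ⟨a1, b1⟩ := hp1 i hi
    obtain ⟨a2, b2⟩ := hp2 i hi
    obtain ⟨a3, b3⟩ := hp3 i hi
    constructor
    · simp only [QuadraticMap.polar_add_right, QuadraticMap.polar_smul_right, a1, a2, a3,
        smul_zero, add_zero]
    · simp only [QuadraticMap.polar_add_right, QuadraticMap.polar_smul_right, b1, b2, b3,
        smul_zero, add_zero]

theorem qf_proj (Q : QuadraticForm F V) (k : ℕ) (e f : ℕ → V) (hH : qfHyp Q k e f) (z : V) :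
    ∃ z' : V, qfPerp Q k e f z' ∧
      ∀ u : V, qfPerp Q k e f u → QuadraticMap.polar ⇑Q u z' = QuadraticMap.polar ⇑Q u z := by
  classical
  have hS : ∀ v : V, QuadraticMap.polar ⇑Q v (Finset.sum (Finset.range k)
      (fun i => QuadraticMap.polar ⇑Q (f i) z • e i + QuadraticMap.polar ⇑Q (e i) z • f i))
      = Finset.sum (Finset.range k) (fun i =>
        QuadraticMap.polar ⇑Q (f i) z * QuadraticMap.polar ⇑Q v (e i)
          + QuadraticMap.polar ⇑Q (e i) z * QuadraticMap.polar ⇑Q v (f i)) := by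
    intro v
    have := map_sum (QuadraticMap.polarBilin Q v)
      (fun i => QuadraticMap.polar ⇑Q (f i) z • e i + QuadraticMap.polar ⇑Q (e i) z • f i)
      (Finset.range k)
    simp only [QuadraticMap.polarBilin_apply_apply] at this
    rw [this]
    apply Finset.sum_congr rfl
    intro i _
    simp only [QuadraticMap.polar_add_right, QuadraticMap.polar_smul_right, smul_eq_mul]
  refine ⟨z - Finset.sum (Finset.range k)
      (fun i => QuadraticMap.polar ⇑Q (f i) z • e i + QuadraticMap.polar ⇑Q (e i) z • f i),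
    ?_, ?_⟩
  · intro j hj
    obtain ⟨-, -, hj'⟩ := hH j hj
    constructor
    · rw [QuadraticMap.polar_sub_right, hS, Finset.sum_eq_single j]
      · rw [(hj' j hj).2.1, (hj' j hj).1, if_pos rfl, mul_zero, zero_add, mul_one, sub_self]
      · intro i hi hij
        have hi' := Finset.mem_range.mp hi
        rw [(hj' i hi').2.1, (hj' i hi').1, if_neg (Ne.symm hij), mul_zero, mul_zero, add_zero]
      · intro h; exact absurd (Finset.mem_range.mpr hj) h
    · rw [QuadraticMap.polar_sub_right, hS, Finset.sum_eq_single j]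
      · rw [QuadraticMap.polar_comm (⇑Q) (f j) (e j), (hj' j hj).1, if_pos rfl,
          (hj' j hj).2.2, mul_one, mul_zero, add_zero, sub_self]
      · intro i hi hij
        have hi' := Finset.mem_range.mp hi
        rw [QuadraticMap.polar_comm (⇑Q) (f j) (e i), ((hH i hi').2.2 j hj).1, if_neg hij,
          (hj' i hi').2.2, mul_zero, mul_zero, add_zero]
      · intro h; exact absurd (Finset.mem_range.mpr hj) h
  · intro u hu
    rw [QuadraticMap.polar_sub_right, hS, Finset.sum_eq_zero, sub_zero]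
    intro i hi
    obtain ⟨a, b⟩ := hu i (Finset.mem_range.mp hi)
    rw [QuadraticMap.polar_comm (⇑Q) u (e i), a, QuadraticMap.polar_comm (⇑Q) u (f i), b,
      mul_zero, mul_zero, add_zero]

theorem qf_nd (Q : QuadraticForm F V) (hQ : (QuadraticMap.polarBilin Q).Nondegenerate)
    (k : ℕ) (e f : ℕ → V) (hH : qfHyp Q k e f) (u : V) (hu : u ≠ 0) (hp : qfPerp Q k e f u) :
    ∃ z : V, qfPerp Q k e f z ∧ QuadraticMap.polar ⇑Q u z = 1 := by
  obtain ⟨z₀, hz₀⟩ := qf_exists_pair Q hQ u hu
  obtain ⟨z', hz'p, hz'⟩ := qf_proj Q k e f hH z₀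
  have hne : QuadraticMap.polar ⇑Q u z' ≠ 0 := by
    rw [hz' u hp, QuadraticMap.polar_comm]; exact hz₀
  refine ⟨(QuadraticMap.polar ⇑Q u z')⁻¹ • z', ?_, ?_⟩
  · intro i hi
    obtain ⟨a, b⟩ := hz'p i hi
    simp only [QuadraticMap.polar_smul_right, a, b, smul_zero, and_self]
  · rw [QuadraticMap.polar_smul_right, smul_eq_mul, inv_mul_cancel₀ hne]

theorem qf_ext (Q : QuadraticForm F V) (hQ : (QuadraticMap.polarBilin Q).Nondegenerate)
    (k : ℕ) (e f : ℕ → V) (hH : qfHyp Q k e f) (e₀ : V) (he0 : e₀ ≠ 0) (hQe : Q e₀ = 0)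
    (hp : qfPerp Q k e f e₀) :
    ∃ f₀ : V, qfHyp Q (k + 1) (Function.update e k e₀) (Function.update f k f₀) := by
  obtain ⟨z, hzp, hz⟩ := qf_nd Q hQ k e f hH e₀ he0 hp
  have hee : QuadraticMap.polar ⇑Q e₀ e₀ = 0 := by rw [qf_polar_self, hQe, mul_zero]
  obtain ⟨f₀, hf₀⟩ : ∃ f₀, f₀ = z - Q z • e₀ := ⟨_, rfl⟩
  have hQf : Q f₀ = 0 := by
    rw [hf₀, sub_eq_add_neg, ← neg_smul, qf_add, qf_smul, hQe, QuadraticMap.polar_smul_right,
      QuadraticMap.polar_comm (⇑Q) z e₀, hz, smul_eq_mul]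
    ring
  have hef : QuadraticMap.polar ⇑Q e₀ f₀ = 1 := by
    rw [hf₀, QuadraticMap.polar_sub_right, QuadraticMap.polar_smul_right, hee, hz, smul_zero,
      sub_zero]
  have hfp : qfPerp Q k e f f₀ := by
    intro i hi
    obtain ⟨a, b⟩ := hzp i hi
    obtain ⟨c, d⟩ := hp i hi
    rw [hf₀]
    simp only [QuadraticMap.polar_sub_right, QuadraticMap.polar_smul_right, a, b, c, d,
      smul_zero, sub_zero, and_self]
  have hff : QuadraticMap.polar ⇑Q f₀ f₀ = 0 := by rw [qf_polar_self, hQf, mul_zero]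
  refine ⟨f₀, ?_⟩
  intro i hi
  rcases Nat.lt_succ_iff_lt_or_eq.mp hi with hi' | hik
  · rw [Function.update_of_ne (ne_of_lt hi'), Function.update_of_ne (ne_of_lt hi')]
    obtain ⟨q1, q2, q3⟩ := hH i hi'
    refine ⟨q1, q2, ?_⟩
    intro j hj
    rcases Nat.lt_succ_iff_lt_or_eq.mp hj with hj' | hjk
    · rw [Function.update_of_ne (ne_of_lt hj'), Function.update_of_ne (ne_of_lt hj')]
      exact q3 j hj'
    · rw [hjk, Function.update_self, Function.update_self, if_neg (ne_of_lt hi')]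
      exact ⟨(hfp i hi').1, (hp i hi').1, (hfp i hi').2⟩
  · rw [hik, Function.update_self, Function.update_self]
    refine ⟨hQe, hQf, ?_⟩
    intro j hj
    rcases Nat.lt_succ_iff_lt_or_eq.mp hj with hj' | hjk
    · rw [Function.update_of_ne (ne_of_lt hj'), Function.update_of_ne (ne_of_lt hj'),
        if_neg (ne_of_gt hj')]
      refine ⟨?_, ?_, ?_⟩
      · rw [QuadraticMap.polar_comm]; exact (hp j hj').2
      · rw [QuadraticMap.polar_comm]; exact (hp j hj').1
      · rw [QuadraticMap.polar_comm]; exact (hfp j hj').2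
    · rw [hjk, Function.update_self, Function.update_self, if_pos rfl]
      exact ⟨hef, hee, hff⟩

theorem qf_hyp_exists [Finite F] [FiniteDimensional F V] (Q : QuadraticForm F V)
    (hQ : (QuadraticMap.polarBilin Q).Nondegenerate) :
    ∀ k : ℕ, 2 * k + 1 ≤ Module.finrank F V → ∃ e f : ℕ → V, qfHyp Q k e f := by
  intro k
  induction k with
  | zero =>
    intro _
    exact ⟨fun _ => 0, fun _ => 0, fun i hi => absurd hi (Nat.not_lt_zero _)⟩
  | succ k ih =>
    intro h
    obtain ⟨e, f, hH⟩ := ih (by omega)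
    obtain ⟨e₀, he0, hQe, hp⟩ := qf_sing Q hQ k e f (by omega)
    obtain ⟨f₀, hf₀⟩ := qf_ext Q hQ k e f hH e₀ he0 hQe hp
    exact ⟨_, _, hf₀⟩

theorem qf_pair (Q : QuadraticForm F V) (k : ℕ) (e f : ℕ → V) (hH : qfHyp Q k e f)
    (a b : Fin k → F) (j : Fin k) :
    QuadraticMap.polar ⇑Q (f j) (∑ i, a i • e i + ∑ i, b i • f i) = a j ∧
    QuadraticMap.polar ⇑Q (e j) (∑ i, a i • e i + ∑ i, b i • f i) = b j := by
  classical
  have hsum : ∀ (v : V) (w : Fin k → V),
      QuadraticMap.polar ⇑Q v (∑ i, w i) = ∑ i, QuadraticMap.polar ⇑Q v (w i) := by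
    intro v w
    have := map_sum (QuadraticMap.polarBilin Q v) w Finset.univ
    simp only [QuadraticMap.polarBilin_apply_apply] at this
    exact this
  constructor
  · have h1 : ∑ i, QuadraticMap.polar ⇑Q (f j) (a i • e i) = a j := by
      rw [Finset.sum_eq_single j]
      · rw [QuadraticMap.polar_smul_right, QuadraticMap.polar_comm, ((hH j j.2).2.2 j j.2).1,
          if_pos rfl, smul_eq_mul, mul_one]
      · intro i _ hij
        rw [QuadraticMap.polar_smul_right, QuadraticMap.polar_comm, ((hH i i.2).2.2 j j.2).1,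
          if_neg (fun h => hij (Fin.ext h)), smul_zero]
      · intro h; exact absurd (Finset.mem_univ j) h
    have h2 : ∑ i, QuadraticMap.polar ⇑Q (f j) (b i • f i) = 0 :=
      Finset.sum_eq_zero (fun i _ => by
        rw [QuadraticMap.polar_smul_right, ((hH j j.2).2.2 i i.2).2.2, smul_zero])
    rw [QuadraticMap.polar_add_right, hsum, hsum, h1, h2, add_zero]
  · have h1 : ∑ i, QuadraticMap.polar ⇑Q (e j) (a i • e i) = 0 :=
      Finset.sum_eq_zero (fun i _ => by
        rw [QuadraticMap.polar_smul_right, ((hH j j.2).2.2 i i.2).2.1, smul_zero])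
    have h2 : ∑ i, QuadraticMap.polar ⇑Q (e j) (b i • f i) = b j := by
      rw [Finset.sum_eq_single j]
      · rw [QuadraticMap.polar_smul_right, ((hH j j.2).2.2 j j.2).1,
          if_pos rfl, smul_eq_mul, mul_one]
      · intro i _ hij
        rw [QuadraticMap.polar_smul_right, ((hH j j.2).2.2 i i.2).1,
          if_neg (fun h => hij (Fin.ext h.symm)), smul_zero]
      · intro h; exact absurd (Finset.mem_univ j) h
    rw [QuadraticMap.polar_add_right, hsum, hsum, h1, h2, zero_add]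

end

end Cfsg.Agent.Helper5
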