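import Mathlib
import Cfsg.Prelude.Def_Classical
import Cfsg.Agent.Helper5.QFStd

set_option autoImplicit false

namespace Cfsg.Agent.Helper5

section
variable {F V : Type*} [Field F] [AddCommGroup V] [Module F V]

theorem qf_polar_sum_right {ι : Type*} (Q : QuadraticForm F V) (x : V) (s : Finset ι)
    (g : ι → V) :
    QuadraticMap.polar ⇑Q x (∑ i ∈ s, g i) = ∑ i ∈ s, QuadraticMap.polar ⇑Q x (g i) := by
  have := map_sum (QuadraticMap.polarBilin Q x) g s
  simp only [QuadraticMap.polarBilin_apply_apply] at this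
  exact this

theorem qf_polar_sum_left {ι : Type*} (Q : QuadraticForm F V) (y : V) (s : Finset ι)
    (g : ι → V) :
    QuadraticMap.polar ⇑Q (∑ i ∈ s, g i) y = ∑ i ∈ s, QuadraticMap.polar ⇑Q (g i) y := by
  rw [QuadraticMap.polar_comm, qf_polar_sum_right]
  exact Finset.sum_congr rfl (fun i _ => QuadraticMap.polar_comm _ _ _)

theorem qf_ts_sum {ι : Type*} [DecidableEq ι] (Q : QuadraticForm F V) (w : ι → V)
    (hw : ∀ i, Q (w i) = 0) (hww : ∀ i j, QuadraticMap.polar ⇑Q (w i) (w j) = 0)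
    (s : Finset ι) (c : ι → F) : Q (∑ i ∈ s, c i • w i) = 0 := by
  induction s using Finset.induction_on with
  | empty => simp
  | insert i s hi ih =>
    have h0 : ∑ j ∈ s, QuadraticMap.polar ⇑Q (w i) (c j • w j) = 0 :=
      Finset.sum_eq_zero (fun j _ => by rw [QuadraticMap.polar_smul_right, hww, smul_zero])
    rw [Finset.sum_insert hi, qf_add, qf_smul, hw, ih, QuadraticMap.polar_smul_left,
      qf_polar_sum_right, h0]
    simp

theorem qf_hyp_eval {ι : Type*} [Fintype ι] [DecidableEq ι] (Q : QuadraticForm F V)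
    (e f : ι → V) (h1 : ∀ i, Q (e i) = 0 ∧ Q (f i) = 0)
    (h2 : ∀ i j, QuadraticMap.polar ⇑Q (e i) (f j) = if i = j then 1 else 0)
    (h3 : ∀ i j, QuadraticMap.polar ⇑Q (e i) (e j) = 0 ∧ QuadraticMap.polar ⇑Q (f i) (f j) = 0)
    (x y : ι → F) :
    Q (∑ i, x i • e i + ∑ i, y i • f i) = ∑ i, x i * y i := by
  rw [qf_add, qf_ts_sum Q e (fun i => (h1 i).1) (fun i j => (h3 i j).1),
    qf_ts_sum Q f (fun i => (h1 i).2) (fun i j => (h3 i j).2), zero_add, zero_add,
    qf_polar_sum_left]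
  apply Finset.sum_congr rfl
  intro i _
  rw [QuadraticMap.polar_smul_left, qf_polar_sum_right, smul_eq_mul, Finset.sum_eq_single i]
  · rw [QuadraticMap.polar_smul_right, h2, if_pos rfl, smul_eq_mul, mul_one]
  · intro j _ hji
    rw [QuadraticMap.polar_smul_right, h2, if_neg (Ne.symm hji), smul_zero]
  · intro h; exact absurd (Finset.mem_univ i) h

/-- In a hyperbolic basis the form is the standard plus form of the coordinates. -/
theorem qf_cl_plus {m : ℕ} (Q : QuadraticForm F V) (b : Module.Basis (Fin m ⊕ Fin m) F V)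
    (P1 : ∀ i, Q (b (Sum.inl i)) = 0 ∧ Q (b (Sum.inr i)) = 0)
    (P2 : ∀ i j, QuadraticMap.polar ⇑Q (b (Sum.inl i)) (b (Sum.inr j)) = if i = j then 1 else 0)
    (P3 : ∀ i j, QuadraticMap.polar ⇑Q (b (Sum.inl i)) (b (Sum.inl j)) = 0 ∧
      QuadraticMap.polar ⇑Q (b (Sum.inr i)) (b (Sum.inr j)) = 0) :
    ∀ v, Q v = Cfsg.quadFormPlus m F (b.equivFun v) := by
  classical
  intro v
  have hv := b.sum_repr v
  rw [Fintype.sum_sum_type] at hv
  calc Q v = Q (∑ i, b.repr v (Sum.inl i) • b (Sum.inl i)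
        + ∑ i, b.repr v (Sum.inr i) • b (Sum.inr i)) := by rw [hv]
    _ = ∑ i, b.repr v (Sum.inl i) * b.repr v (Sum.inr i) :=
        qf_hyp_eval Q (fun i => b (Sum.inl i)) (fun i => b (Sum.inr i)) P1 P2 P3 _ _
    _ = Cfsg.quadFormPlus m F (b.equivFun v) := by
        unfold Cfsg.quadFormPlus
        simp [Module.Basis.equivFun_apply]

/-- In an elliptic basis the form is the standard minus form of the coordinates. -/
theorem qf_cl_minus {k : ℕ} (Q : QuadraticForm F V)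
    (b : Module.Basis ((Fin k ⊕ Fin k) ⊕ Fin 2) F V) (ζ : F)
    (P1 : ∀ i, Q (b (Sum.inl (Sum.inl i))) = 0 ∧ Q (b (Sum.inl (Sum.inr i))) = 0)
    (P2 : ∀ i j, QuadraticMap.polar ⇑Q (b (Sum.inl (Sum.inl i))) (b (Sum.inl (Sum.inr j)))
      = if i = j then 1 else 0)
    (P3 : ∀ i j, QuadraticMap.polar ⇑Q (b (Sum.inl (Sum.inl i))) (b (Sum.inl (Sum.inl j))) = 0 ∧
      QuadraticMap.polar ⇑Q (b (Sum.inl (Sum.inr i))) (b (Sum.inl (Sum.inr j))) = 0)
    (P4 : ∀ i (l : Fin 2), QuadraticMap.polar ⇑Q (b (Sum.inl (Sum.inl i))) (b (Sum.inr l)) = 0 ∧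
      QuadraticMap.polar ⇑Q (b (Sum.inl (Sum.inr i))) (b (Sum.inr l)) = 0)
    (P5 : Q (b (Sum.inr 0)) = 1)
    (P6 : QuadraticMap.polar ⇑Q (b (Sum.inr 0)) (b (Sum.inr 1)) = 1)
    (P7 : Q (b (Sum.inr 1)) = ζ) :
    ∀ v, Q v = Cfsg.quadFormMinus k F 1 ζ (b.equivFun v) := by
  classical
  intro v
  have hv := b.sum_repr v
  rw [Fintype.sum_sum_type, Fintype.sum_sum_type, Fin.sum_univ_two] at hv
  have hA : ∑ i, QuadraticMap.polar ⇑Q (b.repr v (Sum.inl (Sum.inl i)) • b (Sum.inl (Sum.inl i)))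
      (b.repr v (Sum.inr 0) • b (Sum.inr 0) + b.repr v (Sum.inr 1) • b (Sum.inr 1)) = 0 :=
    Finset.sum_eq_zero (fun i _ => by
      rw [QuadraticMap.polar_smul_left, QuadraticMap.polar_add_right,
        QuadraticMap.polar_smul_right, QuadraticMap.polar_smul_right, (P4 i 0).1, (P4 i 1).1]
      simp)
  have hB : ∑ i, QuadraticMap.polar ⇑Q (b.repr v (Sum.inl (Sum.inr i)) • b (Sum.inl (Sum.inr i)))
      (b.repr v (Sum.inr 0) • b (Sum.inr 0) + b.repr v (Sum.inr 1) • b (Sum.inr 1)) = 0 :=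
    Finset.sum_eq_zero (fun i _ => by
      rw [QuadraticMap.polar_smul_left, QuadraticMap.polar_add_right,
        QuadraticMap.polar_smul_right, QuadraticMap.polar_smul_right, (P4 i 0).2, (P4 i 1).2]
      simp)
  calc Q v = Q ((∑ i, b.repr v (Sum.inl (Sum.inl i)) • b (Sum.inl (Sum.inl i))
        + ∑ i, b.repr v (Sum.inl (Sum.inr i)) • b (Sum.inl (Sum.inr i)))
        + (b.repr v (Sum.inr 0) • b (Sum.inr 0) + b.repr v (Sum.inr 1) • b (Sum.inr 1))) := by
          rw [hv]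
    _ = (∑ i, b.repr v (Sum.inl (Sum.inl i)) * b.repr v (Sum.inl (Sum.inr i)))
        + (b.repr v (Sum.inr 0) ^ 2 + 1 * b.repr v (Sum.inr 0) * b.repr v (Sum.inr 1)
          + ζ * b.repr v (Sum.inr 1) ^ 2) := by
        rw [qf_add, QuadraticMap.polar_add_left, qf_polar_sum_left, qf_polar_sum_left, hA, hB,
          qf_hyp_eval Q (fun i => b (Sum.inl (Sum.inl i))) (fun i => b (Sum.inl (Sum.inr i)))
            P1 P2 P3,
          qf_add, qf_smul, qf_smul, P5, P7, QuadraticMap.polar_smul_left,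
          QuadraticMap.polar_smul_right, P6]
        simp only [smul_eq_mul]
        ring
    _ = Cfsg.quadFormMinus k F 1 ζ (b.equivFun v) := by
        unfold Cfsg.quadFormMinus
        simp [Module.Basis.equivFun_apply]

/-- A hyperbolic system of full size gives a hyperbolic basis. -/
theorem qf_basis_of_hyp [FiniteDimensional F V] {m : ℕ} (hm : 1 ≤ m)
    (hV : Module.finrank F V = 2 * m) (Q : QuadraticForm F V) (e f : ℕ → V)
    (hH : qfHyp Q m e f) :
    ∃ b : Module.Basis (Fin m ⊕ Fin m) F V,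
      (∀ i, Q (b (Sum.inl i)) = 0 ∧ Q (b (Sum.inr i)) = 0) ∧
      (∀ i j, QuadraticMap.polar ⇑Q (b (Sum.inl i)) (b (Sum.inr j)) = if i = j then 1 else 0) ∧
      (∀ i j, QuadraticMap.polar ⇑Q (b (Sum.inl i)) (b (Sum.inl j)) = 0 ∧
        QuadraticMap.polar ⇑Q (b (Sum.inr i)) (b (Sum.inr j)) = 0) := by
  classical
  obtain ⟨v, hv⟩ : ∃ v : Fin m ⊕ Fin m → V,
      v = Sum.elim (fun i : Fin m => e i) (fun i : Fin m => f i) := ⟨_, rfl⟩
  have hli : LinearIndependent F v := by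
    rw [Fintype.linearIndependent_iff]
    intro g hg
    rw [hv] at hg
    simp only [Fintype.sum_sum_type, Sum.elim_inl, Sum.elim_inr] at hg
    rintro (j | j)
    · have h1 := congrArg (QuadraticMap.polar ⇑Q (f j)) hg
      rw [(qf_pair Q m e f hH _ _ j).1, QuadraticMap.polar_zero_right] at h1
      exact h1
    · have h1 := congrArg (QuadraticMap.polar ⇑Q (e j)) hg
      rw [(qf_pair Q m e f hH _ _ j).2, QuadraticMap.polar_zero_right] at h1
      exact h1
  haveI : Nonempty (Fin m ⊕ Fin m) := ⟨Sum.inl ⟨0, hm⟩⟩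
  obtain ⟨b, hb⟩ : ∃ b : Module.Basis (Fin m ⊕ Fin m) F V, ⇑b = v :=
    ⟨basisOfLinearIndependentOfCardEqFinrank hli
      (by simp only [Fintype.card_sum, Fintype.card_fin, hV]; omega),
      coe_basisOfLinearIndependentOfCardEqFinrank _ _⟩
  refine ⟨b, ?_, ?_, ?_⟩
  · intro i
    rw [hb, hv]
    simp only [Sum.elim_inl, Sum.elim_inr]
    exact ⟨(hH i i.2).1, (hH i i.2).2.1⟩
  · intro i j
    rw [hb, hv]
    simp only [Sum.elim_inl, Sum.elim_inr]
    rw [((hH i i.2).2.2 j j.2).1]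
    simp [Fin.ext_iff]
  · intro i j
    rw [hb, hv]
    simp only [Sum.elim_inl, Sum.elim_inr]
    exact ⟨((hH i i.2).2.2 j j.2).2.1, ((hH i i.2).2.2 j j.2).2.2⟩

/-- A totally singular subspace contains the `e`-part of a hyperbolic system of its dimension. -/
theorem qf_ts_hyp [FiniteDimensional F V] (Q : QuadraticForm F V)
    (hQ : (QuadraticMap.polarBilin Q).Nondegenerate) (U : Submodule F V)
    (hU : ∀ u ∈ U, Q u = 0) :
    ∀ k : ℕ, k ≤ Module.finrank F U → ∃ e f : ℕ → V, qfHyp Q k e f ∧ ∀ i < k, e i ∈ U := by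
  have hUU : ∀ u ∈ U, ∀ u' ∈ U, QuadraticMap.polar ⇑Q u u' = 0 := by
    intro u hu u' hu'
    rw [QuadraticMap.polar, hU _ (U.add_mem hu hu'), hU u hu, hU u' hu']
    simp
  intro k
  induction k with
  | zero =>
    intro _
    exact ⟨fun _ => 0, fun _ => 0, fun i hi => absurd hi (Nat.not_lt_zero _),
      fun i hi => absurd hi (Nat.not_lt_zero _)⟩
  | succ k ih =>
    intro h
    obtain ⟨e, f, hH, heU⟩ := ih (by omega)
    obtain ⟨u, hu, hu0⟩ : ∃ u ∈ LinearMap.ker
        ((LinearMap.pi (fun i : Fin k => QuadraticMap.polarBilin Q (f i))).comp U.subtype),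
        u ≠ 0 := by
      rw [← Submodule.ne_bot_iff]
      apply LinearMap.ker_ne_bot_of_finrank_lt
      rw [Module.finrank_fin_fun]
      omega
    have hfu : ∀ i < k, QuadraticMap.polar ⇑Q (f i) (u : V) = 0 := by
      intro i hi
      have := congrFun (LinearMap.mem_ker.mp hu) ⟨i, hi⟩
      simpa [LinearMap.pi_apply] using this
    have hu0' : (u : V) ≠ 0 := fun h0 => hu0 (Subtype.ext h0)
    have hp : qfPerp Q k e f (u : V) := fun i hi => ⟨hUU _ (heU i hi) _ u.2, hfu i hi⟩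
    obtain ⟨f₀, hf₀⟩ := qf_ext Q hQ k e f hH (u : V) hu0' (hU _ u.2) hp
    refine ⟨_, _, hf₀, ?_⟩
    intro i hi
    rcases Nat.lt_succ_iff_lt_or_eq.mp hi with hi' | hik
    · rw [Function.update_of_ne (ne_of_lt hi')]; exact heU i hi'
    · rw [hik, Function.update_self]; exact u.2

end

end Cfsg.Agent.Helper5
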