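import Mathlib
import Cfsg.Prelude.Def_Classical
import Cfsg.Agent.Helper5.QFClass
import Cfsg.Agent.S2616
import Cfsg.Agent.S0289
import Cfsg.Agent.S0290

set_option autoImplicit false

namespace Cfsg.Agent.Helper5

section
variable {F V : Type*} [Field F] [Fintype F] [AddCommGroup V] [Module F V]
  [FiniteDimensional F V]

/-- Classification of nondegenerate even-dimensional quadratic forms over a finite field. -/
theorem qf_classify (Q : QuadraticForm F V) (hQ : (QuadraticMap.polarBilin Q).Nondegenerate)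
    {m : ℕ} (hm : 1 ≤ m) (hV : Module.finrank F V = 2 * m) :
    (∃ g : V ≃ₗ[F] (Fin m ⊕ Fin m → F), ∀ v, Q v = Cfsg.quadFormPlus m F (g v)) ∨
    (∃ (ζ : F) (g : V ≃ₗ[F] ((Fin (m - 1) ⊕ Fin (m - 1)) ⊕ Fin 2 → F)),
      (∀ t : F, t ^ 2 + t + ζ ≠ 0) ∧ ∀ v, Q v = Cfsg.quadFormMinus (m - 1) F 1 ζ (g v)) := by
  rcases Cfsg.Agent.S2616.result hm hV Q hQ with
    ⟨b, P1, P2, P3⟩ | ⟨b, ζ, hζ, P1, P2, P3, P4, P5, P6, P7⟩
  · exact Or.inl ⟨b.equivFun, qf_cl_plus Q b P1 P2 P3⟩
  · exact Or.inr ⟨ζ, b.equivFun, hζ, qf_cl_minus Q b ζ P1 P2 P3 P4 P5 P6 P7⟩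

theorem qf_zero_count (Q : QuadraticForm F V) (hQ : (QuadraticMap.polarBilin Q).Nondegenerate)
    {m : ℕ} (hm : 1 ≤ m) (hV : Module.finrank F V = 2 * m) :
    Nat.card {v : V // Q v = 0}
        = Fintype.card F ^ (2 * m - 1) + Fintype.card F ^ m - Fintype.card F ^ (m - 1) ∨
    Nat.card {v : V // Q v = 0}
        = Fintype.card F ^ (2 * m - 1) + Fintype.card F ^ (m - 1) - Fintype.card F ^ m := by
  rcases qf_classify Q hQ hm hV with ⟨g, hg⟩ | ⟨ζ, g, hζ, hg⟩
  · left
    rw [← Cfsg.Agent.S0289.result (F := F) rfl m hm]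
    exact Nat.card_congr (Equiv.subtypeEquiv g.toEquiv (fun v => by rw [hg v]; rfl))
  · right
    have hab : ∀ z₁ z₂ : F, z₁ ^ 2 + 1 * z₁ * z₂ + ζ * z₂ ^ 2 = 0 → z₁ = 0 ∧ z₂ = 0 := by
      intro z₁ z₂ hz
      by_cases h2 : z₂ = 0
      · subst h2
        simp at hz
        exact ⟨hz, rfl⟩
      · exfalso
        apply hζ (z₁ / z₂)
        field_simp
        linear_combination hz
    rw [← Cfsg.Agent.S0290.result (F := F) rfl m hm 1 ζ hab]
    exact Nat.card_congr (Equiv.subtypeEquiv g.toEquiv (fun v => by rw [hg v]; rfl))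

end

section
variable (F : Type*) [Field F]

/-- The polar form of the plus form. -/
def qfPlusB (m : ℕ) : LinearMap.BilinForm F (Fin m ⊕ Fin m → F) :=
  LinearMap.mk₂ F (fun u v => ∑ i : Fin m,
      (u (Sum.inl i) * v (Sum.inr i) + u (Sum.inr i) * v (Sum.inl i)))
    (by
      intro u u' v
      simp only [Pi.add_apply]
      rw [← Finset.sum_add_distrib]
      apply Finset.sum_congr rfl
      intro i _
      ring)
    (by
      intro c u v
      simp only [Pi.smul_apply, smul_eq_mul, Finset.mul_sum]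
      apply Finset.sum_congr rfl
      intro i _
      ring)
    (by
      intro u v v'
      simp only [Pi.add_apply]
      rw [← Finset.sum_add_distrib]
      apply Finset.sum_congr rfl
      intro i _
      ring)
    (by
      intro c u v
      simp only [Pi.smul_apply, smul_eq_mul, Finset.mul_sum]
      apply Finset.sum_congr rfl
      intro i _
      ring)

theorem qfPlusB_apply (m : ℕ) (u v : Fin m ⊕ Fin m → F) :
    qfPlusB F m u v = ∑ i : Fin m,
      (u (Sum.inl i) * v (Sum.inr i) + u (Sum.inr i) * v (Sum.inl i)) := rfl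

theorem qfPlusB_polar (m : ℕ) (u v : Fin m ⊕ Fin m → F) :
    Cfsg.quadFormPlus m F (u + v) - Cfsg.quadFormPlus m F u - Cfsg.quadFormPlus m F v
      = qfPlusB F m u v := by
  rw [qfPlusB_apply]
  unfold Cfsg.quadFormPlus
  rw [← Finset.sum_sub_distrib, ← Finset.sum_sub_distrib]
  apply Finset.sum_congr rfl
  intro i _
  simp only [Pi.add_apply]
  ring

theorem qfPlusB_comm (m : ℕ) (u v : Fin m ⊕ Fin m → F) :
    qfPlusB F m u v = qfPlusB F m v u := by
  rw [qfPlusB_apply, qfPlusB_apply]
  apply Finset.sum_congr rfl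
  intro i _
  ring

theorem qfPlusB_nondeg (m : ℕ) : (qfPlusB F m).Nondegenerate := by
  classical
  have hL : ∀ u : Fin m ⊕ Fin m → F, (∀ v, qfPlusB F m u v = 0) → u = 0 := by
    intro u hu
    funext x
    rcases x with i | i
    · have := hu (Pi.single (Sum.inr i) 1)
      rw [qfPlusB_apply] at this
      simpa [Pi.single_apply] using this
    · have := hu (Pi.single (Sum.inl i) 1)
      rw [qfPlusB_apply] at this
      simpa [Pi.single_apply] using this
  refine ⟨hL, ?_⟩
  intro v hv
  exact hL v (fun u => by rw [qfPlusB_comm]; exact hv u)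

end

/-- A function on a `ZMod 2`-space with a bilinear companion is a quadratic form. -/
theorem qf_of_fun₂ {V : Type*} [AddCommGroup V] [Module (ZMod 2) V] (q : V → ZMod 2)
    (B : LinearMap.BilinForm (ZMod 2) V) (h : ∀ u v, q (u + v) = q u + q v + B u v) :
    ∃ Q : QuadraticForm (ZMod 2) V, (∀ v, Q v = q v) ∧ QuadraticMap.polarBilin Q = B := by
  have h0 : q 0 = 0 := by
    have := h 0 0
    simpa using this
  refine ⟨{ toFun := q, toFun_smul := ?_, exists_companion' := ⟨B, h⟩ }, fun v => rfl, ?_⟩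
  · intro a x
    have ha : a = 0 ∨ a = 1 := by revert a; decide
    rcases ha with rfl | rfl
    · simp [h0]
    · simp
  · apply LinearMap.ext₂
    intro u v
    rw [QuadraticMap.polarBilin_apply_apply, QuadraticMap.polar]
    show q (u + v) - q u - q v = B u v
    rw [h]; ring

/-- The polar form of the minus form over `ZMod 2`. -/
def qfMinusB (k : ℕ) : LinearMap.BilinForm (ZMod 2) ((Fin k ⊕ Fin k) ⊕ Fin 2 → ZMod 2) :=
  LinearMap.mk₂ (ZMod 2) (fun u v => ∑ i : Fin k,
      (u (Sum.inl (Sum.inl i)) * v (Sum.inl (Sum.inr i))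
        + u (Sum.inl (Sum.inr i)) * v (Sum.inl (Sum.inl i)))
      + (u (Sum.inr 0) * v (Sum.inr 1) + u (Sum.inr 1) * v (Sum.inr 0)))
    (by
      intro u u' v
      simp only [Pi.add_apply]
      rw [add_add_add_comm, ← Finset.sum_add_distrib]
      congr 1
      · apply Finset.sum_congr rfl
        intro i _
        ring
      · ring)
    (by
      intro c u v
      simp only [Pi.smul_apply, smul_eq_mul, mul_add, Finset.mul_sum]
      congr 1
      · apply Finset.sum_congr rfl
        intro i _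
        ring
      · ring)
    (by
      intro u v v'
      simp only [Pi.add_apply]
      rw [add_add_add_comm, ← Finset.sum_add_distrib]
      congr 1
      · apply Finset.sum_congr rfl
        intro i _
        ring
      · ring)
    (by
      intro c u v
      simp only [Pi.smul_apply, smul_eq_mul, mul_add, Finset.mul_sum]
      congr 1
      · apply Finset.sum_congr rfl
        intro i _
        ring
      · ring)

theorem qfMinusB_apply (k : ℕ) (u v : (Fin k ⊕ Fin k) ⊕ Fin 2 → ZMod 2) :
    qfMinusB k u v = ∑ i : Fin k,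
      (u (Sum.inl (Sum.inl i)) * v (Sum.inl (Sum.inr i))
        + u (Sum.inl (Sum.inr i)) * v (Sum.inl (Sum.inl i)))
      + (u (Sum.inr 0) * v (Sum.inr 1) + u (Sum.inr 1) * v (Sum.inr 0)) := rfl

theorem qfMinusB_polar (k : ℕ) (u v : (Fin k ⊕ Fin k) ⊕ Fin 2 → ZMod 2) :
    Cfsg.quadFormMinus k (ZMod 2) 1 1 (u + v)
      = Cfsg.quadFormMinus k (ZMod 2) 1 1 u + Cfsg.quadFormMinus k (ZMod 2) 1 1 v
        + qfMinusB k u v := by
  rw [qfMinusB_apply]
  unfold Cfsg.quadFormMinus
  have hs : ∑ i : Fin k, (u + v) (Sum.inl (Sum.inl i)) * (u + v) (Sum.inl (Sum.inr i))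
      = ∑ i : Fin k, u (Sum.inl (Sum.inl i)) * u (Sum.inl (Sum.inr i))
        + ∑ i : Fin k, v (Sum.inl (Sum.inl i)) * v (Sum.inl (Sum.inr i))
        + ∑ i : Fin k, (u (Sum.inl (Sum.inl i)) * v (Sum.inl (Sum.inr i))
          + u (Sum.inl (Sum.inr i)) * v (Sum.inl (Sum.inl i))) := by
    rw [← Finset.sum_add_distrib, ← Finset.sum_add_distrib]
    apply Finset.sum_congr rfl
    intro i _
    simp only [Pi.add_apply]
    ring
  rw [hs]
  simp only [Pi.add_apply]
  have h2 : (2 : ZMod 2) = 0 := by decide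
  linear_combination (u (Sum.inr 0) * v (Sum.inr 0) + u (Sum.inr 1) * v (Sum.inr 1)) * h2

theorem qfMinusB_comm (k : ℕ) (u v : (Fin k ⊕ Fin k) ⊕ Fin 2 → ZMod 2) :
    qfMinusB k u v = qfMinusB k v u := by
  rw [qfMinusB_apply, qfMinusB_apply]
  congr 1
  · apply Finset.sum_congr rfl
    intro i _
    ring
  · ring

theorem qfMinusB_nondeg (k : ℕ) : (qfMinusB k).Nondegenerate := by
  classical
  have hL : ∀ u : (Fin k ⊕ Fin k) ⊕ Fin 2 → ZMod 2, (∀ v, qfMinusB k u v = 0) → u = 0 := by
    intro u hu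
    funext x
    rcases x with (i | i) | j
    · have := hu (Pi.single (Sum.inl (Sum.inr i)) 1)
      rw [qfMinusB_apply] at this
      simpa [Pi.single_apply] using this
    · have := hu (Pi.single (Sum.inl (Sum.inl i)) 1)
      rw [qfMinusB_apply] at this
      simpa [Pi.single_apply] using this
    · revert j
      rw [Fin.forall_fin_two]
      constructor
      · have := hu (Pi.single (Sum.inr 1) 1)
        rw [qfMinusB_apply] at this
        simpa [Pi.single_apply] using this
      · have := hu (Pi.single (Sum.inr 0) 1)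
        rw [qfMinusB_apply] at this
        simpa [Pi.single_apply] using this
  refine ⟨hL, ?_⟩
  intro v hv
  exact hL v (fun u => by rw [qfMinusB_comm]; exact hv u)

end Cfsg.Agent.Helper5
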