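import Mathlib
import Cfsg.Prelude.Def_ClassicalGeometry
import Cfsg.Agent.Helper5.QFStd

namespace Cfsg.Agent.Helper5

open Matrix

theorem sf5_eq {F : Type*} [CommRing F] (m : ℕ) (u v : Fin m ⊕ Fin m → F) :
    Cfsg.sympForm m F u v =
      ∑ i, (u (Sum.inr i) * v (Sum.inl i) - u (Sum.inl i) * v (Sum.inr i)) := by
  unfold Cfsg.sympForm
  rw [dotProduct, Fintype.sum_sum_type, Finset.sum_sub_distrib]
  have h1 : ∀ i : Fin m, (Matrix.J (Fin m) F *ᵥ v) (Sum.inl i) = - v (Sum.inr i) := by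
    intro i
    simp [Matrix.J, Matrix.mulVec, dotProduct, Fintype.sum_sum_type, Matrix.one_apply]
  have h2 : ∀ i : Fin m, (Matrix.J (Fin m) F *ᵥ v) (Sum.inr i) = v (Sum.inl i) := by
    intro i
    simp [Matrix.J, Matrix.mulVec, dotProduct, Fintype.sum_sum_type, Matrix.one_apply]
  simp only [h1, h2, mul_neg, Finset.sum_neg_distrib]
  ring

theorem sf5_inv {F : Type*} [CommRing F] (m : ℕ) (A : Matrix.symplecticGroup (Fin m) F)
    (u v : Fin m ⊕ Fin m → F) :
    Cfsg.sympForm m F ((A : Matrix (Fin m ⊕ Fin m) (Fin m ⊕ Fin m) F) *ᵥ u)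
      ((A : Matrix (Fin m ⊕ Fin m) (Fin m ⊕ Fin m) F) *ᵥ v) = Cfsg.sympForm m F u v := by
  unfold Cfsg.sympForm
  have h : (A : Matrix (Fin m ⊕ Fin m) (Fin m ⊕ Fin m) F)ᵀ * Matrix.J (Fin m) F *
      (A : Matrix (Fin m ⊕ Fin m) (Fin m ⊕ Fin m) F) = Matrix.J (Fin m) F := by
    exact (SymplecticGroup.mem_iff').mp A.2
  rw [← Matrix.vecMul_transpose, ← Matrix.dotProduct_mulVec, Matrix.mulVec_mulVec,
    Matrix.mulVec_mulVec, h]

theorem symp_char2_orth {F : Type*} [Field F] [Fintype F] [CharP F 2] {m : ℕ}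
    (A : Matrix.symplecticGroup (Fin m) F) :
    ∃ Q : QuadraticForm F (Fin m ⊕ Fin m → F),
      (∀ u v : Fin m ⊕ Fin m → F, QuadraticMap.polar ⇑Q u v = Cfsg.sympForm m F u v) ∧
      ∀ v : Fin m ⊕ Fin m → F,
        Q ((A : Matrix (Fin m ⊕ Fin m) (Fin m ⊕ Fin m) F).mulVec v) = Q v := by
  classical
  haveI : Fact (Nat.Prime 2) := ⟨Nat.prime_two⟩
  have hneg : ∀ x : F, -x = x := fun x => CharTwo.neg_eq x
  have hdbl : ∀ x : F, x + x = 0 := fun x => CharTwo.add_self_eq_zero x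
  obtain ⟨Q₀, hQ₀def⟩ : ∃ Q₀ : QuadraticForm F (Fin m ⊕ Fin m → F), Q₀ =
      ∑ i : Fin m, QuadraticMap.linMulLin (LinearMap.proj (Sum.inl i))
        (LinearMap.proj (Sum.inr i)) := ⟨_, rfl⟩
  have hQ₀ : ∀ v, Q₀ v = ∑ i, v (Sum.inl i) * v (Sum.inr i) := by
    intro v
    rw [hQ₀def]
    simp [_root_.sum_apply]
  have hpol₀ : ∀ u v, QuadraticMap.polar ⇑Q₀ u v = Cfsg.sympForm m F u v := by
    intro u v
    rw [sf5_eq, QuadraticMap.polar, hQ₀, hQ₀, hQ₀, ← Finset.sum_sub_distrib,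
      ← Finset.sum_sub_distrib]
    refine Finset.sum_congr rfl (fun i _ => ?_)
    simp only [Pi.add_apply]
    rw [sub_eq_add_neg (u (Sum.inr i) * v (Sum.inl i)), hneg]
    ring
  obtain ⟨Am, hAm⟩ : ∃ Am : Matrix (Fin m ⊕ Fin m) (Fin m ⊕ Fin m) F,
      Am = (A : Matrix (Fin m ⊕ Fin m) (Fin m ⊕ Fin m) F) := ⟨_, rfl⟩
  have hinv : ∀ u v, Cfsg.sympForm m F (Am *ᵥ u) (Am *ᵥ v) = Cfsg.sympForm m F u v := by
    intro u v
    rw [hAm]
    exact sf5_inv m A u v
  obtain ⟨D, hD⟩ : ∃ D : (Fin m ⊕ Fin m → F) → F, D = fun v => Q₀ (Am *ᵥ v) + Q₀ v :=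
    ⟨_, rfl⟩
  have hDadd : ∀ u v, D (u + v) = D u + D v := by
    intro u v
    rw [hD]
    show Q₀ (Am *ᵥ (u + v)) + Q₀ (u + v) = (Q₀ (Am *ᵥ u) + Q₀ u) + (Q₀ (Am *ᵥ v) + Q₀ v)
    rw [Matrix.mulVec_add, qf_add, qf_add, hpol₀, hpol₀, hinv]
    have := hdbl (Cfsg.sympForm m F u v)
    linear_combination this
  have hDsmul : ∀ (c : F) v, D (c • v) = c * c * D v := by
    intro c v
    rw [hD]
    show Q₀ (Am *ᵥ (c • v)) + Q₀ (c • v) = c * c * (Q₀ (Am *ᵥ v) + Q₀ v)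
    rw [Matrix.mulVec_smul, QuadraticMap.map_smul, QuadraticMap.map_smul]
    simp only [smul_eq_mul]
    ring
  have hsq : ∀ v, ∃ a : F, a * a = D v := by
    intro v
    obtain ⟨a, ha⟩ := surjective_frobenius F 2 (D v)
    refine ⟨a, ?_⟩
    rw [← ha, frobenius_def]
    ring
  choose L hL using hsq
  have hinj : ∀ a b : F, a * a = b * b → a = b := by
    intro a b hab
    apply frobenius_inj F 2
    rw [frobenius_def, frobenius_def, pow_two, pow_two, hab]
  have hLadd : ∀ u v, L (u + v) = L u + L v := by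
    intro u v
    apply hinj
    rw [hL, hDadd, ← hL u, ← hL v]
    have := hdbl (L u * L v)
    linear_combination -this
  have hLsmul : ∀ (c : F) v, L (c • v) = c * L v := by
    intro c v
    apply hinj
    rw [hL, hDsmul, ← hL v]
    ring
  obtain ⟨Ll, hLl⟩ : ∃ Ll : (Fin m ⊕ Fin m → F) →ₗ[F] F, ∀ v, Ll v = L v :=
    ⟨IsLinearMap.mk' L ⟨hLadd, fun c v => by rw [hLsmul, smul_eq_mul]⟩, fun v => rfl⟩
  obtain ⟨T, hT⟩ : ∃ T : (Fin m ⊕ Fin m → F) →ₗ[F] (Fin m ⊕ Fin m → F),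
      ∀ v, T v = Am *ᵥ v + v :=
    ⟨Am.mulVecLin + LinearMap.id, fun v => by simp⟩
  have hker : ∀ v, T v = 0 → L v = 0 := by
    intro v hv
    rw [hT] at hv
    have hAv : Am *ᵥ v = v := by
      have := eq_neg_of_add_eq_zero_left hv
      rw [this]
      funext i
      simp [hneg]
    have hDv : D v = 0 := by
      rw [hD]
      show Q₀ (Am *ᵥ v) + Q₀ v = 0
      rw [hAv]
      exact hdbl _
    have := hL v
    rw [hDv] at this
    exact mul_self_eq_zero.mp this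
  obtain ⟨g, hg⟩ := LinearMap.exists_rightInverse_of_surjective T.rangeRestrict
    (LinearMap.range_rangeRestrict T)
  obtain ⟨ψ, hψ⟩ := LinearMap.exists_extend (Ll.comp g)
  have hψT : ∀ v, ψ (T v) = L v := by
    intro v
    have h1 : ψ (T v) = Ll (g ⟨T v, LinearMap.mem_range_self T v⟩) := by
      have := congrArg (fun f => f ⟨T v, LinearMap.mem_range_self T v⟩) hψ
      simpa using this
    rw [h1, hLl]
    have h2 : T (g ⟨T v, LinearMap.mem_range_self T v⟩) = T v := by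
      have := congrArg (fun f => (f ⟨T v, LinearMap.mem_range_self T v⟩ : Fin m ⊕ Fin m → F)) hg
      simpa using this
    have h3 : L (g ⟨T v, LinearMap.mem_range_self T v⟩ - v) = 0 := by
      apply hker
      rw [map_sub, h2, sub_self]
    have h4 : L (g ⟨T v, LinearMap.mem_range_self T v⟩) =
        L (g ⟨T v, LinearMap.mem_range_self T v⟩ - v) + L v := by
      rw [← hLadd, sub_add_cancel]
    rw [h4, h3, zero_add]
  refine ⟨Q₀ + QuadraticMap.linMulLin ψ ψ, ?_, ?_⟩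
  · intro u v
    rw [← hpol₀]
    simp only [QuadraticMap.polar, _root_.add_apply, QuadraticMap.linMulLin_apply, map_add]
    have := hdbl (ψ u * ψ v)
    linear_combination this
  · intro v
    rw [← hAm]
    simp only [_root_.add_apply, QuadraticMap.linMulLin_apply]
    have h1 : ψ (Am *ᵥ v) = L v + ψ v := by
      have := hψT v
      rw [hT, map_add] at this
      rw [← this, add_assoc, hdbl, add_zero]
    have h2 : Q₀ (Am *ᵥ v) + Q₀ v = L v * L v := by
      rw [hL, hD]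
    have h3 : Q₀ (Am *ᵥ v) = L v * L v + Q₀ v := by
      rw [← h2, add_assoc, hdbl, add_zero]
    rw [h1, h3]
    have := hdbl (L v * L v)
    have h5 := hdbl (L v * ψ v)
    linear_combination this + h5

end Cfsg.Agent.Helper5
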