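import Mathlib
import Cfsg.Prelude.Def_ClassicalGeometry
import Cfsg.Agent.Helper8.SympBasis
import Cfsg.Agent.Helper5.SpChar2

namespace Cfsg.Agent.Helper5

open Matrix

theorem sum_ite_mul_ite5 {F : Type*} [Field F] {m : ℕ} (i j : Fin m) :
    ∑ x : Fin m, (if x = i then (1 : F) else 0) * (if x = j then 1 else 0)
      = if i = j then 1 else 0 := by
  by_cases h : i = j
  · subst h
    simp
  · rw [if_neg h]
    apply Finset.sum_eq_zero
    intro x _
    by_cases hx : x = i
    · subst hx
      simp [h]
    · simp [hx]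

/-- A nondegenerate alternating form is the standard symplectic form in suitable coordinates. -/
theorem alt_std {F V : Type*} [Field F] [AddCommGroup V] [Module F V] [FiniteDimensional F V]
    (B : LinearMap.BilinForm F V) (hA : B.IsAlt) (hB : B.Nondegenerate) {n : ℕ}
    (hV : Module.finrank F V = 2 * n) :
    ∃ E : V ≃ₗ[F] (Fin n ⊕ Fin n → F), ∀ u v, Cfsg.sympForm n F (E u) (E v) = B u v := by
  classical
  obtain ⟨m, k, b, h1, h2, h3, h4⟩ := Cfsg.Agent.Helper8.SympBasis.main B hA
  have hk : k = 0 := by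
    by_contra hk
    exact b.ne_zero (Sum.inr ⟨0, Nat.pos_of_ne_zero hk⟩) (hB.1 _ (h4 _))
  subst hk
  have hm : m = n := by
    have := Module.finrank_eq_card_basis b
    rw [hV] at this
    simp only [Fintype.card_sum, Fintype.card_fin] at this
    omega
  subst hm
  obtain ⟨b', hb'⟩ : ∃ b' : Module.Basis (Fin m ⊕ Fin m) F V,
      (∀ i, b' (Sum.inl i) = b (Sum.inl (Sum.inr i))) ∧
      (∀ i, b' (Sum.inr i) = b (Sum.inl (Sum.inl i))) :=
    ⟨b.reindex ((Equiv.sumEmpty _ _).trans (Equiv.sumComm _ _)),
      fun i => by simp [Module.Basis.reindex_apply],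
      fun i => by simp [Module.Basis.reindex_apply]⟩
  refine ⟨b'.equivFun, ?_⟩
  have hfe : ∀ i j, B (b (Sum.inl (Sum.inr i))) (b (Sum.inl (Sum.inl j)))
      = if i = j then -1 else 0 := by
    intro i j
    rw [Cfsg.Agent.Helper8.SympBasis.alt_swap B hA (b (Sum.inl (Sum.inl j)))
      (b (Sum.inl (Sum.inr i))), h1]
    by_cases h : i = j
    · subst h; simp
    · rw [if_neg h, if_neg (Ne.symm h)]; simp
  have key : (Matrix.toBilin' (Matrix.J (Fin m) F)).compl₁₂ b'.equivFun.toLinearMap
      b'.equivFun.toLinearMap = B := by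
    have hs : ∀ x, b'.equivFun (b' x) = Pi.single x 1 := by
      intro x
      funext j
      rw [Module.Basis.equivFun_self]
      simp [Pi.single_apply, eq_comm]
    apply LinearMap.ext_basis b' b'
    intro x y
    simp only [LinearMap.compl₁₂_apply, LinearEquiv.coe_coe]
    rw [Matrix.toBilin'_apply', hs, hs]
    show Cfsg.sympForm m F (Pi.single x 1) (Pi.single y 1) = B (b' x) (b' y)
    rw [sf5_eq]
    rcases x with i | i <;> rcases y with j | j
    · rw [hb'.1, hb'.1, h3]; simp [Pi.single_apply]
    · rw [hb'.1, hb'.2, hfe]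
      simp only [Pi.single_apply, Sum.inl.injEq, Sum.inr.injEq, reduceCtorEq, if_false,
        zero_mul, zero_sub, Finset.sum_neg_distrib, sum_ite_mul_ite5]
      by_cases h : i = j
      · simp [h]
      · simp [h]
    · rw [hb'.2, hb'.1, h1]
      simp only [Pi.single_apply, Sum.inl.injEq, Sum.inr.injEq, reduceCtorEq, if_false,
        zero_mul, sub_zero, sum_ite_mul_ite5]
    · rw [hb'.2, hb'.2, h2]; simp [Pi.single_apply]
  intro u v
  have := LinearMap.congr_fun (LinearMap.congr_fun key u) v
  rw [← this]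
  simp only [LinearMap.compl₁₂_apply, LinearEquiv.coe_coe, Matrix.toBilin'_apply']
  rfl

theorem symp_mem_of_form {F : Type*} [Field F] {n : ℕ}
    (M : Matrix (Fin n ⊕ Fin n) (Fin n ⊕ Fin n) F)
    (h : ∀ u v, Cfsg.sympForm n F (M *ᵥ u) (M *ᵥ v) = Cfsg.sympForm n F u v) :
    M ∈ Matrix.symplecticGroup (Fin n) F := by
  rw [SymplecticGroup.mem_iff']
  ext i j
  have := h (Pi.single i 1) (Pi.single j 1)
  unfold Cfsg.sympForm at this
  rw [← Matrix.vecMul_transpose, ← Matrix.dotProduct_mulVec, Matrix.mulVec_mulVec,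
    Matrix.mulVec_mulVec] at this
  simpa [Matrix.mulVec_single_one] using this

/-- A faithful linear action preserving a nondegenerate alternating form embeds in the
symplectic group. -/
theorem sp_embed {F V G : Type*} [Field F] [AddCommGroup V] [Module F V] [FiniteDimensional F V]
    [Group G] (B : LinearMap.BilinForm F V) (hA : B.IsAlt) (hB : B.Nondegenerate) {n : ℕ}
    (hV : Module.finrank F V = 2 * n) (ρ : G →* (V →ₗ[F] V)) (hρ : Function.Injective ρ)
    (hinv : ∀ g u v, B (ρ g u) (ρ g v) = B u v) :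
    ∃ φ : G →* ↥(Matrix.symplecticGroup (Fin n) F), Function.Injective φ := by
  classical
  obtain ⟨E, hE⟩ := alt_std B hA hB hV
  obtain ⟨Φ, hΦ⟩ : ∃ Φ : G →* Matrix (Fin n ⊕ Fin n) (Fin n ⊕ Fin n) F,
      ∀ g w, Φ g *ᵥ w = E (ρ g (E.symm w)) := by
    refine ⟨{ toFun := fun g => LinearMap.toMatrix'
                (E.toLinearMap ∘ₗ ρ g ∘ₗ E.symm.toLinearMap)
              map_one' := ?_
              map_mul' := ?_ }, ?_⟩
    · rw [map_one]
      have : E.toLinearMap ∘ₗ (1 : V →ₗ[F] V) ∘ₗ E.symm.toLinearMap = LinearMap.id := by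
        apply LinearMap.ext; intro x; simp
      rw [this, LinearMap.toMatrix'_id]
    · intro g h
      rw [map_mul, ← LinearMap.toMatrix'_comp]
      congr 1
      apply LinearMap.ext; intro x; simp
    · intro g w
      show (LinearMap.toMatrix' (E.toLinearMap ∘ₗ ρ g ∘ₗ E.symm.toLinearMap)) *ᵥ w = _
      rw [LinearMap.toMatrix'_mulVec]; rfl
  have hmem : ∀ g, Φ g ∈ Matrix.symplecticGroup (Fin n) F := by
    intro g
    apply symp_mem_of_form
    intro u v
    rw [hΦ, hΦ, hE, hinv, ← hE, LinearEquiv.apply_symm_apply, LinearEquiv.apply_symm_apply]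
  refine ⟨Φ.codRestrict _ hmem, ?_⟩
  intro g h hgh
  have h1 : Φ g = Φ h := congrArg Subtype.val hgh
  apply hρ
  apply LinearMap.ext
  intro v
  have h2 := hΦ g (E v)
  rw [h1, hΦ, LinearEquiv.symm_apply_apply] at h2
  exact (E.injective h2).symm

/-- An embedding of the field of order `q` into the field of order `q ^ 2`. -/
theorem ff_embed {F K : Type*} [Field F] [Fintype F] [Field K] [Fintype K] {q : ℕ}
    (hF : Fintype.card F = q) (hK : Fintype.card K = q ^ 2) : Nonempty (F →+* K) := by
  classical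
  obtain ⟨p, hp⟩ := CharP.exists F
  haveI := hp
  haveI : Fact p.Prime := ⟨CharP.char_is_prime F p⟩
  haveI := Fintype.ofFinite (FiniteField.Extension F p 2)
  have hcard : Fintype.card (FiniteField.Extension F p 2) = Fintype.card K := by
    rw [← Nat.card_eq_fintype_card, FiniteField.natCard_extension, Nat.card_eq_fintype_card, hF,
      hK]
  exact ⟨((FiniteField.ringEquivOfCardEq hcard : FiniteField.Extension F p 2 ≃+* K) :
    FiniteField.Extension F p 2 →+* K).comp (algebraMap F (FiniteField.Extension F p 2))⟩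

theorem finrank_fun_of_card {F K : Type*} [Field F] [Fintype F] [Field K] [Fintype K]
    [Algebra F K] {q : ℕ} (hF : Fintype.card F = q) (hK : Fintype.card K = q ^ 2)
    (idx : Type*) [Fintype idx] :
    Module.finrank F (idx → K) = 2 * Fintype.card idx := by
  have h2 : Module.finrank F K = 2 := by
    have := Module.card_eq_pow_finrank (K := F) (V := K)
    rw [hF, hK] at this
    have hq : 2 ≤ q := by rw [← hF]; exact Fintype.one_lt_card
    exact (Nat.pow_right_injective hq this).symm
  rw [Module.finrank_pi_fintype, Finset.sum_const, h2, Finset.card_univ, smul_eq_mul, mul_comm]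

end Cfsg.Agent.Helper5
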