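import Mathlib
import Cfsg.Prelude.Def_Classical
import Cfsg.Prelude.Def_LieClassical
import Cfsg.Agent.Helper5.QFClass2
import Cfsg.Agent.Helper5.SpEmbed
import Cfsg.Agent.S0285

namespace Cfsg.Agent.Helper5

open Matrix

/-- The fixed points of the `q`-power map are the image of the subfield. -/
theorem ff_fix_range {F K : Type*} [Field F] [Fintype F] [Field K] [Fintype K] {q : ℕ}
    (hF : Fintype.card F = q) (ι : F →+* K) (y : K) (hy : y ^ q = y) : ∃ c, ι c = y := by
  classical
  have hq2 : 2 ≤ q := by rw [← hF]; exact Fintype.one_lt_card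
  have hne := FiniteField.X_pow_card_sub_X_ne_zero K (by omega : 1 < q)
  have h1 : ∀ x ∈ (Finset.univ.image ι : Finset K),
      x ∈ (Polynomial.X ^ q - Polynomial.X : Polynomial K).roots := by
    intro x hx
    rw [Finset.mem_image] at hx
    obtain ⟨c, _, rfl⟩ := hx
    rw [Polynomial.mem_roots hne]
    simp [Polynomial.IsRoot, ← map_pow, ← hF, FiniteField.pow_card]
  have hcard : (Finset.univ.image ι : Finset K).card = q := by
    rw [Finset.card_image_of_injective _ ι.injective, Finset.card_univ, hF]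
  by_contra hcon
  push Not at hcon
  have h2 : (insert y (Finset.univ.image ι) : Finset K).val ⊆
      (Polynomial.X ^ q - Polynomial.X : Polynomial K).roots := by
    intro x hx
    rw [Finset.mem_val, Finset.mem_insert] at hx
    rcases hx with rfl | hx
    · rw [Polynomial.mem_roots hne]
      simp [Polynomial.IsRoot, hy]
    · exact h1 x hx
  have h3 := Polynomial.card_le_degree_of_subset_roots h2
  rw [FiniteField.X_pow_card_sub_X_natDegree_eq K (by omega), Finset.card_insert_of_notMem (by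
    intro hmem
    rw [Finset.mem_image] at hmem
    obtain ⟨c, _, hc⟩ := hmem
    exact hcon c hc), hcard] at h3
  omega

/-- The type of a nondegenerate form is determined by its number of zeros. -/
theorem qf_type_of_count {F V : Type*} [Field F] [Fintype F] [AddCommGroup V] [Module F V]
    [FiniteDimensional F V] (Q : QuadraticForm F V)
    (hQ : (QuadraticMap.polarBilin Q).Nondegenerate) {m : ℕ} (hm : 1 ≤ m)
    (hV : Module.finrank F V = 2 * m) :
    (Nat.card {v : V // Q v = 0}
        ≠ Fintype.card F ^ (2 * m - 1) + Fintype.card F ^ (m - 1) - Fintype.card F ^ m →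
      ∃ g : V ≃ₗ[F] (Fin m ⊕ Fin m → F), ∀ v, Q v = Cfsg.quadFormPlus m F (g v)) ∧
    (Nat.card {v : V // Q v = 0}
        ≠ Fintype.card F ^ (2 * m - 1) + Fintype.card F ^ m - Fintype.card F ^ (m - 1) →
      ∃ (ζ : F) (g : V ≃ₗ[F] ((Fin (m - 1) ⊕ Fin (m - 1)) ⊕ Fin 2 → F)),
        (∀ t : F, t ^ 2 + t + ζ ≠ 0) ∧ ∀ v, Q v = Cfsg.quadFormMinus (m - 1) F 1 ζ (g v)) := by
  rcases qf_classify Q hQ hm hV with ⟨g, hg⟩ | ⟨ζ, g, hζ, hg⟩
  · refine ⟨fun _ => ⟨g, hg⟩, fun hne => ?_⟩
    exfalso
    apply hne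
    rw [← Cfsg.Agent.S0289.result (F := F) rfl m hm]
    exact Nat.card_congr (Equiv.subtypeEquiv g.toEquiv (fun v => by rw [hg v]; rfl))
  · refine ⟨fun hne => ?_, fun _ => ⟨ζ, g, hζ, hg⟩⟩
    exfalso
    apply hne
    have hab : ∀ z₁ z₂ : F, z₁ ^ 2 + 1 * z₁ * z₂ + ζ * z₂ ^ 2 = 0 → z₁ = 0 ∧ z₂ = 0 := by
      intro z₁ z₂ hz
      by_cases h2 : z₂ = 0
      · subst h2
        simp at hz
        exact ⟨hz, rfl⟩
      · exfalso
        apply hζ (z₁ / z₂)
        field_simp
        linear_combination hz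
    rw [← Cfsg.Agent.S0290.result (F := F) rfl m hm 1 ζ hab]
    exact Nat.card_congr (Equiv.subtypeEquiv g.toEquiv (fun v => by rw [hg v]; rfl))

theorem cnt_ne_even (q A : ℕ) (hq : 2 ≤ q) (hA : 1 ≤ A) :
    (q * A - 1) * (A + 1) + 1 ≠ q * A * A + A - q * A := by
  have hX : 2 * A ≤ q * A := Nat.mul_le_mul_right A hq
  have hY : q * A ≤ q * A * A := Nat.le_mul_of_pos_right _ hA
  have h1 : q * A - 1 + 1 = q * A := Nat.sub_add_cancel (by omega)
  have h2 : (q * A - 1) * (A + 1) + (A + 1) = q * A * (A + 1) := by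
    rw [← Nat.succ_mul, Nat.succ_eq_add_one, h1]
  have h3 : q * A * (A + 1) = q * A * A + q * A := by ring
  omega

theorem cnt_ne_odd (q A : ℕ) (hq : 2 ≤ q) (hA : 1 ≤ A) :
    (q * A + 1) * (A - 1) + 1 ≠ q * A * A + q * A - A := by
  have hX : 2 * A ≤ q * A := Nat.mul_le_mul_right A hq
  have hY : q * A ≤ q * A * A := Nat.le_mul_of_pos_right _ hA
  have h1 : A - 1 + 1 = A := Nat.sub_add_cancel hA
  have h2 : (q * A + 1) * (A - 1) + (q * A + 1) = (q * A + 1) * A := by
    rw [← Nat.mul_succ, Nat.succ_eq_add_one, h1]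
  have h3 : (q * A + 1) * A = q * A * A + A := by ring
  omega

/-- Conjugating a linear representation into matrices. -/
theorem conj_matrix_hom {F V G : Type*} {idx : Type} [Field F] [AddCommGroup V] [Module F V]
    [Group G] [Fintype idx] [DecidableEq idx] (E : V ≃ₗ[F] (idx → F)) (ρ : G →* (V →ₗ[F] V)) :
    ∃ Φ : G →* Matrix idx idx F, ∀ g w, Φ g *ᵥ w = E (ρ g (E.symm w)) := by
  refine ⟨{ toFun := fun g => LinearMap.toMatrix'
              (E.toLinearMap ∘ₗ ρ g ∘ₗ E.symm.toLinearMap)
            map_one' := ?_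
            map_mul' := ?_ }, ?_⟩
  · rw [map_one]
    have : E.toLinearMap ∘ₗ (1 : V →ₗ[F] V) ∘ₗ E.symm.toLinearMap = LinearMap.id := by
      apply LinearMap.ext; intro x; simp
    rw [this, LinearMap.toMatrix'_id]
  · intro g h
    rw [map_mul, ← LinearMap.toMatrix'_comp]
    congr 1
    apply LinearMap.ext; intro x; simp
  · intro g w
    show (LinearMap.toMatrix' (E.toLinearMap ∘ₗ ρ g ∘ₗ E.symm.toLinearMap)) *ᵥ w = _
    rw [LinearMap.toMatrix'_mulVec]; rfl

/-- A faithful linear action preserving a form embeds in the isometry group of the form in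
coordinates. -/
theorem orth_embed {F V G : Type*} {idx : Type} [Field F] [AddCommGroup V] [Module F V]
    [Group G] [Fintype idx] [DecidableEq idx] (Q : V → F) (Q' : (idx → F) → F)
    (E : V ≃ₗ[F] (idx → F)) (hE : ∀ v, Q v = Q' (E v))
    (ρ : G →* (V →ₗ[F] V)) (hρ : Function.Injective ρ) (hinv : ∀ g v, Q (ρ g v) = Q v) :
    ∃ φ : G →* ↥(Cfsg.isometryGroup F Q'), Function.Injective φ := by
  classical
  obtain ⟨Φ, hΦ⟩ := conj_matrix_hom E ρ
  have hmem : ∀ g, Φ.toHomUnits g ∈ Cfsg.isometryGroup F Q' := by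
    intro g u v
    show Q' (((Φ.toHomUnits g : (Matrix idx idx F)ˣ) : Matrix idx idx F) *ᵥ u) = Q' u
    rw [MonoidHom.coe_toHomUnits, hΦ, ← hE, hinv, hE, LinearEquiv.apply_symm_apply]
  refine ⟨Φ.toHomUnits.codRestrict _ hmem, ?_⟩
  intro g h hgh
  have h1 : Φ.toHomUnits g = Φ.toHomUnits h := congrArg Subtype.val hgh
  have h1' : Φ g = Φ h := by
    have := congrArg (fun z : (Matrix idx idx F)ˣ => (z : Matrix idx idx F)) h1
    simpa only [MonoidHom.coe_toHomUnits] using this
  apply hρ
  apply LinearMap.ext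
  intro v
  have h2 := hΦ g (E v)
  rw [h1', hΦ, LinearEquiv.symm_apply_apply] at h2
  exact (E.injective h2).symm

/-- The unitary group acting linearly over the subfield. -/
theorem gu_rep {F K : Type*} [Field F] [Field K] [Algebra F K] (q m : ℕ) :
    ∃ ρ : ↥(Cfsg.GU m K q) →* ((Fin m → K) →ₗ[F] (Fin m → K)), Function.Injective ρ ∧
      ∀ g v, ρ g v = ((g : GL (Fin m) K) : Matrix (Fin m) (Fin m) K) *ᵥ v := by
  classical
  have hsmul : ∀ (c : F) (u : Fin m → K), c • u = (algebraMap F K c) • u := by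
    intro c u
    funext i
    simp [Algebra.smul_def]
  obtain ⟨ρ, hρ⟩ : ∃ ρ : ↥(Cfsg.GU m K q) →* ((Fin m → K) →ₗ[F] (Fin m → K)),
      ∀ g v, ρ g v = ((g : GL (Fin m) K) : Matrix (Fin m) (Fin m) K) *ᵥ v := by
    refine ⟨{ toFun := fun g =>
                { toFun := fun v => ((g : GL (Fin m) K) : Matrix (Fin m) (Fin m) K) *ᵥ v
                  map_add' := fun u v => Matrix.mulVec_add _ u v
                  map_smul' := fun c v => by
                    rw [hsmul, Matrix.mulVec_smul, ← hsmul]; rfl }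
              map_one' := ?_
              map_mul' := ?_ }, fun g v => rfl⟩
    · apply LinearMap.ext
      intro v
      simp
    · intro g h
      apply LinearMap.ext
      intro v
      simp [Matrix.mulVec_mulVec]
  refine ⟨ρ, ?_, hρ⟩
  intro g h hgh
  apply Subtype.ext
  apply Units.ext
  ext i j
  have := congrFun (LinearMap.congr_fun hgh (Pi.single j 1)) i
  rw [hρ, hρ] at this
  simpa [Matrix.mulVec_single_one] using this

/-- The hermitian norm as a nondegenerate quadratic form over the subfield. -/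
theorem herm_qf {F K : Type*} [Field F] [Fintype F] [Field K] [Fintype K] [Algebra F K] {q : ℕ}
    (hF : Fintype.card F = q) (hK : Fintype.card K = q ^ 2) (m : ℕ) :
    ∃ Q : QuadraticForm F (Fin m → K), (QuadraticMap.polarBilin Q).Nondegenerate ∧
      (∀ v, Q v = 0 ↔ Cfsg.hermForm m K q v v = 0) ∧
      (∀ (g : ↥(Cfsg.GU m K q)) v,
        Q (((g : GL (Fin m) K) : Matrix (Fin m) (Fin m) K) *ᵥ v) = Q v) := by
  classical
  have hq2 : 2 ≤ q := by rw [← hF]; exact Fintype.one_lt_card
  obtain ⟨p, hp⟩ := CharP.exists F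
  haveI := hp
  haveI : Fact p.Prime := ⟨CharP.char_is_prime F p⟩
  obtain ⟨n, hn⟩ : ∃ n : ℕ, q = p ^ n := by
    obtain ⟨n, _, h⟩ := FiniteField.card F p
    exact ⟨n, by rw [← hF, h]⟩
  haveI : CharP K p := (Algebra.charP_iff F K p).mp hp
  have hadd : ∀ x y : K, (x + y) ^ q = x ^ q + y ^ q := by
    intro x y
    rw [hn]
    exact add_pow_char_pow x y p n
  have hsum : ∀ (s : Finset (Fin m)) (f : Fin m → K),
      (∑ i ∈ s, f i) ^ q = ∑ i ∈ s, (f i) ^ q := by
    intro s f
    induction s using Finset.induction_on with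
    | empty => simp [zero_pow (by omega : q ≠ 0)]
    | insert i s hi ih => rw [Finset.sum_insert hi, Finset.sum_insert hi, hadd, ih]
  have hqq : ∀ x : K, (x ^ q) ^ q = x := by
    intro x
    rw [← pow_mul, ← pow_two, ← hK]
    exact FiniteField.pow_card x
  have hιq : ∀ c : F, (algebraMap F K c) ^ q = algebraMap F K c := by
    intro c
    rw [← map_pow, ← hF, FiniteField.pow_card]
  obtain ⟨w₀, hw₀⟩ : ∃ w₀ : K, w₀ ^ q ≠ w₀ := by
    by_contra hcon
    push Not at hcon
    have h1 : (Finset.univ : Finset K).val ⊆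
        (Polynomial.X ^ q - Polynomial.X : Polynomial K).roots := by
      intro x _
      rw [Polynomial.mem_roots (FiniteField.X_pow_card_sub_X_ne_zero K (by omega))]
      simp [Polynomial.IsRoot, hcon x]
    have h2 := Polynomial.card_le_degree_of_subset_roots h1
    rw [FiniteField.X_pow_card_sub_X_natDegree_eq K (by omega), Finset.card_univ, hK] at h2
    nlinarith
  obtain ⟨z₁, hz₁⟩ : ∃ z₁ : K, z₁ + z₁ ^ q ≠ 0 := by
    by_cases h2 : (2 : K) = 0
    · refine ⟨w₀, fun h => hw₀ ?_⟩
      have h3 : w₀ ^ q = -w₀ := eq_neg_of_add_eq_zero_right h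
      rw [h3]
      have : w₀ + w₀ = 0 := by rw [← two_mul, h2, zero_mul]
      exact (eq_neg_of_add_eq_zero_left this).symm
    · refine ⟨1, ?_⟩
      rw [one_pow, one_add_one_eq_two]
      exact h2
  obtain ⟨lam, hlam⟩ : ∃ lam : K →ₗ[F] F, lam 1 ≠ 0 := by
    by_contra hcon
    push Not at hcon
    exact one_ne_zero ((Module.forall_dual_apply_eq_zero_iff F (1 : K)).mp hcon)
  have hlam0 : ∀ y : K, y ^ q = y → (lam y = 0 ↔ y = 0) := by
    intro y hy
    obtain ⟨c, rfl⟩ := ff_fix_range hF (algebraMap F K) y hy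
    constructor
    · intro h
      rw [Algebra.algebraMap_eq_smul_one, map_smul, smul_eq_mul] at h
      rcases mul_eq_zero.mp h with h | h
      · rw [h, map_zero]
      · exact absurd h hlam
    · intro h
      rw [h, map_zero]
  have hsmul : ∀ (c : F) (u : Fin m → K), c • u = (algebraMap F K c) • u := by
    intro c u
    funext i
    simp [Algebra.smul_def]
  have hh_add_l : ∀ u u' v, Cfsg.hermForm m K q (u + u') v
      = Cfsg.hermForm m K q u v + Cfsg.hermForm m K q u' v := by
    intro u u' v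
    unfold Cfsg.hermForm
    rw [← Finset.sum_add_distrib]
    apply Finset.sum_congr rfl
    intro i _
    simp only [Pi.add_apply]
    ring
  have hh_smul_l : ∀ (c : K) u v, Cfsg.hermForm m K q (c • u) v
      = c * Cfsg.hermForm m K q u v := by
    intro c u v
    unfold Cfsg.hermForm
    rw [Finset.mul_sum]
    apply Finset.sum_congr rfl
    intro i _
    simp only [Pi.smul_apply, smul_eq_mul]
    ring
  have hh_add_r : ∀ u v v', Cfsg.hermForm m K q u (v + v')
      = Cfsg.hermForm m K q u v + Cfsg.hermForm m K q u v' := by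
    intro u v v'
    unfold Cfsg.hermForm
    rw [← Finset.sum_add_distrib]
    apply Finset.sum_congr rfl
    intro i _
    simp only [Pi.add_apply]
    rw [hadd]
    ring
  have hh_smul_r : ∀ (c : K) u v, Cfsg.hermForm m K q u (c • v)
      = c ^ q * Cfsg.hermForm m K q u v := by
    intro c u v
    unfold Cfsg.hermForm
    rw [Finset.mul_sum]
    apply Finset.sum_congr rfl
    intro i _
    simp only [Pi.smul_apply, smul_eq_mul]
    rw [mul_pow]
    ring
  have hh_conj : ∀ u v, (Cfsg.hermForm m K q u v) ^ q = Cfsg.hermForm m K q v u := by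
    intro u v
    unfold Cfsg.hermForm
    rw [hsum]
    apply Finset.sum_congr rfl
    intro i _
    rw [mul_pow, hqq]
    ring
  obtain ⟨B, hBdef⟩ : ∃ B : LinearMap.BilinForm F (Fin m → K),
      ∀ u v, B u v = lam (Cfsg.hermForm m K q u v) + lam (Cfsg.hermForm m K q v u) := by
    refine ⟨LinearMap.mk₂ F (fun u v =>
      lam (Cfsg.hermForm m K q u v) + lam (Cfsg.hermForm m K q v u)) ?_ ?_ ?_ ?_,
      fun u v => rfl⟩
    · intro u u' v
      simp only [hh_add_l, hh_add_r, map_add]
      ring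
    · intro c u v
      rw [hsmul, hh_smul_l, hh_smul_r, hιq, ← Algebra.smul_def, ← Algebra.smul_def, map_smul,
        map_smul, smul_add]
    · intro u v v'
      simp only [hh_add_l, hh_add_r, map_add]
      ring
    · intro c u v
      rw [hsmul, hh_smul_l, hh_smul_r, hιq, ← Algebra.smul_def, ← Algebra.smul_def, map_smul,
        map_smul, smul_add]
  obtain ⟨Q, hQdef⟩ : ∃ Q : QuadraticForm F (Fin m → K),
      ∀ v, Q v = lam (Cfsg.hermForm m K q v v) :=
    ⟨{ toFun := fun v => lam (Cfsg.hermForm m K q v v)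
       toFun_smul := fun c v => by
         rw [hsmul, hh_smul_l, hh_smul_r, hιq, ← mul_assoc, ← map_mul, ← Algebra.smul_def,
           map_smul]
       exists_companion' := ⟨B, fun u v => by
         rw [hBdef, hh_add_l, hh_add_r, hh_add_r, map_add, map_add, map_add]
         ring⟩ }, fun v => rfl⟩
  have hpolar : ∀ u v, QuadraticMap.polarBilin Q u v = B u v := by
    intro u v
    rw [QuadraticMap.polarBilin_apply_apply, QuadraticMap.polar, hQdef, hQdef, hQdef, hBdef,
      hh_add_l, hh_add_r, hh_add_r, map_add, map_add, map_add]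
    ring
  have hleft : ∀ u, (∀ v, B u v = 0) → u = 0 := by
    intro u hu
    by_contra hne
    obtain ⟨x, hx⟩ : ∃ x, u x ≠ 0 := by
      by_contra hcon
      push Not at hcon
      exact hne (funext hcon)
    have h1 := hu (((z₁ / u x) ^ q) • Pi.single x 1)
    rw [hBdef] at h1
    have h2 : Cfsg.hermForm m K q u (((z₁ / u x) ^ q) • Pi.single x 1) = z₁ := by
      rw [hh_smul_r, hqq]
      unfold Cfsg.hermForm
      simp only [Pi.single_apply]
      have : ∑ i, u i * (if i = x then (1 : K) else 0) ^ q = u x := by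
        rw [Finset.sum_eq_single x]
        · simp
        · intro b _ hb
          simp [hb, zero_pow (by omega : q ≠ 0)]
        · intro h
          exact absurd (Finset.mem_univ x) h
      rw [this]
      field_simp
    rw [← hh_conj u, h2, ← map_add] at h1
    have h3 : (z₁ + z₁ ^ q) ^ q = z₁ + z₁ ^ q := by
      rw [hadd, hqq, add_comm]
    exact hz₁ ((hlam0 _ h3).mp h1)
  have hsymm : ∀ u v, B u v = B v u := by
    intro u v
    rw [hBdef, hBdef, add_comm]
  refine ⟨Q, ⟨?_, ?_⟩, ?_, ?_⟩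
  · intro u hu
    exact hleft u (fun v => by rw [← hpolar]; exact hu v)
  · intro v hv
    exact hleft v (fun u => by rw [hsymm, ← hpolar]; exact hv u)
  · intro v
    rw [hQdef]
    exact hlam0 _ (hh_conj v v)
  · intro g v
    rw [hQdef, hQdef]
    have h1 : Cfsg.hermForm m K q (((g : GL (Fin m) K) : Matrix (Fin m) (Fin m) K) *ᵥ v)
        (((g : GL (Fin m) K) : Matrix (Fin m) (Fin m) K) *ᵥ v) = Cfsg.hermForm m K q v v :=
      g.2 v v
    rw [h1]

theorem gu_embed_plus {F K : Type*} [Field F] [Fintype F] [Field K] [Fintype K] {q : ℕ}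
    (hK : Fintype.card K = q ^ 2) (hF : Fintype.card F = q) (m : ℕ) (hm : Even m) :
    ∃ φ : ↥(Cfsg.GU m K q) →* ↥(Cfsg.isometryGroup F (Cfsg.quadFormPlus m F)),
      Function.Injective φ := by
  classical
  rcases Nat.eq_zero_or_pos m with rfl | hm1
  · refine ⟨1, ?_⟩
    intro x y _
    apply Subtype.ext
    apply Units.ext
    ext i j
    exact Fin.elim0 i
  have hq2 : 2 ≤ q := by rw [← hF]; exact Fintype.one_lt_card
  obtain ⟨ι⟩ := ff_embed hF hK
  letI : Algebra F K := ι.toAlgebra
  obtain ⟨Q, hQ, hzero, hinv⟩ := herm_qf hF hK m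
  have hV : Module.finrank F (Fin m → K) = 2 * m := by
    rw [finrank_fun_of_card hF hK]
    simp
  have hcount : Nat.card {v : Fin m → K // Q v = 0}
      = (q ^ m - 1) * (q ^ (m - 1) + 1) + 1 := by
    have h1 := Cfsg.Agent.S0285.result hK m
    rw [if_pos hm] at h1
    rw [← h1]
    exact Nat.card_congr (Equiv.subtypeEquivRight hzero)
  obtain ⟨k, rfl⟩ : ∃ k, m = k + 1 := ⟨m - 1, by omega⟩
  have e1 : q ^ (k + 1) = q * q ^ k := by ring
  have e2 : q ^ (2 * (k + 1) - 1) = q * q ^ k * q ^ k := by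
    rw [show 2 * (k + 1) - 1 = k + k + 1 by omega]
    ring
  obtain ⟨g, hg⟩ := (qf_type_of_count Q hQ hm1 hV).1 (by
    rw [hcount, hF, Nat.add_sub_cancel, e1, e2]
    exact cnt_ne_even q (q ^ k) hq2 (Nat.one_le_pow _ _ (by omega)))
  obtain ⟨ρ, hρinj, hρ⟩ := gu_rep (F := F) (K := K) q (k + 1)
  exact orth_embed (fun v => Q v) (Cfsg.quadFormPlus (k + 1) F) g hg ρ hρinj
    (fun x v => by rw [hρ]; exact hinv x v)

end Cfsg.Agent.Helper5
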