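import Mathlib
import Cfsg.Prelude.Def_Classical
import Cfsg.Prelude.Def_LieClassical
import Cfsg.Agent.Helper5.HermQ

namespace Cfsg.Agent.Helper5

open Matrix Polynomial

/-- A root-free quadratic over the field of order `q` has a root in the field of order `q ^ 2`,
for any embedding. -/
theorem ff_quad_root_fixed {F K : Type*} [Field F] [Fintype F] [Field K] [Fintype K] {q : ℕ}
    (hF : Fintype.card F = q) (hK : Fintype.card K = q ^ 2) (ι : F →+* K) (a c : F)
    (hac : ∀ t : F, t ^ 2 + a * t + c ≠ 0) :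
    ∃ r : K, r ^ 2 + ι a * r + ι c = 0 := by
  classical
  have hq2 : 2 ≤ q := by rw [← hF]; exact Fintype.one_lt_card
  obtain ⟨f, hf⟩ : ∃ f : F[X], f = X ^ 2 + C a * X + C c := ⟨_, rfl⟩
  have hdeg : f.natDegree = 2 := by
    rw [hf]; compute_degree!
  have hirr : Irreducible f := by
    apply Polynomial.irreducible_of_degree_le_three_of_not_isRoot
    · rw [hdeg]; decide
    · intro x hx
      rw [Polynomial.IsRoot, hf] at hx
      simp only [eval_add, eval_pow, eval_X, eval_mul, eval_C] at hx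
      exact hac x hx
  haveI : Fact (Irreducible f) := ⟨hirr⟩
  have hfin : Module.finrank F (AdjoinRoot f) = 2 := by
    rw [← hdeg]
    have := (AdjoinRoot.powerBasis hirr.ne_zero).finrank
    rw [this]
    rfl
  haveI : Module.Finite F (AdjoinRoot f) := (AdjoinRoot.powerBasis hirr.ne_zero).finite
  haveI : Finite (AdjoinRoot f) := Module.finite_of_finite F
  haveI := Fintype.ofFinite (AdjoinRoot f)
  have hcard : Fintype.card (AdjoinRoot f) = q ^ 2 := by
    rw [Module.card_eq_pow_finrank (K := F) (V := AdjoinRoot f), hfin, hF]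
  have h1 : (AdjoinRoot.root f) ^ (q ^ 2) = AdjoinRoot.root f := by
    rw [← hcard]; exact FiniteField.pow_card _
  have h2 : f ∣ (X ^ (q ^ 2) - X : F[X]) := by
    rw [← AdjoinRoot.mk_eq_zero]
    simp [h1]
  have h3 : f.map ι ∣ (X ^ (q ^ 2) - X : K[X]) := by
    have := Polynomial.map_dvd ι h2
    simpa using this
  have hlt : 1 < q ^ 2 := by nlinarith
  have hne : (X ^ (q ^ 2) - X : K[X]) ≠ 0 := FiniteField.X_pow_card_sub_X_ne_zero K hlt
  have hsplit : (X ^ (q ^ 2) - X : K[X]).Splits := by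
    rw [Polynomial.splits_iff_card_roots, FiniteField.X_pow_card_sub_X_natDegree_eq K hlt, ← hK,
      FiniteField.roots_X_pow_card_sub_X]
    rfl
  have hs := hsplit.of_dvd hne h3
  have hdegK : (f.map ι).degree ≠ 0 := by
    rw [Polynomial.degree_map, Polynomial.degree_eq_natDegree hirr.ne_zero, hdeg]
    norm_num
  obtain ⟨r, hr⟩ := hs.exists_eval_eq_zero hdegK
  refine ⟨r, ?_⟩
  rw [hf] at hr
  simpa using hr

/-- Coordinates in which the norm of the quadratic extension is a prescribed anisotropic binary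
form. -/
theorem norm_coords {F K : Type*} [Field F] [Fintype F] [Field K] [Fintype K] [Algebra F K]
    {q : ℕ} (hF : Fintype.card F = q) (hK : Fintype.card K = q ^ 2) (a b : F)
    (hab : ∀ t : F, t ^ 2 - a * t + b ≠ 0) :
    ∃ g : (Fin 2 → F) ≃ₗ[F] K,
      ∀ z, (g z) ^ (q + 1) = algebraMap F K (z 0 ^ 2 + a * z 0 * z 1 + b * z 1 ^ 2) := by
  classical
  have hq2 : 2 ≤ q := by rw [← hF]; exact Fintype.one_lt_card
  obtain ⟨p, hp⟩ := CharP.exists F
  haveI := hp
  haveI : Fact p.Prime := ⟨CharP.char_is_prime F p⟩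
  obtain ⟨n, hn⟩ : ∃ n : ℕ, q = p ^ n := by
    obtain ⟨n, _, h⟩ := FiniteField.card F p
    exact ⟨n, by rw [← hF, h]⟩
  haveI : CharP K p := (Algebra.charP_iff F K p).mp hp
  have hadd : ∀ x y : K, (x + y) ^ q = x ^ q + y ^ q := by
    intro x y
    rw [hn]
    exact add_pow_char_pow x y p n
  have hsub : ∀ x y : K, (x - y) ^ q = x ^ q - y ^ q := by
    intro x y
    rw [hn]
    exact sub_pow_char_pow x y n
  have hιq : ∀ c : F, (algebraMap F K c) ^ q = algebraMap F K c := by
    intro c
    rw [← map_pow, ← hF, FiniteField.pow_card]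
  obtain ⟨θ, hθ⟩ := ff_quad_root_fixed hF hK (algebraMap F K) (-a) b (by
    intro t h
    apply hab t
    linear_combination h)
  have hθ' : θ ^ 2 - algebraMap F K a * θ + algebraMap F K b = 0 := by
    rw [map_neg] at hθ
    linear_combination hθ
  have hθF : ∀ t : F, algebraMap F K t ≠ θ := by
    intro t ht
    apply hab t
    apply (algebraMap F K).injective
    rw [map_zero, map_add, map_sub, map_pow, map_mul, ht]
    exact hθ'
  have hθq : θ ^ q = algebraMap F K a - θ := by
    have h1 : (θ ^ q) ^ 2 - algebraMap F K a * θ ^ q + algebraMap F K b = 0 := by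
      have : (θ ^ 2 - algebraMap F K a * θ + algebraMap F K b) ^ q = 0 ^ q := by rw [hθ']
      rw [zero_pow (by omega), hadd, hsub, mul_pow, hιq, hιq, ← pow_mul, mul_comm 2 q,
        pow_mul] at this
      exact this
    have h2 : (θ ^ q - θ) * (θ ^ q - (algebraMap F K a - θ)) = 0 := by
      linear_combination h1 - hθ'
    rcases mul_eq_zero.mp h2 with h | h
    · exfalso
      obtain ⟨c, hc⟩ := ff_fix_range hF (algebraMap F K) θ (sub_eq_zero.mp h)
      exact hθF c hc
    · exact sub_eq_zero.mp h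
  obtain ⟨g₀, hg₀⟩ : ∃ g₀ : (Fin 2 → F) →ₗ[F] K,
      ∀ z, g₀ z = algebraMap F K (z 0) + algebraMap F K (z 1) * θ := by
    refine ⟨{ toFun := fun z => algebraMap F K (z 0) + algebraMap F K (z 1) * θ
              map_add' := ?_
              map_smul' := ?_ }, fun z => rfl⟩
    · intro z w
      simp only [Pi.add_apply, map_add]
      ring
    · intro c z
      simp only [Pi.smul_apply, smul_eq_mul, map_mul, RingHom.id_apply, Algebra.smul_def]
      ring
  have hinj : Function.Injective g₀ := by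
    rw [← LinearMap.ker_eq_bot, LinearMap.ker_eq_bot']
    intro z hz
    rw [hg₀] at hz
    have h1 : z 1 = 0 := by
      by_contra h1
      apply hθF (-(z 0) / z 1)
      rw [map_div₀, map_neg]
      have h3 : algebraMap F K (z 1) ≠ 0 := by
        rwa [Ne, map_eq_zero]
      field_simp
      linear_combination -hz
    have h0 : z 0 = 0 := by
      rw [h1, map_zero, zero_mul, add_zero] at hz
      exact (map_eq_zero (algebraMap F K)).mp hz
    funext i
    revert i
    rw [Fin.forall_fin_two]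
    exact ⟨h0, h1⟩
  have hfr : Module.finrank F (Fin 2 → F) = Module.finrank F K := by
    rw [Module.finrank_fin_fun]
    have := Module.card_eq_pow_finrank (K := F) (V := K)
    rw [hF, hK] at this
    exact Nat.pow_right_injective hq2 this
  obtain ⟨g, hg⟩ : ∃ g : (Fin 2 → F) ≃ₗ[F] K, ∀ z, g z = g₀ z :=
    ⟨LinearEquiv.ofInjectiveOfFinrankEq g₀ hinj hfr, fun z =>
      LinearMap.congr_fun (LinearEquiv.coe_ofInjectiveOfFinrankEq g₀ hinj hfr) z⟩
  refine ⟨g, ?_⟩
  intro z
  rw [hg, hg₀, pow_succ, hadd, mul_pow, hιq, hιq, hθq]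
  simp only [map_add, map_mul, map_pow]
  linear_combination (-(algebraMap F K (z 1)) ^ 2) * hθ'

/-- Any two anisotropic binary forms over a finite field are equivalent. -/
theorem binary_unique {F : Type*} [Field F] [Fintype F] (a b a' b' : F)
    (hab : ∀ t : F, t ^ 2 - a * t + b ≠ 0) (hab' : ∀ t : F, t ^ 2 - a' * t + b' ≠ 0) :
    ∃ T : (Fin 2 → F) ≃ₗ[F] (Fin 2 → F), ∀ z,
      (T z) 0 ^ 2 + a' * (T z) 0 * (T z) 1 + b' * (T z) 1 ^ 2
        = z 0 ^ 2 + a * z 0 * z 1 + b * z 1 ^ 2 := by
  classical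
  obtain ⟨p, hp⟩ := CharP.exists F
  haveI := hp
  haveI : Fact p.Prime := ⟨CharP.char_is_prime F p⟩
  haveI := Fintype.ofFinite (FiniteField.Extension F p 2)
  have hcard : Fintype.card (FiniteField.Extension F p 2) = Fintype.card F ^ 2 := by
    rw [← Nat.card_eq_fintype_card, FiniteField.natCard_extension, Nat.card_eq_fintype_card]
  obtain ⟨g, hg⟩ := norm_coords (K := FiniteField.Extension F p 2) rfl hcard a b hab
  obtain ⟨g', hg'⟩ := norm_coords (K := FiniteField.Extension F p 2) rfl hcard a' b' hab'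
  refine ⟨g.trans g'.symm, ?_⟩
  intro z
  apply (algebraMap F (FiniteField.Extension F p 2)).injective
  rw [← hg', ← hg]
  simp

/-- Changing the anisotropic part of a minus-type form. -/
theorem minus_change {F : Type*} [Field F] (k : ℕ) (a b a' b' : F)
    (T : (Fin 2 → F) ≃ₗ[F] (Fin 2 → F))
    (hT : ∀ z, (T z) 0 ^ 2 + a' * (T z) 0 * (T z) 1 + b' * (T z) 1 ^ 2
        = z 0 ^ 2 + a * z 0 * z 1 + b * z 1 ^ 2) :
    ∃ T' : ((Fin k ⊕ Fin k) ⊕ Fin 2 → F) ≃ₗ[F] ((Fin k ⊕ Fin k) ⊕ Fin 2 → F),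
      ∀ w, Cfsg.quadFormMinus k F a' b' (T' w) = Cfsg.quadFormMinus k F a b w := by
  classical
  obtain ⟨T', hT'⟩ : ∃ T' : ((Fin k ⊕ Fin k) ⊕ Fin 2 → F) ≃ₗ[F] ((Fin k ⊕ Fin k) ⊕ Fin 2 → F),
      ∀ w, T' w = Sum.elim (fun j => w (Sum.inl j)) (T (fun i => w (Sum.inr i))) := by
    refine ⟨{ toFun := fun w => Sum.elim (fun j => w (Sum.inl j)) (T (fun i => w (Sum.inr i)))
              invFun := fun w =>
                Sum.elim (fun j => w (Sum.inl j)) (T.symm (fun i => w (Sum.inr i)))
              map_add' := ?_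
              map_smul' := ?_
              left_inv := ?_
              right_inv := ?_ }, fun w => rfl⟩
    · intro u v
      funext x
      rcases x with j | i
      · rfl
      · show T ((fun i => u (Sum.inr i)) + fun i => v (Sum.inr i)) i
          = T (fun i => u (Sum.inr i)) i + T (fun i => v (Sum.inr i)) i
        rw [map_add]; rfl
    · intro c u
      funext x
      rcases x with j | i
      · rfl
      · show T (c • fun i => u (Sum.inr i)) i = c • T (fun i => u (Sum.inr i)) i
        rw [map_smul]; rfl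
    · intro w
      funext x
      rcases x with j | i
      · simp
      · simp
    · intro w
      funext x
      rcases x with j | i
      · simp
      · simp
  refine ⟨T', ?_⟩
  intro w
  unfold Cfsg.quadFormMinus
  rw [hT']
  simp only [Sum.elim_inl, Sum.elim_inr]
  rw [hT]

theorem gu_embed_minus {F K : Type*} [Field F] [Fintype F] [Field K] [Fintype K] {q : ℕ}
    (hK : Fintype.card K = q ^ 2) (hF : Fintype.card F = q) (m : ℕ) (hm : Odd m) (a b : F)
    (hab : ∀ z₁ z₂ : F, z₁ ^ 2 + a * z₁ * z₂ + b * z₂ ^ 2 = 0 → z₁ = 0 ∧ z₂ = 0) :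
    ∃ φ : ↥(Cfsg.GU m K q) →* ↥(Cfsg.isometryGroup F (Cfsg.quadFormMinus (m - 1) F a b)),
      Function.Injective φ := by
  classical
  have hm1 : 1 ≤ m := hm.pos
  have hq2 : 2 ≤ q := by rw [← hF]; exact Fintype.one_lt_card
  obtain ⟨ι⟩ := ff_embed hF hK
  letI : Algebra F K := ι.toAlgebra
  obtain ⟨Q, hQ, hzero, hinv⟩ := herm_qf hF hK m
  have hV : Module.finrank F (Fin m → K) = 2 * m := by
    rw [finrank_fun_of_card hF hK]
    simp
  have hcount : Nat.card {v : Fin m → K // Q v = 0}
      = (q ^ m + 1) * (q ^ (m - 1) - 1) + 1 := by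
    have h1 := Cfsg.Agent.S0285.result hK m
    rw [if_neg (Nat.not_even_iff_odd.mpr hm)] at h1
    rw [← h1]
    exact Nat.card_congr (Equiv.subtypeEquivRight hzero)
  obtain ⟨k, rfl⟩ : ∃ k, m = k + 1 := ⟨m - 1, by omega⟩
  have e1 : q ^ (k + 1) = q * q ^ k := by ring
  have e2 : q ^ (2 * (k + 1) - 1) = q * q ^ k * q ^ k := by
    rw [show 2 * (k + 1) - 1 = k + k + 1 by omega]
    ring
  obtain ⟨ζ, g, hζ, hg⟩ := (qf_type_of_count Q hQ hm1 hV).2 (by
    rw [hcount, hF, Nat.add_sub_cancel, e1, e2]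
    exact cnt_ne_odd q (q ^ k) hq2 (Nat.one_le_pow _ _ (by omega)))
  obtain ⟨T, hT⟩ := binary_unique 1 ζ a b (by
    intro t h
    apply hζ (-t)
    linear_combination h) (by
    intro t h
    have := (hab (-t) 1 (by linear_combination h)).2
    exact one_ne_zero this)
  obtain ⟨T', hT'⟩ := minus_change k 1 ζ a b T hT
  obtain ⟨ρ, hρinj, hρ⟩ := gu_rep (F := F) (K := K) q (k + 1)
  exact orth_embed (fun v => Q v) (Cfsg.quadFormMinus k F a b) (g.trans T')
    (fun v => by
      rw [LinearEquiv.trans_apply, hT']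
      exact hg v) ρ hρinj
    (fun x v => by rw [hρ]; exact hinv x v)

end Cfsg.Agent.Helper5
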