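import Mathlib
import Cfsg.Agent.Helper7.FrobThm3
import Cfsg.Agent.Helper5.Stability
import Cfsg.Agent.Helper5.Basic

set_option autoImplicit false

universe u

namespace Cfsg.Agent.Helper5

open scoped Pointwise

theorem isPGroup_zpowers_of_pow {Γ : Type*} [Group Γ] {p : ℕ} (x : Γ)
    (hx : ∃ k : ℕ, x ^ (p ^ k) = 1) : IsPGroup p (Subgroup.zpowers x) := by
  obtain ⟨k, hk⟩ := hx
  rintro ⟨y, hy⟩
  obtain ⟨n, rfl⟩ := Subgroup.mem_zpowers_iff.1 hy
  refine ⟨k, Subtype.ext ?_⟩
  simp only [Subgroup.coe_pow, Subgroup.coe_one]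
  rw [← zpow_natCast, ← zpow_mul, mul_comm, zpow_mul, zpow_natCast, hk, one_zpow]

/-- Glauberman-type centrality criterion, proved by induction on the order using the theorem of
Frobenius. -/
theorem isolated_central_aux (p : ℕ) [Fact p.Prime] :
    ∀ (n : ℕ) (Γ : Type u) [Group Γ] [Finite Γ], Nat.card Γ = n →
      ∀ x : Γ, (∃ k : ℕ, x ^ (p ^ k) = 1) →
        (∀ (g : Γ) (P : Subgroup Γ), IsPGroup p P → x ∈ P → g * x * g⁻¹ ∈ P →
          g * x * g⁻¹ = x) →
        (∀ H : Subgroup Γ, (Nat.card H).Coprime p → (∀ h ∈ H, x * h * x⁻¹ ∈ H) →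
          ∀ h ∈ H, x * h = h * x) →
        x ∈ Subgroup.center Γ := by
  intro n
  induction n using Nat.strong_induction_on with
  | _ n ih =>
  intro Γ _ _ hcard x hxp hI hb
  by_contra hxZ
  have hpp : p.Prime := Fact.out
  -- proper subgroups containing `x` centralize `x`
  have h1 : ∀ M : Subgroup Γ, M ≠ ⊤ → x ∈ M → M ≤ Subgroup.centralizer {x} := by
    intro M hM hxM
    have hlt : Nat.card M < n := by
      rw [← hcard]
      exact lt_of_le_of_ne (Subgroup.card_le_card_group M)
        (fun h => hM ((Subgroup.card_eq_iff_eq_top M).1 h))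
    have key := ih (Nat.card M) hlt M rfl ⟨x, hxM⟩ ?_ ?_ ?_
    · intro m hm
      have h2 := Subgroup.mem_center_iff.1 key ⟨m, hm⟩
      refine Subgroup.mem_centralizer_iff.2 ?_
      intro y hy
      rw [Set.mem_singleton_iff.1 hy]
      exact (congrArg Subtype.val h2).symm
    · obtain ⟨k, hk⟩ := hxp
      exact ⟨k, Subtype.ext (by simpa using hk)⟩
    · intro g P hP hxP hgP
      have := hI g (P.map M.subtype) (hP.map _) ⟨_, hxP, rfl⟩ ⟨_, hgP, by simp⟩
      exact Subtype.ext (by simpa using this)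
    · intro H hH hinv h hh
      have hc : Nat.card (H.map M.subtype) = Nat.card H :=
        Subgroup.card_map_of_injective M.subtype_injective
      have := hb (H.map M.subtype) (by rwa [hc]) ?_ h ⟨h, hh, rfl⟩
      · exact Subtype.ext (by simpa using this)
      · rintro _ ⟨h', hh', rfl⟩
        exact ⟨_, hinv h' hh', by simp⟩
  set C : Subgroup Γ := Subgroup.centralizer ({x} : Set Γ) with hC
  have hCtop : C ≠ ⊤ := by
    intro h
    apply hxZ
    rw [Subgroup.mem_center_iff]
    intro g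
    have : g ∈ C := h ▸ Subgroup.mem_top g
    exact (Subgroup.mem_centralizer_iff.1 this x rfl).symm
  have hZC : Subgroup.center Γ ≤ C := Subgroup.center_le_centralizer _
  have hxC : x ∈ C :=
    Subgroup.mem_centralizer_iff.2 (by intro y hy; rw [Set.mem_singleton_iff.1 hy])
  have hπ : Function.Surjective (QuotientGroup.mk' (Subgroup.center Γ)) :=
    QuotientGroup.mk'_surjective _
  have hker : (QuotientGroup.mk' (Subgroup.center Γ)).ker = Subgroup.center Γ :=
    QuotientGroup.ker_mk' _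
  set H : Subgroup (Γ ⧸ Subgroup.center Γ) := C.map (QuotientGroup.mk' (Subgroup.center Γ))
    with hH
  have hHtop : H ≠ ⊤ := by
    intro h
    apply hCtop
    have := congrArg (Subgroup.comap (QuotientGroup.mk' (Subgroup.center Γ))) h
    rw [hH, Subgroup.comap_map_eq, hker, sup_eq_left.2 hZC, Subgroup.comap_top] at this
    exact this
  have hHbot : H ≠ ⊥ := by
    intro h
    rw [hH, Subgroup.map_eq_bot_iff, hker] at h
    exact hxZ (h hxC)
  have hzx : IsPGroup p (Subgroup.zpowers x) := isPGroup_zpowers_of_pow x hxp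
  have hfrob : ∀ g : Γ ⧸ Subgroup.center Γ, g ∉ H → H ⊓ (MulAut.conj g • H) = ⊥ := by
    intro gbar hg
    obtain ⟨g, rfl⟩ := hπ gbar
    have hgC : g ∉ C := fun h => hg ⟨g, h, rfl⟩
    rw [eq_bot_iff]
    rintro cbar ⟨hc1, hc2⟩
    obtain ⟨c, hcC, rfl⟩ := hc1
    have hc2' : (QuotientGroup.mk' (Subgroup.center Γ)) c ∈
        MulAut.conj ((QuotientGroup.mk' (Subgroup.center Γ)) g) • H := hc2
    rw [Subgroup.mem_pointwise_smul_iff_inv_smul_mem] at hc2'
    replace hc2 := hc2'
    obtain ⟨c', hc'C, hc'⟩ := hc2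
    rw [Subgroup.mem_bot]
    have e0 : (QuotientGroup.mk' (Subgroup.center Γ)) c' =
        (QuotientGroup.mk' (Subgroup.center Γ)) (g⁻¹ * c * g) := by
      rw [hc']
      simp [MulAut.smul_def, map_mul]
    have hz : c'⁻¹ * (g⁻¹ * c * g) ∈ Subgroup.center Γ := QuotientGroup.eq.1 e0
    set z := c'⁻¹ * (g⁻¹ * c * g) with hzdef
    have e1 : g⁻¹ * c * g = c' * z := by rw [hzdef]; group
    have hc'x : Commute c' x := (Subgroup.mem_centralizer_iff.1 hc'C x rfl).symm
    have hzx' : Commute z x := (Subgroup.mem_center_iff.1 hz x).symm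
    have hcomm : Commute (c' * z) x := Commute.mul_left hc'x hzx'
    have hcg : c * (g * x * g⁻¹) = (g * x * g⁻¹) * c := by
      calc c * (g * x * g⁻¹) = g * ((g⁻¹ * c * g) * x) * g⁻¹ := by group
        _ = g * (x * (g⁻¹ * c * g)) * g⁻¹ := by rw [e1, hcomm.eq]
        _ = (g * x * g⁻¹) * c := by group
    by_cases hM : Subgroup.centralizer ({c} : Set Γ) = ⊤
    · have hcZ : c ∈ Subgroup.center Γ := by
        rw [Subgroup.mem_center_iff]
        intro y
        have : y ∈ Subgroup.centralizer ({c} : Set Γ) := hM ▸ Subgroup.mem_top y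
        exact (Subgroup.mem_centralizer_iff.1 this c rfl).symm
      exact (QuotientGroup.eq_one_iff c).2 hcZ
    · exfalso
      have hxM : x ∈ Subgroup.centralizer ({c} : Set Γ) := by
        refine Subgroup.mem_centralizer_iff.2 ?_
        intro y hy
        rw [Set.mem_singleton_iff.1 hy]
        exact (Subgroup.mem_centralizer_iff.1 hcC x rfl).symm
      have hMC := h1 _ hM hxM
      have hgxM : g * x * g⁻¹ ∈ Subgroup.centralizer ({c} : Set Γ) := by
        refine Subgroup.mem_centralizer_iff.2 ?_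
        intro y hy
        rw [Set.mem_singleton_iff.1 hy]
        exact hcg
      have hgxC : g * x * g⁻¹ ∈ C := hMC hgxM
      have hcomm2 : Commute x (g * x * g⁻¹) := Subgroup.mem_centralizer_iff.1 hgxC x rfl
      have hzy : IsPGroup p (Subgroup.zpowers (g * x * g⁻¹)) := by
        apply isPGroup_zpowers_of_pow
        obtain ⟨k, hk⟩ := hxp
        exact ⟨k, by rw [conj_pow, hk]; group⟩
      have hle : Subgroup.zpowers x ≤
          Subgroup.normalizer (Subgroup.zpowers (g * x * g⁻¹) : Set Γ) := by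
        rw [Subgroup.zpowers_le]
        apply Subgroup.centralizer_le_normalizer
        refine Subgroup.mem_centralizer_iff.2 ?_
        intro y hy
        obtain ⟨n, rfl⟩ := Subgroup.mem_zpowers_iff.1 hy
        exact (hcomm2.zpow_right n).symm.eq
      have hP := IsPGroup.to_sup_of_normal_right' hzx hzy hle
      have := hI g _ hP ((le_sup_left : Subgroup.zpowers x ≤ _) (Subgroup.mem_zpowers x))
        ((le_sup_right : Subgroup.zpowers (g * x * g⁻¹) ≤ _) (Subgroup.mem_zpowers _))
      apply hgC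
      refine Subgroup.mem_centralizer_iff.2 ?_
      intro y hy
      rw [Set.mem_singleton_iff.1 hy]
      calc x * g = g * x * g⁻¹ * g := by rw [this]
        _ = g * x := by group
  obtain ⟨Nb, -, hNbn, hcompl⟩ :=
    Cfsg.Agent.Helper7.frob_kernel_exists H ⟨hHbot, hHtop, hfrob⟩
  have hcardNb : ¬ p ∣ Nat.card Nb := by
    rw [← hcompl.index_eq_card, hH, Subgroup.index_map_eq _ hπ (by rw [hker]; exact hZC)]
    obtain ⟨P, hP⟩ := hzx.exists_le_sylow
    have hxP : x ∈ (P : Subgroup Γ) := hP (Subgroup.mem_zpowers x)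
    have hPC : (P : Subgroup Γ) ≤ C := by
      intro y hy
      have := hI y P P.2 hxP
        ((P : Subgroup Γ).mul_mem ((P : Subgroup Γ).mul_mem hy hxP) ((P : Subgroup Γ).inv_mem hy))
      refine Subgroup.mem_centralizer_iff.2 ?_
      intro w hw
      rw [Set.mem_singleton_iff.1 hw]
      calc x * y = y * x * y⁻¹ * y := by rw [this]
        _ = y * x := by group
    intro hdvd
    exact P.not_dvd_index (dvd_trans hdvd (Subgroup.index_dvd_of_le hPC))
  set N : Subgroup Γ := Nb.comap (QuotientGroup.mk' (Subgroup.center Γ)) with hN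
  haveI hNn : N.Normal := hNbn.comap _
  have hNC : N ≤ C := by
    obtain ⟨Q⟩ : Nonempty (Sylow p N) := inferInstance
    have hQZ : ∀ q : N, q ∈ Q → (q : Γ) ∈ Subgroup.center Γ := by
      intro q hq
      have hqN : (QuotientGroup.mk' (Subgroup.center Γ)) (q : Γ) ∈ Nb := q.2
      obtain ⟨k, hk⟩ := Q.2 ⟨q, hq⟩
      have hk1 : (q : Γ) ^ (p ^ k) = 1 := by
        have := congrArg (fun t : (Q : Subgroup N) => ((t : N) : Γ)) hk
        simpa using this
      have hk' : ((QuotientGroup.mk' (Subgroup.center Γ)) (q : Γ)) ^ (p ^ k) = 1 := by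
        rw [← map_pow, hk1, map_one]
      have h1' : orderOf (⟨_, hqN⟩ : Nb) ∣ p ^ k :=
        orderOf_dvd_of_pow_eq_one (Subtype.ext (by simpa using hk'))
      have h2' : orderOf (⟨_, hqN⟩ : Nb) ∣ Nat.card Nb := orderOf_dvd_natCard _
      have hcop : (p ^ k).Coprime (Nat.card Nb) :=
        Nat.Coprime.pow_left k ((Nat.Prime.coprime_iff_not_dvd hpp).2 hcardNb)
      have h3 : orderOf (⟨_, hqN⟩ : Nb) = 1 := Nat.eq_one_of_dvd_coprimes hcop h1' h2'
      rw [orderOf_eq_one_iff] at h3
      have h4 : (QuotientGroup.mk' (Subgroup.center Γ)) (q : Γ) = 1 := congrArg Subtype.val h3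
      exact (QuotientGroup.eq_one_iff _).1 h4
    haveI hQn : (Q : Subgroup N).Normal := by
      constructor
      intro q hq n
      have : n * q * n⁻¹ = q := by
        have h5 := Subgroup.mem_center_iff.1 (hQZ q hq) (n : Γ)
        apply Subtype.ext
        simp only [Subgroup.coe_mul, Subgroup.coe_inv]
        rw [h5]; group
      rwa [this]
    obtain ⟨K, hK⟩ := Subgroup.exists_right_complement'_of_coprime (Q.card_coprime_index)
    set D : Subgroup Γ := K.map N.subtype with hD
    have hDcard : Nat.card D = Nat.card K := Subgroup.card_map_of_injective N.subtype_injective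
    have hKp : (Nat.card K).Coprime p := by
      rw [← hK.symm.index_eq_card]
      exact (Nat.Coprime.symm ((Nat.Prime.coprime_iff_not_dvd hpp).2 Q.not_dvd_index))
    have hdecomp : ∀ n ∈ N, ∃ q ∈ Subgroup.center Γ, ∃ d ∈ D,
        n = q * d ∧ ∃ R : Subgroup Γ, IsPGroup p R ∧ q ∈ R := by
      intro n hn
      obtain ⟨⟨q, k⟩, hqk⟩ := hK.2 ⟨n, hn⟩
      refine ⟨((q : N) : Γ), hQZ q.1 q.2, ((k : N) : Γ), ⟨k.1, k.2, rfl⟩, ?_,
        (Q : Subgroup N).map N.subtype, Q.2.map _, ⟨q.1, q.2, rfl⟩⟩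
      have := congrArg Subtype.val hqk
      simpa using this.symm
    have hDpow : ∀ d ∈ D, d ^ Nat.card K = 1 := by
      intro d hd
      rw [← hDcard]
      have h6 := congrArg Subtype.val (pow_card_eq_one' (G := D) (x := ⟨d, hd⟩))
      simp only [Subgroup.coe_pow, Subgroup.coe_one] at h6
      exact h6
    have hDchar : ∀ n ∈ N, n ^ (Nat.card K) = 1 → n ∈ D := by
      intro n hn hpow
      obtain ⟨q, hqZ, d, hd, rfl, R, hR, hqR⟩ := hdecomp n hn
      have hcomm : Commute q d := (Subgroup.mem_center_iff.1 hqZ d).symm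
      rw [hcomm.mul_pow, hDpow d hd, mul_one] at hpow
      have := eq_one_of_pow_coprime R hR _ hKp q hqR hpow
      rw [this, one_mul]
      exact hd
    have hDN : D ≤ N := by
      rintro _ ⟨k, -, rfl⟩
      exact k.2
    have hDinv : ∀ h ∈ D, x * h * x⁻¹ ∈ D := by
      intro h hh
      apply hDchar _ (hNn.conj_mem h (hDN hh) x)
      rw [conj_pow, hDpow h hh]
      group
    have hDx := hb D (by rw [hDcard]; exact hKp) hDinv
    intro n hn
    obtain ⟨q, hqZ, d, hd, rfl, -⟩ := hdecomp n hn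
    refine Subgroup.mem_centralizer_iff.2 ?_
    intro y hy
    rw [Set.mem_singleton_iff.1 hy]
    have hqx : q * x = x * q := (Subgroup.mem_center_iff.1 hqZ x).symm
    calc x * (q * d) = (x * q) * d := by group
      _ = q * (x * d) := by rw [← hqx]; group
      _ = q * d * x := by rw [hDx d hd]; group
  have hNbH : Nb ≤ H := by
    have : Nb = N.map (QuotientGroup.mk' (Subgroup.center Γ)) :=
      (Subgroup.map_comap_eq_self_of_surjective hπ Nb).symm
    rw [this]
    exact Subgroup.map_mono hNC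
  have hNbbot : Nb = ⊥ := hcompl.disjoint.eq_bot_of_le hNbH
  have := hcompl.sup_eq_top
  rw [hNbbot, bot_sup_eq] at this
  exact hHtop this

/-- Statement S3064. -/
theorem central_of_unique_conj_sylow {G : Type u} [Group G] [Finite G] {p : ℕ} [Fact p.Prime]
    (S : Sylow p G) (x : G) (hx : x ∈ S)
    (hU : ∀ g : G, g⁻¹ * x * g ∈ S → g⁻¹ * x * g = x)
    (hb : ∀ H : Subgroup G, (Nat.card H).Coprime p → (∀ h ∈ H, x * h * x⁻¹ ∈ H) →
      ∀ h ∈ H, x * h = h * x) :
    x ∈ Subgroup.center G := by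
  refine isolated_central_aux p (Nat.card G) G rfl x ?_ ?_ hb
  · obtain ⟨k, hk⟩ := S.2 ⟨x, hx⟩
    exact ⟨k, by simpa using congrArg Subtype.val hk⟩
  · intro g P hP hxP hgP
    obtain ⟨h, hh⟩ := exists_conj_le_sylow S P hP
    have e1 : h⁻¹ * x * h ∈ (S : Subgroup G) := (mem_conj_iff _ h x).1 (hh hxP)
    have e2 : h⁻¹ * (g * x * g⁻¹) * h ∈ (S : Subgroup G) :=
      (mem_conj_iff _ h _).1 (hh hgP)
    have e3 := hU h e1
    have e4 : (g⁻¹ * h)⁻¹ * x * (g⁻¹ * h) ∈ (S : Subgroup G) := by
      have : (g⁻¹ * h)⁻¹ * x * (g⁻¹ * h) = h⁻¹ * (g * x * g⁻¹) * h := by group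
      rw [this]; exact e2
    have e5 := hU _ e4
    have e6 : h⁻¹ * (g * x * g⁻¹) * h = x := by
      have e7 : h⁻¹ * (g * x * g⁻¹) * h = (g⁻¹ * h)⁻¹ * x * (g⁻¹ * h) := by group
      rw [e7, e5]
    calc g * x * g⁻¹ = h * (h⁻¹ * (g * x * g⁻¹) * h) * h⁻¹ := by group
      _ = h * x * h⁻¹ := by rw [e6]
      _ = h * (h⁻¹ * x * h) * h⁻¹ := by rw [e3]
      _ = x := by group

end Cfsg.Agent.Helper5
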