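import Mathlib
import Cfsg.Prelude
import Cfsg.Agent.Helper5.Coprime2
import Cfsg.Agent.Helper3.CoprimeGen

set_option autoImplicit false

namespace Cfsg.Agent.Helper5

open scoped commutatorElement Pointwise

/-- a proper subgroup of relative index at most `p` in a `p`-group is a coatom. -/
theorem isCoatom_subgroupOf_of_relIndex_le {G : Type*} [Group G] [Finite G] {p : ℕ}
    [Fact p.Prime] (U B : Subgroup G) (hUp : IsPGroup p U) (hBU : B ≤ U) (hne : B ≠ U)
    (hB : B.relIndex U ≤ p) : IsCoatom (B.subgroupOf U) := by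
  have hp : p.Prime := Fact.out
  refine ⟨?_, ?_⟩
  · intro h
    exact hne (le_antisymm hBU (Subgroup.subgroupOf_eq_top.1 h))
  · intro C hC
    have h1 : (B.subgroupOf U).relIndex C * C.index = (B.subgroupOf U).index :=
      Subgroup.relIndex_mul_index hC.le
    have h2 : (B.subgroupOf U).index ≤ p := hB
    obtain ⟨k, hk⟩ := IsPGroup.iff_card.1 hUp
    have h3 : C.index ∣ p ^ k := hk ▸ Subgroup.index_dvd_card C
    obtain ⟨j, -, hj⟩ := (Nat.dvd_prime_pow hp).1 h3
    rcases j with _ | j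
    · rw [pow_zero] at hj
      exact Subgroup.index_eq_one.1 hj
    · exfalso
      have h4 : p ≤ C.index := by
        rw [hj, pow_succ]
        exact Nat.le_mul_of_pos_left _ (pow_pos hp.pos j)
      have h5 : (B.subgroupOf U).relIndex C ≠ 1 := by
        intro h
        exact (not_le_of_gt hC) (Subgroup.relIndex_eq_one.1 h)
      have h6 : (B.subgroupOf U).relIndex C ≠ 0 := by
        intro h
        rw [h, zero_mul] at h1
        have h7 : (B.subgroupOf U).index ≠ 0 := Subgroup.index_ne_zero_of_finite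
        exact h7 h1.symm
      have h8 : 2 ≤ (B.subgroupOf U).relIndex C := by omega
      have h9 : 2 * p ≤ (B.subgroupOf U).relIndex C * C.index := Nat.mul_le_mul h8 h4
      have h10 := hp.pos
      omega

/-- the centralizer in `R` of a `p`-subgroup containing a conjugate of a central element of the
large subgroup `Q` is trivial. -/
theorem large_centralizer_inf_eq_bot {G : Type*} [Group G] [Finite G] {p : ℕ} [Fact p.Prime]
    (Q : Subgroup G) (hQp : IsPGroup p ↥Q) (hlarge : Cfsg.IsLarge Q) (G₁ : Subgroup G)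
    (hQG : Q ≤ G₁) (R : Subgroup G) (hR : (Nat.card ↥R).Coprime p)
    (hGR : G₁ ≤ Subgroup.normalizer (R : Set G)) (U : Subgroup G)
    (hx : ∃ x ∈ U, x ≠ 1 ∧ ∃ g ∈ G₁, g * x * g⁻¹ ∈ Q ⊓ Subgroup.centralizer (Q : Set G)) :
    R ⊓ Subgroup.centralizer (U : Set G) = ⊥ := by
  obtain ⟨x, hxU, hx1, g, hg, hz⟩ := hx
  have hp : p.Prime := Fact.out
  have hz1 : g * x * g⁻¹ ≠ 1 := by
    intro h
    apply hx1
    have h0 : x = g⁻¹ * (g * x * g⁻¹) * g := by group
    rw [h0, h]
    group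
  obtain ⟨hzQ, hzC⟩ := Subgroup.mem_inf.1 hz
  have hRp : ¬ p ∣ Nat.card R := hp.coprime_iff_not_dvd.1 hR.symm
  have hD : ∀ d ∈ R, d * (g * x * g⁻¹) = (g * x * g⁻¹) * d → d = 1 := by
    intro d hdR hdz
    have hdN : d ∈ Subgroup.normalizer
        ((Subgroup.zpowers (g * x * g⁻¹) : Subgroup G) : Set G) := by
      apply Subgroup.centralizer_le_normalizer
      rw [Subgroup.mem_centralizer_iff]
      intro h hh
      obtain ⟨k, rfl⟩ := Subgroup.mem_zpowers_iff.1 hh
      exact (Commute.zpow_right (show Commute d (g * x * g⁻¹) from hdz) k).symm.eq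
    have hdQ : d ∈ Subgroup.normalizer (Q : Set G) :=
      hlarge.2 (Subgroup.zpowers (g * x * g⁻¹)) (by rw [Subgroup.zpowers_le]; exact hzC)
        (by rw [Ne, Subgroup.zpowers_eq_bot]; exact hz1) hdN
    have hcomm : ∀ q ∈ Q, ⁅d, q⁆ = 1 := by
      intro q hq
      have h1 : ⁅d, q⁆ ∈ Q := by
        rw [commutatorElement_def]
        exact Q.mul_mem ((Subgroup.mem_normalizer_iff.1 hdQ q).1 hq) (Q.inv_mem hq)
      have h2 : ⁅d, q⁆ ∈ R := by
        have h0 : ⁅d, q⁆ = d * (q * d⁻¹ * q⁻¹) := by rw [commutatorElement_def]; group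
        rw [h0]
        exact R.mul_mem hdR
          ((Subgroup.mem_normalizer_iff.1 (hGR (hQG hq)) d⁻¹).1 (R.inv_mem hdR))
      exact eq_one_of_mem_qgroup_of_mem_qprime Q R hQp hRp _ h1 h2
    have hdC : d ∈ Subgroup.centralizer (Q : Set G) := by
      rw [Subgroup.mem_centralizer_iff]
      intro q hq
      exact (commutatorElement_eq_one_iff_mul_comm.1 (hcomm q hq)).symm
    exact eq_one_of_mem_qgroup_of_mem_qprime Q R hQp hRp d (hlarge.1 hdC) hdR
  rw [eq_bot_iff]
  intro r hr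
  obtain ⟨hrR, hrU⟩ := Subgroup.mem_inf.1 hr
  rw [Subgroup.mem_bot]
  have hrx : x * r = r * x := Subgroup.mem_centralizer_iff.1 hrU x hxU
  have h1 : g * r * g⁻¹ = 1 := by
    apply hD
    · exact (Subgroup.mem_normalizer_iff.1 (hGR hg) r).1 hrR
    · calc g * r * g⁻¹ * (g * x * g⁻¹) = g * (r * x) * g⁻¹ := by group
        _ = g * (x * r) * g⁻¹ := by rw [hrx]
        _ = g * x * g⁻¹ * (g * r * g⁻¹) := by group
  have h0 : r = g⁻¹ * (g * r * g⁻¹) * g := by group
  rw [h0, h1]
  group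

/-- second part: `R = 1` when every maximal subgroup of the elementary abelian `U` meets a
conjugate of the centre of `Q`. -/
theorem large_eq_bot_of_coatoms {G : Type*} [Group G] [Finite G] {p : ℕ} [Fact p.Prime]
    (Q : Subgroup G) (hQp : IsPGroup p ↥Q) (hlarge : Cfsg.IsLarge Q) (G₁ : Subgroup G)
    (hQG : Q ≤ G₁) (R : Subgroup G) (hR : (Nat.card ↥R).Coprime p)
    (hGR : G₁ ≤ Subgroup.normalizer (R : Set G)) (U : Subgroup G) (hUG : U ≤ G₁)
    (hU : Cfsg.IsElementaryAbelian p U) (hcard : p ^ 2 ≤ Nat.card ↥U)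
    (hco : ∀ U₀ : Subgroup G, U₀ ≤ U → IsCoatom (U₀.subgroupOf U) →
      ∃ x ∈ U₀, x ≠ 1 ∧ ∃ g ∈ G₁, g * x * g⁻¹ ∈ Q ⊓ Subgroup.centralizer (Q : Set G)) :
    R = ⊥ := by
  have hp : p.Prime := Fact.out
  have hRp : ¬ p ∣ Nat.card R := hp.coprime_iff_not_dvd.1 hR.symm
  have hUp : IsPGroup p U := Cfsg.Agent.Helper3.isPGroup_of_isElementaryAbelian p U hU
  have hgen := Cfsg.Agent.Helper3.generated_by_centralizers p U R hU hRp (hUG.trans hGR)
  rw [hgen, eq_bot_iff]
  apply iSup_le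
  rintro ⟨B, hBU, hB⟩
  rw [le_bot_iff]
  by_cases hBtop : B = U
  · have h1 : 1 < Nat.card U := lt_of_lt_of_le (Nat.one_lt_pow (by norm_num) hp.one_lt) hcard
    haveI : Nontrivial U := Finite.one_lt_card_iff_nontrivial.1 h1
    obtain ⟨M, hM⟩ : ∃ M : Subgroup U, IsCoatom M := by
      rcases eq_top_or_exists_le_coatom (⊥ : Subgroup U) with h | ⟨M, hM, -⟩
      · exact absurd h bot_ne_top
      · exact ⟨M, hM⟩
    have hMM : (M.map U.subtype).subgroupOf U = M :=
      Subgroup.comap_map_eq_self_of_injective U.subtype_injective M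
    obtain ⟨x, hx, hx1, hg⟩ := hco (M.map U.subtype) (Subgroup.map_subtype_le M)
      (by rw [hMM]; exact hM)
    show R ⊓ Subgroup.centralizer (B : Set G) = ⊥
    rw [hBtop]
    exact large_centralizer_inf_eq_bot Q hQp hlarge G₁ hQG R hR hGR U
      ⟨x, Subgroup.map_subtype_le M hx, hx1, hg⟩
  · have hcoat := isCoatom_subgroupOf_of_relIndex_le U B hUp hBU hBtop hB
    exact large_centralizer_inf_eq_bot Q hQp hlarge G₁ hQG R hR hGR B (hco B hBU hcoat)

end Cfsg.Agent.Helper5
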