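import Mathlib
import Cfsg.Agent.Helper5.Basic
import Cfsg.Agent.Helper5.StrEmb
import Cfsg.Agent.S0016

set_option autoImplicit false

namespace Cfsg.Agent.Helper5

theorem min_contained {F : Type*} [Group F] [Finite F] (H : Subgroup F) (hH : H ≠ ⊥)
    (hmin : ∀ R : Subgroup F, R ≠ ⊥ → H ≤ Subgroup.normalizer (R : Set F) → H ≤ R) :
    ∃ N : Subgroup F, N.Normal ∧ N ≠ ⊥ ∧ (∀ M : Subgroup F, M.Normal → M ≠ ⊥ → N ≤ M) ∧
      IsSimpleGroup ↥N ∧
      (Subgroup.centralizer (N : Set F) = ⊥ ∨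
       (H = N ∧ (Nat.card N).Prime ∧ IsCyclic ↥(Subgroup.centralizer (N : Set F)) ∧
          (∃ k : ℕ, 1 ≤ k ∧ Nat.card ↥(Subgroup.centralizer (N : Set F)) = Nat.card N ^ k) ∧
          (∃ g : F, Subgroup.centralizer (N : Set F) ⊔ Subgroup.zpowers g = ⊤) ∧
          (Subgroup.centralizer (N : Set F)).index ∣ Nat.card N - 1) ∨
       (H = N ∧ Nat.card N = 2 ∧ Subgroup.centralizer (N : Set F) = ⊤ ∧
          ∃ k : ℕ, 1 ≤ k ∧ Nonempty (F ≃* QuaternionGroup (2 ^ k)))) := by
  classical
  obtain ⟨N, hN⟩ : ∃ N : Subgroup F, N = Subgroup.normalClosure (H : Set F) := ⟨_, rfl⟩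
  haveI hNn : N.Normal := hN ▸ Subgroup.normalClosure_normal
  have hHN : H ≤ N := hN ▸ Subgroup.le_normalClosure
  have hN1 : N ≠ ⊥ := fun h => hH (le_bot_iff.1 (h ▸ hHN))
  have hNmin : ∀ M : Subgroup F, M.Normal → M ≠ ⊥ → N ≤ M := by
    intro M hM hM1
    haveI := hM
    have h1 : H ≤ M := hmin M hM1 (by rw [Subgroup.normalizer_eq_top_iff.2 hM]; exact le_top)
    rw [hN]; exact Subgroup.normalClosure_le_normal h1
  have hsimple : IsSimpleGroup ↥N := by
    haveI : Nontrivial ↥N := (Subgroup.nontrivial_iff_ne_bot N).2 hN1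
    refine { eq_bot_or_eq_top_of_normal := fun K hK => ?_ }
    by_cases hK1 : K = ⊥
    · exact Or.inl hK1
    right
    obtain ⟨K', hK'⟩ : ∃ K' : Subgroup F, K' = K.map N.subtype := ⟨_, rfl⟩
    have hK'1 : K' ≠ ⊥ := by
      intro h
      apply hK1
      rw [hK', (Subgroup.map_eq_bot_iff_of_injective K N.subtype_injective)] at h
      exact h
    have hNK' : N ≤ Subgroup.normalizer (K' : Set F) := by
      intro n hn
      apply mem_normalizer_of_conj_le
      rw [hK']
      rintro _ ⟨_, ⟨k, hk, rfl⟩, rfl⟩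
      exact ⟨⟨n, hn⟩ * k * ⟨n, hn⟩⁻¹, hK.conj_mem k hk _, rfl⟩
    have hHf : ∀ f : F, H ≤ K'.map (MulAut.conj f).toMonoidHom := by
      intro f
      apply hmin
      · intro h
        apply hK'1
        rw [(Subgroup.map_eq_bot_iff_of_injective K' (MulAut.conj f).injective)] at h
        exact h
      · intro x hx
        have hx' : f⁻¹ * x * f ∈ N := by
          have := hNn.conj_mem x (hHN hx) f⁻¹
          rwa [inv_inv] at this
        have h1 := normalizer_conj K' f _ (hNK' hx')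
        have e : f * (f⁻¹ * x * f) * f⁻¹ = x := by group
        rwa [e] at h1
    obtain ⟨K₀, hK₀⟩ : ∃ K₀ : Subgroup F, K₀ = ⨅ f : F, K'.map (MulAut.conj f).toMonoidHom :=
      ⟨_, rfl⟩
    have hHK₀ : H ≤ K₀ := by
      rw [hK₀]; exact le_iInf hHf
    have hK₀n : K₀.Normal := by
      constructor
      intro x hx g
      rw [hK₀, Subgroup.mem_iInf] at hx ⊢
      intro f
      have h1 := hx (g⁻¹ * f)
      rw [mem_conj_iff] at h1 ⊢
      have e : f⁻¹ * (g * x * g⁻¹) * f = (g⁻¹ * f)⁻¹ * x * (g⁻¹ * f) := by group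
      rw [e]; exact h1
    have hNK₀ : N ≤ K₀ := hNmin K₀ hK₀n (fun h => hH (le_bot_iff.1 (h ▸ hHK₀)))
    have hNK'' : N ≤ K' := by
      refine hNK₀.trans ?_
      rw [hK₀]
      refine (iInf_le _ (1 : F)).trans ?_
      rw [conj_one]
    rw [eq_top_iff]
    intro n _
    have h1 := hNK'' n.2
    rw [hK'] at h1
    obtain ⟨k, hk, hkn⟩ := h1
    have : k = n := Subtype.ext hkn
    rw [← this]; exact hk
  refine ⟨N, hNn, hN1, hNmin, hsimple, ?_⟩
  by_cases hC : Subgroup.centralizer (N : Set F) = ⊥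
  · exact Or.inl hC
  right
  haveI hCn : (Subgroup.centralizer (N : Set F)).Normal := Subgroup.normal_centralizer
  have hNC : N ≤ Subgroup.centralizer (N : Set F) := hNmin _ hCn hC
  have hNab : ∀ a ∈ N, ∀ b ∈ N, a * b = b * a := fun a ha b hb =>
    Subgroup.mem_centralizer_iff.1 (hNC hb) a ha
  letI : CommGroup ↥N := { (inferInstance : Group ↥N) with
    mul_comm := fun a b => Subtype.ext (hNab a a.2 b b.2) }
  have hprime : (Nat.card ↥N).Prime := @IsSimpleGroup.prime_card ↥N _ hsimple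
  haveI hfact : Fact (Nat.card ↥N).Prime := ⟨hprime⟩
  have hHeq : H = N := by
    apply le_antisymm hHN
    rcases Subgroup.eq_bot_or_eq_top_of_prime_card (H.subgroupOf N) with h | h
    · exfalso
      apply hH
      rw [Subgroup.subgroupOf_eq_bot] at h
      exact le_bot_iff.1 (h le_rfl hHN)
    · exact Subgroup.subgroupOf_eq_top.1 h
  have hsub : ∀ R : Subgroup F, R ≤ Subgroup.centralizer (N : Set F) → R ≠ ⊥ → N ≤ R := by
    intro R hR hR1
    rw [← hHeq]
    apply hmin R hR1
    intro h hh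
    apply mem_normalizer_of_conj_le
    rintro _ ⟨x, hx, rfl⟩
    have h1 : h * x = x * h := Subgroup.mem_centralizer_iff.1 (hR hx) h (hHN hh)
    show h * x * h⁻¹ ∈ R
    rw [h1, mul_inv_cancel_right]
    exact hx
  have hdvdC : Nat.card ↥N ∣ Nat.card ↥(Subgroup.centralizer (N : Set F)) :=
    Subgroup.card_dvd_of_le hNC
  have hcard : Nat.card ↥(Subgroup.centralizer (N : Set F)) = Nat.card ↥N ^
      (Nat.card ↥(Subgroup.centralizer (N : Set F))).primeFactorsList.length := by
    apply Nat.eq_prime_pow_of_unique_prime_dvd Nat.card_pos.ne'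
    intro q hq hqd
    haveI : Fact q.Prime := ⟨hq⟩
    obtain ⟨c, hc⟩ := exists_prime_orderOf_dvd_card' q hqd
    have hc1 : (c : F) ≠ 1 := by
      intro h
      have : c = 1 := Subtype.ext h
      rw [this, orderOf_one] at hc
      exact hq.one_lt.ne hc
    have h1 : N ≤ Subgroup.zpowers (c : F) := by
      apply hsub
      · rw [Subgroup.zpowers_le]; exact c.2
      · rw [Ne, Subgroup.zpowers_eq_bot]; exact hc1
    have h2 := Subgroup.card_dvd_of_le h1
    rw [Nat.card_zpowers, Subgroup.orderOf_coe, hc] at h2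
    exact ((Nat.prime_dvd_prime_iff_eq hprime hq).1 h2).symm
  obtain ⟨k, hk⟩ : ∃ k : ℕ, k = (Nat.card ↥(Subgroup.centralizer (N : Set F))).primeFactorsList.length :=
    ⟨_, rfl⟩
  rw [← hk] at hcard
  have hk1 : 1 ≤ k := by
    rcases Nat.eq_zero_or_pos k with h | h
    · exfalso
      rw [h, pow_zero] at hcard
      rw [hcard] at hdvdC
      exact hprime.one_lt.ne' (Nat.dvd_one.1 hdvdC)
    · exact h
  have hCp : IsPGroup (Nat.card ↥N) ↥(Subgroup.centralizer (N : Set F)) := IsPGroup.of_card hcard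
  have huniq : ∀ A B : Subgroup ↥(Subgroup.centralizer (N : Set F)),
      Nat.card A = Nat.card ↥N → Nat.card B = Nat.card ↥N → A = B := by
    have key : ∀ A : Subgroup ↥(Subgroup.centralizer (N : Set F)), Nat.card A = Nat.card ↥N →
        A.map (Subgroup.centralizer (N : Set F)).subtype = N := by
      intro A hA
      have h1 : N ≤ A.map (Subgroup.centralizer (N : Set F)).subtype := by
        apply hsub
        · rintro _ ⟨y, _, rfl⟩; exact y.2
        · intro h
          rw [(Subgroup.map_eq_bot_iff_of_injective A (Subgroup.subtype_injective _))] at h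
          rw [h, Subgroup.card_bot] at hA
          exact hprime.one_lt.ne hA
      have h2 : Nat.card ↥(A.map (Subgroup.centralizer (N : Set F)).subtype) = Nat.card ↥N := by
        rw [Subgroup.card_map_of_injective (Subgroup.subtype_injective _), hA]
      exact (Subgroup.eq_of_le_of_card_ge h1 h2.le).symm
    intro A B hA hB
    apply Subgroup.map_injective (Subgroup.subtype_injective (Subgroup.centralizer (N : Set F)))
    rw [key A hA, key B hB]
  -- automorphisms
  obtain ⟨ψ, hψ⟩ : ∃ ψ : F →* MulAut ↥N, ψ = MulAut.conjNormal := ⟨_, rfl⟩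
  have hker : ψ.ker = Subgroup.centralizer (N : Set F) := by
    ext g
    rw [MonoidHom.mem_ker, Subgroup.mem_centralizer_iff]
    constructor
    · intro h n hn
      have h1 := congrArg (fun a : MulAut ↥N => ((a ⟨n, hn⟩ : ↥N) : F)) h
      simp only [hψ, MulAut.conjNormal_apply, MulAut.one_apply] at h1
      calc n * g = (g * n * g⁻¹) * g := by rw [h1]
        _ = g * n := by group
    · intro h
      ext n
      rw [hψ, MulAut.conjNormal_apply, MulAut.one_apply, ← h n n.2, mul_inv_cancel_right]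
  haveI hNcyc : IsCyclic ↥N := isCyclic_of_prime_card (p := Nat.card ↥N) rfl
  have hidx : (Subgroup.centralizer (N : Set F)).index ∣ Nat.card ↥N - 1 := by
    rw [← hker, Subgroup.index_ker, ← Nat.totient_prime hprime, ← IsCyclic.card_mulAut ↥N]
    exact Subgroup.card_subgroup_dvd_card _
  have hgen : ∃ g : F, Subgroup.centralizer (N : Set F) ⊔ Subgroup.zpowers g = ⊤ := by
    haveI : IsCyclic (MulAut ↥N) := (MulEquiv.isCyclic (IsCyclic.mulAutMulEquiv ↥N)).2 inferInstance
    obtain ⟨⟨a, ha⟩⟩ := (inferInstance : IsCyclic ↥ψ.range)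
    obtain ⟨g₀, hg₀⟩ := a.2
    refine ⟨g₀, ?_⟩
    rw [eq_top_iff]
    intro x _
    obtain ⟨i, hi⟩ := ha ⟨ψ x, x, rfl⟩
    have hi' : ψ g₀ ^ i = ψ x := by
      have h1 := congrArg Subtype.val hi
      rw [Subgroup.coe_zpow, ← hg₀] at h1
      exact h1
    have h2 : x * (g₀ ^ i)⁻¹ ∈ Subgroup.centralizer (N : Set F) := by
      rw [← hker, MonoidHom.mem_ker, map_mul, map_inv, map_zpow, hi', mul_inv_cancel]
    have e : x = (x * (g₀ ^ i)⁻¹) * g₀ ^ i := by group
    rw [e]
    exact Subgroup.mul_mem _ (Subgroup.mem_sup_left h2)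
      (Subgroup.mem_sup_right (Subgroup.zpow_mem _ (Subgroup.mem_zpowers g₀) i))
  rcases Cfsg.Agent.S0016.result (Nat.card ↥N) hCp huniq with hcyc | ⟨hp2, n, ⟨e⟩⟩
  · left
    exact ⟨hHeq, hprime, hcyc, ⟨k, hk1, hcard⟩, hgen, hidx⟩
  · by_cases hn : n = 0
    · left
      have h1 : (2 : ℕ) ^ n = 1 := by rw [hn, pow_zero]
      rw [h1] at e
      haveI := QuaternionGroup.quaternionGroup_one_isCyclic
      exact ⟨hHeq, hprime, (MulEquiv.isCyclic e).2 inferInstance, ⟨k, hk1, hcard⟩, hgen, hidx⟩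
    · right
      have hCtop : Subgroup.centralizer (N : Set F) = ⊤ := by
        rw [hp2] at hidx
        exact Subgroup.index_eq_one.1 (Nat.dvd_one.1 hidx)
      refine ⟨hHeq, hp2, hCtop, n, Nat.one_le_iff_ne_zero.2 hn, ⟨?_⟩⟩
      exact (Subgroup.topEquiv.symm.trans (MulEquiv.subgroupCongr hCtop.symm)).trans e

end Cfsg.Agent.Helper5
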