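import Mathlib
import Cfsg.Agent.Helper5.QFStd

set_option autoImplicit false

namespace Cfsg.Agent.Helper5

/-- A linear map scaling the quadratic form on a basis (values and polar pairings) scales it
everywhere. -/
theorem qf_sim_of_basis {F V ι : Type*} [Field F] [AddCommGroup V] [Module F V] [Fintype ι]
    (Q : QuadraticForm F V) (b : Module.Basis ι F V) (g : V →ₗ[F] V) (c : F)
    (h1 : ∀ i, Q (g (b i)) = c * Q (b i))
    (h2 : ∀ i j, QuadraticMap.polar ⇑Q (g (b i)) (g (b j))
      = c * QuadraticMap.polar ⇑Q (b i) (b j)) :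
    ∀ v, Q (g v) = c * Q v := by
  classical
  have hB : (QuadraticMap.polarBilin Q).compl₁₂ g g = c • QuadraticMap.polarBilin Q := by
    apply LinearMap.ext_basis b b
    intro i j
    simp only [LinearMap.compl₁₂_apply, QuadraticMap.polarBilin_apply_apply,
      LinearMap.smul_apply, smul_eq_mul]
    exact h2 i j
  have hpol : ∀ u v, QuadraticMap.polar ⇑Q (g u) (g v) = c * QuadraticMap.polar ⇑Q u v := by
    intro u v
    have := LinearMap.congr_fun (LinearMap.congr_fun hB u) v
    simpa [LinearMap.compl₁₂_apply, QuadraticMap.polarBilin_apply_apply] using this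
  have hadd : ∀ u v, Q (g u) = c * Q u → Q (g v) = c * Q v →
      Q (g (u + v)) = c * Q (u + v) := by
    intro u v hu hv
    rw [map_add, qf_add, qf_add, hu, hv, hpol]; ring
  have hsm : ∀ (a : F) u, Q (g u) = c * Q u → Q (g (a • u)) = c * Q (a • u) := by
    intro a u hu
    rw [map_smul, qf_smul, qf_smul, hu]; ring
  have hsum : ∀ (s : Finset ι) (a : ι → F),
      Q (g (∑ i ∈ s, a i • b i)) = c * Q (∑ i ∈ s, a i • b i) := by
    intro s a
    induction s using Finset.induction_on with
    | empty => simp
    | insert i s hi ih =>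
      rw [Finset.sum_insert hi]
      exact hadd _ _ (hsm _ _ (h1 i)) ih
  intro v
  have := hsum Finset.univ (fun i => b.repr v i)
  rwa [b.sum_repr] at this

/-- A similarity with nonzero multiplier of a nondegenerate form is invertible. -/
theorem qf_sim_equiv {F V : Type*} [Field F] [AddCommGroup V] [Module F V]
    [FiniteDimensional F V] (Q : QuadraticForm F V)
    (hQ : (QuadraticMap.polarBilin Q).Nondegenerate) (g : V →ₗ[F] V) (c : F) (hc : c ≠ 0)
    (h : ∀ v, Q (g v) = c * Q v) :
    ∃ g' : V ≃ₗ[F] V, ∀ v, Q (g' v) = c * Q v := by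
  have hpol : ∀ u v, QuadraticMap.polar ⇑Q (g u) (g v) = c * QuadraticMap.polar ⇑Q u v := by
    intro u v
    rw [QuadraticMap.polar, QuadraticMap.polar, ← map_add, h, h, h]; ring
  have hinj : Function.Injective g := by
    rw [← LinearMap.ker_eq_bot, LinearMap.ker_eq_bot']
    intro u hu
    apply hQ.1 u
    intro v
    rw [QuadraticMap.polarBilin_apply_apply]
    have := hpol u v
    rw [hu, QuadraticMap.polar_zero_left] at this
    rcases mul_eq_zero.mp this.symm with h0 | h0
    · exact absurd h0 hc
    · exact h0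
  refine ⟨LinearEquiv.ofInjectiveEndo g hinj, ?_⟩
  intro v
  rw [LinearEquiv.coe_ofInjectiveEndo]
  exact h v

end Cfsg.Agent.Helper5
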