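import Mathlib
import Cfsg.Prelude.Def_Classical
import Cfsg.Agent.Helper5.QFStd
import Cfsg.Agent.Helper5.QFStd2
import Cfsg.Agent.Helper5.QFClass

namespace Cfsg.Agent.Helper5

open Matrix Polynomial

/-- A quadratic polynomial without roots over a finite field acquires a root in the field of
square order, for a suitable embedding. -/
theorem ff_quad_root {F K : Type*} [Field F] [Fintype F] [Field K] [Fintype K] {q : ℕ}
    (hF : Fintype.card F = q) (hK : Fintype.card K = q ^ 2) (a c : F)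
    (hac : ∀ t : F, t ^ 2 + a * t + c ≠ 0) :
    ∃ (ι : F →+* K) (r : K), r ^ 2 + ι a * r + ι c = 0 := by
  classical
  obtain ⟨f, hf⟩ : ∃ f : F[X], f = X ^ 2 + C a * X + C c := ⟨_, rfl⟩
  have hdeg : f.natDegree = 2 := by
    rw [hf]; compute_degree!
  have hirr : Irreducible f := by
    apply Polynomial.irreducible_of_degree_le_three_of_not_isRoot
    · rw [hdeg]; decide
    · intro x hx
      rw [Polynomial.IsRoot, hf] at hx
      simp only [eval_add, eval_pow, eval_X, eval_mul, eval_C] at hx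
      exact hac x hx
  haveI : Fact (Irreducible f) := ⟨hirr⟩
  have hfin : Module.finrank F (AdjoinRoot f) = 2 := by
    rw [← hdeg]
    have := (AdjoinRoot.powerBasis hirr.ne_zero).finrank
    rw [this]
    rfl
  haveI : Module.Finite F (AdjoinRoot f) := (AdjoinRoot.powerBasis hirr.ne_zero).finite
  haveI : Finite (AdjoinRoot f) := Module.finite_of_finite F
  haveI := Fintype.ofFinite (AdjoinRoot f)
  have hcard : Fintype.card (AdjoinRoot f) = Fintype.card K := by
    rw [Module.card_eq_pow_finrank (K := F) (V := AdjoinRoot f), hfin, hF, hK]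
  obtain ⟨e⟩ : Nonempty (AdjoinRoot f ≃+* K) := ⟨FiniteField.ringEquivOfCardEq hcard⟩
  refine ⟨(e : AdjoinRoot f →+* K).comp (AdjoinRoot.of f), e (AdjoinRoot.root f), ?_⟩
  have h0 : (AdjoinRoot.root f) ^ 2 + AdjoinRoot.of f a * AdjoinRoot.root f
      + AdjoinRoot.of f c = 0 := by
    have h1 : Polynomial.eval₂ (AdjoinRoot.of f) (AdjoinRoot.root f)
        (X ^ 2 + C a * X + C c) = 0 := by
      rw [← hf]; exact AdjoinRoot.eval₂_root f
    simpa [Polynomial.eval₂_add, Polynomial.eval₂_mul, Polynomial.eval₂_pow] using h1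
  have := congrArg e h0
  simpa using this

/-- The minus-type form as a quadratic form. -/
noncomputable def qfMinusQ (k : ℕ) (K : Type*) [Field K] (a c : K) :
    QuadraticForm K ((Fin k ⊕ Fin k) ⊕ Fin 2 → K) :=
  ∑ i : Fin k, QuadraticMap.linMulLin (LinearMap.proj (Sum.inl (Sum.inl i)))
      (LinearMap.proj (Sum.inl (Sum.inr i)))
    + QuadraticMap.linMulLin (LinearMap.proj (Sum.inr 0)) (LinearMap.proj (Sum.inr 0))
    + a • QuadraticMap.linMulLin (LinearMap.proj (Sum.inr 0)) (LinearMap.proj (Sum.inr 1))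
    + c • QuadraticMap.linMulLin (LinearMap.proj (Sum.inr 1)) (LinearMap.proj (Sum.inr 1))

theorem qfMinusQ_apply (k : ℕ) {K : Type*} [Field K] (a c : K)
    (v : (Fin k ⊕ Fin k) ⊕ Fin 2 → K) :
    qfMinusQ k K a c v = Cfsg.quadFormMinus k K a c v := by
  unfold qfMinusQ Cfsg.quadFormMinus
  simp only [_root_.add_apply, _root_.sum_apply, QuadraticMap.linMulLin_apply,
    _root_.smul_apply, LinearMap.proj_apply, smul_eq_mul]
  ring

theorem qfMinusQ_polar (k : ℕ) {K : Type*} [Field K] (a c : K)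
    (u v : (Fin k ⊕ Fin k) ⊕ Fin 2 → K) :
    QuadraticMap.polar ⇑(qfMinusQ k K a c) u v =
      ∑ i : Fin k, (u (Sum.inl (Sum.inl i)) * v (Sum.inl (Sum.inr i))
        + u (Sum.inl (Sum.inr i)) * v (Sum.inl (Sum.inl i)))
      + (2 * u (Sum.inr 0) * v (Sum.inr 0)
        + a * (u (Sum.inr 0) * v (Sum.inr 1) + u (Sum.inr 1) * v (Sum.inr 0))
        + 2 * c * u (Sum.inr 1) * v (Sum.inr 1)) := by
  rw [QuadraticMap.polar, qfMinusQ_apply, qfMinusQ_apply, qfMinusQ_apply]
  unfold Cfsg.quadFormMinus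
  simp only [Pi.add_apply, add_mul, mul_add, Finset.sum_add_distrib]
  have h1 : ∑ x : Fin k, v (Sum.inl (Sum.inl x)) * u (Sum.inl (Sum.inr x))
      = ∑ x : Fin k, u (Sum.inl (Sum.inr x)) * v (Sum.inl (Sum.inl x)) :=
    Finset.sum_congr rfl (fun _ _ => mul_comm _ _)
  linear_combination h1

/-- Base change of an isometry along a field embedding. -/
theorem qf_bc {F K ι' : Type*} [Field F] [Field K] [Fintype ι'] [DecidableEq ι'] (ι : F →+* K)
    (QF : QuadraticForm F (ι' → F)) (QK : QuadraticForm K (ι' → K))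
    (hbc : ∀ v : ι' → F, QK (fun i => ι (v i)) = ι (QF v))
    (M : Matrix ι' ι' F) (hM : ∀ v, QF (M *ᵥ v) = QF v) :
    ∀ w : ι' → K, QK ((M.map ι) *ᵥ w) = QK w := by
  have hmv : ∀ v : ι' → F, (M.map ι) *ᵥ (fun i => ι (v i)) = fun i => ι ((M *ᵥ v) i) := by
    intro v
    funext i
    simp only [Matrix.mulVec, dotProduct, Matrix.map_apply, map_sum, map_mul]
  have hsingle : ∀ i : ι', (Pi.single i (1 : K) : ι' → K) =
      fun j => ι ((Pi.single i (1 : F) : ι' → F) j) := by
    intro i
    funext j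
    by_cases h : j = i
    · subst h; simp
    · simp [h]
  have hpolF : ∀ u v : ι' → F, QuadraticMap.polar ⇑QF (M *ᵥ u) (M *ᵥ v)
      = QuadraticMap.polar ⇑QF u v := by
    intro u v
    simp only [QuadraticMap.polar, ← Matrix.mulVec_add, hM]
  have hpolK : ∀ u v : ι' → F, QuadraticMap.polar ⇑QK (fun i => ι (u i)) (fun i => ι (v i))
      = ι (QuadraticMap.polar ⇑QF u v) := by
    intro u v
    have hadd : (fun i => ι (u i)) + (fun i => ι (v i)) = fun i => ι ((u + v) i) := by
      funext i; simp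
    rw [QuadraticMap.polar, hadd, hbc, hbc, hbc, QuadraticMap.polar, map_sub, map_sub]
  have key := qf_sim_of_basis QK (Pi.basisFun K ι') (M.map ι).mulVecLin 1 (by
    intro i
    rw [Pi.basisFun_apply, Matrix.mulVecLin_apply, hsingle, hmv, hbc, hbc, hM, one_mul]) (by
    intro i j
    rw [Pi.basisFun_apply, Pi.basisFun_apply, Matrix.mulVecLin_apply, Matrix.mulVecLin_apply,
      hsingle i, hsingle j, hmv, hmv, hpolK, hpolK, hpolF, one_mul])
  intro w
  have := key w
  rwa [Matrix.mulVecLin_apply, one_mul] at this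

/-- Explicit extension of a hyperbolic system by one more pair. -/
theorem qf_ext_pair {F V : Type*} [Field F] [AddCommGroup V] [Module F V]
    (Q : QuadraticForm F V) (k : ℕ) (e f : ℕ → V) (hH : qfHyp Q k e f) (e₀ f₀ : V)
    (hQe : Q e₀ = 0) (hQf : Q f₀ = 0) (hef : QuadraticMap.polar ⇑Q e₀ f₀ = 1)
    (hp : qfPerp Q k e f e₀) (hfp : qfPerp Q k e f f₀) :
    qfHyp Q (k + 1) (Function.update e k e₀) (Function.update f k f₀) := by
  have hee : QuadraticMap.polar ⇑Q e₀ e₀ = 0 := by rw [qf_polar_self, hQe, mul_zero]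
  have hff : QuadraticMap.polar ⇑Q f₀ f₀ = 0 := by rw [qf_polar_self, hQf, mul_zero]
  intro i hi
  rcases Nat.lt_succ_iff_lt_or_eq.mp hi with hi' | hik
  · rw [Function.update_of_ne (ne_of_lt hi'), Function.update_of_ne (ne_of_lt hi')]
    obtain ⟨q1, q2, q3⟩ := hH i hi'
    refine ⟨q1, q2, ?_⟩
    intro j hj
    rcases Nat.lt_succ_iff_lt_or_eq.mp hj with hj' | hjk
    · rw [Function.update_of_ne (ne_of_lt hj'), Function.update_of_ne (ne_of_lt hj')]
      exact q3 j hj'
    · rw [hjk, Function.update_self, Function.update_self, if_neg (ne_of_lt hi')]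
      exact ⟨(hfp i hi').1, (hp i hi').1, (hfp i hi').2⟩
  · rw [hik, Function.update_self, Function.update_self]
    refine ⟨hQe, hQf, ?_⟩
    intro j hj
    rcases Nat.lt_succ_iff_lt_or_eq.mp hj with hj' | hjk
    · rw [Function.update_of_ne (ne_of_lt hj'), Function.update_of_ne (ne_of_lt hj'),
        if_neg (ne_of_gt hj')]
      refine ⟨?_, ?_, ?_⟩
      · rw [QuadraticMap.polar_comm]; exact (hp j hj').2
      · rw [QuadraticMap.polar_comm]; exact (hp j hj').1
      · rw [QuadraticMap.polar_comm]; exact (hfp j hj').2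
    · rw [hjk, Function.update_self, Function.update_self, if_pos rfl]
      exact ⟨hef, hee, hff⟩

end Cfsg.Agent.Helper5
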