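import Mathlib
import Cfsg.Prelude.Def_Classical
import Cfsg.Agent.Helper5.HermQ2

namespace Cfsg.Agent.Helper5

open Matrix

section
variable {F V : Type*} [Field F] [AddCommGroup V] [Module F V]

/-- Hyperbolic pair. -/
def IsHP (Q : QuadraticForm F V) (e f : V) : Prop :=
  Q e = 0 ∧ Q f = 0 ∧ QuadraticMap.polar ⇑Q e f = 1

/-- The orthogonal complement of a pair. -/
def hpPerp (Q : QuadraticForm F V) (e f : V) : Submodule F V :=
  LinearMap.ker (QuadraticMap.polarBilin Q e) ⊓ LinearMap.ker (QuadraticMap.polarBilin Q f)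

theorem mem_hpPerp (Q : QuadraticForm F V) (e f w : V) :
    w ∈ hpPerp Q e f ↔ QuadraticMap.polar ⇑Q e w = 0 ∧ QuadraticMap.polar ⇑Q f w = 0 := by
  unfold hpPerp
  rw [Submodule.mem_inf, LinearMap.mem_ker, LinearMap.mem_ker,
    QuadraticMap.polarBilin_apply_apply, QuadraticMap.polarBilin_apply_apply]

/-- The projection onto the complement of a hyperbolic pair. -/
def hpProj (Q : QuadraticForm F V) (e f : V) : V →ₗ[F] V :=
  LinearMap.id - (QuadraticMap.polarBilin Q f).smulRight e
    - (QuadraticMap.polarBilin Q e).smulRight f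

theorem hpProj_apply (Q : QuadraticForm F V) (e f v : V) :
    hpProj Q e f v = v - QuadraticMap.polar ⇑Q f v • e - QuadraticMap.polar ⇑Q e v • f := by
  unfold hpProj
  simp [LinearMap.smulRight_apply]

theorem hp_ee {Q : QuadraticForm F V} {e f : V} (h : IsHP Q e f) :
    QuadraticMap.polar ⇑Q e e = 0 := by rw [qf_polar_self, h.1, mul_zero]

theorem hp_ff {Q : QuadraticForm F V} {e f : V} (h : IsHP Q e f) :
    QuadraticMap.polar ⇑Q f f = 0 := by rw [qf_polar_self, h.2.1, mul_zero]

theorem hp_fe {Q : QuadraticForm F V} {e f : V} (h : IsHP Q e f) :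
    QuadraticMap.polar ⇑Q f e = 1 := by rw [QuadraticMap.polar_comm, h.2.2]

theorem hpProj_mem {Q : QuadraticForm F V} {e f : V} (h : IsHP Q e f) (v : V) :
    hpProj Q e f v ∈ hpPerp Q e f := by
  rw [mem_hpPerp, hpProj_apply]
  constructor
  · rw [QuadraticMap.polar_sub_right, QuadraticMap.polar_sub_right,
      QuadraticMap.polar_smul_right, QuadraticMap.polar_smul_right, hp_ee h, h.2.2]
    simp
  · rw [QuadraticMap.polar_sub_right, QuadraticMap.polar_sub_right,
      QuadraticMap.polar_smul_right, QuadraticMap.polar_smul_right, hp_fe h, hp_ff h]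
    simp

theorem hp_decomp (Q : QuadraticForm F V) (e f v : V) :
    v = QuadraticMap.polar ⇑Q f v • e + QuadraticMap.polar ⇑Q e v • f + hpProj Q e f v := by
  rw [hpProj_apply]
  abel

theorem hpProj_of_mem (Q : QuadraticForm F V) (e f w : V) (hw : w ∈ hpPerp Q e f) :
    hpProj Q e f w = w := by
  rw [mem_hpPerp] at hw
  rw [hpProj_apply, hw.1, hw.2]
  simp

theorem hpProj_e {Q : QuadraticForm F V} {e f : V} (h : IsHP Q e f) : hpProj Q e f e = 0 := by
  rw [hpProj_apply, hp_fe h, hp_ee h]
  simp

theorem hpProj_f {Q : QuadraticForm F V} {e f : V} (h : IsHP Q e f) : hpProj Q e f f = 0 := by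
  rw [hpProj_apply, hp_ff h, h.2.2]
  simp

theorem hp_Q {Q : QuadraticForm F V} {e f : V} (h : IsHP Q e f) (a b : F) (w : V)
    (hw : w ∈ hpPerp Q e f) : Q (a • e + b • f + w) = a * b + Q w := by
  rw [mem_hpPerp] at hw
  rw [qf_add, qf_add, qf_smul, qf_smul, h.1, h.2.1, QuadraticMap.polar_add_left,
    QuadraticMap.polar_smul_left, QuadraticMap.polar_smul_left, QuadraticMap.polar_smul_left,
    QuadraticMap.polar_smul_right, h.2.2, hw.1, hw.2]
  simp

theorem hp_Qv {Q : QuadraticForm F V} {e f : V} (h : IsHP Q e f) (v : V) :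
    Q v = QuadraticMap.polar ⇑Q f v * QuadraticMap.polar ⇑Q e v + Q (hpProj Q e f v) := by
  have h1 := hp_Q h (QuadraticMap.polar ⇑Q f v) (QuadraticMap.polar ⇑Q e v) _ (hpProj_mem h v)
  rw [← hp_decomp] at h1
  exact h1

theorem hp_ne_zero {Q : QuadraticForm F V} {e f : V} (h : IsHP Q e f) : e ≠ 0 := by
  intro he
  have := h.2.2
  rw [he] at this
  simp at this

theorem hp_exists (Q : QuadraticForm F V) (hQ : (QuadraticMap.polarBilin Q).Nondegenerate)
    (e : V) (he : e ≠ 0) (hQe : Q e = 0) : ∃ f, IsHP Q e f := by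
  obtain ⟨f₀, hf₀⟩ := qf_ext Q hQ 0 (fun _ => 0) (fun _ => 0)
    (fun i hi => absurd hi (Nat.not_lt_zero _)) e he hQe
    (fun i hi => absurd hi (Nat.not_lt_zero _))
  obtain ⟨h1, h2, h3⟩ := hf₀ 0 (by omega)
  obtain ⟨h4, -, -⟩ := h3 0 (by omega)
  simp only [Function.update_self, if_true] at h1 h2 h4
  exact ⟨f₀, h1, h2, h4⟩

theorem hp_nondeg {Q : QuadraticForm F V} {e f : V} (h : IsHP Q e f)
    (hQ : (QuadraticMap.polarBilin Q).Nondegenerate) :
    (QuadraticMap.polarBilin (Q.comp (hpPerp Q e f).subtype)).Nondegenerate := by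
  have hpol : ∀ w w' : hpPerp Q e f,
      QuadraticMap.polarBilin (Q.comp (hpPerp Q e f).subtype) w w'
        = QuadraticMap.polar ⇑Q (w : V) (w' : V) := by
    intro w w'
    rw [QuadraticMap.polarBilin_apply_apply]
    simp only [QuadraticMap.polar, QuadraticMap.comp_apply, map_add]
    rfl
  have hleft : ∀ w : hpPerp Q e f,
      (∀ w' : hpPerp Q e f, QuadraticMap.polar ⇑Q (w : V) (w' : V) = 0) → w = 0 := by
    intro w hw
    apply Subtype.ext
    apply hQ.1 (w : V)
    intro v
    have hwm := (mem_hpPerp Q e f _).mp w.2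
    rw [QuadraticMap.polarBilin_apply_apply, hp_decomp Q e f v, QuadraticMap.polar_add_right,
      QuadraticMap.polar_add_right, QuadraticMap.polar_smul_right,
      QuadraticMap.polar_smul_right, QuadraticMap.polar_comm (⇑Q) (w : V) e, hwm.1,
      QuadraticMap.polar_comm (⇑Q) (w : V) f, hwm.2, hw ⟨_, hpProj_mem h v⟩]
    simp
  constructor
  · intro w hw
    exact hleft w (fun w' => by rw [← hpol]; exact hw w')
  · intro w hw
    exact hleft w (fun w' => by rw [QuadraticMap.polar_comm, ← hpol]; exact hw w')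

theorem hp_finrank [FiniteDimensional F V] {Q : QuadraticForm F V} {e f : V}
    (h : IsHP Q e f) : Module.finrank F (hpPerp Q e f) + 2 = Module.finrank F V := by
  have h1 := LinearMap.finrank_range_add_finrank_ker
    ((QuadraticMap.polarBilin Q e).prod (QuadraticMap.polarBilin Q f))
  have h2 : LinearMap.range
      ((QuadraticMap.polarBilin Q e).prod (QuadraticMap.polarBilin Q f)) = ⊤ := by
    rw [LinearMap.range_eq_top]
    rintro ⟨x, y⟩
    refine ⟨x • f + y • e, ?_⟩
    simp [LinearMap.prod_apply, Pi.prod, QuadraticMap.polarBilin_apply_apply,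
      QuadraticMap.polar_add_right, QuadraticMap.polar_smul_right, h.1, h.2.1, h.2.2, hp_fe h]
  rw [h2, finrank_top, Module.finrank_prod, Module.finrank_self, LinearMap.ker_prod] at h1
  unfold hpPerp
  omega

theorem hp_count [Fintype F] [FiniteDimensional F V] {Q : QuadraticForm F V} {e f : V}
    (h : IsHP Q e f) :
    Nat.card {v : V // Q v = 0} + Nat.card (hpPerp Q e f)
      = Fintype.card F * Nat.card {w : hpPerp Q e f // Q (w : V) = 0}
        + Fintype.card F * Nat.card (hpPerp Q e f) := by
  classical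
  haveI : Finite V := Module.finite_of_finite F
  obtain ⟨W, hW⟩ : ∃ W : Submodule F V, W = hpPerp Q e f := ⟨_, rfl⟩
  rw [← hW]
  have hmem : ∀ v, hpProj Q e f v ∈ W := fun v => by rw [hW]; exact hpProj_mem h v
  have hQW : ∀ (a b : F) (w : W), Q (a • e + b • f + (w : V)) = a * b + Q (w : V) :=
    fun a b w => hp_Q h a b _ (by rw [← hW]; exact w.2)
  -- the big equivalence
  have e1 : {v : V // Q v = 0} ≃ {x : F × F × W // x.1 * x.2.1 + Q (x.2.2 : V) = 0} :=
    { toFun := fun v => ⟨(QuadraticMap.polar ⇑Q f v.1, QuadraticMap.polar ⇑Q e v.1,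
          ⟨hpProj Q e f v.1, hmem v.1⟩), by
          have := hp_Qv h v.1
          rw [v.2] at this
          exact this.symm⟩
      invFun := fun x => ⟨x.1.1 • e + x.1.2.1 • f + (x.1.2.2 : V), by
          rw [hQW]; exact x.2⟩
      left_inv := fun v => by
        apply Subtype.ext
        exact (hp_decomp Q e f v.1).symm
      right_inv := fun x => by
        obtain ⟨⟨a, b, w⟩, hx⟩ := x
        have hwm := (mem_hpPerp Q e f _).mp (by rw [← hW]; exact w.2)
        apply Subtype.ext
        refine Prod.ext ?_ (Prod.ext ?_ ?_)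
        · show QuadraticMap.polar ⇑Q f (a • e + b • f + (w : V)) = a
          rw [QuadraticMap.polar_add_right, QuadraticMap.polar_add_right,
            QuadraticMap.polar_smul_right, QuadraticMap.polar_smul_right, hp_fe h, hp_ff h,
            hwm.2]
          simp
        · show QuadraticMap.polar ⇑Q e (a • e + b • f + (w : V)) = b
          rw [QuadraticMap.polar_add_right, QuadraticMap.polar_add_right,
            QuadraticMap.polar_smul_right, QuadraticMap.polar_smul_right, hp_ee h, h.2.2,
            hwm.1]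
          simp
        · apply Subtype.ext
          show hpProj Q e f (a • e + b • f + (w : V)) = (w : V)
          rw [map_add, map_add, map_smul, map_smul, hpProj_e h, hpProj_f h,
            hpProj_of_mem Q e f _ (by rw [← hW]; exact w.2)]
          simp }
  have e2 : {x : {x : F × F × W // x.1 * x.2.1 + Q (x.2.2 : V) = 0} // x.1.1 = 0}
      ≃ F × {w : W // Q (w : V) = 0} :=
    { toFun := fun x => (x.1.1.2.1, ⟨x.1.1.2.2, by
          have := x.1.2
          rw [x.2, zero_mul, zero_add] at this
          exact this⟩)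
      invFun := fun y => ⟨⟨(0, y.1, y.2.1), by
          show (0 : F) * y.1 + Q (y.2.1 : V) = 0
          rw [zero_mul, zero_add]; exact y.2.2⟩, rfl⟩
      left_inv := fun x => by
        obtain ⟨⟨⟨a, b, w⟩, hx⟩, ha⟩ := x
        simp only at ha
        subst ha
        rfl
      right_inv := fun y => rfl }
  have e3 : {x : {x : F × F × W // x.1 * x.2.1 + Q (x.2.2 : V) = 0} // ¬ x.1.1 = 0}
      ≃ {a : F // a ≠ 0} × W :=
    { toFun := fun x => (⟨x.1.1.1, x.2⟩, x.1.1.2.2)
      invFun := fun y => ⟨⟨(y.1.1, -Q (y.2 : V) / y.1.1, y.2), by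
          show y.1.1 * (-Q (y.2 : V) / y.1.1) + Q (y.2 : V) = 0
          have := y.1.2
          field_simp
          ring⟩, y.1.2⟩
      left_inv := fun x => by
        obtain ⟨⟨⟨a, b, w⟩, hx⟩, ha⟩ := x
        simp only at ha hx
        apply Subtype.ext
        apply Subtype.ext
        refine Prod.ext rfl (Prod.ext ?_ rfl)
        show -Q (w : V) / a = b
        field_simp
        linear_combination -hx
      right_inv := fun y => rfl }
  have hsplit : Nat.card {x : F × F × W // x.1 * x.2.1 + Q (x.2.2 : V) = 0}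
      = Nat.card (F × {w : W // Q (w : V) = 0}) + Nat.card ({a : F // a ≠ 0} × W) := by
    rw [← Nat.card_congr e2, ← Nat.card_congr e3, ← Nat.card_sum]
    exact (Nat.card_congr (Equiv.sumCompl
      (fun x : {x : F × F × W // x.1 * x.2.1 + Q (x.2.2 : V) = 0} => x.1.1 = 0))).symm
  have hunits : Nat.card {a : F // a ≠ 0} + 1 = Fintype.card F := by
    rw [← Nat.card_congr ((unitsEquivNeZero : Fˣ ≃ {a : F // a ≠ 0})), Nat.card_eq_fintype_card,
      Fintype.card_units]
    have : 1 ≤ Fintype.card F := Fintype.card_pos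
    omega
  rw [Nat.card_congr e1, hsplit, Nat.card_prod, Nat.card_prod, Nat.card_eq_fintype_card (α := F),
    ← hunits]
  ring

end

end Cfsg.Agent.Helper5
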