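import Mathlib
import Cfsg.Prelude.Def_Classical
import Cfsg.Agent.Helper5.OrthOrd1

namespace Cfsg.Agent.Helper5

open Matrix

section
variable {F V V' : Type*} [Field F] [AddCommGroup V] [Module F V] [AddCommGroup V'] [Module F V']

/-- Form-preserving linear maps. -/
def IsoLL (Q : QuadraticForm F V) (Q' : QuadraticForm F V') : Type _ :=
  {t : V →ₗ[F] V' // ∀ v, Q' (t v) = Q v}

theorem isoLL_polar {Q : QuadraticForm F V} {Q' : QuadraticForm F V'} (t : V →ₗ[F] V')
    (ht : ∀ v, Q' (t v) = Q v) (u v : V) :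
    QuadraticMap.polar ⇑Q' (t u) (t v) = QuadraticMap.polar ⇑Q u v := by
  unfold QuadraticMap.polar
  rw [← map_add, ht, ht, ht]

instance isoLL_finite [Finite V] [Finite V'] (Q : QuadraticForm F V) (Q' : QuadraticForm F V') :
    Finite (IsoLL Q Q') :=
  Finite.of_injective (fun t : IsoLL Q Q' => ((t.1 : V →ₗ[F] V') : V → V'))
    (fun _ _ h => Subtype.ext (DFunLike.coe_injective h))

/-- Gluing a map on the complement with a choice of images of the pair. -/
def hpGlue (Q : QuadraticForm F V) (e₀ f₀ : V) (h₀ : IsHP Q e₀ f₀) (W' : Submodule F V')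
    (e f : V') (s : hpPerp Q e₀ f₀ →ₗ[F] W') : V →ₗ[F] V' :=
  (QuadraticMap.polarBilin Q f₀).smulRight e + (QuadraticMap.polarBilin Q e₀).smulRight f
    + W'.subtype ∘ₗ s ∘ₗ (hpProj Q e₀ f₀).codRestrict (hpPerp Q e₀ f₀) (hpProj_mem h₀)

theorem hpGlue_apply (Q : QuadraticForm F V) (e₀ f₀ : V) (h₀ : IsHP Q e₀ f₀)
    (W' : Submodule F V') (e f : V') (s : hpPerp Q e₀ f₀ →ₗ[F] W') (v : V) :
    hpGlue Q e₀ f₀ h₀ W' e f s v
      = QuadraticMap.polar ⇑Q f₀ v • e + QuadraticMap.polar ⇑Q e₀ v • f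
        + (s ⟨hpProj Q e₀ f₀ v, hpProj_mem h₀ v⟩ : V') := by
  unfold hpGlue
  simp only [LinearMap.add_apply, LinearMap.smulRight_apply,
    QuadraticMap.polarBilin_apply_apply, LinearMap.comp_apply, Submodule.subtype_apply]
  rfl

theorem hpGlue_e (Q : QuadraticForm F V) (e₀ f₀ : V) (h₀ : IsHP Q e₀ f₀)
    (W' : Submodule F V') (e f : V') (s : hpPerp Q e₀ f₀ →ₗ[F] W') :
    hpGlue Q e₀ f₀ h₀ W' e f s e₀ = e := by
  rw [hpGlue_apply, hp_fe h₀, hp_ee h₀]
  have : (⟨hpProj Q e₀ f₀ e₀, hpProj_mem h₀ e₀⟩ : hpPerp Q e₀ f₀) = 0 :=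
    Subtype.ext (hpProj_e h₀)
  rw [this, map_zero]
  simp

theorem hpGlue_f (Q : QuadraticForm F V) (e₀ f₀ : V) (h₀ : IsHP Q e₀ f₀)
    (W' : Submodule F V') (e f : V') (s : hpPerp Q e₀ f₀ →ₗ[F] W') :
    hpGlue Q e₀ f₀ h₀ W' e f s f₀ = f := by
  rw [hpGlue_apply, hp_ff h₀, h₀.2.2]
  have : (⟨hpProj Q e₀ f₀ f₀, hpProj_mem h₀ f₀⟩ : hpPerp Q e₀ f₀) = 0 :=
    Subtype.ext (hpProj_f h₀)
  rw [this, map_zero]
  simp

theorem hpGlue_w (Q : QuadraticForm F V) (e₀ f₀ : V) (h₀ : IsHP Q e₀ f₀)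
    (W' : Submodule F V') (e f : V') (s : hpPerp Q e₀ f₀ →ₗ[F] W') (w : hpPerp Q e₀ f₀) :
    hpGlue Q e₀ f₀ h₀ W' e f s (w : V) = (s w : V') := by
  rw [hpGlue_apply]
  have hw := (mem_hpPerp Q e₀ f₀ _).mp w.2
  rw [hw.1, hw.2]
  have : (⟨hpProj Q e₀ f₀ (w : V), hpProj_mem h₀ (w : V)⟩ : hpPerp Q e₀ f₀) = w :=
    Subtype.ext (hpProj_of_mem Q e₀ f₀ _ w.2)
  rw [this]
  simp

theorem isoLL_card_sigma [Finite F] [FiniteDimensional F V] [FiniteDimensional F V']
    (Q : QuadraticForm F V) (Q' : QuadraticForm F V') (e₀ f₀ : V) (h₀ : IsHP Q e₀ f₀) :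
    Nat.card (IsoLL Q Q') = Nat.card (Σ p : {p : V' × V' // IsHP Q' p.1 p.2},
      IsoLL (Q.comp (hpPerp Q e₀ f₀).subtype) (Q'.comp (hpPerp Q' p.1.1 p.1.2).subtype)) := by
  symm
  apply Nat.card_congr
  refine Equiv.ofBijective (fun x => ⟨hpGlue Q e₀ f₀ h₀ (hpPerp Q' x.1.1.1 x.1.1.2)
    x.1.1.1 x.1.1.2 x.2.1, ?_⟩) ⟨?_, ?_⟩
  · intro v
    rw [hpGlue_apply, hp_Q x.1.2 _ _ _ (Submodule.coe_mem _), hp_Qv h₀ v]
    have := x.2.2 ⟨hpProj Q e₀ f₀ v, hpProj_mem h₀ v⟩
    rw [show Q' ((x.2.1 ⟨hpProj Q e₀ f₀ v, hpProj_mem h₀ v⟩ : hpPerp Q' x.1.1.1 x.1.1.2) : V')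
      = Q (hpProj Q e₀ f₀ v) from this]
  · rintro ⟨p, s⟩ ⟨p', s'⟩ hEq
    have hEq' : ∀ v, hpGlue Q e₀ f₀ h₀ (hpPerp Q' p.1.1 p.1.2) p.1.1 p.1.2 s.1 v
        = hpGlue Q e₀ f₀ h₀ (hpPerp Q' p'.1.1 p'.1.2) p'.1.1 p'.1.2 s'.1 v :=
      fun v => congrArg (fun t : IsoLL Q Q' => t.1 v) hEq
    have hp : p = p' := by
      apply Subtype.ext
      apply Prod.ext
      · have := hEq' e₀
        rwa [hpGlue_e, hpGlue_e] at this
      · have := hEq' f₀
        rwa [hpGlue_f, hpGlue_f] at this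
    subst hp
    have hs : s = s' := by
      apply Subtype.ext
      apply LinearMap.ext
      intro w
      apply Subtype.ext
      have := hEq' (w : V)
      rwa [hpGlue_w, hpGlue_w] at this
    rw [hs]
  · intro t
    have hHP : IsHP Q' (t.1 e₀) (t.1 f₀) :=
      ⟨by rw [t.2]; exact h₀.1, by rw [t.2]; exact h₀.2.1,
        by rw [isoLL_polar t.1 t.2]; exact h₀.2.2⟩
    have hmem : ∀ w : hpPerp Q e₀ f₀,
        (t.1.comp (hpPerp Q e₀ f₀).subtype) w ∈ hpPerp Q' (t.1 e₀) (t.1 f₀) := by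
      intro w
      have hw := (mem_hpPerp Q e₀ f₀ _).mp w.2
      rw [mem_hpPerp, LinearMap.comp_apply, Submodule.subtype_apply, isoLL_polar t.1 t.2,
        isoLL_polar t.1 t.2]
      exact hw
    refine ⟨⟨⟨(t.1 e₀, t.1 f₀), hHP⟩,
      ⟨(t.1.comp (hpPerp Q e₀ f₀).subtype).codRestrict (hpPerp Q' (t.1 e₀) (t.1 f₀)) hmem,
        fun w => t.2 (w : V)⟩⟩, ?_⟩
    apply Subtype.ext
    apply LinearMap.ext
    intro v
    show hpGlue Q e₀ f₀ h₀ (hpPerp Q' (t.1 e₀) (t.1 f₀)) (t.1 e₀) (t.1 f₀)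
      ((t.1.comp (hpPerp Q e₀ f₀).subtype).codRestrict (hpPerp Q' (t.1 e₀) (t.1 f₀)) hmem) v
        = t.1 v
    rw [hpGlue_apply]
    conv_rhs => rw [hp_decomp Q e₀ f₀ v]
    rw [map_add, map_add, map_smul, map_smul]
    rfl

theorem hp_card [Fintype F] [FiniteDimensional F V] (Q : QuadraticForm F V)
    (hQ : (QuadraticMap.polarBilin Q).Nondegenerate) (n : ℕ)
    (hn : Module.finrank F V = n + 2) :
    Nat.card {p : V × V // IsHP Q p.1 p.2}
      = Nat.card {e : V // Q e = 0 ∧ e ≠ 0} * Fintype.card F ^ n := by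
  classical
  haveI : Finite V := Module.finite_of_finite F
  have e1 : {p : V × V // IsHP Q p.1 p.2}
      ≃ Σ e : {e : V // Q e = 0 ∧ e ≠ 0}, {f : V // IsHP Q e.1 f} :=
    { toFun := fun p => ⟨⟨p.1.1, p.2.1, hp_ne_zero p.2⟩, ⟨p.1.2, p.2⟩⟩
      invFun := fun x => ⟨(x.1.1, x.2.1), x.2.2⟩
      left_inv := fun _ => rfl
      right_inv := fun _ => rfl }
  have hfib : ∀ e : {e : V // Q e = 0 ∧ e ≠ 0},
      Nat.card {f : V // IsHP Q e.1 f} = Fintype.card F ^ n := by
    intro e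
    obtain ⟨f₁, h₁⟩ := hp_exists Q hQ e.1 e.2.2 e.2.1
    have e2 : hpPerp Q e.1 f₁ ≃ {f : V // IsHP Q e.1 f} :=
      { toFun := fun w => ⟨(-Q (w : V)) • e.1 + (1 : F) • f₁ + (w : V), by
            have hw := (mem_hpPerp Q e.1 f₁ _).mp w.2
            refine ⟨e.2.1, ?_, ?_⟩
            · rw [hp_Q h₁ _ _ _ w.2]; ring
            · rw [QuadraticMap.polar_add_right, QuadraticMap.polar_add_right,
                QuadraticMap.polar_smul_right, QuadraticMap.polar_smul_right, hp_ee h₁,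
                h₁.2.2, hw.1]
              simp⟩
        invFun := fun f => ⟨hpProj Q e.1 f₁ f.1, hpProj_mem h₁ f.1⟩
        left_inv := fun w => by
          apply Subtype.ext
          show hpProj Q e.1 f₁ ((-Q (w : V)) • e.1 + (1 : F) • f₁ + (w : V)) = w
          rw [map_add, map_add, map_smul, map_smul, hpProj_e h₁, hpProj_f h₁,
            hpProj_of_mem Q e.1 f₁ _ w.2]
          simp
        right_inv := fun f => by
          apply Subtype.ext
          show (-Q (hpProj Q e.1 f₁ f.1)) • e.1 + (1 : F) • f₁ + hpProj Q e.1 f₁ f.1 = f.1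
          have h2 := hp_Qv h₁ f.1
          rw [f.2.2.1, f.2.2.2, mul_one] at h2
          have h3 : -Q (hpProj Q e.1 f₁ f.1) = QuadraticMap.polar ⇑Q f₁ f.1 := by
            linear_combination h2
          conv_rhs => rw [hp_decomp Q e.1 f₁ f.1]
          rw [h3, f.2.2.2] }
    rw [← Nat.card_congr e2, Module.natCard_eq_pow_finrank (K := F), Nat.card_eq_fintype_card]
    have := hp_finrank h₁
    congr 1
    omega
  haveI : Fintype {e : V // Q e = 0 ∧ e ≠ 0} := Fintype.ofFinite _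
  rw [Nat.card_congr e1, Nat.card_sigma]
  simp only [hfib]
  rw [Finset.sum_const, Finset.card_univ, smul_eq_mul, Nat.card_eq_fintype_card]

theorem plus_count_step [Fintype F] [FiniteDimensional F V] {Q : QuadraticForm F V} {e f : V}
    (h : IsHP Q e f) {n : ℕ} (hV : Module.finrank F V = 2 * (n + 1))
    (hZ : Nat.card {v : V // Q v = 0} * Fintype.card F + Fintype.card F ^ (n + 1)
      = Fintype.card F ^ (2 * (n + 1)) + Fintype.card F ^ (n + 1 + 1)) :
    Nat.card {w : hpPerp Q e f // (Q.comp (hpPerp Q e f).subtype) w = 0} * Fintype.card F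
        + Fintype.card F ^ n = Fintype.card F ^ (2 * n) + Fintype.card F ^ (n + 1) := by
  have hc := hp_count h
  have hW : Nat.card (hpPerp Q e f) = Fintype.card F ^ (2 * n) := by
    rw [Module.natCard_eq_pow_finrank (K := F), Nat.card_eq_fintype_card]
    congr 1
    have := hp_finrank h
    omega
  rw [hW] at hc
  have hcongr : Nat.card {w : hpPerp Q e f // (Q.comp (hpPerp Q e f).subtype) w = 0}
      = Nat.card {w : hpPerp Q e f // Q (w : V) = 0} := rfl
  rw [hcongr]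
  generalize Nat.card {w : hpPerp Q e f // Q (w : V) = 0} = Z' at hc ⊢
  generalize Nat.card {v : V // Q v = 0} = Z at hc hZ
  have hq0 : 0 < Fintype.card F := Fintype.card_pos
  generalize Fintype.card F = q at hc hZ hq0 ⊢
  obtain ⟨A, hA⟩ : ∃ A, A = q ^ n := ⟨_, rfl⟩
  have e1 : q ^ (n + 1) = q * A := by rw [hA]; ring
  have e2 : q ^ (2 * (n + 1)) = q * q * (A * A) := by rw [hA]; ring
  have e3 : q ^ (n + 1 + 1) = q * q * A := by rw [hA]; ring
  have e4 : q ^ (2 * n) = A * A := by rw [hA]; ring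
  rw [e1, e2, e3] at hZ
  rw [e4] at hc
  rw [e4, e1, ← hA]
  apply Nat.eq_of_mul_eq_mul_left hq0
  have hc' : q * (Z + A * A) = q * (q * Z' + q * (A * A)) := by rw [hc]
  linarith

theorem plus_sing_count [Fintype F] [FiniteDimensional F V] (Q : QuadraticForm F V) {n : ℕ}
    (hZ : Nat.card {v : V // Q v = 0} * Fintype.card F + Fintype.card F ^ (n + 1)
      = Fintype.card F ^ (2 * (n + 1)) + Fintype.card F ^ (n + 1 + 1)) :
    Nat.card {e : V // Q e = 0 ∧ e ≠ 0}
      = (Fintype.card F ^ (n + 1) - 1) * (Fintype.card F ^ n + 1) := by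
  classical
  haveI : Finite V := Module.finite_of_finite F
  have h1 : Nat.card {v : V // Q v = 0} = Nat.card {e : V // Q e = 0 ∧ e ≠ 0} + 1 := by
    rw [Nat.card_congr (Equiv.sumCompl (fun x : {v : V // Q v = 0} => x.1 = 0)).symm,
      Nat.card_sum, add_comm]
    congr 1
    · exact Nat.card_congr
        (Equiv.subtypeSubtypeEquivSubtypeInter (fun v : V => Q v = 0) (fun v : V => ¬ v = 0))
    · rw [Nat.card_eq_one_iff_unique]
      exact ⟨⟨fun a b => Subtype.ext (Subtype.ext (a.2.trans b.2.symm))⟩,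
        ⟨⟨⟨0, map_zero Q⟩, rfl⟩⟩⟩
  rw [h1] at hZ
  generalize Nat.card {e : V // Q e = 0 ∧ e ≠ 0} = S at hZ ⊢
  have hq0 : 0 < Fintype.card F := Fintype.card_pos
  generalize Fintype.card F = q at hZ hq0 ⊢
  obtain ⟨A, hA⟩ : ∃ A, A = q ^ n := ⟨_, rfl⟩
  have e1 : q ^ (n + 1) = q * A := by rw [hA]; ring
  have e2 : q ^ (2 * (n + 1)) = q * q * (A * A) := by rw [hA]; ring
  have e3 : q ^ (n + 1 + 1) = q * q * A := by rw [hA]; ring
  rw [e1, e2, e3] at hZ
  rw [e1, ← hA]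
  have hA1 : 1 ≤ A := by rw [hA]; exact Nat.one_le_pow _ _ hq0
  obtain ⟨B, hB⟩ : ∃ B, q * A = B + 1 := ⟨q * A - 1, by
    have : 1 ≤ q * A := Nat.mul_pos hq0 hA1
    omega⟩
  rw [hB, Nat.add_sub_cancel]
  apply Nat.eq_of_mul_eq_mul_left hq0
  have h3 : (q * A) * (q * A) = (B + 1) * (B + 1) := by rw [hB]
  have h4 : q * (q * A) = q * (B + 1) := by rw [hB]
  have h5 : B * (q * A) = B * (B + 1) := by rw [hB]
  linarith

end

/-- The recursion for the order of the plus-type group. -/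
def plusN (q : ℕ) : ℕ → ℕ
  | 0 => 1
  | n + 1 => (q ^ (n + 1) - 1) * (q ^ n + 1) * q ^ (2 * n) * plusN q n

theorem plusN_succ (q n : ℕ) :
    plusN q (n + 1) = (q ^ (n + 1) - 1) * (q ^ n + 1) * q ^ (2 * n) * plusN q n := rfl

theorem plusN_closed (q : ℕ) (hq : 1 ≤ q) (k : ℕ) :
    plusN q (k + 1) = 2 * q ^ ((k + 1) * k) * (q ^ (k + 1) - 1)
      * ∏ i ∈ Finset.range k, (q ^ (2 * (i + 1)) - 1) := by
  induction k with
  | zero =>
    rw [plusN_succ]
    simp [plusN]
    ring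
  | succ k ih =>
    rw [plusN_succ, ih, Finset.prod_range_succ]
    have h1 : (q ^ (k + 1) + 1) * (q ^ (k + 1) - 1) = q ^ (2 * (k + 1)) - 1 := by
      obtain ⟨y, hy⟩ : ∃ y, q ^ (k + 1) = y + 1 := ⟨q ^ (k + 1) - 1, by
        have := Nat.one_le_pow (k + 1) q hq
        omega⟩
      have h2 : q ^ (2 * (k + 1)) = (y + 1 + 1) * y + 1 := by
        rw [show 2 * (k + 1) = (k + 1) + (k + 1) by ring, pow_add, hy]; ring
      rw [h2, hy, Nat.add_sub_cancel, Nat.add_sub_cancel]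
    have h2 : q ^ (2 * (k + 1)) * q ^ ((k + 1) * k) = q ^ ((k + 1 + 1) * (k + 1)) := by
      rw [← pow_add]
      congr 1
      ring
    rw [← h1, ← h2]
    ring

universe u

theorem isoLL_card_plus {F : Type*} [Field F] [Fintype F] :
    ∀ (n : ℕ) (V V' : Type u) [AddCommGroup V] [Module F V] [FiniteDimensional F V]
      [AddCommGroup V'] [Module F V'] [FiniteDimensional F V']
      (Q : QuadraticForm F V) (Q' : QuadraticForm F V'),
      (QuadraticMap.polarBilin Q).Nondegenerate → (QuadraticMap.polarBilin Q').Nondegenerate →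
      Module.finrank F V = 2 * n → Module.finrank F V' = 2 * n →
      Nat.card {v : V // Q v = 0} * Fintype.card F + Fintype.card F ^ n
        = Fintype.card F ^ (2 * n) + Fintype.card F ^ (n + 1) →
      Nat.card {v : V' // Q' v = 0} * Fintype.card F + Fintype.card F ^ n
        = Fintype.card F ^ (2 * n) + Fintype.card F ^ (n + 1) →
      Nat.card (IsoLL Q Q') = plusN (Fintype.card F) n := by
  intro n
  induction n with
  | zero =>
    intro V V' _ _ _ _ _ _ Q Q' hQ hQ' hV hV' hZ hZ'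
    haveI : Subsingleton V := Module.finrank_zero_iff.mp (by simpa using hV)
    haveI : Subsingleton V' := Module.finrank_zero_iff.mp (by simpa using hV')
    show Nat.card (IsoLL Q Q') = 1
    rw [Nat.card_eq_one_iff_unique]
    refine ⟨⟨fun a b => Subtype.ext (LinearMap.ext fun v => Subsingleton.elim _ _)⟩,
      ⟨⟨0, fun v => ?_⟩⟩⟩
    rw [Subsingleton.elim v 0]
    simp
  | succ n ih =>
    intro V V' _ _ _ _ _ _ Q Q' hQ hQ' hV hV' hZ hZ'
    classical
    haveI : Finite V := Module.finite_of_finite F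
    haveI : Finite V' := Module.finite_of_finite F
    have hq2 : 2 ≤ Fintype.card F := Fintype.one_lt_card
    obtain ⟨e₀, he₀, hQe₀⟩ : ∃ e₀ : V, e₀ ≠ 0 ∧ Q e₀ = 0 := by
      by_contra hcon
      push_neg at hcon
      have hsub : Nat.card {v : V // Q v = 0} ≤ 1 := by
        haveI : Subsingleton {v : V // Q v = 0} := ⟨fun a b => Subtype.ext (by
          have ha : a.1 = 0 := by
            by_contra h
            exact hcon a.1 h a.2
          have hb : b.1 = 0 := by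
            by_contra h
            exact hcon b.1 h b.2
          rw [ha, hb])⟩
        exact Finite.card_le_one_iff_subsingleton.mpr inferInstance
      generalize Nat.card {v : V // Q v = 0} = Z at hZ hsub
      generalize Fintype.card F = q at hZ hq2
      obtain ⟨B, hB⟩ : ∃ B, B = q ^ (n + 1) := ⟨_, rfl⟩
      have e2 : q ^ (2 * (n + 1)) = B * B := by rw [hB]; ring
      have e3 : q ^ (n + 1 + 1) = q * B := by rw [hB]; ring
      rw [e2, e3, ← hB] at hZ
      have hB2 : 2 ≤ B := by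
        rw [hB]
        calc 2 ≤ q := hq2
          _ = q ^ 1 := (pow_one q).symm
          _ ≤ q ^ (n + 1) := Nat.pow_le_pow_right (by omega) (by omega)
      have hBq : q ≤ B := by
        rw [hB]
        calc q = q ^ 1 := (pow_one q).symm
          _ ≤ q ^ (n + 1) := Nat.pow_le_pow_right (by omega) (by omega)
      have h1 : 2 * B ≤ B * B := Nat.mul_le_mul_right B hB2
      have h2 : 2 * B ≤ q * B := Nat.mul_le_mul_right B hq2
      have h3 : Z * q ≤ 1 * q := Nat.mul_le_mul_right q hsub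
      linarith
    obtain ⟨f₀, h₀⟩ := hp_exists Q hQ e₀ he₀ hQe₀
    rw [isoLL_card_sigma Q Q' e₀ f₀ h₀]
    haveI : Fintype {p : V' × V' // IsHP Q' p.1 p.2} := Fintype.ofFinite _
    have hW₀fr : Module.finrank F (hpPerp Q e₀ f₀) = 2 * n := by
      have := hp_finrank h₀
      omega
    have hfib : ∀ p : {p : V' × V' // IsHP Q' p.1 p.2},
        Nat.card (IsoLL (Q.comp (hpPerp Q e₀ f₀).subtype)
          (Q'.comp (hpPerp Q' p.1.1 p.1.2).subtype)) = plusN (Fintype.card F) n := by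
      intro p
      exact ih _ _ _ _ (hp_nondeg h₀ hQ) (hp_nondeg p.2 hQ') hW₀fr
        (by have := hp_finrank p.2; omega) (plus_count_step h₀ hV hZ)
        (plus_count_step p.2 hV' hZ')
    rw [Nat.card_sigma]
    simp only [hfib]
    rw [Finset.sum_const, Finset.card_univ, smul_eq_mul, ← Nat.card_eq_fintype_card,
      hp_card Q' hQ' (2 * n) (by omega), plus_sing_count Q' hZ', plusN_succ]

end Cfsg.Agent.Helper5
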