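import Mathlib
import Cfsg.Prelude.Def_Classical
import Cfsg.Agent.Helper5.OrthOrd2
import Cfsg.Agent.S0289

namespace Cfsg.Agent.Helper5

open Matrix

/-- The plus form as a quadratic form. -/
noncomputable def qfPlusQ (m : ℕ) (F : Type*) [Field F] :
    QuadraticForm F (Fin m ⊕ Fin m → F) :=
  ∑ i : Fin m, QuadraticMap.linMulLin (LinearMap.proj (Sum.inl i)) (LinearMap.proj (Sum.inr i))

theorem qfPlusQ_apply (m : ℕ) {F : Type*} [Field F] (v : Fin m ⊕ Fin m → F) :
    qfPlusQ m F v = Cfsg.quadFormPlus m F v := by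
  unfold qfPlusQ Cfsg.quadFormPlus
  simp only [_root_.sum_apply, QuadraticMap.linMulLin_apply, LinearMap.proj_apply]

theorem qfPlusQ_nondeg (m : ℕ) (F : Type*) [Field F] :
    (QuadraticMap.polarBilin (qfPlusQ m F)).Nondegenerate := by
  have : QuadraticMap.polarBilin (qfPlusQ m F) = qfPlusB F m := by
    apply LinearMap.ext₂
    intro u v
    rw [QuadraticMap.polarBilin_apply_apply, QuadraticMap.polar, qfPlusQ_apply, qfPlusQ_apply,
      qfPlusQ_apply, qfPlusB_polar]
  rw [this]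
  exact qfPlusB_nondeg F m

theorem isoLL_card_group {ι : Type} [Fintype ι] [DecidableEq ι] {F : Type*} [Field F]
    (Q' : (ι → F) → F) (Q : QuadraticForm F (ι → F)) (hQ : ∀ v, Q v = Q' v)
    (hnd : (QuadraticMap.polarBilin Q).Nondegenerate) :
    Nat.card (Cfsg.isometryGroup F Q') = Nat.card (IsoLL Q Q) := by
  apply Nat.card_congr
  refine Equiv.ofBijective (fun g => ⟨Matrix.toLin' ((g.1 : GL ι F) : Matrix ι ι F),
    fun v => ?_⟩) ⟨?_, ?_⟩
  · rw [hQ, hQ, Matrix.toLin'_apply]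
    exact g.2 v v
  · intro g g' h
    apply Subtype.ext
    apply Units.ext
    exact Matrix.toLin'.injective (congrArg Subtype.val h)
  · intro t
    have hinj : Function.Injective t.1 := by
      rw [injective_iff_map_eq_zero]
      intro v hv
      apply hnd.1 v
      intro w
      rw [QuadraticMap.polarBilin_apply_apply, ← isoLL_polar t.1 t.2, hv]
      simp [QuadraticMap.polar]
    have hsurj : Function.Surjective t.1 := LinearMap.injective_iff_surjective.mp hinj
    obtain ⟨E, hE⟩ : ∃ E : (ι → F) ≃ₗ[F] (ι → F), ∀ v, E v = t.1 v :=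
      ⟨LinearEquiv.ofBijective t.1 ⟨hinj, hsurj⟩, fun v => rfl⟩
    have h1 : LinearMap.toMatrix' t.1
        * LinearMap.toMatrix' (E.symm : (ι → F) →ₗ[F] (ι → F)) = 1 := by
      rw [← LinearMap.toMatrix'_comp, ← LinearMap.toMatrix'_id]
      congr 1
      apply LinearMap.ext
      intro v
      rw [LinearMap.comp_apply, LinearEquiv.coe_coe, ← hE, LinearEquiv.apply_symm_apply]
      rfl
    have h2 : LinearMap.toMatrix' (E.symm : (ι → F) →ₗ[F] (ι → F))
        * LinearMap.toMatrix' t.1 = 1 := by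
      rw [← LinearMap.toMatrix'_comp, ← LinearMap.toMatrix'_id]
      congr 1
      apply LinearMap.ext
      intro v
      rw [LinearMap.comp_apply, LinearEquiv.coe_coe, ← hE, LinearEquiv.symm_apply_apply]
      rfl
    refine ⟨⟨⟨LinearMap.toMatrix' t.1, LinearMap.toMatrix' (E.symm : (ι → F) →ₗ[F] (ι → F)),
      h1, h2⟩, ?_⟩, ?_⟩
    · intro u v
      show Q' (LinearMap.toMatrix' t.1 *ᵥ u) = Q' u
      rw [← Matrix.toLin'_apply, Matrix.toLin'_toMatrix', ← hQ, t.2, hQ]
    · apply Subtype.ext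
      show Matrix.toLin' (LinearMap.toMatrix' t.1) = t.1
      exact Matrix.toLin'_toMatrix' t.1

theorem go_plus_order {F : Type*} [Field F] [Fintype F] {q : ℕ} (hF : Fintype.card F = q)
    (k : ℕ) :
    Nat.card (Cfsg.isometryGroup F (Cfsg.quadFormPlus (k + 1) F))
      = 2 * q ^ ((k + 1) * k) * (q ^ (k + 1) - 1)
        * ∏ i ∈ Finset.range k, (q ^ (2 * (i + 1)) - 1) := by
  classical
  rw [isoLL_card_group _ (qfPlusQ (k + 1) F) (qfPlusQ_apply (k + 1)) (qfPlusQ_nondeg (k + 1) F)]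
  have hq0 : 0 < Fintype.card F := Fintype.card_pos
  have hZ : Nat.card {v : Fin (k + 1) ⊕ Fin (k + 1) → F // qfPlusQ (k + 1) F v = 0}
        * Fintype.card F + Fintype.card F ^ (k + 1)
      = Fintype.card F ^ (2 * (k + 1)) + Fintype.card F ^ (k + 1 + 1) := by
    have h1 := Cfsg.Agent.S0289.result (F := F) rfl (k + 1) (by omega)
    have h2 : Nat.card {v : Fin (k + 1) ⊕ Fin (k + 1) → F // qfPlusQ (k + 1) F v = 0}
        = Nat.card {v : Fin (k + 1) ⊕ Fin (k + 1) → F // Cfsg.quadFormPlus (k + 1) F v = 0} :=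
      Nat.card_congr (Equiv.subtypeEquivRight (fun v => by rw [qfPlusQ_apply]))
    rw [h2, h1]
    generalize Fintype.card F = q' at hq0 ⊢
    obtain ⟨A, hA⟩ : ∃ A, A = q' ^ k := ⟨_, rfl⟩
    have e1 : q' ^ (k + 1) = q' * A := by rw [hA]; ring
    have e2 : q' ^ (2 * (k + 1) - 1) = q' * (A * A) := by
      rw [show 2 * (k + 1) - 1 = 2 * k + 1 by omega, hA]; ring
    have e3 : q' ^ (2 * (k + 1)) = q' * q' * (A * A) := by rw [hA]; ring
    have e4 : q' ^ (k + 1 + 1) = q' * q' * A := by rw [hA]; ring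
    have e5 : q' ^ (k + 1 - 1) = A := by rw [hA, Nat.add_sub_cancel]
    rw [e1, e2, e3, e4, e5]
    obtain ⟨D, hD⟩ : ∃ D, q' * A = A + D := ⟨q' * A - A, by
      have : A ≤ q' * A := Nat.le_mul_of_pos_left A hq0
      omega⟩
    have h5 : q' * (A * A) + q' * A - A = q' * (A * A) + D := by
      rw [hD]
      omega
    rw [h5]
    have h6 : q' * (q' * A) = q' * (A + D) := by rw [hD]
    linarith
  have hfr : Module.finrank F (Fin (k + 1) ⊕ Fin (k + 1) → F) = 2 * (k + 1) := by
    simp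
    ring
  rw [isoLL_card_plus (k + 1) _ _ _ _ (qfPlusQ_nondeg (k + 1) F) (qfPlusQ_nondeg (k + 1) F)
    hfr hfr hZ hZ, hF, plusN_closed q (by rw [← hF]; exact Fintype.card_pos) k]

end Cfsg.Agent.Helper5
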