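import Mathlib
import Cfsg.Prelude.Def_Classical
import Cfsg.Agent.Helper5.OrthOrd3
import Cfsg.Agent.Helper5.MinusPlus

namespace Cfsg.Agent.Helper5

open Matrix

/-- Base change of the isometry group along a field embedding. -/
theorem iso_bc_hom {F K : Type*} {ι' : Type} [Field F] [Field K] [Fintype ι'] [DecidableEq ι']
    (ι : F →+* K) (QF : QuadraticForm F (ι' → F)) (QK : QuadraticForm K (ι' → K))
    (hbc : ∀ v : ι' → F, QK (fun i => ι (v i)) = ι (QF v))
    (QF' : (ι' → F) → F) (QK' : (ι' → K) → K) (hF : ∀ v, QF v = QF' v)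
    (hK : ∀ v, QK v = QK' v) :
    ∃ φ : ↥(Cfsg.isometryGroup F QF') →* ↥(Cfsg.isometryGroup K QK'), Function.Injective φ := by
  have hmem : ∀ g : ↥(Cfsg.isometryGroup F QF'),
      ((Matrix.GeneralLinearGroup.map ι).comp (Cfsg.isometryGroup F QF').subtype) g
        ∈ Cfsg.isometryGroup K QK' := by
    intro g u v
    show QK' ((Matrix.GeneralLinearGroup.map ι g.1 : GL ι' K).1 *ᵥ u) = QK' u
    rw [← hK, ← hK]
    exact qf_bc ι QF QK hbc (g.1 : Matrix ι' ι' F) (fun v => by rw [hF, hF]; exact g.2 v v) u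
  refine ⟨((Matrix.GeneralLinearGroup.map ι).comp
    (Cfsg.isometryGroup F QF').subtype).codRestrict _ hmem, ?_⟩
  intro g h hgh
  have h1 : Matrix.GeneralLinearGroup.map ι g.1 = Matrix.GeneralLinearGroup.map ι h.1 :=
    congrArg Subtype.val hgh
  apply Subtype.ext
  apply Units.ext
  ext i j
  have h2 := congrArg (fun z : GL ι' K => (z : Matrix ι' ι' K) i j) h1
  simp only [Matrix.GeneralLinearGroup.map_apply] at h2
  exact ι.injective h2

theorem mulEquiv_of_inj_card {G H : Type*} [Group G] [Group H] [Finite H] (φ : G →* H)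
    (hφ : Function.Injective φ) (hc : Nat.card G = Nat.card H) : Nonempty (G ≃* H) := by
  have hbij : Function.Bijective φ := by
    rw [Nat.bijective_iff_injective_and_card]
    exact ⟨hφ, hc⟩
  exact ⟨MulEquiv.ofBijective φ hbij⟩

theorem qfPlusQ_bc {F K : Type*} [Field F] [Field K] (ι : F →+* K) (m : ℕ)
    (v : Fin m ⊕ Fin m → F) :
    qfPlusQ m K (fun i => ι (v i)) = ι (qfPlusQ m F v) := by
  rw [qfPlusQ_apply, qfPlusQ_apply]
  unfold Cfsg.quadFormPlus
  simp only [map_sum, map_mul]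

end Cfsg.Agent.Helper5
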