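import Mathlib
import Cfsg.Prelude.Def_Classical
import Cfsg.Agent.Helper5.OrthOrd4
import Cfsg.Agent.Helper5.HermQ2

namespace Cfsg.Agent.Helper5

theorem norm_one_card {K : Type*} [Field K] [Fintype K] {q : ℕ} (hK : Fintype.card K = q ^ 2)
    (hq : 2 ≤ q) : Nat.card {a : K // a ^ (q + 1) = 1} = q + 1 := by
  classical
  have h1 : Nat.card (powMonoidHom (q + 1) : Kˣ →* Kˣ).ker = (Nat.card Kˣ).gcd (q + 1) :=
    IsCyclic.card_powMonoidHom_ker Kˣ (q + 1)
  have h2 : Nat.card Kˣ = q ^ 2 - 1 := by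
    rw [Nat.card_eq_fintype_card, Fintype.card_units, hK]
  have h3 : (q ^ 2 - 1).gcd (q + 1) = q + 1 := by
    apply Nat.gcd_eq_right
    refine ⟨q - 1, ?_⟩
    obtain ⟨r, rfl⟩ : ∃ r, q = r + 1 := ⟨q - 1, by omega⟩
    have : (r + 1) ^ 2 = (r + 1 + 1) * r + 1 := by ring
    rw [this, Nat.add_sub_cancel, Nat.add_sub_cancel]
  rw [h2, h3] at h1
  refine (Nat.card_congr ?_).trans h1
  exact
    { toFun := fun a => ⟨Units.mk0 a.1 (by
          intro h0
          have := a.2
          rw [h0, zero_pow (by omega)] at this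
          exact zero_ne_one this), by
          rw [MonoidHom.mem_ker, powMonoidHom_apply]
          apply Units.ext
          simp [a.2]⟩
      invFun := fun u => ⟨(u.1 : K), by
          have := u.2
          rw [MonoidHom.mem_ker, powMonoidHom_apply] at this
          have h := congrArg (fun z : Kˣ => (z : K)) this
          simpa using h⟩
      left_inv := fun a => rfl
      right_inv := fun u => by
        apply Subtype.ext
        apply Units.ext
        rfl }

section
variable {F K : Type*} [Field F] [Fintype F] [Field K] [Fintype K] [Algebra F K]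

theorem norm_iso_card {q : ℕ} (hF : Fintype.card F = q) (hK : Fintype.card K = q ^ 2) :
    Nat.card {t : K →ₗ[F] K // ∀ x, (t x) ^ (q + 1) = x ^ (q + 1)} = 2 * (q + 1) := by
  classical
  have hq2 : 2 ≤ q := by rw [← hF]; exact Fintype.one_lt_card
  obtain ⟨σ, hσ⟩ : ∃ σ : K →ₗ[F] K, ∀ x, σ x = x ^ q :=
    ⟨(FiniteField.frobeniusAlgHom F K).toLinearMap, fun x => by rw [← hF]; rfl⟩
  have hKq : ∀ x : K, x ^ (q ^ 2) = x := fun x => by rw [← hK]; exact FiniteField.pow_card x
  have hfix : ∀ x : K, (x ^ (q + 1)) ^ q = x ^ (q + 1) := by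
    intro x
    rw [← pow_mul, show (q + 1) * q = q ^ 2 + q by ring, pow_add, hKq, pow_succ, mul_comm]
  have hσ1 : σ 1 = 1 := by rw [hσ, one_pow]
  obtain ⟨x₀, hx₀⟩ : ∃ x₀ : K, x₀ ^ q ≠ x₀ := by
    by_contra hcon
    push_neg at hcon
    have hsurj : Function.Surjective (algebraMap F K) :=
      fun y => ff_fix_range hF (algebraMap F K) y (hcon y)
    have := Fintype.card_le_of_surjective _ hsurj
    rw [hF, hK] at this
    nlinarith
  have hσadd : ∀ x : K, (1 + x) ^ q = 1 + x ^ q := by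
    intro x
    rw [← hσ, map_add, hσ1, hσ]
  obtain ⟨τ, hτf, hτt⟩ : ∃ τ : Bool → K →ₗ[F] K,
      (∀ x, τ false x = x) ∧ (∀ x, τ true x = x ^ q) :=
    ⟨fun b => cond b σ LinearMap.id, fun x => rfl, fun x => hσ x⟩
  have hτ1 : ∀ b, τ b 1 = 1 := by
    intro b
    cases b
    · exact hτf 1
    · rw [hτt, one_pow]
  have hτN : ∀ b x, (τ b x) ^ (q + 1) = x ^ (q + 1) := by
    intro b x
    cases b
    · rw [hτf]
    · rw [hτt, ← pow_mul, mul_comm, pow_mul, hfix]
  have hcard : Nat.card ({a : K // a ^ (q + 1) = 1} × Bool) = 2 * (q + 1) := by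
    rw [Nat.card_prod, norm_one_card hK hq2, Nat.card_eq_fintype_card, Fintype.card_bool]
    ring
  rw [← hcard]
  symm
  apply Nat.card_congr
  refine Equiv.ofBijective
    (fun ab => ⟨(LinearMap.mulLeft F ab.1.1).comp (τ ab.2), fun x => ?_⟩) ⟨?_, ?_⟩
  · rw [LinearMap.comp_apply, LinearMap.mulLeft_apply, mul_pow, ab.1.2, one_mul, hτN]
  · rintro ⟨⟨a, ha⟩, b⟩ ⟨⟨a', ha'⟩, b'⟩ h
    have hfun : ∀ x, a * τ b x = a' * τ b' x := fun x =>
      congrArg (fun t : {t : K →ₗ[F] K // ∀ x, (t x) ^ (q + 1) = x ^ (q + 1)} => t.1 x) h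
    have haa : a = a' := by
      have := hfun 1
      rwa [hτ1, hτ1, mul_one, mul_one] at this
    subst haa
    have ha0 : a ≠ 0 := by
      intro h0
      rw [h0, zero_pow (by omega)] at ha
      exact zero_ne_one ha
    have hbb : b = b' := by
      have h2 := mul_left_cancel₀ ha0 (hfun x₀)
      cases b <;> cases b'
      · rfl
      · rw [hτf, hτt] at h2
        exact absurd h2.symm hx₀
      · rw [hτf, hτt] at h2
        exact absurd h2 hx₀
      · rfl
    rw [hbb]
  · rintro ⟨t, ht⟩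
    have ha : (t 1) ^ (q + 1) = 1 := by rw [ht, one_pow]
    have ha0 : t 1 ≠ 0 := by
      intro h0
      rw [h0, zero_pow (by omega)] at ha
      exact zero_ne_one ha
    have hN' : ∀ x, ((t 1)⁻¹ * t x) ^ (q + 1) = x ^ (q + 1) := by
      intro x
      rw [mul_pow, inv_pow, ha, inv_one, one_mul, ht]
    have e1 : ∀ z : K, (1 + z) ^ (q + 1) = 1 + z + z ^ q + z ^ (q + 1) := by
      intro z
      rw [pow_succ, hσadd]
      ring
    have htr : ∀ x, ((t 1)⁻¹ * t x) + ((t 1)⁻¹ * t x) ^ q = x + x ^ q := by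
      intro x
      have h1 := hN' (1 + x)
      rw [map_add, mul_add, inv_mul_cancel₀ ha0] at h1
      rw [e1, e1, hN' x] at h1
      linear_combination h1
    have hor : ∀ x, (t 1)⁻¹ * t x = x ∨ (t 1)⁻¹ * t x = x ^ q := by
      intro x
      have h1 := htr x
      have h2 := hN' x
      have h3 : ((t 1)⁻¹ * t x - x) * ((t 1)⁻¹ * t x - x ^ q) = 0 := by
        have e2 : x ^ (q + 1) = x ^ q * x := pow_succ x q
        have e3 : ((t 1)⁻¹ * t x) ^ (q + 1) = ((t 1)⁻¹ * t x) ^ q * ((t 1)⁻¹ * t x) :=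
          pow_succ _ q
        rw [e2, e3] at h2
        linear_combination ((t 1)⁻¹ * t x) * h1 - h2
      rcases mul_eq_zero.mp h3 with h | h
      · left
        exact sub_eq_zero.mp h
      · right
        exact sub_eq_zero.mp h
    have hall : (∀ x, (t 1)⁻¹ * t x = x) ∨ (∀ x, (t 1)⁻¹ * t x = x ^ q) := by
      by_contra hcon
      push_neg at hcon
      obtain ⟨⟨x₁, hx₁⟩, ⟨x₂, hx₂⟩⟩ := hcon
      have h1 : (t 1)⁻¹ * t x₁ = x₁ ^ q := (hor x₁).resolve_left hx₁
      have h2 : (t 1)⁻¹ * t x₂ = x₂ := (hor x₂).resolve_right hx₂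
      have h3 : (t 1)⁻¹ * t (x₁ + x₂) = x₁ ^ q + x₂ := by rw [map_add, mul_add, h1, h2]
      have h4 : (x₁ + x₂) ^ q = x₁ ^ q + x₂ ^ q := by rw [← hσ, map_add, hσ, hσ]
      rcases hor (x₁ + x₂) with h | h
      · rw [h3] at h
        apply hx₁
        rw [h1]
        linear_combination h
      · rw [h3, h4] at h
        apply hx₂
        rw [h2]
        linear_combination h
    rcases hall with h | h
    · refine ⟨(⟨t 1, ha⟩, false), ?_⟩
      apply Subtype.ext
      apply LinearMap.ext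
      intro x
      show t 1 * τ false x = t x
      rw [hτf]
      calc t 1 * x = t 1 * ((t 1)⁻¹ * t x) := by rw [h x]
        _ = t x := mul_inv_cancel_left₀ ha0 _
    · refine ⟨(⟨t 1, ha⟩, true), ?_⟩
      apply Subtype.ext
      apply LinearMap.ext
      intro x
      show t 1 * τ true x = t x
      rw [hτt]
      calc t 1 * x ^ q = t 1 * ((t 1)⁻¹ * t x) := by rw [h x]
        _ = t x := mul_inv_cancel_left₀ ha0 _

theorem aniso_model {V : Type*} [AddCommGroup V] [Module F V] [FiniteDimensional F V] {q : ℕ}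
    (hF : Fintype.card F = q) (hK : Fintype.card K = q ^ 2) (Q : QuadraticForm F V)
    (hQ : (QuadraticMap.polarBilin Q).Nondegenerate) (hV : Module.finrank F V = 2)
    (hZ : ∀ v, Q v = 0 → v = 0) :
    ∃ h : V ≃ₗ[F] K, ∀ v, (h v) ^ (q + 1) = algebraMap F K (Q v) := by
  classical
  rcases (qf_classify Q hQ (m := 1) le_rfl (by rw [hV]) :
      (∃ g : V ≃ₗ[F] (Fin 1 ⊕ Fin 1 → F), ∀ v, Q v = Cfsg.quadFormPlus 1 F (g v)) ∨
      (∃ (ζ : F) (g : V ≃ₗ[F] ((Fin 0 ⊕ Fin 0) ⊕ Fin 2 → F)),
        (∀ t : F, t ^ 2 + t + ζ ≠ 0) ∧ ∀ v, Q v = Cfsg.quadFormMinus 0 F 1 ζ (g v)))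
    with ⟨g, hg⟩ | ⟨ζ, g, hζ, hg⟩
  · exfalso
    have h1 := hg (g.symm (Pi.single (Sum.inl 0) 1))
    rw [LinearEquiv.apply_symm_apply] at h1
    have h2 : Cfsg.quadFormPlus 1 F (Pi.single (Sum.inl 0) 1) = 0 := by
      unfold Cfsg.quadFormPlus
      simp
    rw [h2] at h1
    have h3 := hZ _ h1
    have h4 := congrArg g h3
    rw [LinearEquiv.apply_symm_apply, map_zero] at h4
    have h5 := congrFun h4 (Sum.inl 0)
    simp at h5
  · obtain ⟨g₂, hg₂⟩ := norm_coords (K := K) hF hK 1 ζ (fun t => by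
      have := hζ (-t)
      intro h
      apply this
      linear_combination h)
    obtain ⟨res, hres⟩ : ∃ res : ((Fin 0 ⊕ Fin 0) ⊕ Fin 2 → F) ≃ₗ[F] (Fin 2 → F),
        ∀ w i, res w i = w (Sum.inr i) :=
      ⟨LinearEquiv.funCongrLeft F F (Equiv.emptySum (Fin 0 ⊕ Fin 0) (Fin 2)).symm,
        fun w i => rfl⟩
    refine ⟨(g.trans res).trans g₂, fun v => ?_⟩
    rw [LinearEquiv.trans_apply, LinearEquiv.trans_apply, hg₂, hres, hres, hg v]
    unfold Cfsg.quadFormMinus
    simp

theorem aniso_iso_card {V V' : Type*} [AddCommGroup V] [Module F V] [FiniteDimensional F V]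
    [AddCommGroup V'] [Module F V'] [FiniteDimensional F V'] {q : ℕ}
    (hF : Fintype.card F = q) (hK : Fintype.card K = q ^ 2) (Q : QuadraticForm F V)
    (Q' : QuadraticForm F V') (hQ : (QuadraticMap.polarBilin Q).Nondegenerate)
    (hQ' : (QuadraticMap.polarBilin Q').Nondegenerate) (hV : Module.finrank F V = 2)
    (hV' : Module.finrank F V' = 2) (hZ : ∀ v, Q v = 0 → v = 0)
    (hZ' : ∀ v, Q' v = 0 → v = 0) :
    Nat.card (IsoLL Q Q') = 2 * (q + 1) := by
  obtain ⟨h, hh⟩ := aniso_model (K := K) hF hK Q hQ hV hZ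
  obtain ⟨h', hh'⟩ := aniso_model (K := K) hF hK Q' hQ' hV' hZ'
  rw [← norm_iso_card (F := F) (K := K) hF hK]
  apply Nat.card_congr
  exact
    { toFun := fun t => ⟨(h'.toLinearMap.comp t.1).comp h.symm.toLinearMap, fun x => by
          simp only [LinearMap.comp_apply, LinearEquiv.coe_coe]
          rw [hh', t.2, ← hh, LinearEquiv.apply_symm_apply]⟩
      invFun := fun s => ⟨(h'.symm.toLinearMap.comp s.1).comp h.toLinearMap, fun v => by
          apply (algebraMap F K).injective
          simp only [LinearMap.comp_apply, LinearEquiv.coe_coe]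
          rw [← hh', LinearEquiv.apply_symm_apply, s.2, hh]⟩
      left_inv := fun t => by
        apply Subtype.ext
        apply LinearMap.ext
        intro v
        simp
      right_inv := fun s => by
        apply Subtype.ext
        apply LinearMap.ext
        intro x
        simp }

end

theorem aniso_iso_card' {F : Type*} [Field F] [Fintype F] {V V' : Type*} [AddCommGroup V]
    [Module F V] [FiniteDimensional F V] [AddCommGroup V'] [Module F V']
    [FiniteDimensional F V'] (Q : QuadraticForm F V) (Q' : QuadraticForm F V')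
    (hQ : (QuadraticMap.polarBilin Q).Nondegenerate)
    (hQ' : (QuadraticMap.polarBilin Q').Nondegenerate) (hV : Module.finrank F V = 2)
    (hV' : Module.finrank F V' = 2) (hZ : ∀ v, Q v = 0 → v = 0)
    (hZ' : ∀ v, Q' v = 0 → v = 0) :
    Nat.card (IsoLL Q Q') = 2 * (Fintype.card F + 1) := by
  classical
  obtain ⟨p, hp⟩ := CharP.exists F
  haveI := hp
  haveI : Fact p.Prime := ⟨CharP.char_is_prime F p⟩
  haveI := Fintype.ofFinite (FiniteField.Extension F p 2)
  have hcard : Fintype.card (FiniteField.Extension F p 2) = Fintype.card F ^ 2 := by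
    rw [← Nat.card_eq_fintype_card, FiniteField.natCard_extension, Nat.card_eq_fintype_card]
  exact aniso_iso_card (K := FiniteField.Extension F p 2) rfl hcard Q Q' hQ hQ' hV hV' hZ hZ'

end Cfsg.Agent.Helper5
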