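import Cfsg.Agent.Helper5.ParChar2
import Cfsg.Agent.Helper5.Kieler

set_option autoImplicit false

namespace Cfsg.Agent.Helper5

universe u

/-- A subnormal subgroup `G₁` of a group of parabolic characteristic `p` with
`1 ≠ Z(S ∩ G₁) ≤ Z(S)` has parabolic characteristic `p`. -/
theorem parChar_of_subnormal {G : Type u} [Group G] [Finite G] {p : ℕ} [Fact p.Prime]
    (hG : Cfsg.IsOfParabolicCharacteristic p G) (S : Sylow p G)
    (G₁ : Subgroup G) (hsn : G₁.IsSubnormal)
    (hne : ((S : Subgroup G) ⊓ G₁) ⊓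
      Subgroup.centralizer (((S : Subgroup G) ⊓ G₁ : Subgroup G) : Set G) ≠ ⊥)
    (hle : ((S : Subgroup G) ⊓ G₁) ⊓
      Subgroup.centralizer (((S : Subgroup G) ⊓ G₁ : Subgroup G) : Set G) ≤
      (S : Subgroup G) ⊓ Subgroup.centralizer ((S : Subgroup G) : Set G)) :
    Cfsg.IsOfParabolicCharacteristic p ↥G₁ := by
  have hpp : p.Prime := Fact.out
  have hQ : IsPGroup p (((S : Subgroup G) ⊓ G₁ : Subgroup G)) := S.2.to_le inf_le_left
  have hQne : ((S : Subgroup G) ⊓ G₁ : Subgroup G) ≠ ⊥ := by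
    intro h
    apply hne
    rw [h, bot_inf_eq]
  have hcard := dvd_card_of_isPGroup_ne_bot _ hQ hQne
  have hdiv₁ : p ∣ Nat.card ↥G₁ := hcard.trans (Subgroup.card_dvd_of_le inf_le_right)
  have hdiv : p ∣ Nat.card G := hdiv₁.trans (Subgroup.card_subgroup_dvd_card G₁)
  -- Sylow subgroup of G₁
  have hP' : IsPGroup p (((S : Subgroup G) ⊓ G₁).subgroupOf G₁) := hQ.comap_subtype
  have hidx := sylow_inf_subnormal_not_dvd S G₁ hsn
  refine ((local_char_criteria hdiv₁ (hP'.toSylow hidx) ⊥ bot_le).2.1).2 ?_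
  intro z' hz'1 hz'Ω
  obtain ⟨hz'S, hz'c, hz'p⟩ := omegaOne_center_spec p _ z' hz'Ω
  have hz'S' : (z' : G) ∈ (S : Subgroup G) ⊓ G₁ := Subgroup.mem_subgroupOf.1 hz'S
  have hz1 : (z' : G) ≠ 1 := fun h => hz'1 (Subtype.ext h)
  have hzp : (z' : G) ^ p = 1 := by
    have := congrArg Subtype.val hz'p
    simpa using this
  have hzZ : (z' : G) ∈ ((S : Subgroup G) ⊓ G₁) ⊓
      Subgroup.centralizer (((S : Subgroup G) ⊓ G₁ : Subgroup G) : Set G) := by
    refine ⟨hz'S', Subgroup.mem_centralizer_iff.2 ?_⟩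
    intro a ha
    have ha' : (⟨a, ha.2⟩ : ↥G₁) ∈ ((hP'.toSylow hidx : Sylow p ↥G₁) : Subgroup ↥G₁) :=
      Subgroup.mem_subgroupOf.2 ha
    exact congrArg Subtype.val (hz'c _ ha')
  have hzS := hle hzZ
  have hzΩ : (z' : G) ∈ Cfsg.omegaOne p ((S : Subgroup G) ⊓
      Subgroup.centralizer ((S : Subgroup G) : Set G)) :=
    mem_omegaOne_center (S : Subgroup G) _ hzS.1
      (fun a ha => Subgroup.mem_centralizer_iff.1 hzS.2 a ha) hzp
  have h1 := ((local_char_criteria hdiv S ⊥ bot_le).2.1).1 hG (z' : G) hz1 hzΩ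
  have hC := (fstar_eq_pCore_iff_centralizer p).1 h1
  have hY := charP_of_isSubnormal hC (G₁.subgroupOf (Subgroup.centralizer ({(z' : G)} : Set G)))
    hsn.subgroupOf
  have hN' := (fstar_eq_pCore_iff_centralizer p).2 ((charP_iff _).2 hY)
  let φ : ↥(G₁.subgroupOf (Subgroup.centralizer ({(z' : G)} : Set G))) →*
      ↥(Subgroup.centralizer ({z'} : Set ↥G₁)) :=
    { toFun := fun x => ⟨⟨((x : ↥(Subgroup.centralizer ({(z' : G)} : Set G))) : G),
          Subgroup.mem_subgroupOf.1 x.2⟩, by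
        rw [mem_centralizer_singleton_iff]
        apply Subtype.ext
        exact (mem_centralizer_singleton_iff (z' : G) _).1
          (x : ↥(Subgroup.centralizer ({(z' : G)} : Set G))).2⟩
      map_one' := rfl
      map_mul' := fun _ _ => rfl }
  have hφinj : Function.Injective φ := by
    intro x y hxy
    apply Subtype.ext
    apply Subtype.ext
    have := congrArg (fun w : ↥(Subgroup.centralizer ({z'} : Set ↥G₁)) => ((w : ↥G₁) : G)) hxy
    exact this
  have hφsurj : φ.range = ⊤ := by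
    rw [eq_top_iff]
    rintro ⟨y, hy⟩ -
    have hyc : (y : G) ∈ Subgroup.centralizer ({(z' : G)} : Set G) := by
      rw [mem_centralizer_singleton_iff]
      exact congrArg Subtype.val ((mem_centralizer_singleton_iff z' y).1 hy)
    exact ⟨⟨⟨(y : G), hyc⟩, Subgroup.mem_subgroupOf.2 y.2⟩, rfl⟩
  exact Helper3.fstar_eq_pCore_of_injective p φ hφinj (by rw [hφsurj]; exact le_top) hN'

end Cfsg.Agent.Helper5
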