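import Mathlib
import Cfsg.Agent.Helper5.PslOrd2

namespace Cfsg.Agent.Helper5

open Matrix

universe uQ

section
variable {F : Type uQ} [Field F]

theorem m2_lin_eq (A H : Matrix (Fin 2) (Fin 2) F) (α β : F)
    (h00 : H 0 0 = α + β * A 0 0) (h01 : H 0 1 = β * A 0 1) (h10 : H 1 0 = β * A 1 0)
    (h11 : H 1 1 = α + β * A 1 1) :
    H = α • (1 : Matrix (Fin 2) (Fin 2) F) + β • A := by
  ext i j
  fin_cases i <;> fin_cases j
  · show H 0 0 = (α • (1 : Matrix (Fin 2) (Fin 2) F) + β • A) 0 0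
    rw [Matrix.add_apply, Matrix.smul_apply, Matrix.smul_apply, Matrix.one_apply_eq, smul_eq_mul,
      smul_eq_mul, mul_one]
    exact h00
  · show H 0 1 = (α • (1 : Matrix (Fin 2) (Fin 2) F) + β • A) 0 1
    rw [Matrix.add_apply, Matrix.smul_apply, Matrix.smul_apply,
      Matrix.one_apply_ne (show (0 : Fin 2) ≠ 1 by decide), smul_eq_mul, smul_eq_mul, mul_zero,
      zero_add]
    exact h01
  · show H 1 0 = (α • (1 : Matrix (Fin 2) (Fin 2) F) + β • A) 1 0
    rw [Matrix.add_apply, Matrix.smul_apply, Matrix.smul_apply,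
      Matrix.one_apply_ne (show (1 : Fin 2) ≠ 0 by decide), smul_eq_mul, smul_eq_mul, mul_zero,
      zero_add]
    exact h10
  · show H 1 1 = (α • (1 : Matrix (Fin 2) (Fin 2) F) + β • A) 1 1
    rw [Matrix.add_apply, Matrix.smul_apply, Matrix.smul_apply, Matrix.one_apply_eq, smul_eq_mul,
      smul_eq_mul, mul_one]
    exact h11

theorem m2_lin_entries (A : Matrix (Fin 2) (Fin 2) F) (α β : F) :
    (α • (1 : Matrix (Fin 2) (Fin 2) F) + β • A) 0 0 = α + β * A 0 0 ∧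
    (α • (1 : Matrix (Fin 2) (Fin 2) F) + β • A) 0 1 = β * A 0 1 ∧
    (α • (1 : Matrix (Fin 2) (Fin 2) F) + β • A) 1 0 = β * A 1 0 ∧
    (α • (1 : Matrix (Fin 2) (Fin 2) F) + β • A) 1 1 = α + β * A 1 1 := by
  refine ⟨?_, ?_, ?_, ?_⟩
  · rw [Matrix.add_apply, Matrix.smul_apply, Matrix.smul_apply, Matrix.one_apply_eq, smul_eq_mul,
      smul_eq_mul, mul_one]
  · rw [Matrix.add_apply, Matrix.smul_apply, Matrix.smul_apply,
      Matrix.one_apply_ne (show (0 : Fin 2) ≠ 1 by decide), smul_eq_mul, smul_eq_mul, mul_zero,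
      zero_add]
  · rw [Matrix.add_apply, Matrix.smul_apply, Matrix.smul_apply,
      Matrix.one_apply_ne (show (1 : Fin 2) ≠ 0 by decide), smul_eq_mul, smul_eq_mul, mul_zero,
      zero_add]
  · rw [Matrix.add_apply, Matrix.smul_apply, Matrix.smul_apply, Matrix.one_apply_eq, smul_eq_mul,
      smul_eq_mul, mul_one]

theorem m2_commutant (A H : Matrix (Fin 2) (Fin 2) F)
    (hns : A 0 1 ≠ 0 ∨ A 1 0 ≠ 0 ∨ A 0 0 ≠ A 1 1) (hc : H * A = A * H) :
    ∃ α β : F, H = α • (1 : Matrix (Fin 2) (Fin 2) F) + β • A := by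
  have E00 := congrFun (congrFun hc 0) 0
  have E01 := congrFun (congrFun hc 0) 1
  have E10 := congrFun (congrFun hc 1) 0
  have E11 := congrFun (congrFun hc 1) 1
  simp only [Matrix.mul_apply, Fin.sum_univ_two] at E00 E01 E10 E11
  by_cases hb : A 0 1 = 0
  · by_cases hc' : A 1 0 = 0
    · have had : A 0 0 - A 1 1 ≠ 0 := by
        rcases hns with h | h | h
        · exact absurd hb h
        · exact absurd hc' h
        · exact sub_ne_zero.mpr h
      rw [hb] at E01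
      rw [hc'] at E10
      have hy : H 0 1 = 0 := by
        have h1 : H 0 1 * (A 0 0 - A 1 1) = 0 := by linear_combination (-1 : F) * E01
        rcases mul_eq_zero.mp h1 with h | h
        · exact h
        · exact absurd h had
      have hz : H 1 0 = 0 := by
        have h1 : H 1 0 * (A 0 0 - A 1 1) = 0 := by linear_combination E10
        rcases mul_eq_zero.mp h1 with h | h
        · exact h
        · exact absurd h had
      refine ⟨H 0 0 - (H 0 0 - H 1 1) / (A 0 0 - A 1 1) * A 0 0,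
        (H 0 0 - H 1 1) / (A 0 0 - A 1 1), m2_lin_eq A H _ _ ?_ ?_ ?_ ?_⟩
      · ring
      · rw [hb, mul_zero]; exact hy
      · rw [hc', mul_zero]; exact hz
      · have h5 : (H 0 0 - H 1 1) / (A 0 0 - A 1 1) * (A 0 0 - A 1 1) = H 0 0 - H 1 1 :=
          div_mul_cancel₀ _ had
        linear_combination h5
    · refine ⟨H 0 0 - H 1 0 / A 1 0 * A 0 0, H 1 0 / A 1 0, m2_lin_eq A H _ _ ?_ ?_ ?_ ?_⟩
      · ring
      · have h5 : H 1 0 / A 1 0 * A 1 0 = H 1 0 := div_mul_cancel₀ _ hc'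
        have h6 : (H 0 1 - H 1 0 / A 1 0 * A 0 1) * A 1 0 = 0 := by
          linear_combination (-1 : F) * E11 - A 0 1 * h5
        rcases mul_eq_zero.mp h6 with h | h
        · exact sub_eq_zero.mp h
        · exact absurd h hc'
      · exact (div_mul_cancel₀ _ hc').symm
      · have h5 : H 1 0 / A 1 0 * A 1 0 = H 1 0 := div_mul_cancel₀ _ hc'
        have h6 : (H 1 1 - (H 0 0 - H 1 0 / A 1 0 * A 0 0 + H 1 0 / A 1 0 * A 1 1)) * A 1 0
            = 0 := by
          linear_combination E10 + (A 0 0 - A 1 1) * h5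
        rcases mul_eq_zero.mp h6 with h | h
        · exact sub_eq_zero.mp h
        · exact absurd h hc'
  · refine ⟨H 0 0 - H 0 1 / A 0 1 * A 0 0, H 0 1 / A 0 1, m2_lin_eq A H _ _ ?_ ?_ ?_ ?_⟩
    · ring
    · exact (div_mul_cancel₀ _ hb).symm
    · have h5 : H 0 1 / A 0 1 * A 0 1 = H 0 1 := div_mul_cancel₀ _ hb
      have h6 : (H 1 0 - H 0 1 / A 0 1 * A 1 0) * A 0 1 = 0 := by
        linear_combination (-1 : F) * E00 - A 1 0 * h5
      rcases mul_eq_zero.mp h6 with h | h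
      · exact sub_eq_zero.mp h
      · exact absurd h hb
    · have h5 : H 0 1 / A 0 1 * A 0 1 = H 0 1 := div_mul_cancel₀ _ hb
      have h6 : (H 1 1 - (H 0 0 - H 0 1 / A 0 1 * A 0 0 + H 0 1 / A 0 1 * A 1 1)) * A 0 1
          = 0 := by
        linear_combination (-1 : F) * E01 + (A 0 0 - A 1 1) * h5
      rcases mul_eq_zero.mp h6 with h | h
      · exact sub_eq_zero.mp h
      · exact absurd h hb

/-- the centraliser in `SL₂` of a non-scalar element, parametrised -/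
theorem sl2_centralizer_card_eq (g : Matrix.SpecialLinearGroup (Fin 2) F)
    (hns : (g : Matrix (Fin 2) (Fin 2) F) 0 1 ≠ 0 ∨ (g : Matrix (Fin 2) (Fin 2) F) 1 0 ≠ 0 ∨
      (g : Matrix (Fin 2) (Fin 2) F) 0 0 ≠ (g : Matrix (Fin 2) (Fin 2) F) 1 1) :
    Nat.card (Subgroup.centralizer ({g} : Set (Matrix.SpecialLinearGroup (Fin 2) F)))
      = Nat.card {ab : F × F // ab.1 ^ 2 + ab.1 * ab.2 *
          (g : Matrix (Fin 2) (Fin 2) F).trace + ab.2 ^ 2 = 1} := by
  classical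
  obtain ⟨A, hA⟩ : ∃ A : Matrix (Fin 2) (Fin 2) F, A = (g : Matrix (Fin 2) (Fin 2) F) :=
    ⟨_, rfl⟩
  rw [← hA] at hns ⊢
  have hdet : A.det = 1 := by rw [hA]; exact g.det_coe
  symm
  have hmk : ∀ ab : {ab : F × F // ab.1 ^ 2 + ab.1 * ab.2 * A.trace + ab.2 ^ 2 = 1},
      ∃ x : Matrix.SpecialLinearGroup (Fin 2) F,
        (x : Matrix (Fin 2) (Fin 2) F)
          = ab.1.1 • (1 : Matrix (Fin 2) (Fin 2) F) + ab.1.2 • A ∧
        x ∈ Subgroup.centralizer ({g} : Set (Matrix.SpecialLinearGroup (Fin 2) F)) := by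
    intro ab
    obtain ⟨x, hx⟩ : ∃ x : Matrix.SpecialLinearGroup (Fin 2) F,
        (x : Matrix (Fin 2) (Fin 2) F)
          = ab.1.1 • (1 : Matrix (Fin 2) (Fin 2) F) + ab.1.2 • A :=
      ⟨(⟨ab.1.1 • (1 : Matrix (Fin 2) (Fin 2) F) + ab.1.2 • A, by
        rw [m2_det_lin A hdet]; exact ab.2⟩ : Matrix.SpecialLinearGroup (Fin 2) F), rfl⟩
    refine ⟨x, hx, ?_⟩
    rw [Subgroup.mem_centralizer_iff]
    intro h hh
    rw [Set.mem_singleton_iff] at hh
    apply Subtype.ext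
    rw [Matrix.SpecialLinearGroup.coe_mul, Matrix.SpecialLinearGroup.coe_mul, hx, hh, ← hA]
    simp only [mul_add, add_mul, Matrix.mul_smul, Matrix.smul_mul, mul_one, one_mul]
  choose x hx1 hx2 using hmk
  obtain ⟨Θ, hΘ⟩ : ∃ Θ : {ab : F × F // ab.1 ^ 2 + ab.1 * ab.2 * A.trace + ab.2 ^ 2 = 1} →
      Subgroup.centralizer ({g} : Set (Matrix.SpecialLinearGroup (Fin 2) F)),
      ∀ ab, (((Θ ab : Subgroup.centralizer ({g} : Set (Matrix.SpecialLinearGroup (Fin 2) F))) :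
        Matrix.SpecialLinearGroup (Fin 2) F) : Matrix (Fin 2) (Fin 2) F)
        = ab.1.1 • (1 : Matrix (Fin 2) (Fin 2) F) + ab.1.2 • A :=
    ⟨fun ab => ⟨x ab, hx2 ab⟩, fun ab => hx1 ab⟩
  apply Nat.card_congr
  refine Equiv.ofBijective Θ ⟨?_, ?_⟩
  · intro ab ab' h
    have hM : ab.1.1 • (1 : Matrix (Fin 2) (Fin 2) F) + ab.1.2 • A
        = ab'.1.1 • (1 : Matrix (Fin 2) (Fin 2) F) + ab'.1.2 • A := by
      rw [← hΘ, ← hΘ, h]
    obtain ⟨e00, e01, e10, e11⟩ := m2_lin_entries A ab.1.1 ab.1.2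
    obtain ⟨f00, f01, f10, f11⟩ := m2_lin_entries A ab'.1.1 ab'.1.2
    rw [hM] at e00 e01 e10 e11
    rw [f00] at e00
    rw [f01] at e01
    rw [f10] at e10
    rw [f11] at e11
    have hb : ab.1.2 = ab'.1.2 := by
      rcases hns with h1 | h1 | h1
      · exact (mul_right_cancel₀ h1 e01).symm
      · exact (mul_right_cancel₀ h1 e10).symm
      · have h2 : (ab.1.2 - ab'.1.2) * (A 0 0 - A 1 1) = 0 := by
          linear_combination e11 - e00
        rcases mul_eq_zero.mp h2 with h3 | h3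
        · exact sub_eq_zero.mp h3
        · exact absurd (sub_eq_zero.mp h3) h1
    have ha : ab.1.1 = ab'.1.1 := by
      rw [hb] at e00
      exact (add_right_cancel e00).symm
    exact Subtype.ext (Prod.ext ha hb)
  · rintro ⟨h, hh⟩
    rw [Subgroup.mem_centralizer_iff] at hh
    have h1 := hh g (Set.mem_singleton g)
    have h2 : (h : Matrix (Fin 2) (Fin 2) F) * A = A * (h : Matrix (Fin 2) (Fin 2) F) := by
      rw [hA, ← Matrix.SpecialLinearGroup.coe_mul, ← Matrix.SpecialLinearGroup.coe_mul, h1]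
    obtain ⟨α, β, hαβ⟩ := m2_commutant A _ hns h2
    have hdet2 : α ^ 2 + α * β * A.trace + β ^ 2 = 1 := by
      rw [← m2_det_lin A hdet, ← hαβ]
      exact h.det_coe
    refine ⟨⟨(α, β), hdet2⟩, ?_⟩
    apply Subtype.ext
    apply Subtype.ext
    rw [hΘ]
    exact hαβ.symm

theorem count_t0 [Fintype F] (h2 : (2 : F) = 0) (t : F) (ht : t = 0) :
    Nat.card {ab : F × F // ab.1 ^ 2 + ab.1 * ab.2 * t + ab.2 ^ 2 = 1} = Fintype.card F := by
  rw [← Nat.card_eq_fintype_card]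
  apply Nat.card_congr
  refine ⟨fun ab => ab.1.2, fun b => ⟨(1 + b, b), ?_⟩, ?_, ?_⟩
  · show (1 + b) ^ 2 + (1 + b) * b * t + b ^ 2 = 1
    linear_combination (b + b ^ 2) * h2 + (1 + b) * b * ht
  · rintro ⟨⟨a, b⟩, h⟩
    have h' : a ^ 2 + a * b * t + b ^ 2 = 1 := h
    have h0 : (a + b - 1) ^ 2 = 0 := by
      linear_combination h' - a * b * ht + (1 + a * b - a - b) * h2
    have h1 : a + b - 1 = 0 := (pow_eq_zero_iff (two_ne_zero)).mp h0
    apply Subtype.ext
    apply Prod.ext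
    · show 1 + b = a
      linear_combination b * h2 - h1
    · rfl
  · intro b
    rfl

theorem count_split [Fintype F] (lam : F) (hl0 : lam ≠ 0) (hne : lam ^ 2 ≠ 1) (t : F)
    (ht : t = lam + lam⁻¹) :
    Nat.card {ab : F × F // ab.1 ^ 2 + ab.1 * ab.2 * t + ab.2 ^ 2 = 1}
      = Fintype.card F - 1 := by
  classical
  obtain ⟨δ, hδdef⟩ : ∃ δ : F, δ = lam - lam⁻¹ := ⟨_, rfl⟩
  have hδ : δ ≠ 0 := by
    intro h
    apply hne
    rw [hδdef] at h
    have h1 : lam = lam⁻¹ := sub_eq_zero.mp h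
    rw [pow_two]
    nth_rewrite 2 [h1]
    exact mul_inv_cancel₀ hl0
  have hprod : ∀ a b : F, (a + b * lam) * (a + b * lam⁻¹) = a ^ 2 + a * b * t + b ^ 2 := by
    intro a b
    have h1 : (a + b * lam) * (a + b * lam⁻¹)
        = a ^ 2 + a * b * (lam + lam⁻¹) + b ^ 2 * (lam * lam⁻¹) := by ring
    rw [h1, mul_inv_cancel₀ hl0, mul_one, ← ht]
  rw [← Nat.card_eq_fintype_card, ← Nat.card_units]
  apply Nat.card_congr
  refine ⟨fun ab => Units.mk0 (ab.1.1 + ab.1.2 * lam) ?_, fun u =>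
    ⟨((u : F) - ((u : F) - (u : F)⁻¹) / δ * lam, ((u : F) - (u : F)⁻¹) / δ), ?_⟩, ?_, ?_⟩
  · intro h0
    have h1 := hprod ab.1.1 ab.1.2
    rw [h0, zero_mul, ab.2] at h1
    exact zero_ne_one h1
  · show ((u : F) - ((u : F) - (u : F)⁻¹) / δ * lam) ^ 2
      + ((u : F) - ((u : F) - (u : F)⁻¹) / δ * lam) * (((u : F) - (u : F)⁻¹) / δ) * t
      + (((u : F) - (u : F)⁻¹) / δ) ^ 2 = 1
    rw [← hprod]
    have h1 : (u : F) - ((u : F) - (u : F)⁻¹) / δ * lam + ((u : F) - (u : F)⁻¹) / δ * lam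
        = (u : F) := by ring
    have h2 : (u : F) - ((u : F) - (u : F)⁻¹) / δ * lam + ((u : F) - (u : F)⁻¹) / δ * lam⁻¹
        = (u : F)⁻¹ := by
      have h3 : ((u : F) - (u : F)⁻¹) / δ * δ = (u : F) - (u : F)⁻¹ := div_mul_cancel₀ _ hδ
      rw [hδdef] at h3
      rw [hδdef]
      linear_combination (-1 : F) * h3
    rw [h1, h2]
    exact mul_inv_cancel₀ u.ne_zero
  · rintro ⟨⟨a, b⟩, h⟩
    have h' : a ^ 2 + a * b * t + b ^ 2 = 1 := h
    have hx' : (a + b * lam)⁻¹ = a + b * lam⁻¹ := by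
      apply inv_eq_of_mul_eq_one_right
      rw [hprod]
      exact h'
    have hb : ((a + b * lam) - (a + b * lam)⁻¹) / δ = b := by
      rw [hx', show (a + b * lam) - (a + b * lam⁻¹) = b * δ by rw [hδdef]; ring,
        mul_div_assoc, div_self hδ, mul_one]
    apply Subtype.ext
    apply Prod.ext
    · show (a + b * lam) - ((a + b * lam) - (a + b * lam)⁻¹) / δ * lam = a
      rw [hb]
      ring
    · exact hb
  · intro u
    apply Units.ext
    show (u : F) - ((u : F) - (u : F)⁻¹) / δ * lam + ((u : F) - (u : F)⁻¹) / δ * lam = (u : F)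
    ring

end

end Cfsg.Agent.Helper5
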