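import Mathlib
import Cfsg.Agent.Helper5.PslCls1
import Cfsg.Agent.S0262

namespace Cfsg.Agent.Helper5

open Matrix

universe uQ

section
variable {F : Type uQ} [Field F] [Fintype F]

theorem count_aniso (h2 : 2 ∣ Fintype.card F) (t : F) (hroot : ∀ x : F, x ^ 2 - t * x + 1 ≠ 0) :
    Nat.card {ab : F × F // ab.1 ^ 2 + ab.1 * ab.2 * t + ab.2 ^ 2 = 1}
      = Fintype.card F + 1 := by
  classical
  have hq : 1 < Fintype.card F := Fintype.one_lt_card
  have haniso : ∀ a b : F, a ^ 2 + a * b * t + b ^ 2 = 0 → a = 0 ∧ b = 0 := by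
    intro a b h
    by_cases hb : b = 0
    · subst hb
      refine ⟨?_, rfl⟩
      have h1 : a ^ 2 = 0 := by linear_combination h
      exact (pow_eq_zero_iff two_ne_zero).mp h1
    · exfalso
      apply hroot (-a / b)
      field_simp
      linear_combination h
  obtain ⟨σ, hσ⟩ : ∃ σ : F → F, ∀ c, σ c = c ^ (Fintype.card F / 2) := ⟨_, fun _ => rfl⟩
  have hσ2 : ∀ c, σ c ^ 2 = c := by
    intro c
    rw [hσ, ← pow_mul, Nat.div_mul_cancel h2, FiniteField.pow_card]
  have hσ0 : ∀ c, c ≠ 0 → σ c ≠ 0 := by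
    intro c hc h0
    apply hc
    rw [← hσ2 c, h0]
    ring
  have hQs : ∀ s a b : F, (s * a) ^ 2 + (s * a) * (s * b) * t + (s * b) ^ 2
      = s ^ 2 * (a ^ 2 + a * b * t + b ^ 2) := by
    intro s a b
    ring
  have hQne : ∀ ab : {ab : F × F // ab ≠ (0, 0)},
      ab.1.1 ^ 2 + ab.1.1 * ab.1.2 * t + ab.1.2 ^ 2 ≠ 0 := by
    intro ab h0
    exact ab.2 (Prod.ext (haniso _ _ h0).1 (haniso _ _ h0).2)
  have hfwd : ∀ ab : {ab : F × F // ab ≠ (0, 0)},
      ∃ y : Fˣ × {ab : F × F // ab.1 ^ 2 + ab.1 * ab.2 * t + ab.2 ^ 2 = 1},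
        (y.1 : F) = ab.1.1 ^ 2 + ab.1.1 * ab.1.2 * t + ab.1.2 ^ 2 ∧
        y.2.1.1 = (σ (ab.1.1 ^ 2 + ab.1.1 * ab.1.2 * t + ab.1.2 ^ 2))⁻¹ * ab.1.1 ∧
        y.2.1.2 = (σ (ab.1.1 ^ 2 + ab.1.1 * ab.1.2 * t + ab.1.2 ^ 2))⁻¹ * ab.1.2 := by
    intro ab
    have h1 : ((σ (ab.1.1 ^ 2 + ab.1.1 * ab.1.2 * t + ab.1.2 ^ 2))⁻¹ * ab.1.1) ^ 2
        + ((σ (ab.1.1 ^ 2 + ab.1.1 * ab.1.2 * t + ab.1.2 ^ 2))⁻¹ * ab.1.1)
          * ((σ (ab.1.1 ^ 2 + ab.1.1 * ab.1.2 * t + ab.1.2 ^ 2))⁻¹ * ab.1.2) * t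
        + ((σ (ab.1.1 ^ 2 + ab.1.1 * ab.1.2 * t + ab.1.2 ^ 2))⁻¹ * ab.1.2) ^ 2 = 1 := by
      rw [hQs, inv_pow, hσ2]
      exact inv_mul_cancel₀ (hQne ab)
    exact ⟨(Units.mk0 _ (hQne ab), ⟨(_, _), h1⟩), rfl, rfl, rfl⟩
  choose fwd hf1 hf2 hf3 using hfwd
  have hbwd : ∀ y : Fˣ × {ab : F × F // ab.1 ^ 2 + ab.1 * ab.2 * t + ab.2 ^ 2 = 1},
      ∃ ab : {ab : F × F // ab ≠ (0, 0)},
        ab.1.1 = σ (y.1 : F) * y.2.1.1 ∧ ab.1.2 = σ (y.1 : F) * y.2.1.2 := by
    intro y
    have hs := hσ0 (y.1 : F) y.1.ne_zero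
    have hne : ((σ (y.1 : F) * y.2.1.1, σ (y.1 : F) * y.2.1.2) : F × F) ≠ (0, 0) := by
      intro h0
      have h1 : σ (y.1 : F) * y.2.1.1 = 0 := congrArg Prod.fst h0
      have h2' : σ (y.1 : F) * y.2.1.2 = 0 := congrArg Prod.snd h0
      have ha : y.2.1.1 = 0 := by
        rcases mul_eq_zero.mp h1 with h | h
        · exact absurd h hs
        · exact h
      have hb : y.2.1.2 = 0 := by
        rcases mul_eq_zero.mp h2' with h | h
        · exact absurd h hs
        · exact h
      have h3 := y.2.2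
      rw [ha, hb] at h3
      simp at h3
    exact ⟨⟨_, hne⟩, rfl, rfl⟩
  choose bwd hb1 hb2 using hbwd
  have hequiv : Nat.card {ab : F × F // ab ≠ (0, 0)}
      = Nat.card (Fˣ × {ab : F × F // ab.1 ^ 2 + ab.1 * ab.2 * t + ab.2 ^ 2 = 1}) := by
    apply Nat.card_congr
    refine ⟨fwd, bwd, ?_, ?_⟩
    · intro ab
      have hs := hσ0 _ (hQne ab)
      apply Subtype.ext
      apply Prod.ext
      · rw [hb1, hf1, hf2, ← mul_assoc, mul_inv_cancel₀ hs, one_mul]
      · rw [hb2, hf1, hf3, ← mul_assoc, mul_inv_cancel₀ hs, one_mul]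
    · intro y
      have hs := hσ0 (y.1 : F) y.1.ne_zero
      have hQ : (bwd y).1.1 ^ 2 + (bwd y).1.1 * (bwd y).1.2 * t + (bwd y).1.2 ^ 2 = (y.1 : F) := by
        rw [hb1, hb2, hQs, y.2.2, mul_one, hσ2]
      apply Prod.ext
      · apply Units.ext
        rw [hf1, hQ]
      · apply Subtype.ext
        apply Prod.ext
        · rw [hf2, hQ, hb1, ← mul_assoc, inv_mul_cancel₀ hs, one_mul]
        · rw [hf3, hQ, hb2, ← mul_assoc, inv_mul_cancel₀ hs, one_mul]
  have hT : Nat.card {ab : F × F // ab ≠ (0, 0)} = Fintype.card F * Fintype.card F - 1 := by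
    rw [Nat.card_eq_fintype_card, Fintype.card_subtype, Finset.filter_ne',
      Finset.card_erase_of_mem (Finset.mem_univ _), Finset.card_univ, Fintype.card_prod]
  rw [hT, Nat.card_prod, Nat.card_units, Nat.card_eq_fintype_card] at hequiv
  have hfac : Fintype.card F * Fintype.card F - 1
      = (Fintype.card F - 1) * (Fintype.card F + 1) := by
    obtain ⟨k, hk⟩ : ∃ k, Fintype.card F = k + 1 := ⟨Fintype.card F - 1, by omega⟩
    rw [hk]
    simp only [Nat.add_sub_cancel]
    have h5 : (k + 1) * (k + 1) = k * (k + 1 + 1) + 1 := by ring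
    omega
  rw [hfac] at hequiv
  exact (Nat.eq_of_mul_eq_mul_left (by omega) hequiv).symm

theorem sl2_char2_nonscalar (h2F : (2 : F) = 0) (g : Matrix.SpecialLinearGroup (Fin 2) F)
    (hg : g ≠ 1) :
    (g : Matrix (Fin 2) (Fin 2) F) 0 1 ≠ 0 ∨ (g : Matrix (Fin 2) (Fin 2) F) 1 0 ≠ 0 ∨
      (g : Matrix (Fin 2) (Fin 2) F) 0 0 ≠ (g : Matrix (Fin 2) (Fin 2) F) 1 1 := by
  by_contra hcon
  push Not at hcon
  obtain ⟨h01, h10, h00⟩ := hcon
  apply hg
  have hdet := g.det_coe
  rw [Matrix.det_fin_two, h01, h10, ← h00] at hdet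
  have h1 : ((g : Matrix (Fin 2) (Fin 2) F) 0 0 - 1) ^ 2 = 0 := by
    linear_combination hdet + (1 - (g : Matrix (Fin 2) (Fin 2) F) 0 0) * h2F
  have ha : (g : Matrix (Fin 2) (Fin 2) F) 0 0 = 1 :=
    sub_eq_zero.mp ((pow_eq_zero_iff two_ne_zero).mp h1)
  apply Subtype.ext
  rw [Matrix.SpecialLinearGroup.coe_one]
  ext i j
  fin_cases i <;> fin_cases j
  · show (g : Matrix (Fin 2) (Fin 2) F) 0 0 = (1 : Matrix (Fin 2) (Fin 2) F) 0 0
    rw [Matrix.one_apply_eq]; exact ha
  · show (g : Matrix (Fin 2) (Fin 2) F) 0 1 = (1 : Matrix (Fin 2) (Fin 2) F) 0 1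
    rw [Matrix.one_apply_ne (show (0 : Fin 2) ≠ 1 by decide)]; exact h01
  · show (g : Matrix (Fin 2) (Fin 2) F) 1 0 = (1 : Matrix (Fin 2) (Fin 2) F) 1 0
    rw [Matrix.one_apply_ne (show (1 : Fin 2) ≠ 0 by decide)]; exact h10
  · show (g : Matrix (Fin 2) (Fin 2) F) 1 1 = (1 : Matrix (Fin 2) (Fin 2) F) 1 1
    rw [Matrix.one_apply_eq, ← h00]; exact ha

theorem sl2_index_of_card (g : Matrix.SpecialLinearGroup (Fin 2) F) (c n : ℕ)
    (hc : Nat.card (Subgroup.centralizer ({g} : Set (Matrix.SpecialLinearGroup (Fin 2) F))) = c)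
    (hcpos : 0 < c) (hmul : c * n = Fintype.card F * (Fintype.card F ^ 2 - 1)) :
    (Subgroup.centralizer ({g} : Set (Matrix.SpecialLinearGroup (Fin 2) F))).index = n := by
  have h1 := Subgroup.card_mul_index
    (Subgroup.centralizer ({g} : Set (Matrix.SpecialLinearGroup (Fin 2) F)))
  rw [hc, Cfsg.Agent.S0262.card_SL2 F, ← hmul] at h1
  exact Nat.eq_of_mul_eq_mul_left hcpos h1

theorem sl2_char2_index (h2F : (2 : F) = 0) (heven : 2 ∣ Fintype.card F)
    (g : Matrix.SpecialLinearGroup (Fin 2) F) (hg : g ≠ 1) :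
    ((∃ lam : F, lam ^ 2 - (g : Matrix (Fin 2) (Fin 2) F).trace * lam + 1 = 0 ∧ lam ^ 2 = 1) →
      (Subgroup.centralizer ({g} : Set (Matrix.SpecialLinearGroup (Fin 2) F))).index
        = Fintype.card F ^ 2 - 1) ∧
    ((∃ lam : F, lam ^ 2 - (g : Matrix (Fin 2) (Fin 2) F).trace * lam + 1 = 0 ∧ lam ^ 2 ≠ 1) →
      (Subgroup.centralizer ({g} : Set (Matrix.SpecialLinearGroup (Fin 2) F))).index
        = Fintype.card F * (Fintype.card F + 1)) ∧
    ((∀ x : F, x ^ 2 - (g : Matrix (Fin 2) (Fin 2) F).trace * x + 1 ≠ 0) →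
      (Subgroup.centralizer ({g} : Set (Matrix.SpecialLinearGroup (Fin 2) F))).index
        = Fintype.card F * (Fintype.card F - 1)) := by
  have hq : 1 < Fintype.card F := Fintype.one_lt_card
  have hns := sl2_char2_nonscalar h2F g hg
  have hfac : Fintype.card F ^ 2 - 1 = (Fintype.card F - 1) * (Fintype.card F + 1) := by
    obtain ⟨k, hk⟩ : ∃ k, Fintype.card F = k + 1 := ⟨Fintype.card F - 1, by omega⟩
    rw [hk]
    simp only [Nat.add_sub_cancel]
    have h5 : (k + 1) ^ 2 = k * (k + 1 + 1) + 1 := by ring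
    omega
  refine ⟨?_, ?_, ?_⟩
  · rintro ⟨lam, hlam, h1⟩
    have hl0 : lam ≠ 0 := by
      intro h
      rw [h] at h1
      simp at h1
    have ht : (g : Matrix (Fin 2) (Fin 2) F).trace = 0 := by
      have h3 : (g : Matrix (Fin 2) (Fin 2) F).trace * lam = 0 := by
        linear_combination (-1 : F) * hlam + h1 + h2F
      rcases mul_eq_zero.mp h3 with h | h
      · exact h
      · exact absurd h hl0
    exact sl2_index_of_card g (Fintype.card F) _
      (by rw [sl2_centralizer_card_eq g hns]; exact count_t0 h2F _ ht) (by omega) rfl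
  · rintro ⟨lam, hlam, h1⟩
    have hl0 : lam ≠ 0 := by
      intro h
      rw [h] at hlam
      simp at hlam
    have ht : (g : Matrix (Fin 2) (Fin 2) F).trace = lam + lam⁻¹ := by
      field_simp
      linear_combination (-1 : F) * hlam
    exact sl2_index_of_card g (Fintype.card F - 1) _
      (by rw [sl2_centralizer_card_eq g hns]; exact count_split lam hl0 h1 _ ht) (by omega)
      (by rw [hfac]; ring)
  · intro hroot
    exact sl2_index_of_card g (Fintype.card F + 1) _
      (by rw [sl2_centralizer_card_eq g hns]; exact count_aniso heven _ hroot) (by omega)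
      (by rw [hfac]; ring)

theorem psl2_char2_index (h2F : (2 : F) = 0) (g : Matrix.SpecialLinearGroup (Fin 2) F) :
    (Subgroup.centralizer ({(QuotientGroup.mk g :
      Matrix.ProjectiveSpecialLinearGroup (Fin 2) F)} :
        Set (Matrix.ProjectiveSpecialLinearGroup (Fin 2) F))).index
      = (Subgroup.centralizer ({g} : Set (Matrix.SpecialLinearGroup (Fin 2) F))).index := by
  obtain ⟨π, hπ⟩ : ∃ π : Matrix.SpecialLinearGroup (Fin 2) F →*
      Matrix.ProjectiveSpecialLinearGroup (Fin 2) F, ∀ x, π x = QuotientGroup.mk x :=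
    ⟨QuotientGroup.mk' _, fun _ => rfl⟩
  have hinj : Function.Injective π := by
    rw [injective_iff_map_eq_one]
    intro x hx
    rw [hπ] at hx
    have h1 := (psl2_mk_pow_iff_even h2F x 1).mp (by rw [pow_one]; exact hx)
    rwa [pow_one] at h1
  have hsurj : Function.Surjective π := by
    intro y
    obtain ⟨x, rfl⟩ := QuotientGroup.mk_surjective y
    exact ⟨x, hπ x⟩
  have hmap : Subgroup.centralizer ({(QuotientGroup.mk g :
      Matrix.ProjectiveSpecialLinearGroup (Fin 2) F)} :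
        Set (Matrix.ProjectiveSpecialLinearGroup (Fin 2) F))
      = (Subgroup.centralizer ({g} : Set (Matrix.SpecialLinearGroup (Fin 2) F))).map π := by
    ext y
    obtain ⟨h, rfl⟩ := hsurj y
    rw [Subgroup.mem_map, Subgroup.mem_centralizer_iff]
    constructor
    · intro hy
      refine ⟨h, ?_, rfl⟩
      rw [Subgroup.mem_centralizer_iff]
      intro x hx
      rw [Set.mem_singleton_iff] at hx
      apply hinj
      rw [map_mul, map_mul, hx, hπ g]
      exact hy (QuotientGroup.mk g) (Set.mem_singleton _)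
    · rintro ⟨x, hx, hxh⟩
      have hxh' : x = h := hinj hxh
      rw [hxh'] at hx
      intro z hz
      rw [Set.mem_singleton_iff] at hz
      rw [Subgroup.mem_centralizer_iff] at hx
      have h1 := hx g (Set.mem_singleton g)
      rw [hz, ← hπ g, ← map_mul, ← map_mul, h1]
  rw [hmap, Subgroup.index_map_of_bijective ⟨hinj, hsurj⟩]

theorem psl2_even_class_sizes (h2 : 2 ∣ Fintype.card F) (h4 : 4 ≤ Fintype.card F) :
    Set.range (fun g : (Matrix.ProjectiveSpecialLinearGroup (Fin 2) F) =>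
      (Subgroup.centralizer ({g} : Set (Matrix.ProjectiveSpecialLinearGroup (Fin 2) F))).index) =
      {1, Fintype.card F * (Fintype.card F - 1), Fintype.card F ^ 2 - 1,
        Fintype.card F * (Fintype.card F + 1)} := by
  classical
  obtain ⟨p, hp⟩ := CharP.exists F
  haveI : CharP F p := hp
  haveI hpf : Fact p.Prime := ⟨CharP.char_is_prime F p⟩
  obtain ⟨f, -, hf⟩ := FiniteField.card F p
  have hp2 : p = 2 := by
    have h2' := h2
    rw [hf] at h2'
    exact ((Nat.prime_dvd_prime_iff_eq Nat.prime_two hpf.out).mp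
      (Nat.prime_two.dvd_of_dvd_pow h2')).symm
  subst hp2
  have h2F : (2 : F) = 0 := by
    have h5 := CharP.cast_eq_zero F 2
    exact_mod_cast h5
  have hone : (Subgroup.centralizer ({(QuotientGroup.mk
      (1 : Matrix.SpecialLinearGroup (Fin 2) F) :
      Matrix.ProjectiveSpecialLinearGroup (Fin 2) F)} :
        Set (Matrix.ProjectiveSpecialLinearGroup (Fin 2) F))).index = 1 := by
    rw [psl2_char2_index h2F]
    have h5 : Subgroup.centralizer ({(1 : Matrix.SpecialLinearGroup (Fin 2) F)} :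
        Set (Matrix.SpecialLinearGroup (Fin 2) F)) = ⊤ := by
      ext x
      simp [Subgroup.mem_centralizer_iff]
    rw [h5, Subgroup.index_top]
  ext n
  simp only [Set.mem_range, Set.mem_insert_iff, Set.mem_singleton_iff]
  constructor
  · rintro ⟨y, rfl⟩
    obtain ⟨g, rfl⟩ := QuotientGroup.mk_surjective y
    by_cases hg : g = 1
    · left
      rw [hg]
      exact hone
    · obtain ⟨c1, c2, c3⟩ := sl2_char2_index h2F h2 g hg
      rw [psl2_char2_index h2F]
      by_cases hroot : ∃ lam : F, lam ^ 2 - (g : Matrix (Fin 2) (Fin 2) F).trace * lam + 1 = 0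
      · obtain ⟨lam, hlam⟩ := hroot
        by_cases h1 : lam ^ 2 = 1
        · right; right; left
          exact c1 ⟨lam, hlam, h1⟩
        · right; right; right
          exact c2 ⟨lam, hlam, h1⟩
      · push Not at hroot
        right; left
        exact c3 hroot
  · intro hn
    obtain ⟨u, hu⟩ : ∃ u : Matrix.SpecialLinearGroup (Fin 2) F,
        (u : Matrix (Fin 2) (Fin 2) F) = !![1, 1; 0, 1] :=
      ⟨⟨!![1, 1; 0, 1], by simp [Matrix.det_fin_two]⟩, rfl⟩
    have hu1 : u ≠ 1 := by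
      intro h
      have h3 : (u : Matrix (Fin 2) (Fin 2) F) 0 1
          = ((1 : Matrix.SpecialLinearGroup (Fin 2) F) : Matrix (Fin 2) (Fin 2) F) 0 1 := by
        rw [h]
      rw [hu] at h3
      simp at h3
    obtain ⟨x1, hx1⟩ := sl2_exists_order_sub (F := F)
    obtain ⟨x2, hx2⟩ := sl2_exists_order_add (F := F)
    have hx1ne : x1 ≠ 1 := by
      intro h
      rw [h, orderOf_one] at hx1
      omega
    have hx2ne : x2 ≠ 1 := by
      intro h
      rw [h, orderOf_one] at hx2
      omega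
    rcases hn with h | h | h | h
    · exact ⟨QuotientGroup.mk 1, by rw [h]; exact hone⟩
    · refine ⟨QuotientGroup.mk x2, ?_⟩
      rw [h, psl2_char2_index h2F]
      apply (sl2_char2_index h2F h2 x2 hx2ne).2.2
      intro lam hlam
      by_cases h1 : lam ^ 2 = 1
      · have h5 := m2_unip_pow 2 _ x2.det_coe lam hlam h1
        rw [h1, one_smul] at h5
        have h6 : x2 ^ 2 = 1 := by
          apply Subtype.ext
          rw [Matrix.SpecialLinearGroup.coe_pow, h5]
          rfl
        have h7 := orderOf_dvd_of_pow_eq_one h6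
        rw [hx2] at h7
        have h8 := Nat.le_of_dvd (by norm_num) h7
        omega
      · have hl0 : lam ≠ 0 := by
          intro h0
          rw [h0] at hlam
          simp at hlam
        have hk : lam ^ (Fintype.card F - 1) = lam⁻¹ ^ (Fintype.card F - 1) := by
          rw [FiniteField.pow_card_sub_one_eq_one lam hl0,
            FiniteField.pow_card_sub_one_eq_one lam⁻¹ (inv_ne_zero hl0)]
        have h5 := m2_split_pow _ x2.det_coe lam hlam h1 (Fintype.card F - 1) hk
        rw [FiniteField.pow_card_sub_one_eq_one lam hl0, one_smul] at h5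
        have h6 : x2 ^ (Fintype.card F - 1) = 1 := by
          apply Subtype.ext
          rw [Matrix.SpecialLinearGroup.coe_pow, h5]
          rfl
        have h7 := orderOf_dvd_of_pow_eq_one h6
        rw [hx2] at h7
        have h8 := Nat.le_of_dvd (by omega) h7
        omega
    · refine ⟨QuotientGroup.mk u, ?_⟩
      rw [h, psl2_char2_index h2F]
      apply (sl2_char2_index h2F h2 u hu1).1
      refine ⟨1, ?_, by ring⟩
      rw [hu, Matrix.trace_fin_two_of]
      ring
    · refine ⟨QuotientGroup.mk x1, ?_⟩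
      rw [h, psl2_char2_index h2F]
      apply (sl2_char2_index h2F h2 x1 hx1ne).2.1
      by_cases hroot : ∃ lam : F,
          lam ^ 2 - (x1 : Matrix (Fin 2) (Fin 2) F).trace * lam + 1 = 0
      · obtain ⟨lam, hlam⟩ := hroot
        refine ⟨lam, hlam, ?_⟩
        intro h1
        have h5 := m2_unip_pow 2 _ x1.det_coe lam hlam h1
        rw [h1, one_smul] at h5
        have h6 : x1 ^ 2 = 1 := by
          apply Subtype.ext
          rw [Matrix.SpecialLinearGroup.coe_pow, h5]
          rfl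
        have h7 := orderOf_dvd_of_pow_eq_one h6
        rw [hx1] at h7
        have h8 := Nat.le_of_dvd (by norm_num) h7
        omega
      · exfalso
        push Not at hroot
        have h5 := m2_pow_card_succ 2 _ x1.det_coe hroot
        have h6 : x1 ^ (Fintype.card F + 1) = 1 := by
          apply Subtype.ext
          rw [Matrix.SpecialLinearGroup.coe_pow, h5]
          rfl
        have h7 := orderOf_dvd_of_pow_eq_one h6
        rw [hx1] at h7
        have h8 : (Fintype.card F - 1) ∣ 2 := by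
          have h9 : Fintype.card F + 1 = (Fintype.card F - 1) + 2 := by omega
          rw [h9] at h7
          exact (Nat.dvd_add_right (dvd_refl _)).mp h7
        have h10 := Nat.le_of_dvd (by norm_num) h8
        omega

end

end Cfsg.Agent.Helper5
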