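import Mathlib
import Cfsg.Agent.Helper5.PslCls1
import Cfsg.Agent.S0262

namespace Cfsg.Agent.Helper5

universe uK

section
variable {F : Type uK} [Field F] [Fintype F] [DecidableEq F]

/-- pairs with a prescribed product -/
theorem kc_prod_count (m : F) :
    Nat.card {p : F × F // p.1 * p.2 = m}
      = (if m = 0 then Fintype.card F else 0) + (Fintype.card F - 1) := by
  rw [Nat.card_congr (Equiv.subtypeProdEquivSigmaSubtype (fun b c : F => b * c = m)), Nat.card_sigma]
  have h : ∀ b : F, Nat.card {c : F // b * c = m}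
      = if b = 0 then (if m = 0 then Fintype.card F else 0) else 1 := by
    intro b
    by_cases hb : b = 0
    · rw [if_pos hb]
      by_cases hm : m = 0
      · rw [if_pos hm, ← Nat.card_eq_fintype_card]
        exact Nat.card_congr (Equiv.subtypeUnivEquiv (fun c => by rw [hb, hm, zero_mul]))
      · rw [if_neg hm]
        have : IsEmpty {c : F // b * c = m} := ⟨fun ⟨c, hc⟩ => hm (by rw [← hc, hb, zero_mul])⟩
        exact Nat.card_of_isEmpty
    · rw [if_neg hb, Nat.card_eq_one_iff_unique]
      refine ⟨⟨fun x y => Subtype.ext ?_⟩, ⟨⟨b⁻¹ * m, by rw [← mul_assoc, mul_inv_cancel₀ hb, one_mul]⟩⟩⟩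
      exact mul_left_cancel₀ hb (x.2.trans y.2.symm)
  simp_rw [h]
  rw [Finset.sum_ite, Finset.filter_eq', if_pos (Finset.mem_univ _), Finset.sum_singleton,
    Finset.sum_const, Finset.filter_ne', Finset.card_erase_of_mem (Finset.mem_univ _),
    Finset.card_univ, smul_eq_mul, mul_one]

/-- number of elements of `SL₂` with given trace -/
theorem kc_trace_count (t : F) :
    Nat.card {g : Matrix.SpecialLinearGroup (Fin 2) F // (g : Matrix (Fin 2) (Fin 2) F).trace = t}
      = ∑ a : F, ((if a * (t - a) - 1 = 0 then Fintype.card F else 0) + (Fintype.card F - 1)) := by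
  have e : {g : Matrix.SpecialLinearGroup (Fin 2) F // (g : Matrix (Fin 2) (Fin 2) F).trace = t} ≃
      {p : F × (F × F) // p.2.1 * p.2.2 = p.1 * (t - p.1) - 1} :=
    { toFun := fun g => ⟨((g.1 : Matrix (Fin 2) (Fin 2) F) 0 0,
          ((g.1 : Matrix (Fin 2) (Fin 2) F) 0 1, (g.1 : Matrix (Fin 2) (Fin 2) F) 1 0)), by
        have hd := g.1.2
        have ht := g.2
        rw [Matrix.det_fin_two] at hd
        rw [Matrix.trace_fin_two] at ht
        show (g.1 : Matrix (Fin 2) (Fin 2) F) 0 1 * (g.1 : Matrix (Fin 2) (Fin 2) F) 1 0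
          = (g.1 : Matrix (Fin 2) (Fin 2) F) 0 0 * (t - (g.1 : Matrix (Fin 2) (Fin 2) F) 0 0) - 1
        linear_combination -hd + (g.1 : Matrix (Fin 2) (Fin 2) F) 0 0 * ht⟩
      invFun := fun p => ⟨(⟨!![p.1.1, p.1.2.1; p.1.2.2, t - p.1.1], by
          rw [Matrix.det_fin_two]
          simp only [Matrix.of_apply, Matrix.cons_val', Matrix.cons_val_zero, Matrix.cons_val_one,
            Matrix.cons_val_fin_one]
          linear_combination -p.2⟩ : Matrix.SpecialLinearGroup (Fin 2) F), by
          rw [Matrix.trace_fin_two]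
          simp⟩
      left_inv := by
        rintro ⟨g, hg⟩
        apply Subtype.ext
        apply Matrix.SpecialLinearGroup.ext
        intro i j
        rw [Matrix.trace_fin_two] at hg
        fin_cases i <;> fin_cases j
        · simp
        · simp
        · simp
        · simp
          linear_combination -hg
      right_inv := by
        rintro ⟨⟨a, b, c⟩, h⟩
        simp }
  rw [Nat.card_congr e,
    Nat.card_congr (Equiv.subtypeProdEquivSigmaSubtype
      (fun (a : F) (bc : F × F) => bc.1 * bc.2 = a * (t - a) - 1)),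
    Nat.card_sigma]
  exact Finset.sum_congr rfl (fun a _ => kc_prod_count _)

theorem kc_sum_eval (P : F → Prop) [DecidablePred P] :
    ∑ a : F, ((if P a then Fintype.card F else 0) + (Fintype.card F - 1))
      = (Finset.univ.filter P).card * Fintype.card F + Fintype.card F * (Fintype.card F - 1) := by
  rw [Finset.sum_add_distrib, Finset.sum_ite, Finset.sum_const, Finset.sum_const_zero, add_zero,
    Finset.sum_const, Finset.card_univ, smul_eq_mul, smul_eq_mul]

lemma kc_param (t u b : F) (hb : b * (u ^ 2 + t * u + 1) = -(2 * u + t)) :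
    (1 + u * b) ^ 2 + (1 + u * b) * b * t + b ^ 2 = 1 := by
  linear_combination b * hb

/-- parametrisation of the conic by the slopes through a point -/
def kcTo (t : F) (hD : ∀ u : F, u ^ 2 + t * u + 1 ≠ 0) :
    Option F → {ab : F × F // ab.1 ^ 2 + ab.1 * ab.2 * t + ab.2 ^ 2 = 1}
  | none => ⟨(-1, 0), by ring⟩
  | some u => ⟨(1 + u * (-(2 * u + t) / (u ^ 2 + t * u + 1)),
      -(2 * u + t) / (u ^ 2 + t * u + 1)),
      kc_param t u _ (div_mul_cancel₀ _ (hD u))⟩

/-- the anisotropic norm-one count (odd characteristic) -/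
theorem kc_count_aniso (h2 : (2 : F) ≠ 0) (t : F) (hD : ∀ u : F, u ^ 2 + t * u + 1 ≠ 0) :
    Nat.card {ab : F × F // ab.1 ^ 2 + ab.1 * ab.2 * t + ab.2 ^ 2 = 1} = Fintype.card F + 1 := by
  have hm1 : (-1 : F) ≠ 1 := by
    intro h
    apply h2
    linear_combination -h
  have e : Option F ≃ {ab : F × F // ab.1 ^ 2 + ab.1 * ab.2 * t + ab.2 ^ 2 = 1} :=
    { toFun := kcTo t hD
      invFun := fun ab => if ab.1.2 = 0 then (if ab.1.1 = 1 then some (-t / 2) else none)
        else some ((ab.1.1 - 1) / ab.1.2)
      left_inv := by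
        rintro (_ | u)
        · show (if (0 : F) = 0 then (if (-1 : F) = 1 then some (-t / 2) else none)
            else some (((-1 : F) - 1) / 0)) = none
          rw [if_pos rfl, if_neg hm1]
        · show (if -(2 * u + t) / (u ^ 2 + t * u + 1) = 0 then
              (if 1 + u * (-(2 * u + t) / (u ^ 2 + t * u + 1)) = 1 then some (-t / 2) else none)
            else some ((1 + u * (-(2 * u + t) / (u ^ 2 + t * u + 1)) - 1) /
              (-(2 * u + t) / (u ^ 2 + t * u + 1)))) = some u
          by_cases hb0 : -(2 * u + t) / (u ^ 2 + t * u + 1) = 0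
          · rw [if_pos hb0, hb0, mul_zero, add_zero, if_pos rfl]
            congr 1
            have h3 : 2 * u + t = 0 := by
              rcases div_eq_zero_iff.1 hb0 with h | h
              · exact neg_eq_zero.1 h
              · exact absurd h (hD u)
            rw [div_eq_iff h2]
            linear_combination -h3
          · rw [if_neg hb0]
            congr 1
            rw [div_eq_iff hb0]
            ring
      right_inv := by
        rintro ⟨⟨a, b⟩, h⟩
        simp only at h
        apply Subtype.ext
        by_cases hb : b = 0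
        · by_cases ha : a = 1
          · have h3 : -(2 * (-t / 2) + t) / ((-t / 2) ^ 2 + t * (-t / 2) + 1) = 0 := by
              have : 2 * (-t / 2) + t = 0 := by
                rw [mul_div_cancel₀ _ h2]
                ring
              rw [this, neg_zero, zero_div]
            show (kcTo t hD (if b = 0 then (if a = 1 then some (-t / 2) else none)
              else some ((a - 1) / b))).1 = (a, b)
            rw [if_pos hb, if_pos ha]
            show ((1 + (-t / 2) * (-(2 * (-t / 2) + t) / ((-t / 2) ^ 2 + t * (-t / 2) + 1)),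
                  -(2 * (-t / 2) + t) / ((-t / 2) ^ 2 + t * (-t / 2) + 1)) : F × F) = (a, b)
            rw [h3, ha, hb, mul_zero, add_zero]
          · have ha' : a = -1 := by
              rw [hb] at h
              have h4 : (a - 1) * (a + 1) = 0 := by linear_combination h
              rcases mul_eq_zero.1 h4 with h5 | h5
              · exact absurd (sub_eq_zero.1 h5) ha
              · exact eq_neg_of_add_eq_zero_left h5
            show (kcTo t hD (if b = 0 then (if a = 1 then some (-t / 2) else none)
              else some ((a - 1) / b))).1 = (a, b)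
            rw [if_pos hb, if_neg ha]
            show ((-1, 0) : F × F) = (a, b)
            rw [ha', hb]
        · obtain ⟨u, hu⟩ : ∃ u : F, u = (a - 1) / b := ⟨_, rfl⟩
          have hub : u * b = a - 1 := by rw [hu, div_mul_cancel₀ _ hb]
          have h3 : -(2 * u + t) / (u ^ 2 + t * u + 1) = b := by
            rw [div_eq_iff (hD u)]
            apply mul_left_cancel₀ hb
            linear_combination (-2 - (u * b + a - 1) - t * b) * hub - h
          show (kcTo t hD (if b = 0 then (if a = 1 then some (-t / 2) else none)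
              else some ((a - 1) / b))).1 = (a, b)
          rw [if_neg hb, ← hu]
          show ((1 + u * (-(2 * u + t) / (u ^ 2 + t * u + 1)),
                  -(2 * u + t) / (u ^ 2 + t * u + 1)) : F × F) = (a, b)
          rw [h3, hub]
          congr 1
          ring }
  rw [← Nat.card_congr e, Nat.card_eq_fintype_card, Fintype.card_option]

/-- the norm-one count for trace `±2` (odd characteristic) -/
theorem kc_count_double (h2 : (2 : F) ≠ 0) (ε : F) (hε : ε ^ 2 = 1) (t : F) (ht : t = 2 * ε) :
    Nat.card {ab : F × F // ab.1 ^ 2 + ab.1 * ab.2 * t + ab.2 ^ 2 = 1} = 2 * Fintype.card F := by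
  have e : {ab : F × F // ab.1 ^ 2 + ab.1 * ab.2 * t + ab.2 ^ 2 = 1} ≃ {s : F // s ^ 2 = 1} × F :=
    { toFun := fun ab => (⟨ab.1.1 + ε * ab.1.2, by
        have h := ab.2
        linear_combination h - ab.1.1 * ab.1.2 * ht + ab.1.2 ^ 2 * hε⟩, ab.1.2)
      invFun := fun p => ⟨(p.1.1 - ε * p.2, p.2), by
        have h := p.1.2
        show (p.1.1 - ε * p.2) ^ 2 + (p.1.1 - ε * p.2) * p.2 * t + p.2 ^ 2 = 1
        linear_combination h - p.2 ^ 2 * hε + (p.1.1 - ε * p.2) * p.2 * ht⟩
      left_inv := by
        rintro ⟨⟨a, b⟩, h⟩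
        exact Subtype.ext (Prod.ext (by simp) rfl)
      right_inv := by
        rintro ⟨⟨s, hs⟩, b⟩
        exact Prod.ext (Subtype.ext (by simp)) rfl }
  have h2card : Nat.card {s : F // s ^ 2 = 1} = 2 := by
    rw [Nat.card_eq_fintype_card, Fintype.card_subtype]
    have : Finset.univ.filter (fun s : F => s ^ 2 = 1) = {1, -1} := by
      ext s
      simp only [Finset.mem_filter, Finset.mem_univ, true_and, Finset.mem_insert,
        Finset.mem_singleton]
      constructor
      · intro h
        have h4 : (s - 1) * (s + 1) = 0 := by linear_combination h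
        rcases mul_eq_zero.1 h4 with h5 | h5
        · left; exact sub_eq_zero.1 h5
        · right; exact eq_neg_of_add_eq_zero_left h5
      · rintro (rfl | rfl) <;> ring
    rw [this, Finset.card_pair]
    intro h
    apply h2
    linear_combination h
  rw [Nat.card_congr e, Nat.card_prod, h2card, Nat.card_eq_fintype_card]

lemma kc_arith1 (q : ℕ) (hq : 1 ≤ q) : (2 * q + q * (q - 1)) * (q - 1) = q * (q ^ 2 - 1) := by
  obtain ⟨k, rfl⟩ : ∃ k, q = k + 1 := ⟨q - 1, by omega⟩
  have h1 : (k + 1) ^ 2 - 1 = k * (k + 2) := by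
    have : (k + 1) ^ 2 = k * (k + 2) + 1 := by ring
    omega
  rw [h1, Nat.add_sub_cancel]
  ring

lemma kc_arith3 (q : ℕ) (hq : 1 ≤ q) : (0 * q + q * (q - 1)) * (q + 1) = q * (q ^ 2 - 1) := by
  obtain ⟨k, rfl⟩ : ∃ k, q = k + 1 := ⟨q - 1, by omega⟩
  have h1 : (k + 1) ^ 2 - 1 = k * (k + 2) := by
    have : (k + 1) ^ 2 = k * (k + 2) + 1 := by ring
    omega
  rw [h1, Nat.add_sub_cancel]
  ring

lemma kc_arith2 (q : ℕ) (hq : 1 ≤ q) :
    (1 * q + q * (q - 1) - 1) * (2 * q) = 2 * (q * (q ^ 2 - 1)) := by
  obtain ⟨k, rfl⟩ : ∃ k, q = k + 1 := ⟨q - 1, by omega⟩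
  have h1 : (k + 1) ^ 2 - 1 = k * (k + 2) := by
    have : (k + 1) ^ 2 = k * (k + 2) + 1 := by ring
    omega
  have h3 : 1 * (k + 1) + (k + 1) * (k + 1 - 1) - 1 = k * (k + 2) := by
    rw [Nat.add_sub_cancel]
    have : 1 * (k + 1) + (k + 1) * k = k * (k + 2) + 1 := by ring
    omega
  rw [h1, h3]
  ring

/-- the sum of centralizer orders over the elements of a given trace -/
theorem kc_trace_sum (h2 : (2 : F) ≠ 0) (t : F) :
    ∑ g ∈ Finset.univ.filter (fun g : Matrix.SpecialLinearGroup (Fin 2) F =>
        (g : Matrix (Fin 2) (Fin 2) F).trace = t),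
      Nat.card (Subgroup.centralizer ({g} : Set (Matrix.SpecialLinearGroup (Fin 2) F)))
      = Nat.card (Matrix.SpecialLinearGroup (Fin 2) F)
        + (if t = 2 ∨ t = -2 then 2 * Nat.card (Matrix.SpecialLinearGroup (Fin 2) F) else 0) := by
  have hq : 1 ≤ Fintype.card F := Fintype.card_pos
  have hG := Cfsg.Agent.S0262.card_SL2 F
  have hScard : (Finset.univ.filter (fun g : Matrix.SpecialLinearGroup (Fin 2) F =>
        (g : Matrix (Fin 2) (Fin 2) F).trace = t)).card
      = (Finset.univ.filter (fun a : F => a * (t - a) - 1 = 0)).card * Fintype.card F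
        + Fintype.card F * (Fintype.card F - 1) := by
    rw [← kc_sum_eval, ← kc_trace_count, Nat.card_eq_fintype_card, Fintype.card_subtype]
  by_cases hpm : t = 2 ∨ t = -2
  · rw [if_pos hpm]
    obtain ⟨c, hc, htc⟩ : ∃ c : F, c ^ 2 = 1 ∧ t = 2 * c := by
      rcases hpm with h | h
      · exact ⟨1, by ring, by rw [h]; ring⟩
      · exact ⟨-1, by ring, by rw [h]; ring⟩
    obtain ⟨E, hE⟩ : ∃ E : Matrix.SpecialLinearGroup (Fin 2) F,
        E = ⟨!![c, 0; 0, c], by rw [Matrix.det_fin_two]; simp; linear_combination hc⟩ := ⟨_, rfl⟩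
    have hE00 : (E : Matrix (Fin 2) (Fin 2) F) 0 0 = c := by rw [hE]; simp
    have hE01 : (E : Matrix (Fin 2) (Fin 2) F) 0 1 = 0 := by rw [hE]; simp
    have hE10 : (E : Matrix (Fin 2) (Fin 2) F) 1 0 = 0 := by rw [hE]; simp
    have hE11 : (E : Matrix (Fin 2) (Fin 2) F) 1 1 = c := by rw [hE]; simp
    have hEmem : E ∈ Finset.univ.filter (fun g : Matrix.SpecialLinearGroup (Fin 2) F =>
        (g : Matrix (Fin 2) (Fin 2) F).trace = t) := by
      rw [Finset.mem_filter]
      refine ⟨Finset.mem_univ _, ?_⟩
      rw [Matrix.trace_fin_two, hE00, hE11, htc]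
      ring
    have hEc : Nat.card (Subgroup.centralizer ({E} : Set (Matrix.SpecialLinearGroup (Fin 2) F)))
        = Nat.card (Matrix.SpecialLinearGroup (Fin 2) F) := by
      have : Subgroup.centralizer ({E} : Set (Matrix.SpecialLinearGroup (Fin 2) F)) = ⊤ := by
        rw [eq_top_iff]
        intro x _
        rw [Subgroup.mem_centralizer_singleton_iff]
        apply Subtype.ext
        rw [Matrix.SpecialLinearGroup.coe_mul, Matrix.SpecialLinearGroup.coe_mul]
        ext i j
        fin_cases i <;> fin_cases j <;>
          simp [Matrix.mul_apply, Fin.sum_univ_two, hE00, hE01, hE10, hE11, mul_comm]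
      rw [this, Subgroup.card_top]
    rw [← Finset.add_sum_erase _ _ hEmem, hEc]
    congr 1
    have hrest : ∀ g ∈ (Finset.univ.filter (fun g : Matrix.SpecialLinearGroup (Fin 2) F =>
        (g : Matrix (Fin 2) (Fin 2) F).trace = t)).erase E,
        Nat.card (Subgroup.centralizer ({g} : Set (Matrix.SpecialLinearGroup (Fin 2) F)))
          = 2 * Fintype.card F := by
      intro g hg
      rw [Finset.mem_erase, Finset.mem_filter] at hg
      obtain ⟨hgE, -, hgt⟩ := hg
      have hns : (g : Matrix (Fin 2) (Fin 2) F) 0 1 ≠ 0 ∨ (g : Matrix (Fin 2) (Fin 2) F) 1 0 ≠ 0 ∨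
          (g : Matrix (Fin 2) (Fin 2) F) 0 0 ≠ (g : Matrix (Fin 2) (Fin 2) F) 1 1 := by
        by_contra hcon
        push_neg at hcon
        obtain ⟨h01, h10, h00⟩ := hcon
        apply hgE
        rw [Matrix.trace_fin_two, ← h00, htc] at hgt
        have hgc : (g : Matrix (Fin 2) (Fin 2) F) 0 0 = c := by
          apply mul_left_cancel₀ h2
          linear_combination hgt
        apply Matrix.SpecialLinearGroup.ext
        intro i j
        fin_cases i <;> fin_cases j
        · show (g : Matrix (Fin 2) (Fin 2) F) 0 0 = (E : Matrix (Fin 2) (Fin 2) F) 0 0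
          rw [hE00, hgc]
        · show (g : Matrix (Fin 2) (Fin 2) F) 0 1 = (E : Matrix (Fin 2) (Fin 2) F) 0 1
          rw [hE01, h01]
        · show (g : Matrix (Fin 2) (Fin 2) F) 1 0 = (E : Matrix (Fin 2) (Fin 2) F) 1 0
          rw [hE10, h10]
        · show (g : Matrix (Fin 2) (Fin 2) F) 1 1 = (E : Matrix (Fin 2) (Fin 2) F) 1 1
          rw [hE11, ← h00, hgc]
      rw [sl2_centralizer_card_eq g hns, hgt]
      exact kc_count_double h2 c hc t htc
    rw [Finset.sum_congr rfl hrest, Finset.sum_const, Finset.card_erase_of_mem hEmem, hScard,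
      smul_eq_mul, hG]
    have hroot : Finset.univ.filter (fun a : F => a * (t - a) - 1 = 0) = {c} := by
      ext a
      simp only [Finset.mem_filter, Finset.mem_univ, true_and, Finset.mem_singleton]
      constructor
      · intro h
        have h4 : (a - c) * (a - c) = 0 := by
          rw [htc] at h
          linear_combination -h + hc
        rcases mul_eq_zero.1 h4 with h5 | h5 <;> exact sub_eq_zero.1 h5
      · rintro rfl
        rw [htc]
        linear_combination hc
    rw [hroot, Finset.card_singleton]
    exact kc_arith2 _ hq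
  · rw [if_neg hpm, add_zero]
    push_neg at hpm
    have hns : ∀ g ∈ Finset.univ.filter (fun g : Matrix.SpecialLinearGroup (Fin 2) F =>
        (g : Matrix (Fin 2) (Fin 2) F).trace = t),
        (g : Matrix (Fin 2) (Fin 2) F) 0 1 ≠ 0 ∨ (g : Matrix (Fin 2) (Fin 2) F) 1 0 ≠ 0 ∨
          (g : Matrix (Fin 2) (Fin 2) F) 0 0 ≠ (g : Matrix (Fin 2) (Fin 2) F) 1 1 := by
      intro g hg
      rw [Finset.mem_filter] at hg
      obtain ⟨-, hgt⟩ := hg
      by_contra hcon
      push_neg at hcon
      obtain ⟨h01, h10, h00⟩ := hcon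
      have hd := g.2
      rw [Matrix.det_fin_two, h01, h10, ← h00] at hd
      rw [Matrix.trace_fin_two, ← h00] at hgt
      have h4 : ((g : Matrix (Fin 2) (Fin 2) F) 0 0 - 1) * ((g : Matrix (Fin 2) (Fin 2) F) 0 0 + 1) = 0 := by
        linear_combination hd
      rcases mul_eq_zero.1 h4 with h5 | h5
      · apply hpm.1
        rw [← hgt, sub_eq_zero.1 h5]
        ring
      · apply hpm.2
        rw [← hgt, eq_neg_of_add_eq_zero_left h5]
        ring
    have hsum : ∀ g ∈ Finset.univ.filter (fun g : Matrix.SpecialLinearGroup (Fin 2) F =>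
        (g : Matrix (Fin 2) (Fin 2) F).trace = t),
        Nat.card (Subgroup.centralizer ({g} : Set (Matrix.SpecialLinearGroup (Fin 2) F)))
          = Nat.card {ab : F × F // ab.1 ^ 2 + ab.1 * ab.2 * t + ab.2 ^ 2 = 1} := by
      intro g hg
      rw [sl2_centralizer_card_eq g (hns g hg), (Finset.mem_filter.1 hg).2]
    rw [Finset.sum_congr rfl hsum, Finset.sum_const, hScard, smul_eq_mul, hG]
    by_cases hroot : ∃ lam : F, lam * (t - lam) - 1 = 0
    · obtain ⟨lam, hlam⟩ := hroot
      have hl0 : lam ≠ 0 := by
        rintro rfl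
        simp at hlam
      have hne : lam ^ 2 ≠ 1 := by
        intro h
        have h4 : (lam - 1) * (lam + 1) = 0 := by linear_combination h
        rcases mul_eq_zero.1 h4 with h5 | h5
        · apply hpm.1
          have h6 : lam = 1 := sub_eq_zero.1 h5
          rw [h6] at hlam
          linear_combination hlam
        · apply hpm.2
          have h6 : lam = -1 := eq_neg_of_add_eq_zero_left h5
          rw [h6] at hlam
          linear_combination -hlam
      have ht : t = lam + lam⁻¹ := by
        have h7 : lam * lam⁻¹ = 1 := mul_inv_cancel₀ hl0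
        apply mul_left_cancel₀ hl0
        linear_combination hlam - h7
      have hli : lam ≠ lam⁻¹ := by
        intro h
        apply hne
        rw [pow_two]
        nth_rewrite 2 [h]
        exact mul_inv_cancel₀ hl0
      have hroots : Finset.univ.filter (fun a : F => a * (t - a) - 1 = 0) = {lam, lam⁻¹} := by
        ext a
        simp only [Finset.mem_filter, Finset.mem_univ, true_and, Finset.mem_insert,
          Finset.mem_singleton]
        have h7 : lam * lam⁻¹ = 1 := mul_inv_cancel₀ hl0
        constructor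
        · intro h
          have h4 : (a - lam) * (a - lam⁻¹) = 0 := by
            rw [ht] at h
            linear_combination -h + h7
          rcases mul_eq_zero.1 h4 with h5 | h5
          · left; exact sub_eq_zero.1 h5
          · right; exact sub_eq_zero.1 h5
        · rintro (rfl | rfl)
          · exact hlam
          · rw [ht]
            linear_combination h7
      rw [hroots, Finset.card_pair hli, count_split lam hl0 hne t ht]
      exact kc_arith1 _ hq
    · push_neg at hroot
      have hempty : Finset.univ.filter (fun a : F => a * (t - a) - 1 = 0) = ∅ := by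
        ext a
        simp only [Finset.mem_filter, Finset.mem_univ, true_and, Finset.notMem_empty, iff_false]
        exact hroot a
      have hD : ∀ u : F, u ^ 2 + t * u + 1 ≠ 0 := by
        intro u hu
        apply hroot (-u)
        linear_combination -hu
      rw [hempty, Finset.card_empty, kc_count_aniso h2 t hD]
      exact kc_arith3 _ hq

/-- the class number of `SL₂(q)`, `q` odd -/
theorem kc_main (hodd : Odd (Fintype.card F)) :
    Nat.card (ConjClasses (Matrix.SpecialLinearGroup (Fin 2) F)) = Fintype.card F + 4 := by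
  have h2 : (2 : F) ≠ 0 := Ring.two_ne_zero (fun h => by
    have := FiniteField.even_card_iff_char_two.1 h
    rcases hodd with ⟨k, hk⟩
    omega)
  have hG : 0 < Nat.card (Matrix.SpecialLinearGroup (Fin 2) F) := Nat.card_pos
  have key := card_comm_eq_card_conjClasses_mul_card (Matrix.SpecialLinearGroup (Fin 2) F)
  have hsum : Nat.card {p : Matrix.SpecialLinearGroup (Fin 2) F × Matrix.SpecialLinearGroup (Fin 2) F //
      Commute p.1 p.2} = (Fintype.card F + 4) * Nat.card (Matrix.SpecialLinearGroup (Fin 2) F) := by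
    rw [Nat.card_congr (Equiv.subtypeProdEquivSigmaSubtype
      (fun g h : Matrix.SpecialLinearGroup (Fin 2) F => Commute g h)), Nat.card_sigma]
    have hc : ∀ g : Matrix.SpecialLinearGroup (Fin 2) F,
        Nat.card {h : Matrix.SpecialLinearGroup (Fin 2) F // Commute g h}
          = Nat.card (Subgroup.centralizer ({g} : Set (Matrix.SpecialLinearGroup (Fin 2) F))) :=
      fun g => Nat.card_congr (Equiv.subtypeEquivRight (fun h => by
        rw [Subgroup.mem_centralizer_singleton_iff]
        exact ⟨fun hc => hc.eq.symm, fun hc => hc.symm⟩))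
    simp_rw [hc]
    rw [← Finset.sum_fiberwise Finset.univ
      (fun g : Matrix.SpecialLinearGroup (Fin 2) F => (g : Matrix (Fin 2) (Fin 2) F).trace)
      (fun g => Nat.card (Subgroup.centralizer ({g} : Set (Matrix.SpecialLinearGroup (Fin 2) F))))]
    simp_rw [kc_trace_sum h2]
    rw [Finset.sum_add_distrib, Finset.sum_const, Finset.card_univ, Finset.sum_ite,
      Finset.sum_const, Finset.sum_const_zero, add_zero, smul_eq_mul, smul_eq_mul]
    have hpair : Finset.univ.filter (fun t : F => t = 2 ∨ t = -2) = {2, -2} := by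
      ext t
      simp
    have h22 : (2 : F) ≠ -2 := by
      intro h
      apply h2
      have h4 : (2 : F) * 2 = 0 := by linear_combination h
      rcases mul_eq_zero.1 h4 with h5 | h5 <;> exact h5
    rw [hpair, Finset.card_pair h22]
    ring
  rw [hsum] at key
  exact (Nat.eq_of_mul_eq_mul_right hG key).symm

end

end Cfsg.Agent.Helper5
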