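import Mathlib
import Cfsg.Agent.Helper5.PslCls2
import Cfsg.Agent.Helper5.SL2ClassNum

namespace Cfsg.Agent.Helper5

universe uO

section
variable {F : Type uO} [Field F]

/-- minus the identity of `SL₂` -/
def kNeg (F : Type uO) [Field F] : Matrix.SpecialLinearGroup (Fin 2) F :=
  ⟨-1, by rw [Matrix.det_neg, Matrix.det_one, Fintype.card_fin]; norm_num⟩

lemma kNeg_val : ((kNeg F : Matrix.SpecialLinearGroup (Fin 2) F) : Matrix (Fin 2) (Fin 2) F) = -1 := rfl

lemma kNeg_center : kNeg F ∈ Subgroup.center (Matrix.SpecialLinearGroup (Fin 2) F) := by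
  rw [Matrix.SpecialLinearGroup.mem_center_iff]
  refine ⟨-1, by simp, ?_⟩
  rw [kNeg_val, map_neg, map_one]

lemma kNeg_comm (x : Matrix.SpecialLinearGroup (Fin 2) F) : kNeg F * x = x * kNeg F :=
  (Subgroup.mem_center_iff.1 kNeg_center x).symm

lemma kNeg_sq : kNeg F * kNeg F = 1 := by
  apply Subtype.ext
  rw [Matrix.SpecialLinearGroup.coe_mul, kNeg_val]
  simp

lemma kNeg_ne_one (h2 : (2 : F) ≠ 0) : kNeg F ≠ 1 := by
  intro h
  have h3 := congrArg (fun m : Matrix.SpecialLinearGroup (Fin 2) F =>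
    (m : Matrix (Fin 2) (Fin 2) F) 0 0) h
  simp only [kNeg_val] at h3
  have h4 : (-1 : F) = 1 := by simpa using h3
  apply h2
  linear_combination -h4

theorem psl2_comap_mem (g h : Matrix.SpecialLinearGroup (Fin 2) F) :
    (QuotientGroup.mk h : Matrix.ProjectiveSpecialLinearGroup (Fin 2) F) ∈
      Subgroup.centralizer ({(QuotientGroup.mk g : Matrix.ProjectiveSpecialLinearGroup (Fin 2) F)} :
        Set (Matrix.ProjectiveSpecialLinearGroup (Fin 2) F))
      ↔ (g * h = h * g ∨ g * h = h * g * kNeg F) := by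
  rw [Subgroup.mem_centralizer_singleton_iff, ← QuotientGroup.mk_mul, ← QuotientGroup.mk_mul,
    QuotientGroup.eq]
  constructor
  · intro hz
    obtain ⟨r, hr1, hr2⟩ := Matrix.SpecialLinearGroup.mem_center_iff.1 hz
    have hr : r = 1 ∨ r = -1 := by
      have h3 : r ^ 2 = 1 := by simpa using hr1
      have h4 : (r - 1) * (r + 1) = 0 := by linear_combination h3
      rcases mul_eq_zero.1 h4 with h5 | h5
      · left; exact sub_eq_zero.1 h5
      · right; exact eq_neg_of_add_eq_zero_left h5
    rcases hr with rfl | rfl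
    · left
      have hz1 : (h * g)⁻¹ * (g * h) = 1 := by
        apply Subtype.ext
        rw [← hr2]
        simp
      exact (inv_mul_eq_one.1 hz1).symm
    · right
      have hz1 : (h * g)⁻¹ * (g * h) = kNeg F := by
        apply Subtype.ext
        rw [← hr2, kNeg_val, map_neg, map_one]
      exact inv_mul_eq_iff_eq_mul.1 hz1
  · rintro (hc | hc)
    · rw [hc, inv_mul_cancel]
      exact Subgroup.one_mem _
    · rw [hc, inv_mul_cancel_left]
      exact kNeg_center

theorem psl2_odd_index (h2 : (2 : F) ≠ 0) (g : Matrix.SpecialLinearGroup (Fin 2) F) :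
    ((g : Matrix (Fin 2) (Fin 2) F).trace ≠ 0 →
      (Subgroup.centralizer ({(QuotientGroup.mk g :
        Matrix.ProjectiveSpecialLinearGroup (Fin 2) F)} :
          Set (Matrix.ProjectiveSpecialLinearGroup (Fin 2) F))).index
        = (Subgroup.centralizer ({g} : Set (Matrix.SpecialLinearGroup (Fin 2) F))).index) ∧
    ((∃ a : Matrix.SpecialLinearGroup (Fin 2) F, g * a = a * g * kNeg F) →
      (Subgroup.centralizer ({g} : Set (Matrix.SpecialLinearGroup (Fin 2) F))).index
        = 2 * (Subgroup.centralizer ({(QuotientGroup.mk g :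
        Matrix.ProjectiveSpecialLinearGroup (Fin 2) F)} :
          Set (Matrix.ProjectiveSpecialLinearGroup (Fin 2) F))).index) ∧
    ((Subgroup.centralizer ({g} : Set (Matrix.SpecialLinearGroup (Fin 2) F))).index
        = (Subgroup.centralizer ({(QuotientGroup.mk g :
        Matrix.ProjectiveSpecialLinearGroup (Fin 2) F)} :
          Set (Matrix.ProjectiveSpecialLinearGroup (Fin 2) F))).index ∨
      (Subgroup.centralizer ({g} : Set (Matrix.SpecialLinearGroup (Fin 2) F))).index
        = 2 * (Subgroup.centralizer ({(QuotientGroup.mk g :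
        Matrix.ProjectiveSpecialLinearGroup (Fin 2) F)} :
          Set (Matrix.ProjectiveSpecialLinearGroup (Fin 2) F))).index) := by
  obtain ⟨π, hπ⟩ : ∃ π : Matrix.SpecialLinearGroup (Fin 2) F →*
      Matrix.ProjectiveSpecialLinearGroup (Fin 2) F, ∀ x, π x = QuotientGroup.mk x :=
    ⟨QuotientGroup.mk' _, fun _ => rfl⟩
  have hsurj : Function.Surjective π := by
    intro y
    obtain ⟨x, rfl⟩ := QuotientGroup.mk_surjective y
    exact ⟨x, hπ x⟩
  obtain ⟨Cb, hCb⟩ : ∃ Cb : Subgroup (Matrix.ProjectiveSpecialLinearGroup (Fin 2) F),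
      Cb = Subgroup.centralizer ({(QuotientGroup.mk g :
        Matrix.ProjectiveSpecialLinearGroup (Fin 2) F)} :
          Set (Matrix.ProjectiveSpecialLinearGroup (Fin 2) F)) := ⟨_, rfl⟩
  obtain ⟨C, hC⟩ : ∃ C : Subgroup (Matrix.SpecialLinearGroup (Fin 2) F),
      C = Subgroup.centralizer ({g} : Set (Matrix.SpecialLinearGroup (Fin 2) F)) := ⟨_, rfl⟩
  obtain ⟨N, hNdef⟩ : ∃ N : Subgroup (Matrix.SpecialLinearGroup (Fin 2) F), N = Cb.comap π :=
    ⟨_, rfl⟩
  rw [← hCb, ← hC]
  have hNidx : N.index = Cb.index := by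
    rw [hNdef]
    exact Subgroup.index_comap_of_surjective Cb hsurj
  have hNmem : ∀ h, h ∈ N ↔ (g * h = h * g ∨ g * h = h * g * kNeg F) := by
    intro h
    rw [hNdef, Subgroup.mem_comap, hπ, hCb]
    exact psl2_comap_mem g h
  have hCmem : ∀ h, h ∈ C ↔ g * h = h * g := by
    intro h
    rw [hC, Subgroup.mem_centralizer_singleton_iff]
    exact eq_comm
  have hCN : C ≤ N := fun h hh => (hNmem h).2 (Or.inl ((hCmem h).1 hh))
  have hrel := Subgroup.relIndex_mul_index hCN
  have hanti : (∃ a : Matrix.SpecialLinearGroup (Fin 2) F, g * a = a * g * kNeg F) →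
      C.index = 2 * Cb.index := by
    rintro ⟨a, ha⟩
    have h2rel : C.relIndex N = 2 := by
      rw [Subgroup.relIndex_eq_two_iff]
      refine ⟨a, (hNmem a).2 (Or.inr ha), fun b hb => ?_⟩
      rcases (hNmem b).1 hb with hb1 | hb1
      · right
        refine ⟨(hCmem b).2 hb1, fun hba => ?_⟩
        have h5 := (hCmem _).1 hba
        have h6 : g * (b * a) = b * a * g * kNeg F := by
          calc g * (b * a) = (g * b) * a := (mul_assoc _ _ _).symm
            _ = b * (g * a) := by rw [hb1, mul_assoc]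
            _ = b * a * g * kNeg F := by rw [ha]; simp only [mul_assoc]
        rw [h5] at h6
        apply kNeg_ne_one h2
        have h7 : b * a * g * 1 = b * a * g * kNeg F := by rw [mul_one]; exact h6
        exact (mul_left_cancel h7).symm
      · left
        refine ⟨(hCmem _).2 ?_, fun hbC => ?_⟩
        · calc g * (b * a) = (g * b) * a := (mul_assoc _ _ _).symm
            _ = b * g * (kNeg F * a) := by rw [hb1]; simp only [mul_assoc]
            _ = b * (g * a) * kNeg F := by rw [kNeg_comm a]; simp only [mul_assoc]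
            _ = b * a * g * (kNeg F * kNeg F) := by rw [ha]; simp only [mul_assoc]
            _ = b * a * g := by rw [kNeg_sq, mul_one]
        · have h5 := (hCmem b).1 hbC
          rw [h5] at hb1
          apply kNeg_ne_one h2
          have h7 : b * g * 1 = b * g * kNeg F := by rw [mul_one]; exact hb1
          exact (mul_left_cancel h7).symm
    rw [← hrel, h2rel, hNidx]
  have hnoanti : (¬ ∃ a : Matrix.SpecialLinearGroup (Fin 2) F, g * a = a * g * kNeg F) →
      C.index = Cb.index := by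
    intro hno
    have hNC : N ≤ C := by
      intro h hh
      rcases (hNmem h).1 hh with h1 | h1
      · exact (hCmem h).2 h1
      · exact absurd ⟨h, h1⟩ hno
    have h8 : C = N := le_antisymm hCN hNC
    rw [h8, hNidx]
  refine ⟨fun ht => ?_, hanti, ?_⟩
  · symm
    apply hnoanti
    rintro ⟨a, ha⟩
    apply ht
    have hmat := congrArg (fun m : Matrix.SpecialLinearGroup (Fin 2) F =>
      (m : Matrix (Fin 2) (Fin 2) F)) ha
    simp only [Matrix.SpecialLinearGroup.coe_mul, kNeg_val, mul_neg, mul_one] at hmat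
    have E00 := congrFun (congrFun hmat 0) 0
    have E01 := congrFun (congrFun hmat 0) 1
    have E10 := congrFun (congrFun hmat 1) 0
    have E11 := congrFun (congrFun hmat 1) 1
    simp only [Matrix.mul_apply, Fin.sum_univ_two, Matrix.neg_apply] at E00 E01 E10 E11
    have hdet := a.2
    rw [Matrix.det_fin_two] at hdet
    rw [Matrix.trace_fin_two]
    apply mul_left_cancel₀ h2
    linear_combination (a : Matrix (Fin 2) (Fin 2) F) 1 1 * E00
      + (a : Matrix (Fin 2) (Fin 2) F) 0 0 * E11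
      - (a : Matrix (Fin 2) (Fin 2) F) 1 0 * E01
      - (a : Matrix (Fin 2) (Fin 2) F) 0 1 * E10
      - 2 * ((g : Matrix (Fin 2) (Fin 2) F) 0 0 + (g : Matrix (Fin 2) (Fin 2) F) 1 1) * hdet
  · by_cases hex : ∃ a : Matrix.SpecialLinearGroup (Fin 2) F, g * a = a * g * kNeg F
    · right; exact hanti hex
    · left; exact hnoanti hex

end

section
variable {F : Type uO} [Field F] [Fintype F]

theorem sl2_odd_index (h2 : (2 : F) ≠ 0) (hoddq : Odd (Fintype.card F))
    (g : Matrix.SpecialLinearGroup (Fin 2) F)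
    (hns : (g : Matrix (Fin 2) (Fin 2) F) 0 1 ≠ 0 ∨ (g : Matrix (Fin 2) (Fin 2) F) 1 0 ≠ 0 ∨
      (g : Matrix (Fin 2) (Fin 2) F) 0 0 ≠ (g : Matrix (Fin 2) (Fin 2) F) 1 1) :
    ((∃ lam : F, lam ^ 2 - (g : Matrix (Fin 2) (Fin 2) F).trace * lam + 1 = 0 ∧ lam ^ 2 = 1) →
      (Subgroup.centralizer ({g} : Set (Matrix.SpecialLinearGroup (Fin 2) F))).index
        = (Fintype.card F ^ 2 - 1) / 2) ∧
    ((∃ lam : F, lam ^ 2 - (g : Matrix (Fin 2) (Fin 2) F).trace * lam + 1 = 0 ∧ lam ^ 2 ≠ 1) →
      (Subgroup.centralizer ({g} : Set (Matrix.SpecialLinearGroup (Fin 2) F))).index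
        = Fintype.card F * (Fintype.card F + 1)) ∧
    ((∀ x : F, x ^ 2 - (g : Matrix (Fin 2) (Fin 2) F).trace * x + 1 ≠ 0) →
      (Subgroup.centralizer ({g} : Set (Matrix.SpecialLinearGroup (Fin 2) F))).index
        = Fintype.card F * (Fintype.card F - 1)) := by
  classical
  have hq : 1 < Fintype.card F := Fintype.one_lt_card
  have hfac : Fintype.card F ^ 2 - 1 = (Fintype.card F - 1) * (Fintype.card F + 1) := by
    obtain ⟨k, hk⟩ : ∃ k, Fintype.card F = k + 1 := ⟨Fintype.card F - 1, by omega⟩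
    rw [hk]
    simp only [Nat.add_sub_cancel]
    have h5 : (k + 1) ^ 2 = k * (k + 1 + 1) + 1 := by ring
    omega
  have hev : 2 ∣ Fintype.card F ^ 2 - 1 := by
    obtain ⟨k, hk⟩ := hoddq
    rw [hk]
    refine ⟨2 * k ^ 2 + 2 * k, ?_⟩
    have h5 : (2 * k + 1) ^ 2 = 2 * (2 * k ^ 2 + 2 * k) + 1 := by ring
    omega
  refine ⟨?_, ?_, ?_⟩
  · rintro ⟨lam, hlam, h1⟩
    have ht : (g : Matrix (Fin 2) (Fin 2) F).trace = 2 * lam := by
      linear_combination (-(g : Matrix (Fin 2) (Fin 2) F).trace + lam) * h1 - lam * hlam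
    exact sl2_index_of_card g (2 * Fintype.card F) _
      (by rw [sl2_centralizer_card_eq g hns]; exact kc_count_double h2 lam h1 _ ht) (by omega)
      (by rw [mul_comm 2 (Fintype.card F), mul_assoc, Nat.mul_div_cancel' hev])
  · rintro ⟨lam, hlam, h1⟩
    have hl0 : lam ≠ 0 := by
      intro h
      rw [h] at hlam
      simp at hlam
    have ht : (g : Matrix (Fin 2) (Fin 2) F).trace = lam + lam⁻¹ := by
      field_simp
      linear_combination (-1 : F) * hlam
    exact sl2_index_of_card g (Fintype.card F - 1) _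
      (by rw [sl2_centralizer_card_eq g hns]; exact count_split lam hl0 h1 _ ht) (by omega)
      (by rw [hfac]; ring)
  · intro hroot
    have hD : ∀ u : F, u ^ 2 + (g : Matrix (Fin 2) (Fin 2) F).trace * u + 1 ≠ 0 := by
      intro u hu
      apply hroot (-u)
      linear_combination hu
    exact sl2_index_of_card g (Fintype.card F + 1) _
      (by rw [sl2_centralizer_card_eq g hns]; exact kc_count_aniso h2 _ hD) (by omega)
      (by rw [hfac]; ring)

theorem sl2_trace0_index (h2 : (2 : F) ≠ 0) (hoddq : Odd (Fintype.card F))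
    (g : Matrix.SpecialLinearGroup (Fin 2) F)
    (hns : (g : Matrix (Fin 2) (Fin 2) F) 0 1 ≠ 0 ∨ (g : Matrix (Fin 2) (Fin 2) F) 1 0 ≠ 0 ∨
      (g : Matrix (Fin 2) (Fin 2) F) 0 0 ≠ (g : Matrix (Fin 2) (Fin 2) F) 1 1)
    (ht : (g : Matrix (Fin 2) (Fin 2) F).trace = 0) (I0 : ℕ)
    (hI0 : (IsSquare (-1 : F) → I0 = Fintype.card F * (Fintype.card F + 1)) ∧
      (¬ IsSquare (-1 : F) → I0 = Fintype.card F * (Fintype.card F - 1))) :
    (Subgroup.centralizer ({g} : Set (Matrix.SpecialLinearGroup (Fin 2) F))).index = I0 := by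
  obtain ⟨c1, c2, c3⟩ := sl2_odd_index h2 hoddq g hns
  by_cases hs : IsSquare (-1 : F)
  · rw [hI0.1 hs]
    obtain ⟨r, hr⟩ := hs
    apply c2
    refine ⟨r, ?_, ?_⟩
    · rw [ht]
      linear_combination -hr
    · intro h1
      apply h2
      linear_combination -h1 - hr
  · rw [hI0.2 hs]
    apply c3
    intro x hx
    apply hs
    refine ⟨x, ?_⟩
    rw [ht] at hx
    linear_combination -hx

theorem sl2_odd_elt_facts (p : ℕ) [Fact p.Prime] [CharP F p] (h7 : 7 ≤ Fintype.card F)
    (x : Matrix.SpecialLinearGroup (Fin 2) F)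
    (hx : orderOf x = Fintype.card F - 1 ∨ orderOf x = Fintype.card F + 1) :
    (¬ ∃ lam : F, lam ^ 2 - (x : Matrix (Fin 2) (Fin 2) F).trace * lam + 1 = 0 ∧ lam ^ 2 = 1) ∧
      (x : Matrix (Fin 2) (Fin 2) F).trace ≠ 0 := by
  classical
  have hp : p.Prime := Fact.out
  obtain ⟨f, -, hf⟩ := FiniteField.card F p
  have hpq : p ∣ Fintype.card F := by
    rw [hf]
    exact dvd_pow_self p f.ne_zero
  have hnd : ¬ p ∣ orderOf x := by
    intro hd
    rcases hx with h | h
    · rw [h] at hd
      have h3 : p ∣ (Fintype.card F - 1) + 1 := by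
        have h4 : Fintype.card F - 1 + 1 = Fintype.card F := by omega
        rw [h4]
        exact hpq
      have h5 := (Nat.dvd_add_right hd).1 h3
      exact hp.one_lt.ne' (Nat.dvd_one.1 h5)
    · rw [h] at hd
      have h5 := (Nat.dvd_add_right hpq).1 hd
      exact hp.one_lt.ne' (Nat.dvd_one.1 h5)
  have hge : 6 ≤ orderOf x := by
    rcases hx with h | h <;> rw [h] <;> omega
  constructor
  · rintro ⟨lam, hlam, h1⟩
    have h5 := m2_unip_pow p _ x.det_coe lam hlam h1
    have h6 : x ^ (p * 2) = 1 := by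
      apply Subtype.ext
      rw [Matrix.SpecialLinearGroup.coe_pow, pow_mul, h5, smul_pow, one_pow, ← pow_mul,
        mul_comm p 2, pow_mul, h1, one_pow, one_smul]
      rfl
    have h7' := orderOf_dvd_of_pow_eq_one h6
    have hcop : Nat.Coprime (orderOf x) p :=
      Nat.Coprime.symm ((Nat.Prime.coprime_iff_not_dvd hp).2 hnd)
    have h8 : orderOf x ∣ 2 := by
      rw [mul_comm] at h7'
      exact hcop.dvd_of_dvd_mul_right h7'
    have h9 := Nat.le_of_dvd (by norm_num) h8
    omega
  · intro ht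
    have hCH := m2_ch (x : Matrix (Fin 2) (Fin 2) F) x.det_coe
    rw [ht, zero_smul, zero_sub] at hCH
    have h6 : x ^ 4 = 1 := by
      apply Subtype.ext
      rw [Matrix.SpecialLinearGroup.coe_pow, show (4 : ℕ) = 2 + 2 from rfl, pow_add, pow_two, hCH]
      simp
    have h7' := orderOf_dvd_of_pow_eq_one h6
    have h9 := Nat.le_of_dvd (by norm_num) h7'
    omega

theorem psl2_odd_core (hodd : ¬ 2 ∣ Fintype.card F) (h7 : 7 ≤ Fintype.card F) (I0 : ℕ)
    (hI0 : (IsSquare (-1 : F) → I0 = Fintype.card F * (Fintype.card F + 1)) ∧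
      (¬ IsSquare (-1 : F) → I0 = Fintype.card F * (Fintype.card F - 1))) (n : ℕ) :
    n ∈ Set.range (fun g : (Matrix.ProjectiveSpecialLinearGroup (Fin 2) F) =>
      (Subgroup.centralizer ({g} : Set (Matrix.ProjectiveSpecialLinearGroup (Fin 2) F))).index) ↔
      (n = 1 ∨ n = (Fintype.card F ^ 2 - 1) / 2 ∨ n = I0 / 2 ∨
        n = Fintype.card F * (Fintype.card F - 1) ∨ n = Fintype.card F * (Fintype.card F + 1)) := by
  classical
  obtain ⟨p, hp⟩ := CharP.exists F
  haveI : CharP F p := hp
  haveI hpf : Fact p.Prime := ⟨CharP.char_is_prime F p⟩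
  haveI : NeZero p := ⟨hpf.out.ne_zero⟩
  have hoddq : Odd (Fintype.card F) := Nat.odd_iff.2 (Nat.two_dvd_ne_zero.1 hodd)
  have h2 : (2 : F) ≠ 0 := Ring.two_ne_zero (fun h => by
    have := FiniteField.even_card_iff_char_two.1 h
    rcases hoddq with ⟨k, hk⟩
    omega)
  have hone : ∀ y : Matrix.ProjectiveSpecialLinearGroup (Fin 2) F, y = 1 →
      (Subgroup.centralizer ({y} : Set (Matrix.ProjectiveSpecialLinearGroup (Fin 2) F))).index
        = 1 := by
    rintro y rfl
    have h5 : Subgroup.centralizer ({(1 : Matrix.ProjectiveSpecialLinearGroup (Fin 2) F)} :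
        Set (Matrix.ProjectiveSpecialLinearGroup (Fin 2) F)) = ⊤ := by
      ext x
      simp [Subgroup.mem_centralizer_iff]
    rw [h5, Subgroup.index_top]
  have hnsOf : ∀ x : Matrix.SpecialLinearGroup (Fin 2) F,
      (¬ ∃ lam : F, lam ^ 2 - (x : Matrix (Fin 2) (Fin 2) F).trace * lam + 1 = 0 ∧ lam ^ 2 = 1) →
      ((x : Matrix (Fin 2) (Fin 2) F) 0 1 ≠ 0 ∨ (x : Matrix (Fin 2) (Fin 2) F) 1 0 ≠ 0 ∨
        (x : Matrix (Fin 2) (Fin 2) F) 0 0 ≠ (x : Matrix (Fin 2) (Fin 2) F) 1 1) := by
    intro x hno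
    by_contra hcon
    push Not at hcon
    obtain ⟨h01, h10, h00⟩ := hcon
    apply hno
    have hd := x.2
    rw [Matrix.det_fin_two, h01, h10, ← h00] at hd
    refine ⟨(x : Matrix (Fin 2) (Fin 2) F) 0 0, ?_, ?_⟩
    · rw [Matrix.trace_fin_two, ← h00]
      linear_combination -hd
    · linear_combination hd
  constructor
  · rintro ⟨y, rfl⟩
    obtain ⟨g, rfl⟩ := QuotientGroup.mk_surjective y
    beta_reduce
    by_cases hns : (g : Matrix (Fin 2) (Fin 2) F) 0 1 ≠ 0 ∨ (g : Matrix (Fin 2) (Fin 2) F) 1 0 ≠ 0 ∨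
        (g : Matrix (Fin 2) (Fin 2) F) 0 0 ≠ (g : Matrix (Fin 2) (Fin 2) F) 1 1
    · obtain ⟨c1, c2, c3⟩ := sl2_odd_index h2 hoddq g hns
      obtain ⟨p1, p2, p3⟩ := psl2_odd_index h2 g
      by_cases ht : (g : Matrix (Fin 2) (Fin 2) F).trace = 0
      · have hI := sl2_trace0_index h2 hoddq g hns ht I0 hI0
        rcases p3 with h | h
        · rw [← h, hI]
          by_cases hs : IsSquare (-1 : F)
          · right; right; right; right
            exact hI0.1 hs
          · right; right; right; left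
            exact hI0.2 hs
        · right; right; left
          rw [hI] at h
          omega
      · rw [p1 ht]
        by_cases hroot : ∃ lam : F, lam ^ 2 - (g : Matrix (Fin 2) (Fin 2) F).trace * lam + 1 = 0
        · obtain ⟨lam, hlam⟩ := hroot
          by_cases h1 : lam ^ 2 = 1
          · right; left
            exact c1 ⟨lam, hlam, h1⟩
          · right; right; right; right
            exact c2 ⟨lam, hlam, h1⟩
        · push Not at hroot
          right; right; right; left
          exact c3 hroot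
    · left
      push Not at hns
      obtain ⟨h01, h10, h00⟩ := hns
      apply hone
      have h5 := psl2_pow_eq_one_of_scalar g 1 ((g : Matrix (Fin 2) (Fin 2) F) 0 0) (by
        rw [pow_one]
        ext i j
        fin_cases i <;> fin_cases j <;> simp [h01, h10, ← h00])
      rwa [pow_one] at h5
  · intro hn
    obtain ⟨x1, hx1⟩ := sl2_exists_order_sub (F := F)
    obtain ⟨x2, hx2⟩ := sl2_exists_order_add (F := F)
    obtain ⟨f1a, f1b⟩ := sl2_odd_elt_facts p h7 x1 (Or.inl hx1)
    obtain ⟨f2a, f2b⟩ := sl2_odd_elt_facts p h7 x2 (Or.inr hx2)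
    rcases hn with h | h | h | h | h
    · exact ⟨QuotientGroup.mk 1, by rw [h]; exact hone _ rfl⟩
    · obtain ⟨u, hu⟩ : ∃ u : Matrix.SpecialLinearGroup (Fin 2) F,
          (u : Matrix (Fin 2) (Fin 2) F) = !![1, 1; 0, 1] :=
        ⟨⟨!![1, 1; 0, 1], by simp [Matrix.det_fin_two]⟩, rfl⟩
      have hut : (u : Matrix (Fin 2) (Fin 2) F).trace = 2 := by
        rw [hu, Matrix.trace_fin_two_of]
        norm_num
      have huns : (u : Matrix (Fin 2) (Fin 2) F) 0 1 ≠ 0 ∨ (u : Matrix (Fin 2) (Fin 2) F) 1 0 ≠ 0 ∨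
          (u : Matrix (Fin 2) (Fin 2) F) 0 0 ≠ (u : Matrix (Fin 2) (Fin 2) F) 1 1 := by
        left
        rw [hu]
        simp
      refine ⟨QuotientGroup.mk u, ?_⟩
      show (Subgroup.centralizer ({(QuotientGroup.mk u :
        Matrix.ProjectiveSpecialLinearGroup (Fin 2) F)} :
          Set (Matrix.ProjectiveSpecialLinearGroup (Fin 2) F))).index = n
      rw [h, (psl2_odd_index h2 u).1 (by rw [hut]; exact h2)]
      apply (sl2_odd_index h2 hoddq u huns).1
      refine ⟨1, ?_, by ring⟩
      rw [hut]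
      ring
    · obtain ⟨a, b, hab⟩ := CharP.sq_add_sq F p (-1)
      obtain ⟨xx, hxx⟩ : ∃ xx : F, xx = (a : F) := ⟨_, rfl⟩
      obtain ⟨yy, hyy⟩ : ∃ yy : F, yy = (b : F) := ⟨_, rfl⟩
      have hxy : xx ^ 2 + yy ^ 2 = -1 := by
        rw [hxx, hyy, hab]
        simp
      obtain ⟨w, hw⟩ : ∃ w : Matrix.SpecialLinearGroup (Fin 2) F,
          (w : Matrix (Fin 2) (Fin 2) F) = !![0, 1; -1, 0] :=
        ⟨⟨!![0, 1; -1, 0], by simp [Matrix.det_fin_two]⟩, rfl⟩
      obtain ⟨aa, haa⟩ : ∃ aa : Matrix.SpecialLinearGroup (Fin 2) F,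
          (aa : Matrix (Fin 2) (Fin 2) F) = !![xx, yy; yy, -xx] :=
        ⟨⟨!![xx, yy; yy, -xx], by
          rw [Matrix.det_fin_two]
          simp only [Matrix.of_apply, Matrix.cons_val', Matrix.cons_val_zero, Matrix.cons_val_one,
            Matrix.cons_val_fin_one]
          linear_combination -hxy⟩, rfl⟩
      have hwt : (w : Matrix (Fin 2) (Fin 2) F).trace = 0 := by
        rw [hw, Matrix.trace_fin_two_of]
        norm_num
      have hwns : (w : Matrix (Fin 2) (Fin 2) F) 0 1 ≠ 0 ∨ (w : Matrix (Fin 2) (Fin 2) F) 1 0 ≠ 0 ∨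
          (w : Matrix (Fin 2) (Fin 2) F) 0 0 ≠ (w : Matrix (Fin 2) (Fin 2) F) 1 1 := by
        left
        rw [hw]
        simp
      have hanti : w * aa = aa * w * kNeg F := by
        apply Subtype.ext
        simp only [Matrix.SpecialLinearGroup.coe_mul, kNeg_val, mul_neg, mul_one, hw, haa]
        ext i j
        fin_cases i <;> fin_cases j <;> simp [Matrix.mul_apply, Fin.sum_univ_two]
      have hI := sl2_trace0_index h2 hoddq w hwns hwt I0 hI0
      have h5 := (psl2_odd_index h2 w).2.1 ⟨aa, hanti⟩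
      refine ⟨QuotientGroup.mk w, ?_⟩
      show (Subgroup.centralizer ({(QuotientGroup.mk w :
        Matrix.ProjectiveSpecialLinearGroup (Fin 2) F)} :
          Set (Matrix.ProjectiveSpecialLinearGroup (Fin 2) F))).index = n
      rw [hI] at h5
      omega
    · refine ⟨QuotientGroup.mk x2, ?_⟩
      show (Subgroup.centralizer ({(QuotientGroup.mk x2 :
        Matrix.ProjectiveSpecialLinearGroup (Fin 2) F)} :
          Set (Matrix.ProjectiveSpecialLinearGroup (Fin 2) F))).index = n
      rw [h, (psl2_odd_index h2 x2).1 f2b]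
      apply (sl2_odd_index h2 hoddq x2 (hnsOf x2 f2a)).2.2
      intro lam hlam
      have h1 : lam ^ 2 ≠ 1 := fun h1 => f2a ⟨lam, hlam, h1⟩
      have hl0 : lam ≠ 0 := by
        intro h0
        rw [h0] at hlam
        simp at hlam
      have hk : lam ^ (Fintype.card F - 1) = lam⁻¹ ^ (Fintype.card F - 1) := by
        rw [FiniteField.pow_card_sub_one_eq_one lam hl0,
          FiniteField.pow_card_sub_one_eq_one lam⁻¹ (inv_ne_zero hl0)]
      have h5 := m2_split_pow _ x2.det_coe lam hlam h1 (Fintype.card F - 1) hk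
      rw [FiniteField.pow_card_sub_one_eq_one lam hl0, one_smul] at h5
      have h6 : x2 ^ (Fintype.card F - 1) = 1 := by
        apply Subtype.ext
        rw [Matrix.SpecialLinearGroup.coe_pow, h5]
        rfl
      have h7' := orderOf_dvd_of_pow_eq_one h6
      rw [hx2] at h7'
      have h8 := Nat.le_of_dvd (by omega) h7'
      omega
    · refine ⟨QuotientGroup.mk x1, ?_⟩
      show (Subgroup.centralizer ({(QuotientGroup.mk x1 :
        Matrix.ProjectiveSpecialLinearGroup (Fin 2) F)} :
          Set (Matrix.ProjectiveSpecialLinearGroup (Fin 2) F))).index = n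
      rw [h, (psl2_odd_index h2 x1).1 f1b]
      apply (sl2_odd_index h2 hoddq x1 (hnsOf x1 f1a)).2.1
      by_cases hroot : ∃ lam : F,
          lam ^ 2 - (x1 : Matrix (Fin 2) (Fin 2) F).trace * lam + 1 = 0
      · obtain ⟨lam, hlam⟩ := hroot
        exact ⟨lam, hlam, fun h1 => f1a ⟨lam, hlam, h1⟩⟩
      · exfalso
        push Not at hroot
        have h5 := m2_pow_card_succ p _ x1.det_coe hroot
        have h6 : x1 ^ (Fintype.card F + 1) = 1 := by
          apply Subtype.ext
          rw [Matrix.SpecialLinearGroup.coe_pow, h5]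
          rfl
        have h7' := orderOf_dvd_of_pow_eq_one h6
        rw [hx1] at h7'
        have h8 : (Fintype.card F - 1) ∣ 2 := by
          have h9 : Fintype.card F + 1 = (Fintype.card F - 1) + 2 := by omega
          rw [h9] at h7'
          exact (Nat.dvd_add_right (dvd_refl _)).mp h7'
        have h10 := Nat.le_of_dvd (by norm_num) h8
        omega

theorem psl2_odd_class_sizes (hodd : ¬ 2 ∣ Fintype.card F) (h7 : 7 ≤ Fintype.card F) :
    (Fintype.card F % 4 = 1 →
      Set.range (fun g : (Matrix.ProjectiveSpecialLinearGroup (Fin 2) F) => (Subgroup.centralizer ({g} : Set (Matrix.ProjectiveSpecialLinearGroup (Fin 2) F))).index) =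
        {1, (Fintype.card F ^ 2 - 1) / 2, Fintype.card F * (Fintype.card F + 1) / 2,
          Fintype.card F * (Fintype.card F - 1), Fintype.card F * (Fintype.card F + 1)}) ∧
    (Fintype.card F % 4 = 3 →
      Set.range (fun g : (Matrix.ProjectiveSpecialLinearGroup (Fin 2) F) => (Subgroup.centralizer ({g} : Set (Matrix.ProjectiveSpecialLinearGroup (Fin 2) F))).index) =
        {1, (Fintype.card F ^ 2 - 1) / 2, Fintype.card F * (Fintype.card F - 1) / 2,
          Fintype.card F * (Fintype.card F + 1), Fintype.card F * (Fintype.card F - 1)}) := by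
  have hsq := FiniteField.isSquare_neg_one_iff (F := F)
  constructor
  · intro h1
    have hs : IsSquare (-1 : F) := hsq.2 (by omega)
    ext n
    rw [psl2_odd_core hodd h7 (Fintype.card F * (Fintype.card F + 1))
      ⟨fun _ => rfl, fun h => absurd hs h⟩ n]
    simp only [Set.mem_insert_iff, Set.mem_singleton_iff]
  · intro h3
    have hs : ¬ IsSquare (-1 : F) := fun h => (hsq.1 h) h3
    ext n
    rw [psl2_odd_core hodd h7 (Fintype.card F * (Fintype.card F - 1))
      ⟨fun h => absurd h hs, fun _ => rfl⟩ n]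
    simp only [Set.mem_insert_iff, Set.mem_singleton_iff]
    tauto

end

end Cfsg.Agent.Helper5
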