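import Mathlib
import Cfsg.Prelude.Def_PLocal
import Cfsg.Prelude.Def_Transfer
import Cfsg.Agent.Helper4.QdNonAb
import Cfsg.Agent.Helper4.Unipotent
import Cfsg.Agent.Helper8.GroupHeis
import Cfsg.Agent.Helper5.Basic

set_option autoImplicit false

namespace Cfsg.Agent.Helper5

/-- `p`-elements of `SL₃(p)`, `p` odd, have order dividing `p`. -/
theorem sl3_pow_prime (p : ℕ) [Fact p.Prime] (hp : p ≠ 2)
    (x : Matrix.SpecialLinearGroup (Fin 3) (ZMod p)) (j : ℕ) (hx : x ^ p ^ j = 1) : x ^ p = 1 := by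
  have hpp : p.Prime := Fact.out
  have hp3 : 3 ≤ p := by have := hpp.two_le; omega
  have h1 : (x.1) ^ p ^ j = 1 := by
    have := congrArg (fun y : Matrix.SpecialLinearGroup (Fin 3) (ZMod p) => y.1) hx
    simpa using this
  have hN : IsNilpotent (x.1 - 1) := by
    refine ⟨p ^ j, ?_⟩
    rw [← Helper4.matrix_pow_char_pow_sub_one p x.1 j, h1, sub_self]
  have h3 := Helper4.nilpotent_matrix_pow_card _ hN
  have h4 : (x.1 - 1) ^ p = 0 := pow_eq_zero_of_le hp3 h3
  have h5 := Helper4.matrix_pow_char_pow_sub_one p x.1 1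
  rw [pow_one, h4, sub_eq_zero] at h5
  apply Subtype.ext
  simpa using h5

/-- a `p`-subgroup of `SL₃(p)` has order dividing `p³`. -/
theorem card_pgroup_sl3_dvd (p : ℕ) [Fact p.Prime]
    (P : Subgroup (Matrix.SpecialLinearGroup (Fin 3) (ZMod p))) (hP : IsPGroup p P) :
    Nat.card P ∣ p ^ 3 := by
  have hpp : p.Prime := Fact.out
  haveI : NeZero p := ⟨hpp.ne_zero⟩
  haveI : Finite (Matrix.SpecialLinearGroup (Fin 3) (ZMod p)) :=
    Finite.of_injective (fun A => A.1) Subtype.val_injective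
  obtain ⟨k, hk⟩ := IsPGroup.iff_card.1 hP
  have hdvd : Nat.card P ∣ Nat.card (GL (Fin 3) (ZMod p)) := by
    have h1 : Nat.card P = Nat.card (P.map (Matrix.SpecialLinearGroup.toGL)) :=
      Nat.card_congr (P.equivMapOfInjective _ Matrix.SpecialLinearGroup.toGL_injective).toEquiv
    rw [h1]; exact Subgroup.card_subgroup_dvd_card _
  rw [Matrix.card_GL_field, ZMod.card, Fin.prod_univ_three] at hdvd
  simp only [Fin.val_zero, Fin.val_one, Fin.val_two, pow_zero, pow_one] at hdvd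
  have hp1 : 1 ≤ p := hpp.one_le
  have e1 : p ^ 3 - p = p * (p ^ 2 - 1) := by
    rw [Nat.mul_sub, mul_one]
    have : p ^ 3 = p * p ^ 2 := by ring
    rw [this]
  have e2 : p ^ 3 - p ^ 2 = p ^ 2 * (p - 1) := by
    rw [Nat.mul_sub, mul_one]
    have : p ^ 3 = p ^ 2 * p := by ring
    rw [this]
  have e3 : (p ^ 3 - 1) * (p ^ 3 - p) * (p ^ 3 - p ^ 2) =
      p ^ 3 * ((p ^ 3 - 1) * (p ^ 2 - 1) * (p - 1)) := by
    rw [e1, e2]; ring
  rw [e3, hk] at hdvd
  have hnd : ∀ n : ℕ, 1 ≤ n → ¬ p ∣ p ^ n - 1 := by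
    intro n hn h
    have h1 : p ∣ p ^ n := dvd_pow_self p (by omega)
    have h2 := Nat.dvd_sub h1 h
    have h3 : p ^ n - (p ^ n - 1) = 1 := by
      have := Nat.one_le_pow n p hpp.pos
      omega
    rw [h3] at h2
    exact hpp.one_lt.ne' (Nat.dvd_one.1 h2)
  have hm : ¬ p ∣ (p ^ 3 - 1) * (p ^ 2 - 1) * (p - 1) := by
    intro h
    rcases (Nat.Prime.dvd_mul hpp).1 h with h | h
    · rcases (Nat.Prime.dvd_mul hpp).1 h with h | h
      · exact hnd 3 (by norm_num) h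
      · exact hnd 2 (by norm_num) h
    · have := hnd 1 le_rfl
      rw [pow_one] at this
      exact this h
  have hc : Nat.Coprime (p ^ k) ((p ^ 3 - 1) * (p ^ 2 - 1) * (p - 1)) :=
    Nat.Coprime.pow_left k ((Nat.Prime.coprime_iff_not_dvd hpp).2 hm)
  rw [hk]
  exact hc.dvd_of_dvd_mul_right hdvd

theorem qd_sylow (p : ℕ) [Fact p.Prime] (hp : p ≠ 2) (P : Sylow p ↥(Cfsg.qd p)) :
    Cfsg.IsExtraspecial p ↥P ∧ Nat.card P = p ^ 3 ∧ Monoid.exponent ↥P = p := by
  have hpp : p.Prime := Fact.out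
  haveI : NeZero p := ⟨hpp.ne_zero⟩
  haveI : Finite (Matrix.SpecialLinearGroup (Fin 3) (ZMod p)) :=
    Finite.of_injective (fun A => A.1) Subtype.val_injective
  obtain ⟨Q, hQ, x, hx, y, hy, hxy⟩ := Helper4.qd_exists_noncomm_pSubgroup p hp
  obtain ⟨g, hg⟩ := exists_conj_le_sylow P Q hQ
  have hx' := hg hx
  have hy' := hg hy
  rw [mem_conj_iff] at hx' hy'
  have hnc : ∃ a b : ↥(P : Subgroup ↥(Cfsg.qd p)), a * b ≠ b * a := by
    refine ⟨⟨_, hx'⟩, ⟨_, hy'⟩, ?_⟩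
    intro h
    apply hxy
    have h1 : (g⁻¹ * x * g) * (g⁻¹ * y * g) = (g⁻¹ * y * g) * (g⁻¹ * x * g) :=
      congrArg Subtype.val h
    have h2 : x * y = g * ((g⁻¹ * x * g) * (g⁻¹ * y * g)) * g⁻¹ := by group
    have h3 : y * x = g * ((g⁻¹ * y * g) * (g⁻¹ * x * g)) * g⁻¹ := by group
    rw [h2, h3, h1]
  have hdvd : Nat.card (P : Subgroup ↥(Cfsg.qd p)) ∣ p ^ 3 := by
    have h1 := card_pgroup_sl3_dvd p ((P : Subgroup ↥(Cfsg.qd p)).map (Cfsg.qd p).subtype)
      (P.2.map _)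
    rwa [← Nat.card_congr (Subgroup.equivMapOfInjective _ _
      (Subgroup.subtype_injective _)).toEquiv] at h1
  obtain ⟨k, hk3, hk⟩ := (Nat.dvd_prime_pow hpp).1 hdvd
  have hk3' : k = 3 := by
    by_contra hne
    have hk2 : k ≤ 2 := by omega
    obtain ⟨a, b, hab⟩ := hnc
    apply hab
    interval_cases k
    · rw [pow_zero] at hk
      haveI : Subsingleton ↥(P : Subgroup ↥(Cfsg.qd p)) :=
        (Nat.card_eq_one_iff_unique.1 hk).1
      exact Subsingleton.elim _ _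
    · rw [pow_one] at hk
      haveI := isCyclic_of_prime_card (α := ↥(P : Subgroup ↥(Cfsg.qd p))) (p := p) hk
      exact (IsCyclic.isMulCommutative (α := ↥(P : Subgroup ↥(Cfsg.qd p)))).is_comm.comm a b
    · exact (IsPGroup.isMulCommutative_of_card_eq_prime_sq hk).is_comm.comm a b
  rw [hk3'] at hk
  refine ⟨Helper8.isExtraspecial_of_card_cube p hk hnc, hk, ?_⟩
  have hpow : ∀ z : ↥(P : Subgroup ↥(Cfsg.qd p)), z ^ p = 1 := by
    intro z
    obtain ⟨j, hj⟩ := P.2 z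
    have h1 : ((z : ↥(Cfsg.qd p)) : Matrix.SpecialLinearGroup (Fin 3) (ZMod p)) ^ p ^ j = 1 := by
      have := congrArg (fun w : ↥(P : Subgroup ↥(Cfsg.qd p)) =>
        ((w : ↥(Cfsg.qd p)) : Matrix.SpecialLinearGroup (Fin 3) (ZMod p))) hj
      simpa using this
    have h2 := sl3_pow_prime p hp _ j h1
    apply Subtype.ext
    apply Subtype.ext
    simpa using h2
  have hexp : Monoid.exponent ↥(P : Subgroup ↥(Cfsg.qd p)) ∣ p :=
    Monoid.exponent_dvd_of_forall_pow_eq_one hpow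
  rcases (Nat.dvd_prime hpp).1 hexp with h1 | h1
  · exfalso
    obtain ⟨a, b, hab⟩ := hnc
    apply hab
    have ha : a = 1 := by
      have := Monoid.pow_exponent_eq_one a
      rwa [h1, pow_one] at this
    have hb : b = 1 := by
      have := Monoid.pow_exponent_eq_one b
      rwa [h1, pow_one] at this
    rw [ha, hb]
  · exact h1

end Cfsg.Agent.Helper5
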