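import Mathlib
import Cfsg.Prelude.Def_Solvable
import Cfsg.Prelude.Def_Transfer
import Cfsg.Prelude.Def_SubgroupEmbedding
import Cfsg.Agent.Helper5.Basic
import Cfsg.Agent.Helper3.Component

set_option autoImplicit false

universe u

namespace Cfsg.Agent.Helper5

/-- an element of odd order whose square lies in a subgroup lies in the subgroup. -/
theorem mem_of_sq_mem_of_odd {G : Type*} [Group G] (K : Subgroup G) (h : G)
    (hodd : Odd (orderOf h)) (h2 : h ^ 2 ∈ K) : h ∈ K := by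
  obtain ⟨k, hk⟩ := hodd
  have e : h = (h ^ 2) ^ (k + 1) := by
    rw [← pow_mul]
    have : 2 * (k + 1) = orderOf h + 1 := by omega
    rw [this, pow_succ, pow_orderOf_eq_one, one_mul]
  rw [e]
  exact pow_mem h2 _

/-- an element of odd order with trivial square is trivial. -/
theorem eq_one_of_odd_of_sq {G : Type*} [Group G] (h : G) (hodd : Odd (orderOf h))
    (h2 : h ^ 2 = 1) : h = 1 := by
  have := mem_of_sq_mem_of_odd (⊥ : Subgroup G) h hodd (by rw [h2]; exact one_mem _)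
  exact Subgroup.mem_bot.1 this

theorem elemAb_le {G : Type*} [Group G] {p : ℕ} {W V : Subgroup G} (hWV : W ≤ V)
    (hV : Cfsg.IsElementaryAbelian p V) : Cfsg.IsElementaryAbelian p W := by
  refine ⟨⟨⟨fun a b => ?_⟩⟩, fun a ha => hV.2 a (hWV ha)⟩
  apply Subtype.ext
  have h := congrArg Subtype.val (hV.1.is_comm.comm ⟨a, hWV a.2⟩ ⟨b, hWV b.2⟩)
  exact h

theorem elemAb_map {G H : Type*} [Group G] [Group H] {p : ℕ} (f : G →* H) {V : Subgroup G}
    (hV : Cfsg.IsElementaryAbelian p V) : Cfsg.IsElementaryAbelian p (V.map f) := by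
  refine ⟨⟨⟨fun a b => ?_⟩⟩, ?_⟩
  · obtain ⟨a', ha', hae⟩ := a.2
    obtain ⟨b', hb', hbe⟩ := b.2
    apply Subtype.ext
    show (a : H) * (b : H) = (b : H) * (a : H)
    rw [← hae, ← hbe, ← map_mul, ← map_mul]
    exact congrArg f (congrArg Subtype.val (hV.1.is_comm.comm ⟨a', ha'⟩ ⟨b', hb'⟩))
  · rintro a ⟨a', ha', rfl⟩
    rw [← map_pow, hV.2 a' ha', map_one]

theorem elemAb_subgroupOf {G : Type*} [Group G] {p : ℕ} (W H : Subgroup G)
    (hW : Cfsg.IsElementaryAbelian p W) : Cfsg.IsElementaryAbelian p (W.subgroupOf H) := by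
  refine ⟨⟨⟨fun a b => ?_⟩⟩, ?_⟩
  · apply Subtype.ext
    apply Subtype.ext
    have h := congrArg Subtype.val
      (hW.1.is_comm.comm ⟨((a : H) : G), Subgroup.mem_subgroupOf.1 a.2⟩
        ⟨((b : H) : G), Subgroup.mem_subgroupOf.1 b.2⟩)
    exact h
  · intro a ha
    apply Subtype.ext
    have := hW.2 (a : G) (Subgroup.mem_subgroupOf.1 ha)
    simpa using this

theorem card_quot_lt {G : Type*} [Group G] [Finite G] (K : Subgroup G) [K.Normal] (hK : K ≠ ⊥) :
    Nat.card (G ⧸ K) < Nat.card G := by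
  have h1 : Nat.card K * K.index = Nat.card G := K.card_mul_index
  have h2 : 1 < Nat.card K := by
    rw [Finite.one_lt_card_iff_nontrivial]
    exact (Subgroup.nontrivial_iff_ne_bot K).2 hK
  have h3 : 0 < K.index := Nat.pos_of_ne_zero (Subgroup.index_ne_zero_of_finite)
  rw [← Subgroup.index_eq_card, ← h1]
  nlinarith

theorem map_mk_ne_bot {G : Type*} [Group G] (V K : Subgroup G) [K.Normal] (hV1 : V ≠ ⊥)
    (hVK : V ⊓ K = ⊥) : V.map (QuotientGroup.mk' K) ≠ ⊥ := by
  intro h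
  rw [Subgroup.map_eq_bot_iff, QuotientGroup.ker_mk'] at h
  apply hV1
  rw [← hVK]
  exact (inf_eq_left.2 h).symm

theorem pCore_quot_pCore_eq_bot {G : Type*} [Group G] [Finite G] {p : ℕ} [Fact p.Prime]
    [(Cfsg.pCore p G).Normal] : Cfsg.pCore p (G ⧸ Cfsg.pCore p G) = ⊥ := by
  rw [eq_bot_iff]
  apply sSup_le
  rintro N ⟨hNn, hNp⟩
  have h1 : IsPGroup p (N.comap (QuotientGroup.mk' (Cfsg.pCore p G))) := by
    apply IsPGroup.comap_of_ker_isPGroup hNp
    rw [QuotientGroup.ker_mk']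
    exact pCore_isPGroup
  have h2 : N.comap (QuotientGroup.mk' (Cfsg.pCore p G)) ≤ Cfsg.pCore p G :=
    le_pCore _ (hNn.comap _) h1
  intro x hx
  obtain ⟨g, rfl⟩ := QuotientGroup.mk'_surjective (Cfsg.pCore p G) x
  have : g ∈ Cfsg.pCore p G := h2 hx
  rw [Subgroup.mem_bot]
  exact (QuotientGroup.eq_one_iff g).2 this

/-- a `p`-subgroup `P` of a normal subgroup `X`, normalized by `X`, lies in `O_p(G)`. -/
theorem le_pCore_of_normal_in_normal {G : Type*} [Group G] [Finite G] {p : ℕ} [Fact p.Prime]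
    (X P : Subgroup G) [hX : X.Normal] (hPX : P ≤ X) (hN : X ≤ Subgroup.normalizer (P : Set G))
    (hP : IsPGroup p P) : P ≤ Cfsg.pCore p G := by
  have hR : IsPGroup p ((Cfsg.pCore p ↥X).map X.subtype) := (pCore_isPGroup (G := ↥X)).map _
  have hQ : Subgroup.normalClosure (P : Set G) ≤ (Cfsg.pCore p ↥X).map X.subtype := by
    show Subgroup.closure (Group.conjugatesOfSet (P : Set G)) ≤ _
    rw [Subgroup.closure_le]
    intro y hy
    obtain ⟨b, hb, hconj⟩ := Group.mem_conjugatesOfSet_iff.1 hy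
    obtain ⟨c, hc⟩ := isConj_iff.1 hconj
    -- the conjugate of P by c
    have hPc : ((P.map (MulAut.conj c).toMonoidHom).subgroupOf X) ≤ Cfsg.pCore p ↥X := by
      apply le_pCore
      · constructor
        intro n hn g
        rw [Subgroup.mem_subgroupOf] at hn ⊢
        rw [mem_conj_iff] at hn ⊢
        have hg : c⁻¹ * (g : G) * c ∈ X := by
          have := hX.conj_mem (g : G) g.2 c⁻¹
          simpa using this
        have h1 := hN hg
        rw [Subgroup.mem_normalizer_iff] at h1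
        have h2 := (h1 (c⁻¹ * (n : G) * c)).1 hn
        have e : c⁻¹ * ((g * n * g⁻¹ : ↥X) : G) * c =
            c⁻¹ * (g : G) * c * (c⁻¹ * (n : G) * c) * (c⁻¹ * (g : G) * c)⁻¹ := by
          simp only [Subgroup.coe_mul, Subgroup.coe_inv]; group
        rw [e]; exact h2
      · have h3 : IsPGroup p (P.map (MulAut.conj c).toMonoidHom) := hP.map _
        exact h3.comap_of_injective X.subtype X.subtype_injective
    have hyX : y ∈ X := by
      rw [← hc]; exact hX.conj_mem b (hPX hb) c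
    refine ⟨⟨y, hyX⟩, hPc ?_, rfl⟩
    rw [Subgroup.mem_subgroupOf]
    show y ∈ P.map (MulAut.conj c).toMonoidHom
    rw [← hc]; exact conj_mem_conj P c b hb
  have hQp : IsPGroup p (Subgroup.normalClosure (P : Set G)) := hR.to_le hQ
  exact Subgroup.le_normalClosure.trans (le_pCore _ Subgroup.normalClosure_normal hQp)

/-- an element of `O_p(H)` centralizes every normal subgroup `X ≤ H` of `G` when `O_p(G) = 1`. -/
theorem core_sub_centralizes {G : Type*} [Group G] [Finite G] {p : ℕ} [Fact p.Prime]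
    (hO : Cfsg.pCore p G = ⊥) (H X : Subgroup G) [hX : X.Normal] (hXH : X ≤ H) (w : ↥H)
    (hw : w ∈ Cfsg.pCore p ↥H) : (w : G) ∈ Subgroup.centralizer (X : Set G) := by
  haveI := pCore_normal p ↥H
  set P : Subgroup G := X ⊓ (Cfsg.pCore p ↥H).map H.subtype with hPdef
  have hPp : IsPGroup p P := by
    have h1 : IsPGroup p ((Cfsg.pCore p ↥H).map H.subtype) := (pCore_isPGroup (G := ↥H)).map _
    exact h1.to_le inf_le_right
  have hN : X ≤ Subgroup.normalizer (P : Set G) := by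
    intro x hx
    rw [Subgroup.mem_normalizer_iff]
    intro y
    have key : ∀ (x : G), x ∈ X → ∀ y, y ∈ P → x * y * x⁻¹ ∈ P := by
      intro x hx y hy
      refine ⟨hX.conj_mem y hy.1 x, ?_⟩
      obtain ⟨y', hy', rfl⟩ := hy.2
      refine ⟨⟨x, hXH hx⟩ * y' * ⟨x, hXH hx⟩⁻¹, ?_, rfl⟩
      exact (pCore_normal p ↥H).conj_mem y' hy' _
    constructor
    · exact key x hx y
    · intro h
      have := key x⁻¹ (inv_mem hx) _ h
      simpa [mul_assoc] using this
  have hP : P = ⊥ := by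
    have := le_pCore_of_normal_in_normal X P inf_le_left hN hPp
    rw [hO] at this
    exact eq_bot_iff.2 this
  refine Subgroup.mem_centralizer_iff.2 ?_
  intro x hx
  have hc : (w : G) * x * (w : G)⁻¹ * x⁻¹ ∈ P := by
    refine Subgroup.mem_inf.2 ⟨X.mul_mem (hX.conj_mem x hx _) (X.inv_mem hx), ?_⟩
    refine ⟨w * (⟨x, hXH hx⟩ * w⁻¹ * ⟨x, hXH hx⟩⁻¹), ?_, ?_⟩
    · exact mul_mem hw ((pCore_normal p ↥H).conj_mem _ (inv_mem hw) _)
    · simp only [Subgroup.coe_subtype, Subgroup.coe_mul, Subgroup.coe_inv]; group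
  rw [hP, Subgroup.mem_bot] at hc
  have h1 : (w : G) * x * (w : G)⁻¹ = x := by
    have := mul_inv_eq_one.1 hc
    exact this
  calc x * (w : G) = (w : G) * x * (w : G)⁻¹ * (w : G) := by rw [h1]
    _ = (w : G) * x := by group

/-- the inductive hypothesis applied to a proper subgroup. -/
theorem sidki_sub_core {G : Type u} [Group G] [Finite G]
    (hminG : ∀ (H : Type u) [Group H] [Finite H] (W : Subgroup H), Nat.card H < Nat.card G →
      Cfsg.IsElementaryAbelian 2 W → W ≠ ⊥ → Cfsg.IsSidkiPair W → W ⊓ Cfsg.pCore 2 H ≠ ⊥)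
    (H W : Subgroup G) (hH : H ≠ ⊤) (hWH : W ≤ H) (hWe : Cfsg.IsElementaryAbelian 2 W)
    (hW1 : W ≠ ⊥)
    (hrel : ∀ h ∈ H, ∀ v ∈ W, Odd (orderOf h) → v * h * v⁻¹ = h⁻¹ →
      ∃ w ∈ W, w ≠ 1 ∧ w * h = h * w) :
    ∃ w : ↥H, (w : G) ∈ W ∧ w ≠ 1 ∧ w ∈ Cfsg.pCore 2 ↥H := by
  have hcard : Nat.card ↥H < Nat.card G :=
    Cfsg.Agent.Helper3.card_lt_of_lt_top H (lt_top_iff_ne_top.2 hH)
  have hne : W.subgroupOf H ≠ ⊥ := by
    intro h
    apply hW1
    rw [eq_bot_iff]
    intro x hx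
    have : (⟨x, hWH hx⟩ : ↥H) ∈ W.subgroupOf H := Subgroup.mem_subgroupOf.2 hx
    rw [h, Subgroup.mem_bot] at this
    exact Subgroup.mem_bot.2 (congrArg Subtype.val this)
  have hS : Cfsg.IsSidkiPair (W.subgroupOf H) := by
    intro h v hv hodd hinv
    have hodd' : Odd (orderOf (h : G)) := by rw [Subgroup.orderOf_coe]; exact hodd
    have hinv' : (v : G) * (h : G) * (v : G)⁻¹ = (h : G)⁻¹ := by
      have := congrArg Subtype.val hinv
      simpa using this
    obtain ⟨w, hw, hw1, hwc⟩ := hrel (h : G) h.2 (v : G) (Subgroup.mem_subgroupOf.1 hv) hodd' hinv'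
    refine ⟨⟨w, hWH hw⟩, Subgroup.mem_subgroupOf.2 hw, ?_, Subtype.ext hwc⟩
    intro h1
    exact hw1 (congrArg Subtype.val h1)
  have h1 := hminG ↥H (W.subgroupOf H) hcard (elemAb_subgroupOf W H hWe) hne hS
  obtain ⟨w, hw1⟩ := (Subgroup.ne_bot_iff_exists_ne_one).1 h1
  refine ⟨(w : ↥H), Subgroup.mem_subgroupOf.1 w.2.1, ?_, w.2.2⟩
  intro h
  exact hw1 (Subtype.ext h)

end Cfsg.Agent.Helper5
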