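import Mathlib
import Cfsg.Agent.Helper5.Sidki
import Cfsg.Agent.S3012
import Cfsg.Agent.S3013

set_option autoImplicit false

universe u

namespace Cfsg.Agent.Helper5

/-- Step 1: in a minimal counterexample `O_2(G) = 1`. -/
theorem sidki_core_bot {G : Type u} [Group G] [Finite G] (V : Subgroup G)
    (hV : Cfsg.IsElementaryAbelian 2 V) (hV1 : V ≠ ⊥) (hS : Cfsg.IsSidkiPair V)
    (hVO : V ⊓ Cfsg.pCore 2 G = ⊥)
    (hminG : ∀ (H : Type u) [Group H] [Finite H] (W : Subgroup H), Nat.card H < Nat.card G →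
      Cfsg.IsElementaryAbelian 2 W → W ≠ ⊥ → Cfsg.IsSidkiPair W → W ⊓ Cfsg.pCore 2 H ≠ ⊥) :
    Cfsg.pCore 2 G = ⊥ := by
  haveI : Fact (Nat.Prime 2) := ⟨Nat.prime_two⟩
  by_contra hne
  haveI := pCore_normal 2 G
  have h1 := hminG (G ⧸ Cfsg.pCore 2 G) (V.map (QuotientGroup.mk' (Cfsg.pCore 2 G)))
    (card_quot_lt _ hne) (elemAb_map _ hV) (map_mk_ne_bot V _ hV1 hVO)
    (Cfsg.Agent.S3012.result V (Cfsg.pCore 2 G) hV hV1 hS hVO)
  rw [pCore_quot_pCore_eq_bot, inf_bot_eq] at h1
  exact h1 rfl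

/-- Step 3: for a normal subgroup `X`, `C_V(X)` is trivial or all of `V`. -/
theorem sidki_key {G : Type u} [Group G] [Finite G] (V : Subgroup G)
    (hV : Cfsg.IsElementaryAbelian 2 V) (hV1 : V ≠ ⊥) (hS : Cfsg.IsSidkiPair V)
    (hVO : V ⊓ Cfsg.pCore 2 G = ⊥)
    (hminG : ∀ (H : Type u) [Group H] [Finite H] (W : Subgroup H), Nat.card H < Nat.card G →
      Cfsg.IsElementaryAbelian 2 W → W ≠ ⊥ → Cfsg.IsSidkiPair W → W ⊓ Cfsg.pCore 2 H ≠ ⊥)
    (hminV : ∀ W : Subgroup G, Nat.card W < Nat.card V → Cfsg.IsElementaryAbelian 2 W → W ≠ ⊥ →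
      Cfsg.IsSidkiPair W → W ⊓ Cfsg.pCore 2 G ≠ ⊥)
    (hO : Cfsg.pCore 2 G = ⊥) (X : Subgroup G) [hX : X.Normal] :
    V ⊓ Subgroup.centralizer (X : Set G) = ⊥ ∨ V ≤ Subgroup.centralizer (X : Set G) := by
  haveI : Fact (Nat.Prime 2) := ⟨Nat.prime_two⟩
  by_contra hcon
  push Not at hcon
  obtain ⟨hne, hnle⟩ := hcon
  have hCn : (Subgroup.centralizer (X : Set G)).Normal := inferInstance
  have hlt : Nat.card ↥(V ⊓ Subgroup.centralizer (X : Set G)) < Nat.card V := by
    by_contra hge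
    push Not at hge
    have h := Subgroup.eq_of_le_of_card_ge (inf_le_left : V ⊓ Subgroup.centralizer (X : Set G) ≤ V) hge
    apply hnle
    rw [← h]; exact inf_le_right
  have hSid : Cfsg.IsSidkiPair (V ⊓ Subgroup.centralizer (X : Set G)) := by
    intro h u hu hodd hinv
    by_cases h1 : h = 1
    · obtain ⟨w, hw1⟩ := (Subgroup.ne_bot_iff_exists_ne_one).1 hne
      exact ⟨w, w.2, fun h => hw1 (Subtype.ext h), by rw [h1, mul_one, one_mul]⟩
    · have huV : u ∈ V := hu.1
      have huC : u ∈ Subgroup.centralizer (X : Set G) := hu.2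
      have hhC : h ∈ Subgroup.centralizer (X : Set G) := by
        apply mem_of_sq_mem_of_odd _ h hodd
        have e : h ^ 2 = h * u * h⁻¹ * u⁻¹ := by
          have e1 : u * h⁻¹ * u⁻¹ = h := by
            have := congrArg (fun z => z⁻¹) hinv
            simpa [mul_assoc] using this
          calc h ^ 2 = h * (u * h⁻¹ * u⁻¹) := by rw [e1, pow_two]
            _ = h * u * h⁻¹ * u⁻¹ := by group
        rw [e]
        exact mul_mem (hCn.conj_mem u huC h) (inv_mem huC)
      obtain ⟨hD1, hD2⟩ := Cfsg.Agent.S3013.result V hV hV1 hS u h huV hodd hinv _ rfl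
      have hXD : X ≤ Subgroup.centralizer ({u} : Set G) ⊓ Subgroup.centralizer ({h} : Set G) := by
        intro x hx
        refine Subgroup.mem_inf.2 ⟨?_, ?_⟩
        · rw [mem_centralizer_singleton_iff]
          exact Subgroup.mem_centralizer_iff.1 huC x hx
        · rw [mem_centralizer_singleton_iff]
          exact Subgroup.mem_centralizer_iff.1 hhC x hx
      have hDne : Subgroup.centralizer ({u} : Set G) ⊓ Subgroup.centralizer ({h} : Set G) ≠ ⊤ := by
        intro ht
        have : u ∈ Subgroup.centralizer ({u} : Set G) ⊓ Subgroup.centralizer ({h} : Set G) := by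
          rw [ht]; exact Subgroup.mem_top u
        have h2 : u * h = h * u := (mem_centralizer_singleton_iff h u).1 this.2
        apply h1
        apply eq_one_of_odd_of_sq h hodd
        have h3 : h = h⁻¹ := by
          rw [← hinv, h2, mul_inv_cancel_right]
        rw [pow_two]
        nth_rewrite 2 [h3]
        exact mul_inv_cancel h
      have hHle : X ⊔ (Subgroup.centralizer ({u} : Set G) ⊓ Subgroup.centralizer ({h} : Set G)) ⊓ V ≤
          Subgroup.centralizer ({u} : Set G) ⊓ Subgroup.centralizer ({h} : Set G) :=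
        sup_le hXD inf_le_left
      have hHne : X ⊔ (Subgroup.centralizer ({u} : Set G) ⊓ Subgroup.centralizer ({h} : Set G)) ⊓ V
          ≠ ⊤ := fun ht => hDne (top_le_iff.1 (ht ▸ hHle))
      obtain ⟨w, hwW, hw1, hwc⟩ := sidki_sub_core hminG _ _ hHne le_sup_right
        (elemAb_le inf_le_right hV) hD1 (by
          intro h' hh' v' hv' hodd' hinv'
          have hh'D := hHle hh'
          have := hD2 ⟨h', hh'D⟩ ⟨v', hv'.1⟩ (Subgroup.mem_subgroupOf.2 hv')
            (by rw [← Subgroup.orderOf_coe]; exact hodd') (Subtype.ext hinv')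
          obtain ⟨w, hw, hw1, hwc⟩ := this
          exact ⟨(w : G), Subgroup.mem_subgroupOf.1 hw, fun h => hw1 (Subtype.ext h),
            congrArg Subtype.val hwc⟩)
      have hwX : (w : G) ∈ Subgroup.centralizer (X : Set G) :=
        core_sub_centralizes hO _ X le_sup_left w hwc
      refine ⟨(w : G), ⟨hwW.2, hwX⟩, fun h => hw1 (Subtype.ext h), ?_⟩
      have h5 : (w : G) ∈ Subgroup.centralizer ({h} : Set G) := hwW.1.2
      exact (mem_centralizer_singleton_iff h (w : G)).1 h5
  have h6 := hminV _ hlt (elemAb_le inf_le_left hV) hne hSid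
  apply h6
  rw [eq_bot_iff, ← hVO]
  exact inf_le_inf_right _ inf_le_left

/-- Step 4: a normal subgroup `X` with `XV ≠ G` is centralized by `V`. -/
theorem sidki_step4 {G : Type u} [Group G] [Finite G] (V : Subgroup G)
    (hV : Cfsg.IsElementaryAbelian 2 V) (hV1 : V ≠ ⊥) (hS : Cfsg.IsSidkiPair V)
    (hminG : ∀ (H : Type u) [Group H] [Finite H] (W : Subgroup H), Nat.card H < Nat.card G →
      Cfsg.IsElementaryAbelian 2 W → W ≠ ⊥ → Cfsg.IsSidkiPair W → W ⊓ Cfsg.pCore 2 H ≠ ⊥)
    (hO : Cfsg.pCore 2 G = ⊥)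
    (key : ∀ (X : Subgroup G), X.Normal →
      V ⊓ Subgroup.centralizer (X : Set G) = ⊥ ∨ V ≤ Subgroup.centralizer (X : Set G))
    (X : Subgroup G) (hX : X.Normal) (hne : X ⊔ V ≠ ⊤) :
    V ≤ Subgroup.centralizer (X : Set G) := by
  haveI : Fact (Nat.Prime 2) := ⟨Nat.prime_two⟩
  haveI := hX
  obtain ⟨w, hwV, hw1, hwc⟩ := sidki_sub_core hminG (X ⊔ V) V hne le_sup_right hV hV1
    (fun h _ v hv hodd hinv => hS h v hv hodd hinv)
  have hwX := core_sub_centralizes hO (X ⊔ V) X le_sup_left w hwc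
  rcases key X hX with h | h
  · exfalso
    apply hw1
    apply Subtype.ext
    have h2 : (w : G) ∈ V ⊓ Subgroup.centralizer (X : Set G) := ⟨hwV, hwX⟩
    rw [h] at h2
    exact Subgroup.mem_bot.1 h2
  · exact h

/-- Step 5: `G` is the normal closure of `V`. -/
theorem sidki_ncl {G : Type u} [Group G] [Finite G] (V : Subgroup G)
    (hV : Cfsg.IsElementaryAbelian 2 V) (hV1 : V ≠ ⊥)
    (hO : Cfsg.pCore 2 G = ⊥)
    (step4 : ∀ (X : Subgroup G), X.Normal → X ⊔ V ≠ ⊤ → V ≤ Subgroup.centralizer (X : Set G)) :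
    Subgroup.normalClosure (V : Set G) = ⊤ := by
  by_contra hne
  have hVM : V ≤ Subgroup.normalClosure (V : Set G) := Subgroup.le_normalClosure
  have h1 : V ≤ Subgroup.centralizer ((Subgroup.normalClosure (V : Set G) : Subgroup G) : Set G) :=
    step4 _ Subgroup.normalClosure_normal (by rw [sup_eq_left.2 hVM]; exact hne)
  have h2 : Subgroup.normalClosure (V : Set G) ≤
      Subgroup.centralizer ((Subgroup.normalClosure (V : Set G) : Subgroup G) : Set G) :=
    Subgroup.normalClosure_le_normal h1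
  have h3 : ∀ x ∈ Subgroup.normalClosure (V : Set G), x ^ 2 = 1 := by
    intro x hx
    have hx' : x ∈ Subgroup.closure (Group.conjugatesOfSet (V : Set G)) := hx
    refine Subgroup.closure_induction (p := fun x _ => x ^ 2 = 1) ?_ ?_ ?_ ?_ hx'
    · intro y hy
      obtain ⟨b, hb, hconj⟩ := Group.mem_conjugatesOfSet_iff.1 hy
      obtain ⟨c, hc⟩ := isConj_iff.1 hconj
      rw [← hc, conj_pow, hV.2 b hb, mul_one, mul_inv_cancel]
    · exact one_pow 2
    · intro a b ha hb ha2 hb2
      have hab : a * b = b * a := by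
        have := h2 (show b ∈ Subgroup.normalClosure (V : Set G) from hb)
        exact Subgroup.mem_centralizer_iff.1 this a ha
      have hc : Commute a b := hab
      rw [hc.mul_pow, ha2, hb2, mul_one]
    · intro a _ ha2
      rw [inv_pow, ha2, inv_one]
  have h4 : IsPGroup 2 ↥(Subgroup.normalClosure (V : Set G)) := by
    intro x
    refine ⟨1, ?_⟩
    apply Subtype.ext
    have := h3 x x.2
    simpa using this
  have h5 := le_pCore _ Subgroup.normalClosure_normal h4
  rw [hO] at h5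
  exact hV1 (eq_bot_iff.2 (hVM.trans h5))

/-- Step 6: a normal subgroup `X` with `XV ≠ G` is central. -/
theorem sidki_step6 {G : Type u} [Group G] (V : Subgroup G)
    (step4 : ∀ (X : Subgroup G), X.Normal → X ⊔ V ≠ ⊤ → V ≤ Subgroup.centralizer (X : Set G))
    (hncl : Subgroup.normalClosure (V : Set G) = ⊤)
    (X : Subgroup G) (hX : X.Normal) (hne : X ⊔ V ≠ ⊤) : X ≤ Subgroup.center G := by
  haveI := hX
  have h1 := step4 X hX hne
  have h2 : Subgroup.normalClosure (V : Set G) ≤ Subgroup.centralizer (X : Set G) :=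
    Subgroup.normalClosure_le_normal h1
  rw [hncl] at h2
  intro x hx
  rw [Subgroup.mem_center_iff]
  intro g
  have h3 := h2 (Subgroup.mem_top g)
  exact (Subgroup.mem_centralizer_iff.1 h3 x hx).symm

end Cfsg.Agent.Helper5
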