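import Mathlib
import Cfsg.Agent.Helper5.Sidki2
import Cfsg.Agent.Helper5.Singer

set_option autoImplicit false

universe u

namespace Cfsg.Agent.Helper5

/-- Step 7a: abelian normal subgroups are central. -/
theorem sidki_abelian_central {G : Type u} [Group G] [Finite G] (V : Subgroup G)
    (hV : Cfsg.IsElementaryAbelian 2 V) (hV1 : V ≠ ⊥) (hS : Cfsg.IsSidkiPair V)
    (hO : Cfsg.pCore 2 G = ⊥)
    (key : ∀ (X : Subgroup G), X.Normal →
      V ⊓ Subgroup.centralizer (X : Set G) = ⊥ ∨ V ≤ Subgroup.centralizer (X : Set G))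
    (step6 : ∀ (X : Subgroup G), X.Normal → X ⊔ V ≠ ⊤ → X ≤ Subgroup.center G)
    (A : Subgroup G) (hA : A.Normal) (hAc : ∀ a ∈ A, ∀ b ∈ A, a * b = b * a) :
    A ≤ Subgroup.center G := by
  haveI : Fact (Nat.Prime 2) := ⟨Nat.prime_two⟩
  by_cases hAV : A ⊔ V = ⊤
  swap
  · exact step6 A hA hAV
  exfalso
  have hVp : IsPGroup 2 V := fun x => ⟨1, Subtype.ext (by simpa using hV.2 x x.2)⟩
  have hVcomm : ∀ a ∈ V, ∀ b ∈ V, a * b = b * a := fun a ha b hb =>
    congrArg Subtype.val (hV.1.is_comm.comm ⟨a, ha⟩ ⟨b, hb⟩)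
  have hVinv : ∀ a ∈ V, a⁻¹ = a := fun a ha => by
    have := hV.2 a ha
    rw [pow_two] at this
    exact inv_eq_of_mul_eq_one_left this
  -- no involutions in A
  have hodd : ∀ a ∈ A, a ^ 2 = 1 → a = 1 := by
    intro a ha ha2
    let Ω : Subgroup G :=
      { carrier := {a | a ∈ A ∧ a ^ 2 = 1}
        mul_mem' := fun {x y} hx hy => ⟨A.mul_mem hx.1 hy.1, by
          have hc : Commute x y := hAc x hx.1 y hy.1
          rw [hc.mul_pow, hx.2, hy.2, mul_one]⟩
        one_mem' := ⟨A.one_mem, one_pow 2⟩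
        inv_mem' := fun {x} hx => ⟨A.inv_mem hx.1, by rw [inv_pow, hx.2, inv_one]⟩ }
    have hΩn : Ω.Normal :=
      ⟨fun x hx g => ⟨hA.conj_mem x hx.1 g, by rw [conj_pow, hx.2, mul_one, mul_inv_cancel]⟩⟩
    have hΩp : IsPGroup 2 Ω := fun x => ⟨1, Subtype.ext (by simpa using x.2.2)⟩
    have h := le_pCore Ω hΩn hΩp
    rw [hO] at h
    exact Subgroup.mem_bot.1 (h (show a ∈ Ω from ⟨ha, ha2⟩))
  have hoddA : ∀ a ∈ A, Odd (orderOf a) := by
    intro a ha
    rw [← Nat.not_even_iff_odd]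
    rintro ⟨k, hk⟩
    have h1 : (a ^ k) ^ 2 = 1 := by
      rw [← pow_mul, mul_comm, two_mul, ← hk, pow_orderOf_eq_one]
    have h2 := hodd (a ^ k) (A.pow_mem ha k) h1
    have h3 := orderOf_dvd_of_pow_eq_one h2
    have h4 : 0 < orderOf a := orderOf_pos a
    have := Nat.le_of_dvd (by omega) h3
    omega
  have hmain : ∃ v ∈ V, v ≠ 1 ∧ ∀ a ∈ A, v * a * v⁻¹ = a := by
    by_contra hcon
    push Not at hcon
    have hinvA : ∀ v ∈ V, v ≠ 1 → ∀ a ∈ A, v * a * v⁻¹ = a⁻¹ := by
      intro v hv hv1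
      have hvv : v * v = 1 := by have := hV.2 v hv; rwa [pow_two] at this
      have hvi : v⁻¹ = v := hVinv v hv
      have hφinv : ∀ a : G, v * (a⁻¹ * (v * a * v⁻¹)) * v⁻¹ = (a⁻¹ * (v * a * v⁻¹))⁻¹ := by
        intro a
        rw [hvi]
        calc v * (a⁻¹ * (v * a * v)) * v = v * a⁻¹ * (v * a * (v * v)) := by group
          _ = v * a⁻¹ * (v * a) := by rw [hvv, mul_one]
          _ = (a⁻¹ * (v * a * v))⁻¹ := by
            rw [mul_inv_rev, mul_inv_rev, mul_inv_rev, inv_inv, hvi]; group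
      let B : Subgroup G :=
        { carrier := {b | ∃ a ∈ A, b = a⁻¹ * (v * a * v⁻¹)}
          mul_mem' := by
            rintro x y ⟨a, ha, rfl⟩ ⟨b, hb, rfl⟩
            refine ⟨a * b, A.mul_mem ha hb, ?_⟩
            have ha' : v * a * v⁻¹ ∈ A := hA.conj_mem a ha v
            have hb' : v * b * v⁻¹ ∈ A := hA.conj_mem b hb v
            have e1 : (v * a * v⁻¹) * b⁻¹ = b⁻¹ * (v * a * v⁻¹) :=
              hAc _ ha' _ (A.inv_mem hb)
            have e2 : a⁻¹ * b⁻¹ = b⁻¹ * a⁻¹ := hAc _ (A.inv_mem ha) _ (A.inv_mem hb)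
            calc a⁻¹ * (v * a * v⁻¹) * (b⁻¹ * (v * b * v⁻¹))
                = a⁻¹ * ((v * a * v⁻¹) * b⁻¹) * (v * b * v⁻¹) := by group
              _ = a⁻¹ * (b⁻¹ * (v * a * v⁻¹)) * (v * b * v⁻¹) := by rw [e1]
              _ = (a⁻¹ * b⁻¹) * ((v * a * v⁻¹) * (v * b * v⁻¹)) := by group
              _ = (b⁻¹ * a⁻¹) * ((v * a * v⁻¹) * (v * b * v⁻¹)) := by rw [e2]
              _ = (a * b)⁻¹ * (v * (a * b) * v⁻¹) := by group
          one_mem' := ⟨1, A.one_mem, by simp⟩
          inv_mem' := by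
            rintro x ⟨a, ha, rfl⟩
            refine ⟨a⁻¹, A.inv_mem ha, ?_⟩
            have ha' : v * a * v⁻¹ ∈ A := hA.conj_mem a ha v
            have e1 : (v * a * v⁻¹)⁻¹ * a = a * (v * a * v⁻¹)⁻¹ := hAc _ (A.inv_mem ha') _ ha
            calc (a⁻¹ * (v * a * v⁻¹))⁻¹ = (v * a * v⁻¹)⁻¹ * a := by group
              _ = a * (v * a * v⁻¹)⁻¹ := e1
              _ = a⁻¹⁻¹ * (v * a⁻¹ * v⁻¹) := by group }
      have hBA : B ≤ A := by
        rintro x ⟨a, ha, rfl⟩
        exact A.mul_mem (A.inv_mem ha) (hA.conj_mem a ha v)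
      have hBn : B.Normal := by
        constructor
        intro b hb g
        have hg : g ∈ A ⊔ V := by rw [hAV]; exact Subgroup.mem_top g
        haveI := hA
        rw [← SetLike.mem_coe, Subgroup.normal_mul] at hg
        obtain ⟨a, ha, v', hv', hav⟩ := hg
        have hav' : a * v' = g := hav
        obtain ⟨a₀, ha₀, rfl⟩ := hb
        have hb' : v' * (a₀⁻¹ * (v * a₀ * v⁻¹)) * v'⁻¹ ∈ A :=
          hA.conj_mem _ (hBA ⟨a₀, ha₀, rfl⟩) v'
        have e1 : g * (a₀⁻¹ * (v * a₀ * v⁻¹)) * g⁻¹ =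
            v' * (a₀⁻¹ * (v * a₀ * v⁻¹)) * v'⁻¹ := by
          rw [← hav']
          have hc : a * (v' * (a₀⁻¹ * (v * a₀ * v⁻¹)) * v'⁻¹) =
              (v' * (a₀⁻¹ * (v * a₀ * v⁻¹)) * v'⁻¹) * a := hAc a ha _ hb'
          calc a * v' * (a₀⁻¹ * (v * a₀ * v⁻¹)) * (a * v')⁻¹
              = a * (v' * (a₀⁻¹ * (v * a₀ * v⁻¹)) * v'⁻¹) * a⁻¹ := by group
            _ = (v' * (a₀⁻¹ * (v * a₀ * v⁻¹)) * v'⁻¹) * a * a⁻¹ := by rw [hc]
            _ = v' * (a₀⁻¹ * (v * a₀ * v⁻¹)) * v'⁻¹ := by group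
        rw [e1]
        refine ⟨v' * a₀ * v'⁻¹, hA.conj_mem a₀ ha₀ v', ?_⟩
        have hvv' : v' * v = v * v' := hVcomm v' hv' v hv
        calc v' * (a₀⁻¹ * (v * a₀ * v⁻¹)) * v'⁻¹
            = (v' * a₀ * v'⁻¹)⁻¹ * ((v' * v) * a₀ * (v' * v)⁻¹) := by group
          _ = (v' * a₀ * v'⁻¹)⁻¹ * ((v * v') * a₀ * (v * v')⁻¹) := by rw [hvv']
          _ = (v' * a₀ * v'⁻¹)⁻¹ * (v * (v' * a₀ * v'⁻¹) * v⁻¹) := by group
      by_cases hBV : B ⊔ V = ⊤
      · intro a ha
        have hg : a ∈ B ⊔ V := by rw [hBV]; exact Subgroup.mem_top a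
        haveI := hBn
        rw [← SetLike.mem_coe, Subgroup.normal_mul] at hg
        obtain ⟨b, hb, v', hv', hbv⟩ := hg
        have hbv' : b * v' = a := hbv
        have hv'A : v' ∈ A := by
          have : v' = b⁻¹ * a := by rw [← hbv']; group
          rw [this]; exact A.mul_mem (A.inv_mem (hBA hb)) ha
        have hv'1 : v' = 1 := hodd v' hv'A (hV.2 v' hv')
        rw [hv'1, mul_one] at hbv'
        rw [← hbv']
        obtain ⟨a₀, ha₀, rfl⟩ := hb
        exact hφinv a₀
      · exfalso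
        have hBZ := step6 B hBn hBV
        obtain ⟨a, ha, hane⟩ := hcon v hv hv1
        apply hane
        have hb : a⁻¹ * (v * a * v⁻¹) ∈ B := ⟨a, ha, rfl⟩
        have h1 := hφinv a
        have h2 := Subgroup.mem_center_iff.1 (hBZ hb) v
        have h3 : a⁻¹ * (v * a * v⁻¹) = (a⁻¹ * (v * a * v⁻¹))⁻¹ := by
          rw [← h1, h2, mul_inv_cancel_right]
        have h4 : a⁻¹ * (v * a * v⁻¹) = 1 := by
          apply hodd _ (hBA hb)
          rw [pow_two]
          nth_rewrite 2 [h3]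
          exact mul_inv_cancel _
        have h5 := inv_mul_eq_one.1 h4
        exact h5.symm
    obtain ⟨v, hv1⟩ := (Subgroup.ne_bot_iff_exists_ne_one).1 hV1
    have hv1' : (v : G) ≠ 1 := fun h => hv1 (Subtype.ext h)
    obtain ⟨a, haA, hane⟩ := hcon v v.2 hv1'
    obtain ⟨w, hw, hw1, hwc⟩ := hS a v v.2 (hoddA a haA) (hinvA v v.2 hv1' a haA)
    have h1 := hinvA w hw hw1 a haA
    have h2 : a = a⁻¹ := by rw [← h1, hwc, mul_inv_cancel_right]
    have h3 : a = 1 := by
      apply hodd a haA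
      rw [pow_two]
      nth_rewrite 2 [h2]
      exact mul_inv_cancel a
    apply hane
    rw [h3, mul_one, mul_inv_cancel]
  obtain ⟨v, hv, hv1, hvc⟩ := hmain
  have hVA : V ≤ Subgroup.centralizer (A : Set G) := by
    rcases key A hA with h | h
    · exfalso
      have h2 : v ∈ V ⊓ Subgroup.centralizer (A : Set G) := by
        refine ⟨hv, Subgroup.mem_centralizer_iff.2 ?_⟩
        intro a ha
        have h3 := hvc a ha
        calc a * v = v * a * v⁻¹ * v := by rw [h3]
          _ = v * a := by group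
      rw [h] at h2
      exact hv1 (Subgroup.mem_bot.1 h2)
    · exact h
  have hVn : V.Normal := by
    rw [← Subgroup.normalizer_eq_top_iff, eq_top_iff, ← hAV]
    apply sup_le
    · intro a ha
      rw [Subgroup.mem_normalizer_iff]
      intro y
      constructor
      · intro hy
        have h3 : a * y = y * a := Subgroup.mem_centralizer_iff.1 (hVA hy) a ha
        rw [h3, mul_inv_cancel_right]; exact hy
      · intro hy
        have h3 : a * (a * y * a⁻¹) = (a * y * a⁻¹) * a :=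
          Subgroup.mem_centralizer_iff.1 (hVA hy) a ha
        have h4 : y = a * y * a⁻¹ := by
          have : a * (a * y * a⁻¹) = a * y := by rw [h3]; group
          exact (mul_left_cancel this).symm
        rw [h4]; exact hy
    · exact Subgroup.le_normalizer
  have h7 := le_pCore V hVn hVp
  rw [hO] at h7
  exact hV1 (eq_bot_iff.2 h7)

/-- Step 7b: the centre is trivial. -/
theorem sidki_center_bot {G : Type u} [Group G] [Finite G] (V : Subgroup G)
    (hV : Cfsg.IsElementaryAbelian 2 V) (hV1 : V ≠ ⊥) (hS : Cfsg.IsSidkiPair V)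
    (hminG : ∀ (H : Type u) [Group H] [Finite H] (W : Subgroup H), Nat.card H < Nat.card G →
      Cfsg.IsElementaryAbelian 2 W → W ≠ ⊥ → Cfsg.IsSidkiPair W → W ⊓ Cfsg.pCore 2 H ≠ ⊥)
    (hO : Cfsg.pCore 2 G = ⊥)
    (step6 : ∀ (X : Subgroup G), X.Normal → X ⊔ V ≠ ⊤ → X ≤ Subgroup.center G) :
    Subgroup.center G = ⊥ := by
  haveI : Fact (Nat.Prime 2) := ⟨Nat.prime_two⟩
  by_contra hne
  have hVp : IsPGroup 2 V := fun x => ⟨1, Subtype.ext (by simpa using hV.2 x x.2)⟩
  have hVZ : V ⊓ Subgroup.center G = ⊥ := by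
    rw [eq_bot_iff]
    rintro v ⟨hv, hvZ⟩
    have hn : (Subgroup.zpowers v).Normal := by
      constructor
      intro x hx g
      have hxZ : x ∈ Subgroup.center G := (Subgroup.zpowers_le.2 hvZ) hx
      have h2 := Subgroup.mem_center_iff.1 hxZ g
      rw [h2, mul_inv_cancel_right]; exact hx
    have hp : IsPGroup 2 (Subgroup.zpowers v) := hVp.to_le (Subgroup.zpowers_le.2 hv)
    have h3 := le_pCore _ hn hp
    rw [hO] at h3
    exact h3 (Subgroup.mem_zpowers v)
  have h1 := hminG (G ⧸ Subgroup.center G) (V.map (QuotientGroup.mk' (Subgroup.center G)))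
    (card_quot_lt _ hne) (elemAb_map _ hV) (map_mk_ne_bot V _ hV1 hVZ)
    (Cfsg.Agent.S3012.result V (Subgroup.center G) hV hV1 hS hVZ)
  have hTn : ((Cfsg.pCore 2 (G ⧸ Subgroup.center G)).comap
      (QuotientGroup.mk' (Subgroup.center G))).Normal := (pCore_normal 2 _).comap _
  have hTZ : (Cfsg.pCore 2 (G ⧸ Subgroup.center G)).comap
      (QuotientGroup.mk' (Subgroup.center G)) ≤ Subgroup.center G := by
    by_cases hTV : (Cfsg.pCore 2 (G ⧸ Subgroup.center G)).comap
      (QuotientGroup.mk' (Subgroup.center G)) ⊔ V = ⊤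
    · exfalso
      have hq : IsPGroup 2 (G ⧸ Subgroup.center G) := by
        have h2 : ((Cfsg.pCore 2 (G ⧸ Subgroup.center G)).comap
            (QuotientGroup.mk' (Subgroup.center G)) ⊔ V).map
            (QuotientGroup.mk' (Subgroup.center G)) = ⊤ := by
          rw [hTV]
          exact Subgroup.map_top_of_surjective _ (QuotientGroup.mk'_surjective _)
        rw [Subgroup.map_sup,
          Subgroup.map_comap_eq_self_of_surjective (QuotientGroup.mk'_surjective _)] at h2
        haveI := pCore_normal 2 (G ⧸ Subgroup.center G)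
        have h3 : IsPGroup 2 ↥(Cfsg.pCore 2 (G ⧸ Subgroup.center G) ⊔
            V.map (QuotientGroup.mk' (Subgroup.center G))) :=
          IsPGroup.to_sup_of_normal_left pCore_isPGroup (hVp.map _)
        rw [h2] at h3
        exact h3.of_equiv Subgroup.topEquiv
      obtain ⟨S, hVS⟩ := hVp.exists_le_sylow
      have hSZ : (S : Subgroup G) ⊔ Subgroup.center G = ⊤ := by
        rw [← Subgroup.index_eq_one]
        have hd1 : ((S : Subgroup G) ⊔ Subgroup.center G).index ∣ (S : Subgroup G).index :=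
          Subgroup.index_dvd_of_le le_sup_left
        have hd2 : ((S : Subgroup G) ⊔ Subgroup.center G).index ∣ (Subgroup.center G).index :=
          Subgroup.index_dvd_of_le le_sup_right
        obtain ⟨k, hk⟩ := (IsPGroup.iff_card.1 hq)
        have hk' : (Subgroup.center G).index = 2 ^ k := by
          rw [Subgroup.index_eq_card]; exact hk
        rw [hk'] at hd2
        have hnd : ¬ 2 ∣ (S : Subgroup G).index := S.not_dvd_index
        have hcop : Nat.Coprime ((S : Subgroup G) ⊔ Subgroup.center G).index (2 ^ k) := by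
          apply Nat.Coprime.pow_right
          apply Nat.Coprime.coprime_dvd_left hd1
          exact (Nat.coprime_comm.1 ((Nat.Prime.coprime_iff_not_dvd Nat.prime_two).2 hnd))
        exact Nat.Coprime.eq_one_of_dvd hcop hd2
      have hSn : (S : Subgroup G).Normal := by
        rw [← Subgroup.normalizer_eq_top_iff, eq_top_iff, ← hSZ]
        apply sup_le Subgroup.le_normalizer
        intro z hz
        rw [Subgroup.mem_normalizer_iff]
        intro y
        have h4 : z * y * z⁻¹ = y := by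
          have h5 := Subgroup.mem_center_iff.1 hz y
          rw [← h5, mul_inv_cancel_right]
        rw [h4]
      have h6 := le_pCore _ hSn S.2
      rw [hO] at h6
      exact hV1 (eq_bot_iff.2 (hVS.trans h6))
    · exact step6 _ hTn hTV
  apply h1
  rw [eq_bot_iff]
  rintro x ⟨hx1, hx2⟩
  obtain ⟨v, hv, rfl⟩ := hx1
  have h5 : v ∈ (Cfsg.pCore 2 (G ⧸ Subgroup.center G)).comap
      (QuotientGroup.mk' (Subgroup.center G)) := hx2
  have h6 : v ∈ Subgroup.center G := hTZ h5
  rw [Subgroup.mem_bot]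
  exact (QuotientGroup.eq_one_iff v).2 h6

/-- the Fitting subgroup is trivial when all abelian normal subgroups are. -/
theorem fitting_eq_bot_of_abelian_normal {G : Type*} [Group G] [Finite G]
    (hab : ∀ A : Subgroup G, A.Normal → (∀ a ∈ A, ∀ b ∈ A, a * b = b * a) → A = ⊥) :
    Cfsg.fittingSubgroup G = ⊥ := by
  rw [eq_bot_iff]
  apply sSup_le
  rintro N ⟨hNn, hNnil⟩
  haveI := hNn
  haveI := hNnil
  have hA : N ⊓ Subgroup.centralizer (N : Set G) = ⊥ := by
    apply hab _ inferInstance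
    rintro a ⟨ha1, ha2⟩ b ⟨hb1, hb2⟩
    exact Subgroup.mem_centralizer_iff.1 hb2 a ha1
  have hc : (⊤ : Subgroup ↥N) ⊓ Subgroup.center ↥N = ⊥ := by
    rw [eq_bot_iff]
    rintro z ⟨-, hz⟩
    have h1 : (z : G) ∈ N ⊓ Subgroup.centralizer (N : Set G) := by
      refine ⟨z.2, Subgroup.mem_centralizer_iff.2 ?_⟩
      intro n hn
      have h2 := Subgroup.mem_center_iff.1 hz ⟨n, hn⟩
      exact congrArg Subtype.val h2
    rw [hA] at h1
    rw [Subgroup.mem_bot]
    exact Subtype.ext (Subgroup.mem_bot.1 h1)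
  have htop := eq_bot_of_inf_center_eq_bot_nilp (⊤ : Subgroup ↥N) hc
  intro n hn
  have h3 : (⟨n, hn⟩ : ↥N) ∈ (⊤ : Subgroup ↥N) := Subgroup.mem_top _
  rw [htop] at h3
  exact Subgroup.mem_bot.2 (congrArg Subtype.val (Subgroup.mem_bot.1 h3))

end Cfsg.Agent.Helper5
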