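import Mathlib
import Cfsg.Agent.Helper5.Sidki3
import Cfsg.Agent.Helper5.FStarSimple
import Cfsg.Agent.Helper3.Layer
import Cfsg.Agent.Helper3.Layer2
import Cfsg.Agent.Helper3.Quasisimple

set_option autoImplicit false

universe u

namespace Cfsg.Agent.Helper5

open scoped commutatorElement

theorem component_center_trivial {G : Type u} [Group G] [Finite G]
    (hFit : Cfsg.fittingSubgroup G = ⊥) (K : Subgroup G) (hK : Cfsg.IsComponent K) (z : G)
    (hz : z ∈ K) (hc : ∀ k ∈ K, k * z = z * k) : z = 1 := by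
  have h1 : Cfsg.layer G ≤ Subgroup.centralizer ({z} : Set G) := by
    show sSup {K : Subgroup G | Cfsg.IsComponent K} ≤ _
    apply sSup_le
    intro K' hK'
    by_cases hKK : K' = K
    · rw [hKK]
      intro k hk
      rw [mem_centralizer_singleton_iff]
      exact hc k hk
    · have h2 := Cfsg.Agent.Helper3.components_commute K' K hK' hK hKK
      rw [Subgroup.commutator_eq_bot_iff_le_centralizer] at h2
      intro k hk
      rw [mem_centralizer_singleton_iff]
      exact (Subgroup.mem_centralizer_iff.1 (h2 hk) z hz).symm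
  have hzE : z ∈ Cfsg.layer G := Cfsg.Agent.Helper3.component_le_layer K hK hz
  have h3 : z ∈ (Subgroup.center ↥(Cfsg.layer G)).map (Cfsg.layer G).subtype := by
    refine ⟨⟨z, hzE⟩, ?_, rfl⟩
    rw [SetLike.mem_coe, Subgroup.mem_center_iff]
    intro e
    exact Subtype.ext ((mem_centralizer_singleton_iff z (e : G)).1 (h1 e.2))
  rw [Cfsg.Agent.Helper3.center_layer_eq, hFit, bot_inf_eq, Subgroup.mem_bot] at h3
  exact h3

theorem components_commute_elt {G : Type u} [Group G] [Finite G] (K K' : Subgroup G)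
    (hK : Cfsg.IsComponent K) (hK' : Cfsg.IsComponent K') (hne : K ≠ K') (a : G) (ha : a ∈ K)
    (b : G) (hb : b ∈ K') : a * b = b * a := by
  have h2 := Cfsg.Agent.Helper3.components_commute K K' hK hK' hne
  rw [Subgroup.commutator_eq_bot_iff_le_centralizer] at h2
  exact (Subgroup.mem_centralizer_iff.1 (h2 ha) b hb).symm

theorem components_inf_trivial {G : Type u} [Group G] [Finite G]
    (hFit : Cfsg.fittingSubgroup G = ⊥) (K K' : Subgroup G)
    (hK : Cfsg.IsComponent K) (hK' : Cfsg.IsComponent K') (hne : K ≠ K') (z : G) (hz : z ∈ K)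
    (hz' : z ∈ K') : z = 1 :=
  component_center_trivial hFit K hK z hz
    (fun k hk => components_commute_elt K K' hK hK' hne k hk z hz')

theorem component_exists_odd {G : Type u} [Group G] [Finite G] (K : Subgroup G)
    (hK : Cfsg.IsComponent K) : ∃ x ∈ K, x ≠ 1 ∧ Odd (orderOf x) := by
  haveI : Fact (Nat.Prime 2) := ⟨Nat.prime_two⟩
  by_contra hcon
  push Not at hcon
  have hcard : Nat.card K = 2 ^ (Nat.card K).primeFactorsList.length := by
    apply Nat.eq_prime_pow_of_unique_prime_dvd Nat.card_pos.ne'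
    intro q hq hdvd
    haveI : Fact q.Prime := ⟨hq⟩
    obtain ⟨x, hx⟩ := exists_prime_orderOf_dvd_card' q hdvd
    have hx1 : (x : G) ≠ 1 := by
      intro h
      have h1 : x = 1 := Subtype.ext h
      rw [h1, orderOf_one] at hx
      exact hq.one_lt.ne hx
    have hno := hcon (x : G) x.2 hx1
    rw [Subgroup.orderOf_coe, hx] at hno
    rcases hq.eq_two_or_odd' with h | h
    · exact h
    · exact absurd h hno
  have hp : IsPGroup 2 K := IsPGroup.of_card hcard
  haveI : Group.IsNilpotent K := hp.isNilpotent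
  exact Cfsg.Agent.Helper3.component_not_le_solvable K K hK inferInstance le_rfl

theorem normalClosure_component_le_normalizer {G : Type u} [Group G] [Finite G]
    (K K'' : Subgroup G) (hK : Cfsg.IsComponent K) (hK'' : Cfsg.IsComponent K'') :
    Subgroup.normalClosure (K : Set G) ≤ Subgroup.normalizer (K'' : Set G) := by
  show Subgroup.closure (Group.conjugatesOfSet (K : Set G)) ≤ _
  rw [Subgroup.closure_le]
  intro y hy
  obtain ⟨b, hb, hconj⟩ := Group.mem_conjugatesOfSet_iff.1 hy
  obtain ⟨c, hc⟩ := isConj_iff.1 hconj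
  have hKc : Cfsg.IsComponent (K.map (MulAut.conj c).toMonoidHom) :=
    Cfsg.Agent.Helper3.component_map_equiv (MulAut.conj c) K hK
  have hyK : y ∈ K.map (MulAut.conj c).toMonoidHom := by
    rw [← hc]; exact conj_mem_conj K c b hb
  by_cases h : K.map (MulAut.conj c).toMonoidHom = K''
  · rw [← h]; exact Subgroup.le_normalizer hyK
  · rw [SetLike.mem_coe, Subgroup.mem_normalizer_iff]
    intro z
    constructor
    · intro hz
      have h2 := components_commute_elt _ K'' hKc hK'' h y hyK z hz
      rw [h2, mul_inv_cancel_right]; exact hz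
    · intro hz
      have h2 := components_commute_elt _ K'' hKc hK'' h y hyK _ hz
      have h4 : z = y * z * y⁻¹ := by
        have : y * (y * z * y⁻¹) = y * z := by rw [h2]; group
        exact (mul_left_cancel this).symm
      rw [h4]; exact hz

theorem component_normal_pGroup_trivial {G : Type u} [Group G] [Finite G] {p : ℕ}
    [Fact p.Prime] (hFit : Cfsg.fittingSubgroup G = ⊥) (K P : Subgroup G)
    (hK : Cfsg.IsComponent K) (hPK : P ≤ K) (hN : K ≤ Subgroup.normalizer (P : Set G))
    (hP : IsPGroup p P) : P = ⊥ := by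
  have hn : (P.subgroupOf K).Normal := (Subgroup.normal_subgroupOf_iff_le_normalizer hPK).2 hN
  rcases Cfsg.Agent.Helper3.quasisimple_subnormal hK.2 (P.subgroupOf K) hn.isSubnormal with h | h
  · exfalso
    have hKP : K ≤ P := Subgroup.subgroupOf_eq_top.1 h
    have hp : IsPGroup p K := hP.to_le hKP
    haveI : Group.IsNilpotent K := hp.isNilpotent
    exact Cfsg.Agent.Helper3.component_not_le_solvable K K hK inferInstance le_rfl
  · rw [eq_bot_iff]
    intro z hz
    rw [Subgroup.mem_bot]
    apply component_center_trivial hFit K hK z (hPK hz)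
    intro k hk
    have h2 : (⟨z, hPK hz⟩ : ↥K) ∈ Subgroup.center ↥K := h (Subgroup.mem_subgroupOf.2 hz)
    have h3 := Subgroup.mem_center_iff.1 h2 ⟨k, hk⟩
    exact congrArg Subtype.val h3

theorem le_normalizer_inf_pCoreOf {G : Type*} [Group G] (p : ℕ) (H X : Subgroup G)
    (hXH : X ≤ H) :
    X ≤ Subgroup.normalizer ((X ⊓ (Cfsg.pCore p ↥H).map H.subtype : Subgroup G) : Set G) := by
  have key : ∀ (x : G), x ∈ X → ∀ y, y ∈ X ⊓ (Cfsg.pCore p ↥H).map H.subtype →
      x * y * x⁻¹ ∈ X ⊓ (Cfsg.pCore p ↥H).map H.subtype := by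
    intro x hx y hy
    refine Subgroup.mem_inf.2 ⟨X.mul_mem (X.mul_mem hx hy.1) (X.inv_mem hx), ?_⟩
    obtain ⟨y', hy', rfl⟩ := hy.2
    refine ⟨⟨x, hXH hx⟩ * y' * ⟨x, hXH hx⟩⁻¹, ?_, rfl⟩
    exact (pCore_normal p ↥H).conj_mem y' hy' _
  intro x hx
  rw [Subgroup.mem_normalizer_iff]
  intro y
  constructor
  · exact key x hx y
  · intro h
    have := key x⁻¹ (X.inv_mem hx) _ h
    simpa [mul_assoc] using this

end Cfsg.Agent.Helper5
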