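import Mathlib
import Cfsg.Agent.Helper5.Sidki4

set_option autoImplicit false

universe u

namespace Cfsg.Agent.Helper5

/-- In a minimal counterexample, `V` normalizes every component. -/
theorem sidki_V_normalizes_component {G : Type u} [Group G] [Finite G] (V : Subgroup G)
    (hV : Cfsg.IsElementaryAbelian 2 V) (hS : Cfsg.IsSidkiPair V)
    (hminG : ∀ (H : Type u) [Group H] [Finite H] (W : Subgroup H), Nat.card H < Nat.card G →
      Cfsg.IsElementaryAbelian 2 W → W ≠ ⊥ → Cfsg.IsSidkiPair W → W ⊓ Cfsg.pCore 2 H ≠ ⊥)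
    (key : ∀ (X : Subgroup G), X.Normal →
      V ⊓ Subgroup.centralizer (X : Set G) = ⊥ ∨ V ≤ Subgroup.centralizer (X : Set G))
    (hFit : Cfsg.fittingSubgroup G = ⊥)
    (step8 : ∀ X : Subgroup G, X.Normal → X ≠ ⊥ → X ⊔ V = ⊤)
    (K : Subgroup G) (hK : Cfsg.IsComponent K) (v : G) (hv : v ∈ V) :
    K.map (MulAut.conj v).toMonoidHom = K := by
  haveI : Fact (Nat.Prime 2) := ⟨Nat.prime_two⟩
  by_contra hne
  have hVcomm : ∀ a ∈ V, ∀ b ∈ V, a * b = b * a := fun a ha b hb =>
    congrArg Subtype.val (hV.1.is_comm.comm ⟨a, ha⟩ ⟨b, hb⟩)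
  have hvv : v * v = 1 := by have := hV.2 v hv; rwa [pow_two] at this
  have hvi : v⁻¹ = v := inv_eq_of_mul_eq_one_left hvv
  have hKvc : Cfsg.IsComponent (K.map (MulAut.conj v).toMonoidHom) :=
    Cfsg.Agent.Helper3.component_map_equiv (MulAut.conj v) K hK
  have hnorm : ∀ x ∈ K, x ≠ 1 → ∀ w ∈ V, w * x = x * w →
      w ∈ Subgroup.normalizer (K : Set G) := by
    intro x hx hx1 w hw hwx
    by_contra hwn
    have hne' : K.map (MulAut.conj w).toMonoidHom ≠ K :=
      fun h => hwn ((mem_normalizer_iff_conj_eq K w).2 h)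
    have hxw : x ∈ K.map (MulAut.conj w).toMonoidHom := by
      have e : x = w * x * w⁻¹ := by rw [hwx, mul_inv_cancel_right]
      rw [e]; exact conj_mem_conj K w x hx
    exact hx1 (components_inf_trivial hFit K _ hK
      (Cfsg.Agent.Helper3.component_map_equiv (MulAut.conj w) K hK) (Ne.symm hne') x hx hxw)
  have hA : ∀ x ∈ K, x ≠ 1 → Odd (orderOf x) →
      ∃ w ∈ V ⊓ Subgroup.normalizer (K : Set G), w ≠ 1 ∧ w * x = x * w := by
    intro x hx hx1 hxodd
    have hx'K : v * x * v⁻¹ ∈ K.map (MulAut.conj v).toMonoidHom := conj_mem_conj K v x hx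
    have hcomm1 : x * (v * x * v⁻¹) = (v * x * v⁻¹) * x :=
      components_commute_elt K _ hK hKvc (Ne.symm hne) x hx _ hx'K
    have hyinv : v * (x⁻¹ * (v * x * v⁻¹)) * v⁻¹ = (x⁻¹ * (v * x * v⁻¹))⁻¹ := by
      rw [hvi]
      calc v * (x⁻¹ * (v * x * v)) * v = v * x⁻¹ * (v * x * (v * v)) := by group
        _ = v * x⁻¹ * (v * x) := by rw [hvv, mul_one]
        _ = (x⁻¹ * (v * x * v))⁻¹ := by
          rw [mul_inv_rev, mul_inv_rev, mul_inv_rev, inv_inv, hvi]; group
    have hyodd : Odd (orderOf (x⁻¹ * (v * x * v⁻¹))) := by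
      have ho' : orderOf (v * x * v⁻¹) = orderOf x := (MulAut.conj v).orderOf_eq x
      have hc : Commute x⁻¹ (v * x * v⁻¹) := (show Commute x (v * x * v⁻¹) from hcomm1).inv_left
      have hd := hc.orderOf_mul_dvd_lcm
      rw [orderOf_inv, ho', Nat.lcm_self] at hd
      exact Odd.of_dvd_nat hxodd hd
    obtain ⟨w, hwV, hw1, hwy⟩ := hS (x⁻¹ * (v * x * v⁻¹)) v hv hyodd hyinv
    have hwy' : w * (x⁻¹ * (v * x * v⁻¹)) * w⁻¹ = x⁻¹ * (v * x * v⁻¹) := by
      rw [hwy, mul_inv_cancel_right]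
    have hab : (w * x⁻¹ * w⁻¹) * (w * (v * x * v⁻¹) * w⁻¹) = x⁻¹ * (v * x * v⁻¹) := by
      rw [← hwy']; group
    have hKwc : Cfsg.IsComponent (K.map (MulAut.conj w).toMonoidHom) :=
      Cfsg.Agent.Helper3.component_map_equiv (MulAut.conj w) K hK
    have haKw : w * x⁻¹ * w⁻¹ ∈ K.map (MulAut.conj w).toMonoidHom :=
      conj_mem_conj K w x⁻¹ (K.inv_mem hx)
    have hwv : w * v = v * w := hVcomm w hwV v hv
    have hb2 : w * (v * x * v⁻¹) * w⁻¹ = v * (w * x * w⁻¹) * v⁻¹ := by
      calc w * (v * x * v⁻¹) * w⁻¹ = (w * v) * x * (w * v)⁻¹ := by group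
        _ = (v * w) * x * (v * w)⁻¹ := by rw [hwv]
        _ = v * (w * x * w⁻¹) * v⁻¹ := by group
    by_cases h1 : K.map (MulAut.conj w).toMonoidHom = K
    · have hwN : w ∈ Subgroup.normalizer (K : Set G) := (mem_normalizer_iff_conj_eq K w).2 h1
      have haK : w * x⁻¹ * w⁻¹ ∈ K := by rw [← h1]; exact haKw
      have hwxK : w * x * w⁻¹ ∈ K := by
        have := conj_mem_conj K w x hx
        rwa [h1] at this
      have hbKv : w * (v * x * v⁻¹) * w⁻¹ ∈ K.map (MulAut.conj v).toMonoidHom := by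
        rw [hb2]; exact conj_mem_conj K v _ hwxK
      have e : x * (w * x⁻¹ * w⁻¹) = (v * x * v⁻¹) * (w * (v * x * v⁻¹) * w⁻¹)⁻¹ := by
        have h3 : x * ((w * x⁻¹ * w⁻¹) * (w * (v * x * v⁻¹) * w⁻¹)) = v * x * v⁻¹ := by
          rw [hab]; group
        calc x * (w * x⁻¹ * w⁻¹)
            = x * ((w * x⁻¹ * w⁻¹) * (w * (v * x * v⁻¹) * w⁻¹)) *
                (w * (v * x * v⁻¹) * w⁻¹)⁻¹ := by group
          _ = (v * x * v⁻¹) * (w * (v * x * v⁻¹) * w⁻¹)⁻¹ := by rw [h3]
      have hxa : x * (w * x⁻¹ * w⁻¹) = 1 :=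
        components_inf_trivial hFit K _ hK hKvc (Ne.symm hne) _ (K.mul_mem hx haK)
          (by rw [e]; exact Subgroup.mul_mem _ hx'K (Subgroup.inv_mem _ hbKv))
      have hwx : w * x = x * w := by
        have h4 : w * x⁻¹ * w⁻¹ = x⁻¹ := (eq_inv_of_mul_eq_one_right hxa)
        have h5 : w * x * w⁻¹ = x := by
          have := congrArg (fun z => z⁻¹) h4
          simpa [mul_assoc] using this
        calc w * x = w * x * w⁻¹ * w := by group
          _ = x * w := by rw [h5]
      exact ⟨w, ⟨hwV, hwN⟩, hw1, hwx⟩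
    · by_cases h2 : K.map (MulAut.conj w).toMonoidHom = K.map (MulAut.conj v).toMonoidHom
      · have haKv : w * x⁻¹ * w⁻¹ ∈ K.map (MulAut.conj v).toMonoidHom := by
          rw [← h2]; exact haKw
        have hwxKv : w * x * w⁻¹ ∈ K.map (MulAut.conj v).toMonoidHom := by
          rw [← h2]; exact conj_mem_conj K w x hx
        have hbK : w * (v * x * v⁻¹) * w⁻¹ ∈ K := by
          rw [hb2]
          rw [mem_conj_iff] at hwxKv
          have e3 : v * (w * x * w⁻¹) * v⁻¹ = v⁻¹ * (w * x * w⁻¹) * v := by rw [hvi]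
          rw [e3]; exact hwxKv
        have hba : (w * (v * x * v⁻¹) * w⁻¹) * (w * x⁻¹ * w⁻¹) =
            (w * x⁻¹ * w⁻¹) * (w * (v * x * v⁻¹) * w⁻¹) :=
          components_commute_elt K _ hK hKvc (Ne.symm hne) _ hbK _ haKv
        have e : x * (w * (v * x * v⁻¹) * w⁻¹) = (v * x * v⁻¹) * (w * x⁻¹ * w⁻¹)⁻¹ := by
          have h3 : x * ((w * (v * x * v⁻¹) * w⁻¹) * (w * x⁻¹ * w⁻¹)) = v * x * v⁻¹ := by
            rw [hba, hab]; group
          calc x * (w * (v * x * v⁻¹) * w⁻¹)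
              = x * ((w * (v * x * v⁻¹) * w⁻¹) * (w * x⁻¹ * w⁻¹)) * (w * x⁻¹ * w⁻¹)⁻¹ := by
                group
            _ = (v * x * v⁻¹) * (w * x⁻¹ * w⁻¹)⁻¹ := by rw [h3]
        have hxb : x * (w * (v * x * v⁻¹) * w⁻¹) = 1 :=
          components_inf_trivial hFit K _ hK hKvc (Ne.symm hne) _ (K.mul_mem hx hbK)
            (by rw [e]; exact Subgroup.mul_mem _ hx'K (Subgroup.inv_mem _ haKv))
        have hb' : (w * v) * x * (w * v)⁻¹ = x⁻¹ := by
          have h4 : w * (v * x * v⁻¹) * w⁻¹ = x⁻¹ := eq_inv_of_mul_eq_one_right hxb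
          rw [← h4]; group
        obtain ⟨w', hw'V, hw'1, hw'x⟩ := hS x (w * v) (V.mul_mem hwV hv) hxodd hb'
        exact ⟨w', ⟨hw'V, hnorm x hx hx1 w' hw'V hw'x⟩, hw'1, hw'x⟩
      · exfalso
        have hKwvc : Cfsg.IsComponent
            ((K.map (MulAut.conj v).toMonoidHom).map (MulAut.conj w).toMonoidHom) :=
          Cfsg.Agent.Helper3.component_map_equiv (MulAut.conj w) _ hKvc
        have hbKwv : w * (v * x * v⁻¹) * w⁻¹ ∈
            (K.map (MulAut.conj v).toMonoidHom).map (MulAut.conj w).toMonoidHom :=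
          conj_mem_conj _ w _ hx'K
        have h3 : K.map (MulAut.conj w).toMonoidHom ≠
            (K.map (MulAut.conj v).toMonoidHom).map (MulAut.conj w).toMonoidHom := by
          intro h
          apply hne
          exact (Subgroup.map_injective (MulAut.conj w).injective h).symm
        have ha1 : w * x⁻¹ * w⁻¹ = 1 := by
          apply component_center_trivial hFit _ hKwc _ haKw
          intro k hk
          have c1 : Commute k x := components_commute_elt _ K hKwc hK h1 k hk x hx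
          have c2 : Commute k (v * x * v⁻¹) :=
            components_commute_elt _ _ hKwc hKvc h2 k hk _ hx'K
          have c3 : Commute k (w * (v * x * v⁻¹) * w⁻¹) :=
            components_commute_elt _ _ hKwc hKwvc h3 k hk _ hbKwv
          have e : w * x⁻¹ * w⁻¹ = x⁻¹ * (v * x * v⁻¹) * (w * (v * x * v⁻¹) * w⁻¹)⁻¹ := by
            rw [← hab]; group
          rw [e]
          exact ((c1.inv_right.mul_right c2).mul_right c3.inv_right).eq
        apply hx1
        have h6 : x⁻¹ = 1 := by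
          have := congrArg (fun z => w⁻¹ * z * w) ha1
          simpa [mul_assoc] using this
        exact inv_eq_one.1 h6
  obtain ⟨x₀, hx₀, hx₀1, hx₀odd⟩ := component_exists_odd K hK
  have hV₁ne : V ⊓ Subgroup.normalizer (K : Set G) ≠ ⊥ := by
    obtain ⟨w, hw, hw1, -⟩ := hA x₀ hx₀ hx₀1 hx₀odd
    intro h
    rw [h] at hw
    exact hw1 (Subgroup.mem_bot.1 hw)
  have hHne : K ⊔ V ⊓ Subgroup.normalizer (K : Set G) ≠ ⊤ := by
    intro ht
    apply hne
    have h1 : K ⊔ V ⊓ Subgroup.normalizer (K : Set G) ≤ Subgroup.normalizer (K : Set G) :=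
      sup_le Subgroup.le_normalizer inf_le_right
    rw [ht] at h1
    exact (mem_normalizer_iff_conj_eq K v).1 (h1 (Subgroup.mem_top v))
  obtain ⟨w, hwW, hw1, hwc⟩ := sidki_sub_core hminG
    (K ⊔ V ⊓ Subgroup.normalizer (K : Set G)) (V ⊓ Subgroup.normalizer (K : Set G)) hHne
    le_sup_right (elemAb_le inf_le_left hV) hV₁ne (by
      intro h hh v₁ hv₁ hodd hinv
      by_cases h1 : h = 1
      · obtain ⟨w, hw1⟩ := (Subgroup.ne_bot_iff_exists_ne_one).1 hV₁ne
        exact ⟨w, w.2, fun h => hw1 (Subtype.ext h), by rw [h1, mul_one, one_mul]⟩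
      · have hhK : h ∈ K := by
          apply mem_of_sq_mem_of_odd K h hodd
          obtain ⟨k, hk, v', hv', rfl⟩ :=
            Cfsg.Agent.Helper3.mem_sup_of_le_normalizer_right K _ inf_le_right hh
          have e1 : v₁ * (k * v')⁻¹ * v₁⁻¹ = k * v' := by
            have := congrArg (fun z => z⁻¹) hinv
            simpa [mul_assoc] using this
          have hc : v' * v₁ = v₁ * v' := hVcomm v' hv'.1 v₁ hv₁.1
          have e : (k * v') ^ 2 = k * (v₁ * k⁻¹ * v₁⁻¹) := by
            calc (k * v') ^ 2 = (k * v') * (v₁ * (k * v')⁻¹ * v₁⁻¹) := by rw [e1, pow_two]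
              _ = k * ((v' * v₁) * v'⁻¹) * k⁻¹ * v₁⁻¹ := by group
              _ = k * ((v₁ * v') * v'⁻¹) * k⁻¹ * v₁⁻¹ := by rw [hc]
              _ = k * (v₁ * k⁻¹ * v₁⁻¹) := by group
          rw [e]
          exact K.mul_mem hk ((Subgroup.mem_normalizer_iff.1 hv₁.2 k⁻¹).1 (K.inv_mem hk))
        exact hA h hhK h1 hodd)
  -- w centralizes K
  have hwK : ∀ k ∈ K, (w : G) * k = k * (w : G) := by
    intro k hk
    have hPbot : K ⊓ (Cfsg.pCore 2 ↥(K ⊔ V ⊓ Subgroup.normalizer (K : Set G))).map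
        (K ⊔ V ⊓ Subgroup.normalizer (K : Set G)).subtype = ⊥ := by
      apply component_normal_pGroup_trivial (p := 2) hFit K _ hK inf_le_left
      · exact le_normalizer_inf_pCoreOf 2 _ K le_sup_left
      · exact ((pCore_isPGroup (G := ↥(K ⊔ V ⊓ Subgroup.normalizer (K : Set G)))).map _).to_le
          inf_le_right
    have hc : (w : G) * k * (w : G)⁻¹ * k⁻¹ ∈
        K ⊓ (Cfsg.pCore 2 ↥(K ⊔ V ⊓ Subgroup.normalizer (K : Set G))).map
        (K ⊔ V ⊓ Subgroup.normalizer (K : Set G)).subtype := by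
      refine Subgroup.mem_inf.2 ⟨?_, ?_⟩
      · have hwN : (w : G) ∈ Subgroup.normalizer (K : Set G) := hwW.2
        exact K.mul_mem ((Subgroup.mem_normalizer_iff.1 hwN k).1 hk) (K.inv_mem hk)
      · have hkH : k ∈ K ⊔ V ⊓ Subgroup.normalizer (K : Set G) :=
          (le_sup_left : K ≤ K ⊔ V ⊓ Subgroup.normalizer (K : Set G)) hk
        refine ⟨w * (⟨k, hkH⟩ * w⁻¹ * ⟨k, hkH⟩⁻¹), ?_, ?_⟩
        · exact mul_mem hwc ((pCore_normal 2 _).conj_mem _ (inv_mem hwc) _)
        · simp only [Subgroup.coe_subtype, Subgroup.coe_mul, Subgroup.coe_inv]; group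
    rw [hPbot, Subgroup.mem_bot] at hc
    have h1 : (w : G) * k * (w : G)⁻¹ = k := mul_inv_eq_one.1 hc
    calc (w : G) * k = (w : G) * k * (w : G)⁻¹ * (w : G) := by group
      _ = k * (w : G) := by rw [h1]
  -- w centralizes the normal closure of K
  have hXn : (Subgroup.normalClosure (K : Set G)).Normal := Subgroup.normalClosure_normal
  have hKX : K ≤ Subgroup.normalClosure (K : Set G) := Subgroup.le_normalClosure
  have hXne : Subgroup.normalClosure (K : Set G) ≠ ⊥ := fun h =>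
    Cfsg.Agent.Helper3.component_ne_bot K hK (eq_bot_iff.2 (h ▸ hKX))
  have hXV : Subgroup.normalClosure (K : Set G) ⊔ V = ⊤ := step8 _ hXn hXne
  have hwX : (w : G) ∈ Subgroup.centralizer ((Subgroup.normalClosure (K : Set G) : Subgroup G) : Set G) := by
    have h1 : Subgroup.normalClosure (K : Set G) ≤ Subgroup.centralizer ({(w : G)} : Set G) := by
      show Subgroup.closure (Group.conjugatesOfSet (K : Set G)) ≤ _
      rw [Subgroup.closure_le]
      intro y hy
      obtain ⟨b, hb, hconj⟩ := Group.mem_conjugatesOfSet_iff.1 hy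
      obtain ⟨c, hc⟩ := isConj_iff.1 hconj
      have hcm : c ∈ Subgroup.normalClosure (K : Set G) ⊔ V := by
        rw [hXV]; exact Subgroup.mem_top c
      rw [← SetLike.mem_coe, Subgroup.normal_mul] at hcm
      obtain ⟨x₁, hx₁, v', hv', hxv⟩ := hcm
      have hxv' : x₁ * v' = c := hxv
      have hKv'c : Cfsg.IsComponent (K.map (MulAut.conj v').toMonoidHom) :=
        Cfsg.Agent.Helper3.component_map_equiv (MulAut.conj v') K hK
      have hx₁N := normalClosure_component_le_normalizer K _ hK hKv'c hx₁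
      have hyK : y ∈ K.map (MulAut.conj v').toMonoidHom := by
        have e : y = x₁ * (v' * b * v'⁻¹) * x₁⁻¹ := by rw [← hc, ← hxv']; group
        rw [e]
        exact (Subgroup.mem_normalizer_iff.1 hx₁N _).1 (conj_mem_conj K v' b hb)
      rw [mem_conj_iff] at hyK
      have hwv' : Commute (w : G) v' := hVcomm _ hwW.1 v' hv'
      have hwk : Commute (w : G) (v'⁻¹ * y * v') := hwK _ hyK
      have e2 : y = v' * (v'⁻¹ * y * v') * v'⁻¹ := by group
      rw [SetLike.mem_coe, mem_centralizer_singleton_iff, e2]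
      exact ((hwv'.mul_right hwk).mul_right hwv'.inv_right).eq.symm
    refine Subgroup.mem_centralizer_iff.2 (fun x hx => ?_)
    exact (mem_centralizer_singleton_iff (w : G) x).1 (h1 hx)
  have hVX : V ≤ Subgroup.centralizer ((Subgroup.normalClosure (K : Set G) : Subgroup G) : Set G) := by
    rcases key _ hXn with h | h
    · exfalso
      have h2 : (w : G) ∈ V ⊓
          Subgroup.centralizer ((Subgroup.normalClosure (K : Set G) : Subgroup G) : Set G) :=
        ⟨hwW.1, hwX⟩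
      rw [h] at h2
      exact hw1 (Subtype.ext (Subgroup.mem_bot.1 h2))
    · exact h
  apply hne
  rw [← mem_normalizer_iff_conj_eq]
  apply mem_normalizer_of_conj_le
  rintro _ ⟨k, hk, rfl⟩
  have h3 := Subgroup.mem_centralizer_iff.1 (hVX hv) k (hKX hk)
  show v * k * v⁻¹ ∈ K
  rw [← h3, mul_inv_cancel_right]
  exact hk

/-- In a minimal counterexample there is at most one component. -/
theorem sidki_components {G : Type u} [Group G] [Finite G] (V : Subgroup G)
    (hV : Cfsg.IsElementaryAbelian 2 V) (hS : Cfsg.IsSidkiPair V)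
    (hminG : ∀ (H : Type u) [Group H] [Finite H] (W : Subgroup H), Nat.card H < Nat.card G →
      Cfsg.IsElementaryAbelian 2 W → W ≠ ⊥ → Cfsg.IsSidkiPair W → W ⊓ Cfsg.pCore 2 H ≠ ⊥)
    (key : ∀ (X : Subgroup G), X.Normal →
      V ⊓ Subgroup.centralizer (X : Set G) = ⊥ ∨ V ≤ Subgroup.centralizer (X : Set G))
    (hFit : Cfsg.fittingSubgroup G = ⊥)
    (step8 : ∀ X : Subgroup G, X.Normal → X ≠ ⊥ → X ⊔ V = ⊤) :
    ∀ K K' : Subgroup G, Cfsg.IsComponent K → Cfsg.IsComponent K' → K' = K := by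
  intro K K' hK hK'
  by_contra hne
  have hKn : K.Normal := by
    rw [← Subgroup.normalizer_eq_top_iff, eq_top_iff]
    have hX := step8 (Subgroup.normalClosure (K : Set G)) Subgroup.normalClosure_normal
      (fun h => Cfsg.Agent.Helper3.component_ne_bot K hK
        (eq_bot_iff.2 (h ▸ (Subgroup.le_normalClosure : K ≤ Subgroup.normalClosure (K : Set G)))))
    rw [← hX]
    apply sup_le (normalClosure_component_le_normalizer K K hK hK)
    intro v hv
    exact (mem_normalizer_iff_conj_eq K v).2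
      (sidki_V_normalizes_component V hV hS hminG key hFit step8 K hK v hv)
  have hKV := step8 K hKn (Cfsg.Agent.Helper3.component_ne_bot K hK)
  obtain ⟨x', hx', hx'1, hx'odd⟩ := component_exists_odd K' hK'
  have hm : x' ∈ K ⊔ V := by rw [hKV]; exact Subgroup.mem_top _
  haveI := hKn
  rw [← SetLike.mem_coe, Subgroup.normal_mul] at hm
  obtain ⟨k, hk, v', hv', hkv⟩ := hm
  have hkv' : k * v' = x' := hkv
  have hv'e : v' = k⁻¹ * x' := by rw [← hkv']; group
  have hc : k * x' = x' * k := components_commute_elt K K' hK hK' (Ne.symm hne) k hk x' hx'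
  have hsq : x' ^ 2 = k ^ 2 := by
    have h1 : v' ^ 2 = 1 := hV.2 v' hv'
    rw [hv'e] at h1
    have hc' : Commute k⁻¹ x' := (show Commute k x' from hc).inv_left
    rw [hc'.mul_pow, inv_pow] at h1
    exact (inv_mul_eq_one.1 h1).symm
  have h2 : x' ^ 2 = 1 :=
    components_inf_trivial hFit K' K hK' hK hne (x' ^ 2) (K'.pow_mem hx' 2)
      (by rw [hsq]; exact K.pow_mem hk 2)
  exact hx'1 (eq_one_of_odd_of_sq x' hx'odd h2)

/-- Minimal counterexample reduction for the Sidki pair problem. -/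
theorem sidki_minimal_counterexample {G : Type u} [Group G] [Finite G] (V : Subgroup G)
    (hV : Cfsg.IsElementaryAbelian 2 V) (hV1 : V ≠ ⊥) (hS : Cfsg.IsSidkiPair V)
    (hVO : V ⊓ Cfsg.pCore 2 G = ⊥)
    (hminG : ∀ (H : Type u) [Group H] [Finite H] (W : Subgroup H), Nat.card H < Nat.card G →
      Cfsg.IsElementaryAbelian 2 W → W ≠ ⊥ → Cfsg.IsSidkiPair W → W ⊓ Cfsg.pCore 2 H ≠ ⊥)
    (hminV : ∀ W : Subgroup G, Nat.card W < Nat.card V → Cfsg.IsElementaryAbelian 2 W → W ≠ ⊥ →
      Cfsg.IsSidkiPair W → W ⊓ Cfsg.pCore 2 G ≠ ⊥) :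
    IsSimpleGroup ↥(Cfsg.generalizedFittingSubgroup G) ∧
      ¬ IsMulCommutative ↥(Cfsg.generalizedFittingSubgroup G) ∧
      V ⊔ Cfsg.generalizedFittingSubgroup G = ⊤ := by
  have hO := sidki_core_bot V hV hV1 hS hVO hminG
  have key : ∀ (X : Subgroup G), X.Normal →
      V ⊓ Subgroup.centralizer (X : Set G) = ⊥ ∨ V ≤ Subgroup.centralizer (X : Set G) := by
    intro X hX
    haveI := hX
    exact sidki_key V hV hV1 hS hVO hminG hminV hO X
  have step4 := sidki_step4 V hV hV1 hS hminG hO key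
  have hncl := sidki_ncl V hV hV1 hO step4
  have step6 := sidki_step6 V step4 hncl
  have hZ := sidki_center_bot V hV hV1 hS hminG hO step6
  have hab : ∀ A : Subgroup G, A.Normal → (∀ a ∈ A, ∀ b ∈ A, a * b = b * a) → A = ⊥ := by
    intro A hA hAc
    have h := sidki_abelian_central V hV hV1 hS hO key step6 A hA hAc
    rw [hZ] at h
    exact eq_bot_iff.2 h
  have hFit := fitting_eq_bot_of_abelian_normal hab
  have step8 : ∀ X : Subgroup G, X.Normal → X ≠ ⊥ → X ⊔ V = ⊤ := by
    intro X hX hne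
    by_contra h
    have h2 := step6 X hX h
    rw [hZ] at h2
    exact hne (eq_bot_iff.2 h2)
  have huniq := sidki_components V hV hS hminG key hFit step8
  haveI : Nontrivial G := by
    obtain ⟨v, hv1⟩ := (Subgroup.ne_bot_iff_exists_ne_one).1 hV1
    exact ⟨⟨(v : G), 1, fun h => hv1 (Subtype.ext h)⟩⟩
  obtain ⟨hsimp, hnc⟩ := fstar_simple_of_unique_component hFit huniq
  refine ⟨hsimp, hnc, ?_⟩
  rw [sup_comm]
  apply step8 _ (Cfsg.Agent.Helper3.fstar_normal G)
  intro h
  haveI := hsimp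
  have hnt : Nontrivial ↥(Cfsg.generalizedFittingSubgroup G) := IsSimpleGroup.toNontrivial
  exact (Subgroup.nontrivial_iff_ne_bot _).1 hnt h

end Cfsg.Agent.Helper5
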