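import Mathlib
import Cfsg.Agent.Helper5.Basic

namespace Cfsg.Agent.Helper5

open scoped commutatorElement Pointwise

theorem conj_eq_zpow_of_cyclic_normal {N : Type*} [Group N] (X : Subgroup N) [X.Normal]
    [IsCyclic X] (g : N) : ∃ m : ℤ, ∀ x ∈ X, g * x * g⁻¹ = x ^ m := by
  obtain ⟨m, hm⟩ := MonoidHom.map_cyclic ((MulAut.conjNormal g : X ≃* X).toMonoidHom)
  refine ⟨m, fun x hx => ?_⟩
  have h := hm ⟨x, hx⟩
  have h2 := congrArg Subtype.val h
  simpa using h2

theorem conj_mul_comm_of_cyclic_normal {N : Type*} [Group N] (X : Subgroup N) [X.Normal]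
    [IsCyclic X] (g h : N) {x : N} (hx : x ∈ X) :
    (g * h) * x * (g * h)⁻¹ = (h * g) * x * (h * g)⁻¹ := by
  obtain ⟨a, ha⟩ := conj_eq_zpow_of_cyclic_normal X g
  obtain ⟨b, hb⟩ := conj_eq_zpow_of_cyclic_normal X h
  have h1 : (g * h) * x * (g * h)⁻¹ = g * (h * x * h⁻¹) * g⁻¹ := by group
  have h2 : (h * g) * x * (h * g)⁻¹ = h * (g * x * g⁻¹) * h⁻¹ := by group
  rw [h1, h2, hb x hx, ha x hx, ha _ (X.zpow_mem hx b), hb _ (X.zpow_mem hx a), ← zpow_mul,
    ← zpow_mul, mul_comm]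

theorem commutator_commute_of_cyclic_normal {N : Type*} [Group N] (X : Subgroup N) [X.Normal]
    [IsCyclic X] (g h : N) {x : N} (hx : x ∈ X) : ⁅g, h⁆ * x = x * ⁅g, h⁆ := by
  have key := conj_mul_comm_of_cyclic_normal X g⁻¹ h⁻¹ hx
  have h1 : ⁅g, h⁆ = (g * h) * (g⁻¹ * h⁻¹) := by
    rw [commutatorElement_def]; group
  have h2 : x * (g⁻¹ * h⁻¹)⁻¹ = (g⁻¹ * h⁻¹)⁻¹ * ((h⁻¹ * g⁻¹) * x * (h⁻¹ * g⁻¹)⁻¹) := by
    rw [← key]; group
  have h3 : (g⁻¹ * h⁻¹) * x = ((h⁻¹ * g⁻¹) * x * (h⁻¹ * g⁻¹)⁻¹) * (g⁻¹ * h⁻¹) := by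
    rw [← key]; group
  rw [h1, mul_assoc, h3]
  group

theorem split_sl2 {N : Type*} [Group N] [Finite N] {p : ℕ} [Fact p.Prime] (hp : p ≠ 2)
    (A : Subgroup N) [A.Normal] (hAcomm : IsMulCommutative A) (hAcard : Nat.card A = p ^ 2)
    (hAexp : Monoid.exponent ↥A = p)
    (hAself : Subgroup.centralizer (A : Set N) = A)
    {F : Type*} [Field F] [Fintype F] (hF : Fintype.card F = p)
    (e : N ⧸ A ≃* Matrix.SpecialLinearGroup (Fin 2) F) :
    ∃ U : Subgroup N, A ⊓ U = ⊥ ∧ A ⊔ U = ⊤ := by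
  classical
  have hpp : p.Prime := Fact.out
  obtain ⟨k, hk⟩ : ∃ k, p = 2 * k + 1 := (hpp.eq_two_or_odd'.resolve_left hp)
  have hcomm : ∀ a ∈ A, ∀ b ∈ A, a * b = b * a := comm_of_isMulCommutative hAcomm
  have hpow : ∀ a ∈ A, a ^ p = 1 := by
    intro a ha
    have h := Monoid.pow_exponent_eq_one (⟨a, ha⟩ : A)
    rw [hAexp] at h
    exact congrArg Subtype.val h
  have hpF : (p : F) = 0 := by rw [← hF]; exact Nat.cast_card_eq_zero F
  have h2 : (2 : F) ≠ 0 := by
    intro h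
    have : (1 : F) = 0 := by
      have h3 : ((2 * k + 1 : ℕ) : F) = 0 := by rw [← hk]; exact hpF
      push_cast at h3
      rw [h, zero_mul, zero_add] at h3
      exact h3
    exact one_ne_zero this
  -- the central involution of the quotient
  have hm1 : (-1 : Matrix.SpecialLinearGroup (Fin 2) F) ≠ 1 := by
    intro h
    have h3 := congrArg (fun M : Matrix.SpecialLinearGroup (Fin 2) F => (M : Matrix (Fin 2) (Fin 2) F) 0 0) h
    simp at h3
    apply h2
    have : (1 : F) + 1 = 0 := by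
      nth_rewrite 1 [← h3]; ring
    rw [← this]; norm_num
  set z : N ⧸ A := e.symm (-1) with hz
  have hz1 : z ≠ 1 := by
    intro h
    apply hm1
    have := congrArg e h
    simpa [hz] using this
  have hz2 : z * z = 1 := by
    rw [hz, ← map_mul]; simp
  have hzc : ∀ w, w * z = z * w := by
    intro w
    apply e.injective
    rw [map_mul, map_mul, hz]; simp
  have hzp : z ^ p = z := by
    rw [hk, pow_succ, pow_mul, pow_two, hz2, one_pow, one_mul]
  obtain ⟨n, hn⟩ := QuotientGroup.mk_surjective z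
  set t := n ^ p with ht_def
  have ht : (t : N ⧸ A) = z := by
    rw [ht_def, QuotientGroup.mk_pow, hn, hzp]
  have htA : t ∉ A := by
    intro h
    apply hz1
    rw [← ht]
    exact (QuotientGroup.eq_one_iff t).2 h
  have hn2 : n * n ∈ A := by
    rw [← QuotientGroup.eq_one_iff, QuotientGroup.mk_mul, hn, hz2]
  have ht2 : t * t = 1 := by
    rw [ht_def, ← (Commute.refl n).mul_pow]
    exact hpow _ hn2
  have htinv : t⁻¹ = t := inv_eq_of_mul_eq_one_left ht2
  have hconj : ∀ g : N, ∃ b ∈ A, g * t * g⁻¹ = t * b := by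
    intro g
    refine ⟨t⁻¹ * (g * t * g⁻¹), ?_, by group⟩
    rw [← QuotientGroup.eq_one_iff]
    simp only [QuotientGroup.mk_mul, QuotientGroup.mk_inv, ht]
    rw [hzc, mul_assoc, mul_inv_cancel, mul_one, inv_mul_cancel]
  have hAn : ∀ g : N, ∀ a ∈ A, g * a * g⁻¹ ∈ A := fun g a ha =>
    (inferInstance : A.Normal).conj_mem a ha g
  set Ap : Subgroup N := A ⊓ Subgroup.centralizer {t} with hAp
  have hApmem : ∀ a, a ∈ Ap ↔ a ∈ A ∧ t * a * t⁻¹ = a := by
    intro a
    rw [hAp, Subgroup.mem_inf, Subgroup.mem_centralizer_iff]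
    simp only [Set.mem_singleton_iff, forall_eq]
    constructor
    · rintro ⟨h1, h2⟩; exact ⟨h1, by rw [h2]; group⟩
    · rintro ⟨h1, h2⟩; refine ⟨h1, ?_⟩; nth_rewrite 2 [← h2]; group
  have hApn : Ap.Normal := by
    constructor
    intro a ha g
    rw [hApmem] at ha ⊢
    refine ⟨hAn g a ha.1, ?_⟩
    obtain ⟨b, hb, hgb⟩ := hconj g⁻¹
    have h1 : t * (g * a * g⁻¹) * t⁻¹
        = g * ((g⁻¹ * t * g⁻¹⁻¹) * a * (g⁻¹ * t * g⁻¹⁻¹)⁻¹) * g⁻¹ := by group
    rw [h1, hgb]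
    have h2 : t * b * a * (t * b)⁻¹ = t * (b * a * b⁻¹) * t⁻¹ := by group
    rw [h2, hcomm b hb a ha.1, mul_inv_cancel_right, ha.2]
  let Am : Subgroup N :=
    { carrier := {a | a ∈ A ∧ t * a * t⁻¹ = a⁻¹}
      mul_mem' := by
        rintro a b ⟨ha, ha'⟩ ⟨hb, hb'⟩
        refine ⟨A.mul_mem ha hb, ?_⟩
        have : t * (a * b) * t⁻¹ = (t * a * t⁻¹) * (t * b * t⁻¹) := by group
        rw [this, ha', hb', mul_inv_rev, hcomm _ (A.inv_mem ha) _ (A.inv_mem hb)]
      one_mem' := ⟨A.one_mem, by simp⟩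
      inv_mem' := by
        rintro a ⟨ha, ha'⟩
        refine ⟨A.inv_mem ha, ?_⟩
        have : t * a⁻¹ * t⁻¹ = (t * a * t⁻¹)⁻¹ := by group
        rw [this, ha'] }
  have hAmmem : ∀ a, a ∈ Am ↔ a ∈ A ∧ t * a * t⁻¹ = a⁻¹ := fun a => Iff.rfl
  have hAmn : Am.Normal := by
    constructor
    intro a ha g
    rw [hAmmem] at ha ⊢
    refine ⟨hAn g a ha.1, ?_⟩
    obtain ⟨b, hb, hgb⟩ := hconj g⁻¹
    have h1 : t * (g * a * g⁻¹) * t⁻¹
        = g * ((g⁻¹ * t * g⁻¹⁻¹) * a * (g⁻¹ * t * g⁻¹⁻¹)⁻¹) * g⁻¹ := by group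
    rw [h1, hgb]
    have h2 : t * b * a * (t * b)⁻¹ = t * (b * a * b⁻¹) * t⁻¹ := by group
    rw [h2, hcomm b hb a ha.1, mul_inv_cancel_right, ha.2]
    group
  have hplus : ∀ a ∈ A, a * (t * a * t⁻¹) ∈ Ap := by
    intro a ha
    rw [hApmem]
    refine ⟨A.mul_mem ha (hAn t a ha), ?_⟩
    have : t * (a * (t * a * t⁻¹)) * t⁻¹ = (t * a * t⁻¹) * ((t * t) * a * (t * t)⁻¹) := by group
    rw [this, ht2, one_mul, inv_one, mul_one]
    exact hcomm _ (hAn t a ha) _ ha
  have hminus : ∀ a ∈ A, a * (t * a * t⁻¹)⁻¹ ∈ Am := by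
    intro a ha
    rw [hAmmem]
    refine ⟨A.mul_mem ha (A.inv_mem (hAn t a ha)), ?_⟩
    have : t * (a * (t * a * t⁻¹)⁻¹) * t⁻¹
        = (t * a * t⁻¹) * ((t * t) * a * (t * t)⁻¹)⁻¹ := by group
    rw [this, ht2, one_mul, inv_one, mul_one, mul_inv_rev, inv_inv]
  have hdecomp : ∀ a ∈ A, a = ((a * (t * a * t⁻¹)) * (a * (t * a * t⁻¹)⁻¹)) ^ (k + 1) := by
    intro a ha
    have h1 : (a * (t * a * t⁻¹)) * (a * (t * a * t⁻¹)⁻¹) = a * a := by
      rw [hcomm a ha _ (A.inv_mem (hAn t a ha))]; group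
    rw [h1, ← pow_two, ← pow_mul]
    have : 2 * (k + 1) = p + 1 := by omega
    rw [this, pow_succ, hpow a ha, one_mul]
  have hsq : ∀ a ∈ A, a * a = 1 → a = 1 := by
    intro a ha h
    have h1 : a ^ (p + 1) = 1 := by
      have : p + 1 = 2 * (k + 1) := by omega
      rw [this, pow_mul, pow_two, h, one_pow]
    rwa [pow_succ, hpow a ha, one_mul] at h1
  have hnc : ∃ u l : Matrix.SpecialLinearGroup (Fin 2) F, u * l ≠ l * u := by
    let u : Matrix.SpecialLinearGroup (Fin 2) F := ⟨!![1,1;0,1], by simp [Matrix.det_fin_two]⟩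
    let l : Matrix.SpecialLinearGroup (Fin 2) F := ⟨!![1,0;1,1], by simp [Matrix.det_fin_two]⟩
    refine ⟨u, l, ?_⟩
    intro h
    have h3 : (u * l).1 0 0 = (l * u).1 0 0 := by rw [h]
    have hu : u.1 = !![1,1;0,1] := rfl
    have hl : l.1 = !![1,0;1,1] := rfl
    rw [Matrix.SpecialLinearGroup.coe_mul, Matrix.SpecialLinearGroup.coe_mul, hu, hl] at h3
    simp [Matrix.mul_apply, Fin.sum_univ_two] at h3
  have hbot : Ap = ⊥ := by
    have hle : Ap ≤ A := inf_le_left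
    have hdvd : Nat.card Ap ∣ p ^ 2 := hAcard ▸ Subgroup.card_dvd_of_le hle
    obtain ⟨m, hm, hcard⟩ := (Nat.dvd_prime_pow hpp).1 hdvd
    interval_cases m
    · rw [pow_zero] at hcard
      exact Subgroup.card_eq_one.1 hcard
    · exfalso
      rw [pow_one] at hcard
      haveI : IsCyclic Ap := isCyclic_of_prime_card hcard
      have hdisj : ∀ a, a ∈ Ap → a ∈ Am → a = 1 := by
        intro a h1 h2
        rw [hApmem] at h1
        rw [hAmmem] at h2
        apply hsq a h1.1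
        have : a = a⁻¹ := h1.2.symm.trans h2.2
        nth_rewrite 1 [this]
        exact inv_mul_cancel a
      have hAmle : Am ≤ A := fun a ha => ha.1
      have hdvd2 : Nat.card Am ∣ p ^ 2 := hAcard ▸ Subgroup.card_dvd_of_le hAmle
      obtain ⟨m', hm', hcard'⟩ := (Nat.dvd_prime_pow hpp).1 hdvd2
      haveI : IsCyclic Am := by
        interval_cases m'
        · rw [pow_zero] at hcard'
          haveI : Subsingleton Am := (Nat.card_eq_one_iff_unique.1 hcard').1
          exact isCyclic_of_subsingleton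
        · rw [pow_one] at hcard'
          exact isCyclic_of_prime_card hcard'
        · exfalso
          have hAmA : Am = A := Subgroup.eq_of_le_of_card_ge hAmle (by rw [hAcard, hcard'])
          have : Ap = ⊥ := by
            rw [eq_bot_iff]
            intro a ha
            exact hdisj a ha (hAmA ▸ hle ha)
          rw [this, Subgroup.card_bot] at hcard
          exact hpp.one_lt.ne hcard
      obtain ⟨u, l, hul⟩ := hnc
      apply hul
      obtain ⟨g, hg⟩ := QuotientGroup.mk_surjective (e.symm u)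
      obtain ⟨h, hh⟩ := QuotientGroup.mk_surjective (e.symm l)
      have hcA : ⁅g, h⁆ ∈ A := by
        rw [← hAself, Subgroup.mem_centralizer_iff]
        intro a ha
        have h1 := commutator_commute_of_cyclic_normal Ap g h (hplus a ha)
        have h2 := commutator_commute_of_cyclic_normal Am g h (hminus a ha)
        rw [hdecomp a ha]
        exact ((Commute.mul_right h1 h2).pow_right (k + 1)).symm.eq
      have h3 : (g : N ⧸ A) * h = h * g := by
        have h4 : ((⁅g, h⁆ : N) : N ⧸ A) = 1 := (QuotientGroup.eq_one_iff _).2 hcA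
        rw [commutatorElement_def] at h4
        simp only [QuotientGroup.mk_mul, QuotientGroup.mk_inv] at h4
        rw [mul_inv_eq_one, mul_inv_eq_iff_eq_mul] at h4
        exact h4
      rw [hg, hh] at h3
      have := congrArg e h3
      simpa using this
    · exfalso
      have hApA : Ap = A := Subgroup.eq_of_le_of_card_ge hle (by rw [hAcard, hcard])
      apply htA
      rw [← hAself, Subgroup.mem_centralizer_iff]
      intro a ha
      have : a ∈ Ap := hApA ▸ ha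
      rw [hApmem] at this
      calc a * t = (t * a * t⁻¹) * t := by rw [this.2]
        _ = t * a := by group
  have hinv : ∀ a ∈ A, t * a * t⁻¹ = a⁻¹ := by
    intro a ha
    have h1 := hplus a ha
    rw [hbot, Subgroup.mem_bot] at h1
    exact (eq_inv_of_mul_eq_one_right h1)
  refine ⟨Subgroup.centralizer {t}, hbot, ?_⟩
  rw [eq_top_iff]
  intro g _
  obtain ⟨b, hb, hgb⟩ := hconj g
  have haA : (b⁻¹) ^ (k + 1) ∈ A := A.pow_mem (A.inv_mem hb) _
  have h1 : (b⁻¹) ^ (k + 1) * t * ((b⁻¹) ^ (k + 1))⁻¹ = t * b := by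
    have h5 := hinv _ (A.inv_mem haA)
    rw [inv_inv] at h5
    have h6 : (b⁻¹) ^ (k + 1) * t = t * (t * ((b⁻¹) ^ (k + 1)) * t⁻¹) := by
      rw [htinv, ← mul_assoc, ← mul_assoc, ht2, one_mul]
    have h7 := hinv _ haA
    rw [h6, h7, mul_assoc]
    congr 1
    rw [← mul_inv_rev, ← pow_add, inv_pow, inv_inv]
    have : k + 1 + (k + 1) = p + 1 := by omega
    rw [this, pow_succ, hpow b hb, one_mul]
  have h2 : ((b⁻¹) ^ (k + 1))⁻¹ * g ∈ Subgroup.centralizer {t} := by
    rw [Subgroup.mem_centralizer_iff]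
    intro x hx
    rw [Set.mem_singleton_iff] at hx
    subst hx
    have h8 : g * t * g⁻¹ = (b⁻¹) ^ (k + 1) * t * ((b⁻¹) ^ (k + 1))⁻¹ := hgb.trans h1.symm
    have h9 : g * t = (b⁻¹) ^ (k + 1) * t * ((b⁻¹) ^ (k + 1))⁻¹ * g := by
      rw [← h8]; group
    rw [mul_assoc, h9]
    group
  have h3 : g = (b⁻¹) ^ (k + 1) * (((b⁻¹) ^ (k + 1))⁻¹ * g) := by group
  rw [h3]
  exact Subgroup.mul_mem_sup haA h2

end Cfsg.Agent.Helper5
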