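import Mathlib
import Cfsg.Prelude.Def_SylowChains
import Cfsg.Agent.Helper5.SylChain

namespace Cfsg.Agent.Helper5
variable {G : Type*} [Group G]

theorem subgroupConjRight_def (g : G) (X : Subgroup G) :
    Cfsg.subgroupConjRight g X = X.map (MulAut.conj g⁻¹).toMonoidHom := rfl

theorem subgroupConjRight_mul (g h : G) (X : Subgroup G) :
    Cfsg.subgroupConjRight h (Cfsg.subgroupConjRight g X) = Cfsg.subgroupConjRight (g * h) X := by
  rw [subgroupConjRight_def, subgroupConjRight_def, subgroupConjRight_def, conj_conj, mul_inv_rev]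

theorem subgroupConjRight_one (X : Subgroup G) : Cfsg.subgroupConjRight 1 X = X := by
  rw [subgroupConjRight_def, inv_one, conj_one]

theorem sylowMembers_conj [Finite G] {p : ℕ} [Fact p.Prime] (𝓕 : Set (Subgroup G))
    (h𝓕 : Cfsg.IsNormalSet 𝓕) (T X : Subgroup G) (g : G) (hX : X ∈ Cfsg.sylowMembers p 𝓕 T) :
    Cfsg.subgroupConjRight g X ∈ Cfsg.sylowMembers p 𝓕 (Cfsg.subgroupConjRight g T) := by
  obtain ⟨hX𝓕, P, hP⟩ := hX
  refine ⟨h𝓕 X hX𝓕 g, ?_⟩
  have hinj : Function.Injective (MulAut.conj g⁻¹).toMonoidHom := (MulAut.conj g⁻¹).injective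
  have hcard : Nat.card ((Cfsg.subgroupConjRight g T ⊓ Cfsg.subgroupConjRight g X).subgroupOf
      (Cfsg.subgroupConjRight g X)) = p ^ (Nat.card (Cfsg.subgroupConjRight g X)).factorization p := by
    rw [Nat.card_congr (Subgroup.subgroupOfEquivOfLe (inf_le_right :
      Cfsg.subgroupConjRight g T ⊓ Cfsg.subgroupConjRight g X ≤ Cfsg.subgroupConjRight g X)).toEquiv]
    rw [subgroupConjRight_def, subgroupConjRight_def, ← Subgroup.map_inf _ _ _ hinj, card_conj,
      card_conj, ← hP, Subgroup.card_map_of_injective X.subtype_injective,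
      Sylow.card_eq_multiplicity]
  refine ⟨Sylow.ofCard _ hcard, ?_⟩
  show ((Cfsg.subgroupConjRight g T ⊓ Cfsg.subgroupConjRight g X).subgroupOf
      (Cfsg.subgroupConjRight g X)).map (Cfsg.subgroupConjRight g X).subtype = _
  rw [Subgroup.subgroupOf_map_subtype, inf_assoc, inf_idem]

end Cfsg.Agent.Helper5
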