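import Mathlib
import Cfsg.Agent.Helper4.Wielandt
import Cfsg.Agent.Helper6.Gaschutz
import Cfsg.Agent.Helper5.Kieler
import Cfsg.Agent.Helper5.Basic

set_option autoImplicit false

universe u

namespace Cfsg.Agent.Helper5

/-- the image of a Sylow intersection is the intersection of the images. -/
theorem map_inf_sylow_le {G G' : Type*} [Group G] [Group G'] [Finite G] [Finite G'] {p : ℕ}
    [Fact p.Prime] (f : G →* G') (S : Sylow p G) (A : Subgroup G)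
    (hA : ¬ p ∣ (A ⊓ (S : Subgroup G)).relIndex A) :
    A.map f ⊓ (S : Subgroup G).map f ≤ (A ⊓ (S : Subgroup G)).map f := by
  have hpp : p.Prime := Fact.out
  have hYX : (A ⊓ (S : Subgroup G)).map f ≤ A.map f ⊓ (S : Subgroup G).map f :=
    Subgroup.map_inf_le _ _ f
  have hXA : A.map f ⊓ (S : Subgroup G).map f ≤ A.map f := inf_le_left
  have h1 : ¬ p ∣ ((A ⊓ (S : Subgroup G)).map f).relIndex (A.map f) := by
    intro hdvd
    apply hA
    refine dvd_trans hdvd ?_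
    have h2 := Subgroup.index_map_dvd (H := (A ⊓ (S : Subgroup G)).subgroupOf A)
      (f := f.subgroupMap A) (f.subgroupMap_surjective A)
    have h3 : ((A ⊓ (S : Subgroup G)).subgroupOf A).map (f.subgroupMap A) =
        ((A ⊓ (S : Subgroup G)).map f).subgroupOf (A.map f) := by
      ext ⟨y, hy⟩
      constructor
      · rintro ⟨⟨a, ha⟩, ha', hay⟩
        have ha'' : a ∈ A ⊓ (S : Subgroup G) := ha'
        have h4 : f a = y := congrArg Subtype.val hay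
        exact Subgroup.mem_subgroupOf.2 ⟨a, ha'', h4⟩
      · intro h
        obtain ⟨a, ha, hay⟩ := Subgroup.mem_subgroupOf.1 h
        have ha2 : a ∈ A ⊓ (S : Subgroup G) := ha
        exact ⟨⟨a, ha2.1⟩, Subgroup.mem_subgroupOf.2 ha2, Subtype.ext hay⟩
    rw [h3] at h2
    exact h2
  have h2 : ¬ p ∣ ((A ⊓ (S : Subgroup G)).map f).relIndex
      (A.map f ⊓ (S : Subgroup G).map f) := by
    intro hdvd
    apply h1
    rw [← Subgroup.relIndex_mul_relIndex _ _ (A.map f) hYX hXA]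
    exact dvd_mul_of_dvd_left hdvd _
  have hXp : IsPGroup p ↥(A.map f ⊓ (S : Subgroup G).map f) := (S.2.map f).to_le inf_le_right
  obtain ⟨k, hk⟩ := hXp.index (((A ⊓ (S : Subgroup G)).map f).subgroupOf
    (A.map f ⊓ (S : Subgroup G).map f))
  have hk' : ((A ⊓ (S : Subgroup G)).map f).relIndex
      (A.map f ⊓ (S : Subgroup G).map f) = p ^ k := hk
  have hk0 : k = 0 := by
    by_contra h
    apply h2
    rw [hk']
    exact dvd_pow_self p h
  rw [hk0, pow_zero] at hk'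
  exact Subgroup.relIndex_eq_one.1 hk'

/-- the Sylow subgroup of a join of two subnormal subgroups is the join of the Sylow
intersections. -/
theorem sylow_join_aux (p : ℕ) [Fact p.Prime] :
    ∀ (n : ℕ) (G : Type u) [Group G] [Finite G], Nat.card G = n →
      ∀ (S : Sylow p G) (A₁ A₂ : Subgroup G), A₁.IsSubnormal → A₂.IsSubnormal →
        (A₁ ⊔ A₂) ⊓ (S : Subgroup G) ≤
          (A₁ ⊓ (S : Subgroup G)) ⊔ (A₂ ⊓ (S : Subgroup G)) := by
  intro n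
  induction n using Nat.strong_induction_on with
  | _ n ih =>
  intro G _ _ hcard S A₁ A₂ h₁ h₂
  classical
  have hpp : p.Prime := Fact.out
  -- joins that are proper
  have hsub : ∀ B₁ B₂ : Subgroup G, B₁.IsSubnormal → B₂.IsSubnormal → B₁ ⊔ B₂ ≠ ⊤ →
      (B₁ ⊔ B₂) ⊓ (S : Subgroup G) ≤
        (B₁ ⊓ (S : Subgroup G)) ⊔ (B₂ ⊓ (S : Subgroup G)) := by
    intro B₁ B₂ hB₁ hB₂ hne
    have hJ : (B₁ ⊔ B₂).IsSubnormal := Cfsg.Agent.Helper4.isSubnormal_sup B₁ B₂ hB₁ hB₂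
    have hlt : Nat.card ↥(B₁ ⊔ B₂) < n := by
      rw [← hcard]
      exact lt_of_le_of_ne (Subgroup.card_le_card_group _)
        (fun h => hne ((Subgroup.card_eq_iff_eq_top _).1 h))
    have hPJ : IsPGroup p ((((S : Subgroup G) ⊓ (B₁ ⊔ B₂)).subgroupOf (B₁ ⊔ B₂))) :=
      (S.2.to_le inf_le_left).comap_subtype
    have hnd := sylow_inf_subnormal_not_dvd S (B₁ ⊔ B₂) hJ
    have key := ih _ hlt ↥(B₁ ⊔ B₂) rfl (hPJ.toSylow hnd) (B₁.subgroupOf (B₁ ⊔ B₂))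
      (B₂.subgroupOf (B₁ ⊔ B₂)) hB₁.subgroupOf hB₂.subgroupOf
    rw [← Subgroup.subgroupOf_sup le_sup_left le_sup_right, Subgroup.subgroupOf_self,
      top_inf_eq] at key
    intro x hx
    have hxm : (⟨x, hx.1⟩ : ↥(B₁ ⊔ B₂)) ∈
        ((hPJ.toSylow hnd : Sylow p ↥(B₁ ⊔ B₂)) : Subgroup ↥(B₁ ⊔ B₂)) := by
      show (⟨x, hx.1⟩ : ↥(B₁ ⊔ B₂)) ∈ ((S : Subgroup G) ⊓ (B₁ ⊔ B₂)).subgroupOf (B₁ ⊔ B₂)
      rw [Subgroup.mem_subgroupOf]; exact ⟨hx.2, hx.1⟩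
    have h1 := key hxm
    have h2 : x ∈ (((B₁.subgroupOf (B₁ ⊔ B₂)) ⊓
        ((hPJ.toSylow hnd : Sylow p ↥(B₁ ⊔ B₂)) : Subgroup ↥(B₁ ⊔ B₂))) ⊔
        ((B₂.subgroupOf (B₁ ⊔ B₂)) ⊓
        ((hPJ.toSylow hnd : Sylow p ↥(B₁ ⊔ B₂)) : Subgroup ↥(B₁ ⊔ B₂)))).map
          (B₁ ⊔ B₂).subtype := ⟨_, h1, rfl⟩
    rw [Subgroup.map_sup] at h2
    have h5 : ((B₁.subgroupOf (B₁ ⊔ B₂)) ⊓
        ((hPJ.toSylow hnd : Sylow p ↥(B₁ ⊔ B₂)) : Subgroup ↥(B₁ ⊔ B₂))).map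
          (B₁ ⊔ B₂).subtype ≤ B₁ ⊓ (S : Subgroup G) := by
      rintro _ ⟨y, ⟨hy1, hy2⟩, rfl⟩
      have hy2' : y ∈ ((S : Subgroup G) ⊓ (B₁ ⊔ B₂)).subgroupOf (B₁ ⊔ B₂) := hy2
      exact ⟨Subgroup.mem_subgroupOf.1 hy1, (Subgroup.mem_subgroupOf.1 hy2').1⟩
    have h6 : ((B₂.subgroupOf (B₁ ⊔ B₂)) ⊓
        ((hPJ.toSylow hnd : Sylow p ↥(B₁ ⊔ B₂)) : Subgroup ↥(B₁ ⊔ B₂))).map
          (B₁ ⊔ B₂).subtype ≤ B₂ ⊓ (S : Subgroup G) := by
      rintro _ ⟨y, ⟨hy1, hy2⟩, rfl⟩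
      have hy2' : y ∈ ((S : Subgroup G) ⊓ (B₁ ⊔ B₂)).subgroupOf (B₁ ⊔ B₂) := hy2
      exact ⟨Subgroup.mem_subgroupOf.1 hy1, (Subgroup.mem_subgroupOf.1 hy2').1⟩
    exact (sup_le_sup h5 h6) h2
  by_cases hA₁ : A₁ = ⊤
  · rw [hA₁, top_inf_eq]; exact le_trans inf_le_right le_sup_left
  by_cases hA₂ : A₂ = ⊤
  · rw [hA₂, top_inf_eq]; exact le_trans inf_le_right le_sup_right
  by_cases hJ : A₁ ⊔ A₂ = ⊤
  swap
  · exact hsub A₁ A₂ h₁ h₂ hJ
  rw [hJ, top_inf_eq]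
  have hPS : (A₁ ⊓ (S : Subgroup G)) ⊔ (A₂ ⊓ (S : Subgroup G)) ≤ (S : Subgroup G) :=
    sup_le inf_le_right inf_le_right
  -- minimal normal subgroups
  have hexmin : ∀ M : Subgroup G, M.Normal → M ≠ ⊥ → ∃ N : Subgroup G, N ≤ M ∧ N.Normal ∧
      N ≠ ⊥ ∧ ∀ N' : Subgroup G, N'.Normal → N' ≤ N → N' = ⊥ ∨ N' = N := by
    intro M hMn hMne
    have hex : ∃ k : ℕ, ∃ N : Subgroup G, N ≤ M ∧ N.Normal ∧ N ≠ ⊥ ∧ Nat.card N = k :=
      ⟨_, M, le_rfl, hMn, hMne, rfl⟩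
    obtain ⟨N, hNM, hNn, hNne, hNcard⟩ := Nat.find_spec hex
    refine ⟨N, hNM, hNn, hNne, ?_⟩
    intro N' hN'n hle
    by_cases h : N' = ⊥
    · exact Or.inl h
    · right
      apply Subgroup.eq_of_le_of_card_ge hle
      rw [hNcard]
      exact Nat.find_min' hex ⟨N', hle.trans hNM, hN'n, h, rfl⟩
  have hNtop : ∀ N : Subgroup G, N ≠ ⊥ →
      (∀ N' : Subgroup G, N'.Normal → N' ≤ N → N' = ⊥ ∨ N' = N) → N ≠ ⊤ := by
    intro N hNne hNmin hNt
    have hb : ∀ A : Subgroup G, A.IsSubnormal → A ≠ ⊤ → A = ⊥ := by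
      intro A hA hAt
      rcases hA.lt_normal with h | ⟨K, hKn, hAK, hKlt⟩
      · exact absurd h hAt
      · rcases hNmin K hKn (hNt ▸ le_top) with hK | hK
        · rw [hK] at hAK; exact le_bot_iff.1 hAK
        · rw [hK, hNt] at hKlt; exact absurd hKlt (lt_irrefl _)
    have h0 : A₁ ⊔ A₂ = ⊥ := by rw [hb A₁ h₁ hA₁, hb A₂ h₂ hA₂, sup_bot_eq]
    rw [hJ] at h0
    exact hNne (hNt.trans h0)
  -- the quotient step
  have hquot : ∀ N : Subgroup G, N.Normal → N ≠ ⊥ →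
      (S : Subgroup G) ≤ (A₁ ⊓ (S : Subgroup G)) ⊔ (A₂ ⊓ (S : Subgroup G)) ⊔ N := by
    intro N hNn hNne
    haveI := hNn
    have hlt : Nat.card (G ⧸ N) < n := by
      rw [← hcard, ← Subgroup.index_eq_card, ← Subgroup.card_mul_index N]
      have h1 : 1 < Nat.card N :=
        Finite.one_lt_card_iff_nontrivial.2 ((Subgroup.nontrivial_iff_ne_bot N).2 hNne)
      have h2 : 0 < N.index := Nat.pos_of_ne_zero Subgroup.index_ne_zero_of_finite
      nlinarith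
    have hsurj := QuotientGroup.mk'_surjective N
    have key := ih _ hlt (G ⧸ N) rfl (S.mapSurjective hsurj) (A₁.map (QuotientGroup.mk' N))
      (A₂.map (QuotientGroup.mk' N)) (h₁.map hsurj) (h₂.map hsurj)
    rw [← Subgroup.map_sup, hJ, Subgroup.map_top_of_surjective _ hsurj, top_inf_eq,
      Sylow.coe_mapSurjective] at key
    have hQ1 := map_inf_sylow_le (QuotientGroup.mk' N) S A₁
      (by rw [inf_comm]; exact sylow_inf_subnormal_not_dvd S A₁ h₁)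
    have hQ2 := map_inf_sylow_le (QuotientGroup.mk' N) S A₂
      (by rw [inf_comm]; exact sylow_inf_subnormal_not_dvd S A₂ h₂)
    have h3 : (S : Subgroup G).map (QuotientGroup.mk' N) ≤
        ((A₁ ⊓ (S : Subgroup G)) ⊔ (A₂ ⊓ (S : Subgroup G))).map (QuotientGroup.mk' N) := by
      rw [Subgroup.map_sup]
      exact key.trans (sup_le_sup hQ1 hQ2)
    intro s hs
    have h4 : s ∈ (((A₁ ⊓ (S : Subgroup G)) ⊔ (A₂ ⊓ (S : Subgroup G))).map
        (QuotientGroup.mk' N)).comap (QuotientGroup.mk' N) := h3 ⟨s, hs, rfl⟩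
    rwa [Subgroup.comap_map_eq, QuotientGroup.ker_mk'] at h4
  have hgood : ∀ N : Subgroup G, N.Normal → N ≠ ⊥ →
      (S : Subgroup G) ⊓ N ≤ (A₁ ⊓ (S : Subgroup G)) ⊔ (A₂ ⊓ (S : Subgroup G)) →
      (S : Subgroup G) ≤ (A₁ ⊓ (S : Subgroup G)) ⊔ (A₂ ⊓ (S : Subgroup G)) := by
    intro N hNn hNne hle s hs
    haveI := hNn
    have h1 := hquot N hNn hNne hs
    rw [← SetLike.mem_coe, Subgroup.mul_normal] at h1
    obtain ⟨x, hx, m, hm, rfl⟩ := h1
    have hmS : m ∈ (S : Subgroup G) := by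
      have e : m = x⁻¹ * (x * m) := by group
      rw [e]; exact Subgroup.mul_mem _ (Subgroup.inv_mem _ (hPS hx)) hs
    exact Subgroup.mul_mem _ hx (hle ⟨hmS, hm⟩)
  -- dichotomy for minimal normal subgroups
  have hdich : ∀ N : Subgroup G, N.Normal → N ≠ ⊥ →
      (∀ N' : Subgroup G, N'.Normal → N' ≤ N → N' = ⊥ ∨ N' = N) →
      (S : Subgroup G) ⊓ N ≤ (A₁ ⊓ (S : Subgroup G)) ⊔ (A₂ ⊓ (S : Subgroup G)) ∨
        N ≤ Subgroup.center G := by
    intro N hNn hNne hNmin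
    have hNA₁ : N ≤ Subgroup.normalizer (A₁ : Set G) :=
      Cfsg.Agent.Helper4.minNormal_le_normalizer_of_isSubnormal (Nat.card G) rfl A₁ N h₁ hNn
        hNmin
    have hNA₂ : N ≤ Subgroup.normalizer (A₂ : Set G) :=
      Cfsg.Agent.Helper4.minNormal_le_normalizer_of_isSubnormal (Nat.card G) rfl A₂ N h₂ hNn
        hNmin
    have hconj : ∀ A : Subgroup G, ∀ a ∈ A, ∀ d ∈ N ⊓ A, a * d * a⁻¹ ∈ N ⊓ A :=
      fun A a ha d hd => ⟨hNn.conj_mem d hd.1 a, A.mul_mem (A.mul_mem ha hd.2) (A.inv_mem ha)⟩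
    have hcomm : ∀ A : Subgroup G, N ≤ Subgroup.normalizer (A : Set G) → ∀ a ∈ A, ∀ d ∈ N,
        a * d * a⁻¹ * d⁻¹ ∈ N ⊓ A := by
      intro A hNA a ha d hd
      refine ⟨N.mul_mem (hNn.conj_mem d hd a) (N.inv_mem hd), ?_⟩
      have h1 : d * a⁻¹ * d⁻¹ ∈ A :=
        (Subgroup.mem_normalizer_iff.1 (hNA hd) a⁻¹).1 (A.inv_mem ha)
      have e : a * d * a⁻¹ * d⁻¹ = a * (d * a⁻¹ * d⁻¹) := by group
      rw [e]; exact A.mul_mem ha h1
    have hDn : ((N ⊓ A₁) ⊔ (N ⊓ A₂)).Normal := by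
      have h1 : A₁ ≤ Subgroup.normalizer (((N ⊓ A₁) ⊔ (N ⊓ A₂) : Subgroup G) : Set G) := by
        intro a ha
        apply mem_normalizer_of_conj_le
        rw [Subgroup.map_sup]
        apply sup_le
        · rintro _ ⟨d, hd, rfl⟩
          exact (le_sup_left : N ⊓ A₁ ≤ _) (hconj A₁ a ha d hd)
        · rintro _ ⟨d, hd, rfl⟩
          have e : (MulAut.conj a).toMonoidHom d = (a * d * a⁻¹ * d⁻¹) * d := by simp
          rw [e]
          exact Subgroup.mul_mem _ ((le_sup_left : N ⊓ A₁ ≤ _) (hcomm A₁ hNA₁ a ha d hd.1))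
            ((le_sup_right : N ⊓ A₂ ≤ _) hd)
      have h2 : A₂ ≤ Subgroup.normalizer (((N ⊓ A₁) ⊔ (N ⊓ A₂) : Subgroup G) : Set G) := by
        intro a ha
        apply mem_normalizer_of_conj_le
        rw [Subgroup.map_sup]
        apply sup_le
        · rintro _ ⟨d, hd, rfl⟩
          have e : (MulAut.conj a).toMonoidHom d = (a * d * a⁻¹ * d⁻¹) * d := by simp
          rw [e]
          exact Subgroup.mul_mem _ ((le_sup_right : N ⊓ A₂ ≤ _) (hcomm A₂ hNA₂ a ha d hd.1))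
            ((le_sup_left : N ⊓ A₁ ≤ _) hd)
        · rintro _ ⟨d, hd, rfl⟩
          exact (le_sup_right : N ⊓ A₂ ≤ _) (hconj A₂ a ha d hd)
      have h3 : A₁ ⊔ A₂ ≤ Subgroup.normalizer (((N ⊓ A₁) ⊔ (N ⊓ A₂) : Subgroup G) : Set G) :=
        sup_le h1 h2
      rw [hJ] at h3
      exact Subgroup.normalizer_eq_top_iff.1 (top_le_iff.1 h3)
    rcases hNmin _ hDn (sup_le inf_le_left inf_le_left) with hD | hD
    · right
      have hD₁ : N ⊓ A₁ = ⊥ := le_bot_iff.1 (hD ▸ le_sup_left)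
      have hD₂ : N ⊓ A₂ = ⊥ := le_bot_iff.1 (hD ▸ le_sup_right)
      intro m hm
      have hc : A₁ ⊔ A₂ ≤ Subgroup.centralizer ({m} : Set G) := by
        apply sup_le
        · intro a ha
          have h1 := hcomm A₁ hNA₁ a ha m hm
          rw [hD₁, Subgroup.mem_bot] at h1
          rw [mem_centralizer_singleton_iff]
          calc a * m = (a * m * a⁻¹ * m⁻¹) * (m * a) := by group
            _ = m * a := by rw [h1, one_mul]
        · intro a ha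
          have h1 := hcomm A₂ hNA₂ a ha m hm
          rw [hD₂, Subgroup.mem_bot] at h1
          rw [mem_centralizer_singleton_iff]
          calc a * m = (a * m * a⁻¹ * m⁻¹) * (m * a) := by group
            _ = m * a := by rw [h1, one_mul]
      rw [hJ] at hc
      rw [Subgroup.mem_center_iff]
      intro g
      have h0 := hc (Subgroup.mem_top g)
      rw [mem_centralizer_singleton_iff] at h0
      exact h0
    · left
      have h1 := hsub (N ⊓ A₁) (N ⊓ A₂) (hNn.isSubnormal.inf h₁) (hNn.isSubnormal.inf h₂)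
        (by rw [hD]; exact hNtop N hNne hNmin)
      rw [hD] at h1
      rw [inf_comm]
      refine h1.trans (sup_le_sup ?_ ?_)
      · exact inf_le_inf_right _ inf_le_right
      · exact inf_le_inf_right _ inf_le_right
  -- the main argument
  by_cases htriv : (⊤ : Subgroup G) = ⊥
  · intro s _
    have h0 : s ∈ (⊤ : Subgroup G) := Subgroup.mem_top s
    rw [htriv, Subgroup.mem_bot] at h0
    rw [h0]; exact Subgroup.one_mem _
  obtain ⟨N, -, hNn, hNne, hNmin⟩ := hexmin ⊤ inferInstance htriv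
  rcases hdich N hNn hNne hNmin with hg | hcen
  · exact hgood N hNn hNne hg
  by_cases hSN : (S : Subgroup G) ⊓ N ≤ (A₁ ⊓ (S : Subgroup G)) ⊔ (A₂ ⊓ (S : Subgroup G))
  · exact hgood N hNn hNne hSN
  have hcn : ∀ M : Subgroup G, M ≤ Subgroup.center G → M.Normal := by
    intro M hM
    constructor
    intro m hm g
    have h0 := Subgroup.mem_center_iff.1 (hM hm) g
    have e : g * m * g⁻¹ = m := by rw [h0]; group
    rw [e]; exact hm
  by_cases hNP : N ⊓ ((A₁ ⊓ (S : Subgroup G)) ⊔ (A₂ ⊓ (S : Subgroup G))) = ⊥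
  swap
  · exact hgood _ (hcn _ (inf_le_left.trans hcen)) hNP (inf_le_right.trans inf_le_right)
  have hNS : N ≤ (S : Subgroup G) := by
    rcases hNmin _ (hcn _ (inf_le_right.trans hcen)) inf_le_right with h1 | h1
    · exact absurd (h1 ▸ bot_le) hSN
    · rw [← h1]; exact inf_le_left
  have hSeq : N ⊔ ((A₁ ⊓ (S : Subgroup G)) ⊔ (A₂ ⊓ (S : Subgroup G))) = (S : Subgroup G) :=
    le_antisymm (sup_le hNS hPS) (by rw [sup_comm]; exact hquot N hNn hNne)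
  haveI := hNn
  have hNc : ∀ a ∈ N, ∀ b ∈ N, a * b = b * a :=
    fun a ha b _ => (Subgroup.mem_center_iff.1 (hcen ha) b).symm
  have hcop : (Nat.card N).Coprime (S : Subgroup G).index := by
    obtain ⟨k, hk⟩ := IsPGroup.iff_card.1 (S.2.to_le hNS)
    rw [hk]
    exact Nat.Coprime.pow_left k ((Nat.Prime.coprime_iff_not_dvd hpp).2 S.not_dvd_index)
  obtain ⟨f, hf⟩ := Cfsg.Agent.Helper6.gaschutz_section N (S : Subgroup G) hNc hNS hcop
    ((A₁ ⊓ (S : Subgroup G)) ⊔ (A₂ ⊓ (S : Subgroup G))) (by rw [inf_comm]; exact hNP) hSeq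
  have hC := Cfsg.Agent.Helper6.isComplement'_range_of_section N f hf
  have hCn : f.range.Normal := by
    constructor
    intro c hc g
    obtain ⟨⟨m, c'⟩, hmc⟩ := hC.2 g
    have hg : g = (m : G) * (c' : G) := hmc.symm
    have h0 := Subgroup.mem_center_iff.1 (hcen m.2) ((c' : G) * c * (c' : G)⁻¹)
    have e : g * c * g⁻¹ = (c' : G) * c * (c' : G)⁻¹ := by
      rw [hg]
      calc (m : G) * (c' : G) * c * ((m : G) * (c' : G))⁻¹
          = (m : G) * ((c' : G) * c * (c' : G)⁻¹) * (m : G)⁻¹ := by group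
        _ = (c' : G) * c * (c' : G)⁻¹ := by rw [← h0]; group
    rw [e]
    exact f.range.mul_mem (f.range.mul_mem c'.2 hc) (f.range.inv_mem c'.2)
  have hCne : f.range ≠ ⊥ := by
    intro h
    rw [h] at hC
    exact hNtop N hNne hNmin (Subgroup.isComplement'_bot_right.1 hC)
  obtain ⟨N₂, hN₂C, hN₂n, hN₂ne, hN₂min⟩ := hexmin f.range hCn hCne
  rcases hdich N₂ hN₂n hN₂ne hN₂min with hg | hcen₂
  · exact hgood N₂ hN₂n hN₂ne hg
  by_cases hSN₂ : (S : Subgroup G) ⊓ N₂ = ⊥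
  · exact hgood N₂ hN₂n hN₂ne (by rw [hSN₂]; exact bot_le)
  obtain ⟨z₂, hz₂, hz₂1⟩ : ∃ z₂ ∈ (S : Subgroup G) ⊓ N₂, z₂ ≠ 1 := by
    by_contra hcon
    push Not at hcon
    exact hSN₂ (eq_bot_iff.2 (fun y hy => Subgroup.mem_bot.2 (hcon y hy)))
  have h1 : z₂ ∈ N ⊔ ((A₁ ⊓ (S : Subgroup G)) ⊔ (A₂ ⊓ (S : Subgroup G))) := by
    rw [hSeq]; exact hz₂.1
  rw [sup_comm, ← SetLike.mem_coe, Subgroup.mul_normal] at h1
  obtain ⟨x, hx, m, hm, hxm⟩ := h1
  have hxm' : x * m = z₂ := hxm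
  have hxcen : x ∈ Subgroup.center G := by
    have e : x = z₂ * m⁻¹ := by rw [← hxm']; group
    rw [e]
    exact Subgroup.mul_mem _ (hcen₂ hz₂.2) (Subgroup.inv_mem _ (hcen hm))
  have hx1 : x ≠ 1 := by
    rintro rfl
    rw [one_mul] at hxm'
    have h2 : z₂ ∈ N ⊓ f.range := ⟨hxm' ▸ hm, hN₂C hz₂.2⟩
    have h3 : N ⊓ f.range = ⊥ := hC.disjoint.eq_bot
    rw [h3, Subgroup.mem_bot] at h2
    exact hz₂1 h2
  refine hgood (Subgroup.zpowers x) (hcn _ (Subgroup.zpowers_le.2 hxcen)) ?_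
    (inf_le_right.trans (Subgroup.zpowers_le.2 hx))
  intro h
  apply hx1
  have h0 : x ∈ Subgroup.zpowers x := Subgroup.mem_zpowers x
  rw [h] at h0
  exact Subgroup.mem_bot.1 h0

/-- Statement S3028. -/
theorem sylow_join_eq {G : Type u} [Group G] [Finite G] {p : ℕ} [Fact p.Prime] (S : Sylow p G)
    (A₁ A₂ : Subgroup G) (h₁ : A₁.IsSubnormal) (h₂ : A₂.IsSubnormal) :
    (A₁ ⊔ A₂) ⊓ (S : Subgroup G) = (A₁ ⊓ (S : Subgroup G)) ⊔ (A₂ ⊓ (S : Subgroup G)) :=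
  le_antisymm (sylow_join_aux p (Nat.card G) G rfl S A₁ A₂ h₁ h₂)
    (sup_le (inf_le_inf_right _ le_sup_left) (inf_le_inf_right _ le_sup_right))

end Cfsg.Agent.Helper5
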