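import Mathlib

set_option autoImplicit false

namespace Cfsg.Agent.Helper5

open Polynomial

theorem zsig_root (a n r : ℕ) [Fact r.Prime]
    (hr : (r : ℤ) ∣ (cyclotomic n ℤ).eval (a : ℤ)) :
    (cyclotomic n (ZMod r)).eval (a : ZMod r) = 0 := by
  have h := cyclotomic.eval_apply (a : ℤ) n (Int.castRingHom (ZMod r))
  simp only [eq_intCast, Int.cast_natCast] at h
  rw [h]
  exact (ZMod.intCast_zmod_eq_zero_iff_dvd _ r).2 hr

theorem zsig_lb (q n : ℕ) (hq : 1 < q) (hn : 2 ≤ n) :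
    ((q : ℤ) - 1) ^ n.totient < (cyclotomic n ℤ).eval (q : ℤ) := by
  have h := sub_one_pow_totient_lt_cyclotomic_eval (n := n) (q := (q : ℝ)) hn
    (by exact_mod_cast hq)
  have h2 := cyclotomic.eval_apply (q : ℤ) n (Int.castRingHom ℝ)
  simp only [eq_intCast, Int.cast_natCast] at h2
  rw [h2] at h
  exact_mod_cast h

theorem zsig_ub (q n : ℕ) (hq : 1 < q) :
    (cyclotomic n ℤ).eval (q : ℤ) ≤ ((q : ℤ) + 1) ^ n.totient := by
  have h := cyclotomic_eval_le_add_one_pow_totient (q := (q : ℝ)) (by exact_mod_cast hq) n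
  have h2 := cyclotomic.eval_apply (q : ℤ) n (Int.castRingHom ℝ)
  simp only [eq_intCast, Int.cast_natCast] at h2
  rw [h2] at h
  exact_mod_cast h

theorem zsig_prim (a n r : ℕ) [Fact r.Prime] (ha : 0 < a)
    (hr : (r : ℤ) ∣ (cyclotomic n ℤ).eval (a : ℤ)) (hrn : ¬ r ∣ n) :
    ∀ k, 0 < k → k < n → ¬ r ∣ a ^ k - 1 := by
  intro k hk hkn hdiv
  haveI : NeZero (n : ZMod r) := ⟨fun h => hrn ((ZMod.natCast_eq_zero_iff n r).1 h)⟩
  have hroot : (cyclotomic n (ZMod r)).IsRoot (a : ZMod r) := zsig_root a n r hr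
  have hprim : IsPrimitiveRoot (a : ZMod r) n := Polynomial.isRoot_cyclotomic_iff.1 hroot
  have h1 : (a : ZMod r) ^ k = 1 := by
    have h2 := (ZMod.natCast_eq_zero_iff (a ^ k - 1) r).2 hdiv
    rw [Nat.cast_sub (Nat.one_le_pow _ _ ha)] at h2
    push_cast at h2
    exact sub_eq_zero.1 h2
  have h3 := hprim.dvd_of_pow_eq_one k h1
  exact absurd (Nat.le_of_dvd hk h3) (not_le.2 hkn)

theorem zsig_struct (a n r : ℕ) [hrf : Fact r.Prime] (hn : 0 < n)
    (hr : (r : ℤ) ∣ (cyclotomic n ℤ).eval (a : ℤ)) (hrn : r ∣ n) :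
    ∃ e m, n = r ^ e * m ∧ 0 < e ∧ ¬ r ∣ m ∧ m ∣ r - 1 := by
  obtain ⟨e, m, hm, hnm⟩ := Nat.exists_eq_pow_mul_and_not_dvd hn.ne' r hrf.out.ne_one
  have he : 0 < e := by
    rcases Nat.eq_zero_or_pos e with h | h
    · exfalso; rw [h, pow_zero, one_mul] at hnm; exact hm (hnm ▸ hrn)
    · exact h
  refine ⟨e, m, hnm, he, hm, ?_⟩
  have hroot := zsig_root a n r hr
  rw [hnm, cyclotomic_mul_prime_pow_eq (ZMod r) hm he, eval_pow] at hroot
  have hroot' : (cyclotomic m (ZMod r)).IsRoot (a : ZMod r) := by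
    by_contra h
    exact pow_ne_zero _ h hroot
  haveI : NeZero (m : ZMod r) := ⟨fun h => hm ((ZMod.natCast_eq_zero_iff m r).1 h)⟩
  have hprim : IsPrimitiveRoot (a : ZMod r) m := Polynomial.isRoot_cyclotomic_iff.1 hroot'
  have hm0 : m ≠ 0 := fun h => hm (h ▸ dvd_zero r)
  have ha0 : (a : ZMod r) ≠ 0 := by
    intro h
    have := hprim.pow_eq_one
    rw [h, zero_pow hm0] at this
    exact zero_ne_one this
  exact hprim.dvd_of_pow_eq_one _ (ZMod.pow_card_sub_one_eq_one ha0)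

theorem zsig_dvd_sum (a n r : ℕ) (hr : r.Prime) (ha : 1 < a) (hn : 0 < n) (hrn : r ∣ n) :
    (cyclotomic n ℤ).eval (a : ℤ) ∣ ∑ i ∈ Finset.range r, ((a : ℤ) ^ (n / r)) ^ i := by
  have hd : n / r ∈ n.properDivisors := by
    rw [Nat.mem_properDivisors]
    exact ⟨Nat.div_dvd_of_dvd hrn, Nat.div_lt_self hn hr.one_lt⟩
  have h1 := X_pow_sub_one_mul_cyclotomic_dvd_X_pow_sub_one_of_dvd ℤ hd
  have h2 := eval_dvd (x := (a : ℤ)) h1
  simp only [eval_mul, eval_sub, eval_pow, eval_X, eval_one] at h2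
  have h3 : (a : ℤ) ^ n - 1 =
      ((a : ℤ) ^ (n / r) - 1) * ∑ i ∈ Finset.range r, ((a : ℤ) ^ (n / r)) ^ i := by
    rw [mul_geom_sum, ← pow_mul, Nat.div_mul_cancel hrn]
  rw [h3] at h2
  have hne : (a : ℤ) ^ (n / r) - 1 ≠ 0 := by
    have hpos : 0 < n / r := Nat.div_pos (Nat.le_of_dvd hn hrn) hr.pos
    have : (1 : ℤ) < (a : ℤ) ^ (n / r) := one_lt_pow₀ (by exact_mod_cast ha) hpos.ne'
    linarith
  exact (mul_dvd_mul_iff_left hne).1 h2

theorem zsig_mult (a n r : ℕ) [hrf : Fact r.Prime] (ha : 1 < a) (hn : 3 ≤ n)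
    (hr : (r : ℤ) ∣ (cyclotomic n ℤ).eval (a : ℤ)) (hrn : r ∣ n) :
    ¬ ((r : ℤ) ^ 2 ∣ (cyclotomic n ℤ).eval (a : ℤ)) := by
  have hrp := hrf.out
  intro hsq
  have hsum := zsig_dvd_sum a n r hrp ha (by omega) hrn
  have hsq' := hsq.trans hsum
  have hb1 : (r : ℤ) ∣ (a : ℤ) ^ (n / r) - 1 := by
    have h1 : (r : ℤ) ∣ (a : ℤ) ^ n - 1 := hr.trans (by
      have := eval_dvd (x := (a : ℤ)) (cyclotomic.dvd_X_pow_sub_one n ℤ)
      simpa using this)
    have h2 : ((a : ZMod r)) ^ n = 1 := by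
      have := (ZMod.intCast_zmod_eq_zero_iff_dvd _ r).2 h1
      push_cast at this
      exact sub_eq_zero.1 this
    have h3 : ((a : ZMod r)) ^ (n / r) = 1 := by
      have h4 : ((a : ZMod r) ^ (n / r)) ^ r = (a : ZMod r) ^ (n / r) := ZMod.pow_card _
      rw [← pow_mul, Nat.div_mul_cancel hrn] at h4
      rw [← h4]; exact h2
    apply (ZMod.intCast_zmod_eq_zero_iff_dvd _ r).1
    push_cast
    rw [h3, sub_self]
  have hb2 : ¬ (r : ℤ) ∣ (a : ℤ) ^ (n / r) := by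
    intro h
    have h1 : (r : ℤ) ∣ 1 := by
      have := dvd_sub h hb1
      simpa using this
    have h2 : r ∣ 1 := by exact_mod_cast h1
    exact hrp.one_lt.ne' (Nat.dvd_one.1 h2)
  rcases hrp.eq_two_or_odd' with h2 | hodd
  · subst h2
    obtain ⟨e, m, hnm, he, hm, hm1⟩ := zsig_struct a n 2 (by omega) hr hrn
    have hm1' : m = 1 := by simpa using hm1
    subst hm1'
    rw [mul_one] at hnm
    have he2 : 2 ≤ e := by
      by_contra hlt
      have : e = 1 := by omega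
      rw [this] at hnm; omega
    obtain ⟨e', rfl⟩ : ∃ e', e = e' + 2 := ⟨e - 2, by omega⟩
    have h4 : n / 2 = 2 ^ e' * 2 := by
      rw [hnm, pow_succ, Nat.mul_div_cancel _ (by norm_num), pow_succ]
    rw [h4, pow_mul] at hsq' hb2
    have hodd : Odd ((a : ℤ) ^ 2 ^ e') := by
      rw [← Int.not_even_iff_odd]
      intro hev
      apply hb2
      exact Dvd.dvd.pow (by exact_mod_cast even_iff_two_dvd.1 hev) (by norm_num)
    obtain ⟨t, ht⟩ := hodd
    rw [ht] at hsq'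
    have h5 : ∑ i ∈ Finset.range 2, ((2 * t + 1) ^ 2) ^ i = 4 * (t ^ 2 + t) + 2 := by
      simp [Finset.sum_range_succ]; ring
    rw [h5] at hsq'
    have h6 : ((2 : ℕ) : ℤ) ^ 2 ∣ 2 := (Int.dvd_add_right (Dvd.intro (t ^ 2 + t) (by norm_num))).1 hsq'
    norm_num at h6
  · have hp : Prime ((r : ℕ) : ℤ) := Nat.prime_iff_prime_int.1 hrp
    have hem := emultiplicity_geom_sum₂_eq_one (R := ℤ) (x := (a : ℤ) ^ (n / r)) (y := 1) hp hodd
      (by simpa using hb1) hb2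
    simp only [one_pow, mul_one] at hem
    have h6 := (emultiplicity_eq_coe.1 (hem.trans Nat.cast_one.symm)).2
    exact h6 (by simpa using hsq')

theorem zsig_two_pow (r : ℕ) (hr : 5 ≤ r) : 3 * r + 1 ≤ 2 ^ r := by
  induction r, hr using Nat.le_induction with
  | base => norm_num
  | succ k hk ih => rw [pow_succ]; omega

theorem zsig_two_pow' (r : ℕ) (hr : 2 ≤ r) : r + 2 ≤ 2 ^ r := by
  induction r, hr using Nat.le_induction with
  | base => norm_num
  | succ k hk ih => rw [pow_succ]; omega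

end Cfsg.Agent.Helper5
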