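import Cfsg.Agent.Helper5.Zsig

set_option autoImplicit false
set_option maxHeartbeats 1000000

namespace Cfsg.Agent.Helper5

open Polynomial

theorem zsig_main (a n : ℕ) (ha : 1 < a) (hn : 1 < n) (h6 : ¬ (a = 2 ∧ n = 6))
    (h2 : ¬ (n = 2 ∧ ∃ m : ℕ, a + 1 = 2 ^ m)) :
    ∃ r : ℕ, r.Prime ∧ r ∣ a ^ n - 1 ∧ ∀ k : ℕ, 0 < k → k < n → ¬ r ∣ a ^ k - 1 := by
  rcases Nat.lt_or_ge n 3 with hn3 | hn3
  · have hn2 : n = 2 := by omega
    subst hn2
    rcases Nat.eq_two_pow_or_exists_odd_prime_and_dvd (a + 1) with ⟨m, hm⟩ | ⟨r, hr, hdiv, hodd⟩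
    · exact absurd ⟨rfl, m, hm⟩ h2
    · refine ⟨r, hr, ?_, ?_⟩
      · have h : a ^ 2 - 1 = (a + 1) * (a - 1) := by
          have := Nat.sq_sub_sq a 1
          simpa using this
        rw [h]; exact dvd_mul_of_dvd_left hdiv _
      · intro k hk hk2 hdvd
        have hk1 : k = 1 := by omega
        subst hk1
        rw [pow_one] at hdvd
        have h3 : r ∣ (a + 1) - (a - 1) := Nat.dvd_sub hdiv hdvd
        have h4 : (a + 1) - (a - 1) = 2 := by omega
        rw [h4] at h3
        have h5 := (Nat.prime_dvd_prime_iff_eq hr Nat.prime_two).1 h3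
        rw [h5] at hodd
        exact absurd hodd (by decide)
  · by_contra hcon
    push_neg at hcon
    obtain ⟨Φ, hΦ⟩ : ∃ Φ : ℤ, Φ = (cyclotomic n ℤ).eval (a : ℤ) := ⟨_, rfl⟩
    have hΦdvd : Φ ∣ (a : ℤ) ^ n - 1 := by
      rw [hΦ]
      have := eval_dvd (x := (a : ℤ)) (cyclotomic.dvd_X_pow_sub_one n ℤ)
      simpa using this
    have hΦgt : ((a : ℤ) - 1) ^ n.totient < Φ := by
      rw [hΦ]; exact zsig_lb a n ha (by omega)
    have ha2 : (2 : ℤ) ≤ (a : ℤ) := by exact_mod_cast ha
    have hΦ1 : 1 < Φ := by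
      have h1 : (1 : ℤ) ≤ ((a : ℤ) - 1) ^ n.totient := one_le_pow₀ (by linarith)
      linarith
    have hnat : (Φ.natAbs : ℤ) = Φ := Int.natAbs_of_nonneg (by linarith)
    have hall : ∀ r : ℕ, r.Prime → (r : ℤ) ∣ Φ → r ∣ n := by
      intro r hr hrΦ
      by_contra hrn
      haveI := Fact.mk hr
      have hrdvd : r ∣ a ^ n - 1 := by
        have h1 : (r : ℤ) ∣ (a : ℤ) ^ n - 1 := hrΦ.trans hΦdvd
        have h2 : ((a ^ n - 1 : ℕ) : ℤ) = (a : ℤ) ^ n - 1 := by
          rw [Nat.cast_sub (Nat.one_le_pow _ _ (by omega))]; push_cast; ring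
        rw [← h2] at h1
        exact Int.natCast_dvd_natCast.1 h1
      obtain ⟨k, hk0, hkn, hk⟩ := hcon r hr hrdvd
      rw [hΦ] at hrΦ
      exact zsig_prim a n r (by omega) hrΦ hrn k hk0 hkn hk
    have hne1 : Φ.natAbs ≠ 1 := by
      intro h; rw [← hnat, h] at hΦ1; norm_num at hΦ1
    have hne0 : Φ.natAbs ≠ 0 := by
      intro h; rw [← hnat, h] at hΦ1; norm_num at hΦ1
    obtain ⟨r, hr, hrΦ'⟩ := Nat.exists_prime_and_dvd hne1
    have hrΦ : (r : ℤ) ∣ Φ := by rw [← hnat]; exact Int.natCast_dvd_natCast.2 hrΦ'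
    haveI := Fact.mk hr
    have hrn := hall r hr hrΦ
    have hrΦc : (r : ℤ) ∣ (cyclotomic n ℤ).eval (a : ℤ) := hΦ ▸ hrΦ
    obtain ⟨e, m, hnm, he, hm, hmr⟩ := zsig_struct a n r (by omega) hrΦc hrn
    have huniq : ∀ s : ℕ, s.Prime → s ∣ Φ.natAbs → s = r := by
      intro s hs hsΦ
      by_contra hsr
      haveI := Fact.mk hs
      have hsΦ' : (s : ℤ) ∣ Φ := by rw [← hnat]; exact Int.natCast_dvd_natCast.2 hsΦ
      have hsn := hall s hs hsΦ'
      obtain ⟨f, m', hnm', hf, hm', hms⟩ := zsig_struct a n s (by omega) (hΦ ▸ hsΦ') hsn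
      have h1 : s ∣ m := by
        have h : s ∣ r ^ e * m := hnm ▸ hsn
        rcases (Nat.Prime.dvd_mul hs).1 h with h | h
        · exact absurd ((Nat.prime_dvd_prime_iff_eq hs hr).1 (hs.dvd_of_dvd_pow h)) hsr
        · exact h
      have h2 : r ∣ m' := by
        have h : r ∣ s ^ f * m' := hnm' ▸ hrn
        rcases (Nat.Prime.dvd_mul hr).1 h with h | h
        · exact absurd ((Nat.prime_dvd_prime_iff_eq hr hs).1 (hr.dvd_of_dvd_pow h)).symm hsr
        · exact h
      have h3 := Nat.le_of_dvd (Nat.sub_pos_of_lt hr.one_lt) (h1.trans hmr)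
      have h4 := Nat.le_of_dvd (Nat.sub_pos_of_lt hs.one_lt) (h2.trans hms)
      have h5 := Nat.le_of_dvd (Nat.pos_of_ne_zero (fun h : m = 0 => hm (h ▸ dvd_zero r))) h1
      have h6 := Nat.le_of_dvd (Nat.pos_of_ne_zero (fun h : m' = 0 => hm' (h ▸ dvd_zero s))) h2
      have := hr.one_lt; have := hs.one_lt
      omega
    have hpow := Nat.eq_prime_pow_of_unique_prime_dvd (n := Φ.natAbs) (p := r) hne0
      (fun {d} hd hdvd => huniq d hd hdvd)
    obtain ⟨j, hj⟩ : ∃ j, Φ.natAbs = r ^ j := ⟨_, hpow⟩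
    have hΦr : Φ = (r : ℤ) := by
      have hj1 : j = 1 := by
        rcases Nat.lt_or_ge j 2 with h | h
        · have : j ≠ 0 := by
            intro h0; rw [h0, pow_zero] at hj; exact hne1 hj
          omega
        · exfalso
          apply zsig_mult a n r ha hn3 hrΦc hrn
          rw [← hΦ, ← hnat, hj]
          have : (r : ℤ) ^ 2 ∣ (r : ℤ) ^ j := pow_dvd_pow _ h
          exact_mod_cast this
      rw [← hnat, hj, hj1, pow_one]
    have hr2le : (2 : ℤ) ≤ (r : ℤ) := by exact_mod_cast hr.two_le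
    rcases Nat.lt_or_ge a 3 with ha3 | ha3
    · have ha2' : a = 2 := by omega
      subst ha2'
      have hΦ2 : (cyclotomic n ℤ).eval (2 : ℤ) = (r : ℤ) := by
        rw [← hΦr, hΦ]; norm_num
      have hrne2 : r ≠ 2 := by
        intro h
        have h1 : (2 : ℤ) ∣ (2 : ℤ) ^ n - 1 := by
          have := hrΦ.trans hΦdvd
          rw [h] at this
          exact_mod_cast this
        have h2 : (2 : ℤ) ∣ (2 : ℤ) ^ n := dvd_pow_self 2 (by omega)
        have h3 : (2 : ℤ) ∣ 1 := by
          have := dvd_sub h2 h1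
          simpa using this
        norm_num at h3
      have hm0 : m ≠ 0 := fun h => hm (h ▸ dvd_zero r)
      rcases Nat.lt_or_ge e 2 with he1 | he2
      · have he1' : e = 1 := by omega
        subst he1'
        rw [pow_one] at hnm
        have hexp := cyclotomic_expand_eq_cyclotomic_mul hr hm ℤ
        have hev := congrArg (eval (2 : ℤ)) hexp
        rw [expand_eval, eval_mul, mul_comm m r, ← hnm, hΦ2] at hev
        rcases Nat.lt_or_ge m 2 with hm1 | hm2
        · have hm1' : m = 1 := by omega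
          subst hm1'
          rw [cyclotomic_one] at hev
          simp only [eval_sub, eval_X, eval_one] at hev
          have h1 := zsig_two_pow' r hr.two_le
          have h1' : ((r : ℤ) + 2) ≤ (2 : ℤ) ^ r := by exact_mod_cast h1
          linarith
        · have hlb := zsig_lb (2 ^ r) m (Nat.one_lt_two_pow (by have := hr.two_le; omega)) hm2
          have hub := zsig_ub 2 m (by norm_num)
          push_cast at hlb hub
          rw [hev] at hlb
          have hk : 0 < m.totient := Nat.totient_pos.2 (by omega)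
          rcases Nat.lt_or_ge r 5 with hr5 | hr5
          · have hr3 : r = 3 := by
              have h2le := hr.two_le
              have h4 : r ≠ 4 := by
                intro h; rw [h] at hr; exact absurd hr (by decide)
              omega
            subst hr3
            have hm2' : m = 2 := by
              have := Nat.le_of_dvd (by norm_num) hmr
              omega
            exact h6 ⟨rfl, by rw [hnm, hm2']⟩
          · have h1 := zsig_two_pow r hr5
            have h2 : (3 * (r : ℤ)) ≤ (2 : ℤ) ^ r - 1 := by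
              have : ((3 * r + 1 : ℕ) : ℤ) ≤ ((2 ^ r : ℕ) : ℤ) := by exact_mod_cast h1
              push_cast at this
              linarith
            have h3 : (3 * (r : ℤ)) ^ m.totient ≤ ((2 : ℤ) ^ r - 1) ^ m.totient :=
              pow_le_pow_left₀ (by positivity) h2 _
            have h4 : (r : ℤ) ≤ (r : ℤ) ^ m.totient := le_self_pow₀ (by linarith) hk.ne'
            have hnn : (0 : ℤ) ≤ eval 2 (cyclotomic m ℤ) := cyclotomic_nonneg m (by norm_num)
            have h5 : (r : ℤ) * eval 2 (cyclotomic m ℤ) ≤ (r : ℤ) ^ m.totient * 3 ^ m.totient := by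
              apply mul_le_mul h4 _ hnn (by positivity)
              norm_num at hub
              exact hub
            rw [mul_pow] at h3
            have h7 : (3 : ℤ) ^ m.totient * (r : ℤ) ^ m.totient <
                (r : ℤ) ^ m.totient * 3 ^ m.totient := lt_of_le_of_lt h3 (lt_of_lt_of_le hlb h5)
            rw [mul_comm] at h7
            exact lt_irrefl _ h7
      · obtain ⟨e', rfl⟩ : ∃ e', e = e' + 1 := ⟨e - 1, by omega⟩
        have hdiv : r ∣ r ^ e' * m := dvd_mul_of_dvd_left (dvd_pow_self r (by omega)) m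
        have hexp := cyclotomic_expand_eq_cyclotomic hr hdiv ℤ
        have hn' : n = r ^ e' * m * r := by rw [hnm, pow_succ]; ring
        have hev := congrArg (eval (2 : ℤ)) hexp
        rw [expand_eval, ← hn', hΦ2] at hev
        have hpos : 0 < r ^ e' * m := Nat.pos_of_ne_zero (by
          intro h; rw [hn', h] at hn; omega)
        have hn2 : 2 ≤ r ^ e' * m := (hr.two_le).trans (Nat.le_of_dvd hpos hdiv)
        have hlb := zsig_lb (2 ^ r) (r ^ e' * m)
          (Nat.one_lt_two_pow (by have := hr.two_le; omega)) hn2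
        push_cast at hlb
        rw [hev] at hlb
        have hk : 0 < (r ^ e' * m).totient := Nat.totient_pos.2 hpos
        have h2' : ((r : ℤ) + 2) ≤ (2 : ℤ) ^ r := by exact_mod_cast zsig_two_pow' r hr.two_le
        have h1 : ((2 : ℤ) ^ r - 1) ≤ ((2 : ℤ) ^ r - 1) ^ (r ^ e' * m).totient :=
          le_self_pow₀ (by linarith) hk.ne'
        linarith
    · have h1 : r - 1 ≤ n.totient := by
        have := Nat.totient_dvd_of_dvd hrn
        rw [Nat.totient_prime hr] at this
        exact Nat.le_of_dvd (Nat.totient_pos.2 (by omega)) this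
      have h2' : r ≤ 2 ^ (r - 1) := by
        have := Nat.lt_two_pow_self (n := r - 1)
        have := hr.one_lt
        omega
      have h3 : (2 : ℤ) ^ n.totient ≤ ((a : ℤ) - 1) ^ n.totient :=
        pow_le_pow_left₀ (by norm_num) (by
          have : (3 : ℤ) ≤ a := by exact_mod_cast ha3
          linarith) _
      have h4 : (r : ℤ) ≤ (2 : ℤ) ^ n.totient := by
        have : r ≤ 2 ^ n.totient := h2'.trans (Nat.pow_le_pow_right (by norm_num) h1)
        exact_mod_cast this
      rw [hΦr] at hΦgt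
      linarith

end Cfsg.Agent.Helper5
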